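import Mathlib
import Cfsg.Prelude.Def_LieTypeDatum

set_option autoImplicit false

namespace Cfsg.Agent.Lib.Helper43.SplitCount

variable {X : Type*} [Group X]

theorem isConjUnder_refl (K : Subgroup X) (x : X) : Cfsg.IsConjUnder K x x :=
  ⟨1, K.one_mem, by group⟩

theorem isConjUnder_conj_iff (H : Subgroup X) (x d y : X) (hd : d ∈ H) :
    Cfsg.IsConjUnder H (d * x * d⁻¹) y ↔ Cfsg.IsConjUnder H x y := by
  constructor
  · rintro ⟨h, hh, rfl⟩
    exact ⟨h * d, H.mul_mem hh hd, by group⟩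
  · rintro ⟨h, hh, rfl⟩
    exact ⟨h * d⁻¹, H.mul_mem hh (H.inv_mem hd), by group⟩

theorem splitClassCount_conj (H K : Subgroup X) (x d : X) (hd : d ∈ H) :
    Cfsg.splitClassCount H K (d * x * d⁻¹) = Cfsg.splitClassCount H K x := by
  have key : ∀ P Q : X → Prop, P = Q →
      Nat.card (Quot fun y z : {y : X // P y} => Cfsg.IsConjUnder K y.1 z.1) =
      Nat.card (Quot fun y z : {y : X // Q y} => Cfsg.IsConjUnder K y.1 z.1) := by
    intro P Q h
    subst h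
    rfl
  exact key _ _ (funext fun y => propext (isConjUnder_conj_iff H x d y hd))

/-- the split class count as an index -/
theorem splitClassCount_eq_index {G : Type*} [Group G] (H K : Subgroup X) (x : X)
    (φ : G →* X) (hφ : ∀ h, h ∈ H ↔ ∃ g, φ g = h) (M : Subgroup G)
    (hM : ∀ g g' : G, Cfsg.IsConjUnder K (φ g * x * (φ g)⁻¹) (φ g' * x * (φ g')⁻¹) ↔
      g⁻¹ * g' ∈ M) :
    Cfsg.splitClassCount H K x = M.index := by
  unfold Cfsg.splitClassCount
  have hex : ∀ y : {y : X // Cfsg.IsConjUnder H x y}, ∃ g : G, y.1 = φ g * x * (φ g)⁻¹ := by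
    rintro ⟨y, h, hh, rfl⟩
    obtain ⟨g, rfl⟩ := (hφ h).1 hh
    exact ⟨g, rfl⟩
  choose γ hγ using hex
  obtain ⟨ψ, hψ⟩ : ∃ ψ : Quot (fun y z : {y : X // Cfsg.IsConjUnder H x y} =>
      Cfsg.IsConjUnder K y.1 z.1) → G ⧸ M, ∀ y, ψ (Quot.mk _ y) = QuotientGroup.mk (γ y) := by
    refine ⟨Quot.lift (fun y => (QuotientGroup.mk (γ y) : G ⧸ M)) ?_, fun y => rfl⟩
    intro y z hyz
    rw [QuotientGroup.eq, ← hM, ← hγ, ← hγ]
    exact hyz
  have hmem : ∀ g : G, Cfsg.IsConjUnder H x (φ g * x * (φ g)⁻¹) :=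
    fun g => ⟨φ g, (hφ _).2 ⟨g, rfl⟩, rfl⟩
  have hψ2 : ∀ g : G, ψ (Quot.mk _ ⟨_, hmem g⟩) = QuotientGroup.mk g := by
    intro g
    rw [hψ, QuotientGroup.eq, ← hM, ← hγ]
    exact isConjUnder_refl K _
  have hsurj : ∀ q : Quot (fun y z : {y : X // Cfsg.IsConjUnder H x y} =>
      Cfsg.IsConjUnder K y.1 z.1), ∃ g : G, q = Quot.mk _ ⟨_, hmem g⟩ := by
    intro q
    induction q using Quot.ind with
    | _ y =>
      refine ⟨γ y, ?_⟩
      congr 1
      exact Subtype.ext (hγ y)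
  apply Nat.card_congr (Equiv.ofBijective ψ ⟨?_, ?_⟩)
  · intro a b hab
    obtain ⟨g, rfl⟩ := hsurj a
    obtain ⟨g', rfl⟩ := hsurj b
    rw [hψ2, hψ2, QuotientGroup.eq, ← hM] at hab
    exact Quot.sound hab
  · intro q
    induction q using QuotientGroup.induction_on with
    | _ g => exact ⟨_, hψ2 g⟩

/-- centralisers of conjugate elements are isomorphic -/
theorem centralizer_conj_equiv (H : Subgroup X) (x d : X) (hd : d ∈ H) :
    Nonempty (↥(H ⊓ Subgroup.centralizer {x}) ≃* ↥(H ⊓ Subgroup.centralizer {d * x * d⁻¹})) := by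
  refine ⟨
    { toFun := fun y => ⟨d * y * d⁻¹, ?_⟩
      invFun := fun y => ⟨d⁻¹ * y * d, ?_⟩
      left_inv := ?_
      right_inv := ?_
      map_mul' := ?_ }⟩
  · obtain ⟨y, hy⟩ := y
    obtain ⟨hy1, hy2⟩ := Subgroup.mem_inf.1 hy
    rw [Subgroup.mem_centralizer_singleton_iff] at hy2
    refine Subgroup.mem_inf.2 ⟨H.mul_mem (H.mul_mem hd hy1) (H.inv_mem hd), ?_⟩
    rw [Subgroup.mem_centralizer_singleton_iff]
    show d * y * d⁻¹ * (d * x * d⁻¹) = d * x * d⁻¹ * (d * y * d⁻¹)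
    calc d * y * d⁻¹ * (d * x * d⁻¹) = d * (y * x) * d⁻¹ := by group
      _ = d * (x * y) * d⁻¹ := by rw [hy2]
      _ = d * x * d⁻¹ * (d * y * d⁻¹) := by group
  · obtain ⟨y, hy⟩ := y
    obtain ⟨hy1, hy2⟩ := Subgroup.mem_inf.1 hy
    rw [Subgroup.mem_centralizer_singleton_iff] at hy2
    refine Subgroup.mem_inf.2 ⟨H.mul_mem (H.mul_mem (H.inv_mem hd) hy1) hd, ?_⟩
    rw [Subgroup.mem_centralizer_singleton_iff]
    show d⁻¹ * y * d * x = x * (d⁻¹ * y * d)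
    calc d⁻¹ * y * d * x = d⁻¹ * (y * (d * x * d⁻¹)) * d := by group
      _ = d⁻¹ * (d * x * d⁻¹ * y) * d := by rw [hy2]
      _ = x * (d⁻¹ * y * d) := by group
  · intro y
    apply Subtype.ext
    show d⁻¹ * (d * (y : X) * d⁻¹) * d = y
    group
  · intro y
    apply Subtype.ext
    show d * (d⁻¹ * (y : X) * d) * d⁻¹ = y
    group
  · intro y z
    apply Subtype.ext
    show d * ((y : X) * z) * d⁻¹ = d * y * d⁻¹ * (d * z * d⁻¹)
    group

end Cfsg.Agent.Lib.Helper43.SplitCount
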