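import Mathlib
import Cfsg.Prelude.Def_LieTypeDatum
import Cfsg.Agent.Lib.Helper43.SplitCount

set_option autoImplicit false

namespace Cfsg.Agent.Lib.Helper43.SplitCountN

variable {X : Type*} [Group X]

/-- conjugating both elements by an element normalising `H` -/
theorem isConjUnder_conj_normal (H : Subgroup X) (hH : H.Normal) (a x y : X) :
    Cfsg.IsConjUnder H (a * x * a⁻¹) (a * y * a⁻¹) ↔ Cfsg.IsConjUnder H x y := by
  constructor
  · rintro ⟨h, hh, heq⟩
    refine ⟨a⁻¹ * h * a, ?_, ?_⟩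
    · have := hH.conj_mem h hh a⁻¹
      rwa [inv_inv] at this
    · have h1 : y = a⁻¹ * (a * y * a⁻¹) * a := by group
      rw [h1, heq]
      group
  · rintro ⟨h, hh, rfl⟩
    exact ⟨a * h * a⁻¹, hH.conj_mem h hh a, by group⟩

theorem isConjUnder_conj_normal' (H : Subgroup X) (hH : H.Normal) (a x y : X) :
    Cfsg.IsConjUnder H (a * x * a⁻¹) y ↔ Cfsg.IsConjUnder H x (a⁻¹ * y * a) := by
  have h1 : y = a * (a⁻¹ * y * a) * a⁻¹ := by group
  conv_lhs => rw [h1]
  exact isConjUnder_conj_normal H hH a x _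

/-- the split class count is invariant under conjugation by an element normalising both
subgroups -/
theorem splitClassCount_conj_normal (H K : Subgroup X) (hH : H.Normal) (hK : K.Normal)
    (a x : X) :
    Cfsg.splitClassCount H K (a * x * a⁻¹) = Cfsg.splitClassCount H K x := by
  unfold Cfsg.splitClassCount
  symm
  obtain ⟨e, he⟩ : ∃ e : {y : X // Cfsg.IsConjUnder H x y} ≃
      {y : X // Cfsg.IsConjUnder H (a * x * a⁻¹) y}, ∀ y, (e y : X) = a * y * a⁻¹ := by
    refine ⟨
      { toFun := fun y => ⟨a * y * a⁻¹, (isConjUnder_conj_normal H hH a x y).2 y.2⟩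
        invFun := fun y => ⟨a⁻¹ * y * a, (isConjUnder_conj_normal' H hH a x y).1 y.2⟩
        left_inv := ?_
        right_inv := ?_ }, fun y => rfl⟩
    · intro y
      apply Subtype.ext
      show a⁻¹ * (a * (y : X) * a⁻¹) * a = y
      group
    · intro y
      apply Subtype.ext
      show a * (a⁻¹ * (y : X) * a) * a⁻¹ = y
      group
  apply Nat.card_congr
  apply Quot.congr e
  intro y z
  rw [he, he]
  exact (isConjUnder_conj_normal K hK a y z).symm

/-- centralisers of conjugate elements are isomorphic (conjugating element normalising `H`) -/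
theorem centralizer_conj_equiv_normal (H : Subgroup X) (hH : H.Normal) (x d : X) :
    Nonempty (↥(H ⊓ Subgroup.centralizer {x}) ≃* ↥(H ⊓ Subgroup.centralizer {d * x * d⁻¹})) := by
  refine ⟨
    { toFun := fun y => ⟨d * y * d⁻¹, ?_⟩
      invFun := fun y => ⟨d⁻¹ * y * d, ?_⟩
      left_inv := ?_
      right_inv := ?_
      map_mul' := ?_ }⟩
  · obtain ⟨y, hy⟩ := y
    obtain ⟨hy1, hy2⟩ := Subgroup.mem_inf.1 hy
    rw [Subgroup.mem_centralizer_singleton_iff] at hy2
    refine Subgroup.mem_inf.2 ⟨hH.conj_mem y hy1 d, ?_⟩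
    rw [Subgroup.mem_centralizer_singleton_iff]
    show d * y * d⁻¹ * (d * x * d⁻¹) = d * x * d⁻¹ * (d * y * d⁻¹)
    calc d * y * d⁻¹ * (d * x * d⁻¹) = d * (y * x) * d⁻¹ := by group
      _ = d * (x * y) * d⁻¹ := by rw [hy2]
      _ = d * x * d⁻¹ * (d * y * d⁻¹) := by group
  · obtain ⟨y, hy⟩ := y
    obtain ⟨hy1, hy2⟩ := Subgroup.mem_inf.1 hy
    rw [Subgroup.mem_centralizer_singleton_iff] at hy2
    have h1 := hH.conj_mem y hy1 d⁻¹
    rw [inv_inv] at h1
    refine Subgroup.mem_inf.2 ⟨h1, ?_⟩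
    rw [Subgroup.mem_centralizer_singleton_iff]
    show d⁻¹ * y * d * x = x * (d⁻¹ * y * d)
    calc d⁻¹ * y * d * x = d⁻¹ * (y * (d * x * d⁻¹)) * d := by group
      _ = d⁻¹ * (d * x * d⁻¹ * y) * d := by rw [hy2]
      _ = x * (d⁻¹ * y * d) := by group
  · intro y
    apply Subtype.ext
    show d⁻¹ * (d * (y : X) * d⁻¹) * d = y
    group
  · intro y
    apply Subtype.ext
    show d * (d⁻¹ * (y : X) * d) * d⁻¹ = y
    group
  · intro y z
    apply Subtype.ext
    show d * ((y : X) * z) * d⁻¹ = d * y * d⁻¹ * (d * z * d⁻¹)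
    group

end Cfsg.Agent.Lib.Helper43.SplitCountN
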