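import Mathlib

set_option autoImplicit false

namespace Cfsg.Agent.Lib.Helper43.H90GL

open Matrix Finset

variable {F : Type*} [Field F]

theorem finite_ringAut [Finite F] : Finite (RingAut F) :=
  Finite.of_injective (fun σ : RingAut F => (σ : F → F)) DFunLike.coe_injective

theorem orderOf_pos_ringAut [Finite F] (σ : RingAut F) : 0 < orderOf σ := by
  haveI := finite_ringAut (F := F)
  exact orderOf_pos σ

theorem pow_orderOf_apply (σ : RingAut F) (a : F) : (σ ^ orderOf σ) a = a := by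
  rw [pow_orderOf_eq_one]
  rfl

theorem pow_succ_apply (σ : RingAut F) (i : ℕ) (a : F) : (σ ^ (i + 1)) a = σ ((σ ^ i) a) := by
  rw [pow_succ']
  rfl

/-- Dedekind independence for the powers of an automorphism -/
theorem dedekind (σ : RingAut F) (c : ℕ → F)
    (h : ∀ a : F, ∑ i ∈ range (orderOf σ), c i * (σ ^ i) a = 0) :
    ∀ i, i < orderOf σ → c i = 0 := by
  have hli := linearIndependent_monoidHom F F
  have hinj : Function.Injective
      (fun i : Fin (orderOf σ) => (RingEquiv.toRingHom (σ ^ (i : ℕ))).toMonoidHom) := by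
    intro i j hij
    have h1 : σ ^ (i : ℕ) = σ ^ (j : ℕ) := by
      ext a
      exact DFunLike.congr_fun hij a
    exact Fin.ext (pow_injOn_Iio_orderOf i.2 j.2 h1)
  have hli2 := hli.comp _ hinj
  rw [Fintype.linearIndependent_iff] at hli2
  intro i hi
  refine hli2 (fun j => c j) ?_ ⟨i, hi⟩
  funext a
  have h2 := h a
  rw [← Fin.sum_univ_eq_sum_range (fun i => c i * (σ ^ i) a)] at h2
  rw [Finset.sum_apply]
  simp only [Function.comp_apply, Pi.smul_apply, smul_eq_mul, Pi.zero_apply]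
  exact h2

/-- partial norms `a σ(a) ⋯ σ^{k-1}(a)` -/
def nm (σ : RingAut F) (a : F) (k : ℕ) : F := ∏ i ∈ range k, (σ ^ i) a

theorem nm_zero (σ : RingAut F) (a : F) : nm σ a 0 = 1 := by
  unfold nm
  rw [Finset.prod_range_zero]

theorem nm_succ (σ : RingAut F) (a : F) (k : ℕ) : nm σ a (k + 1) = nm σ a k * (σ ^ k) a := by
  unfold nm
  rw [Finset.prod_range_succ]

theorem nm_succ' (σ : RingAut F) (a : F) (k : ℕ) : nm σ a (k + 1) = a * σ (nm σ a k) := by
  unfold nm
  rw [Finset.prod_range_succ', map_prod, mul_comm]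
  congr 1
  apply Finset.prod_congr rfl
  intro i _
  rw [pow_succ_apply]

theorem nm_mul (σ : RingAut F) (a b : F) (k : ℕ) : nm σ (a * b) k = nm σ a k * nm σ b k := by
  unfold nm
  rw [← Finset.prod_mul_distrib]
  apply Finset.prod_congr rfl
  intro i _
  rw [map_mul]

theorem nm_one (σ : RingAut F) (k : ℕ) : nm σ 1 k = 1 := by
  unfold nm
  apply Finset.prod_eq_one
  intro i _
  rw [map_one]

theorem nm_ne_zero (σ : RingAut F) (a : F) (ha : a ≠ 0) (k : ℕ) : nm σ a k ≠ 0 := by
  unfold nm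
  rw [Finset.prod_ne_zero_iff]
  intro i _
  intro h
  exact ha ((map_eq_zero_iff (σ ^ i) (σ ^ i).injective).1 h)

theorem σ_nm (σ : RingAut F) (a : F) (ha : a ≠ 0) :
    σ (nm σ a (orderOf σ)) = nm σ a (orderOf σ) := by
  have h1 := nm_succ σ a (orderOf σ)
  rw [nm_succ', pow_orderOf_apply, mul_comm] at h1
  exact mul_right_cancel₀ ha h1

theorem nm_map (σ : RingAut F) (a : F) (k : ℕ) : nm σ (σ a) k = σ (nm σ a k) := by
  unfold nm
  rw [map_prod]
  apply Finset.prod_congr rfl
  intro i _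
  rw [← pow_succ_apply, pow_succ]
  rfl

/-- Hilbert 90 for scalars -/
theorem h90 (σ : RingAut F) (hpos : 0 < orderOf σ) (a : F)
    (h : nm σ a (orderOf σ) = 1) : ∃ μ : F, μ ≠ 0 ∧ a * σ μ = μ := by
  have hkey : ∀ c : F, a * σ (∑ i ∈ range (orderOf σ), nm σ a i * (σ ^ i) c) =
      ∑ i ∈ range (orderOf σ), nm σ a i * (σ ^ i) c := by
    intro c
    rw [map_sum, Finset.mul_sum]
    have h1 : ∀ i ∈ range (orderOf σ), a * σ (nm σ a i * (σ ^ i) c) =
        nm σ a (i + 1) * (σ ^ (i + 1)) c := by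
      intro i _
      rw [map_mul, ← mul_assoc, ← nm_succ', pow_succ_apply]
    rw [Finset.sum_congr rfl h1]
    have h2 := Finset.sum_range_succ' (fun i => nm σ a i * (σ ^ i) c) (orderOf σ)
    have h3 := Finset.sum_range_succ (fun i => nm σ a i * (σ ^ i) c) (orderOf σ)
    rw [h3] at h2
    simp only [h, pow_orderOf_apply, nm_zero, pow_zero, one_mul] at h2
    have h4 : (σ ^ 0) c = c := rfl
    have h5 : (1 : RingAut F) c = c := rfl
    rw [h5] at h2
    exact (add_right_cancel h2).symm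
  by_cases hex : ∃ c : F, ∑ i ∈ range (orderOf σ), nm σ a i * (σ ^ i) c ≠ 0
  · obtain ⟨c, hc⟩ := hex
    exact ⟨_, hc, hkey c⟩
  · exfalso
    push Not at hex
    have h1 := dedekind σ (fun i => nm σ a i) hex 0 hpos
    rw [nm_zero] at h1
    exact one_ne_zero h1

/-- Hilbert 90 for matrices -/
theorem h90_matrix {ι : Type*} [Fintype ι] [DecidableEq ι] (σ : RingAut F)
    (hpos : 0 < orderOf σ) (g : Matrix ι ι F) (a : ℕ → Matrix ι ι F) (ha0 : a 0 = 1)
    (hstep : ∀ i, a (i + 1) = g * (a i).map σ) (har : a (orderOf σ) = 1) :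
    ∃ B : Matrix ι ι F, IsUnit B ∧ g * B.map σ = B := by
  obtain ⟨bv, hbv⟩ : ∃ bv : (ι → F) → (ι → F), ∀ v, bv v =
      ∑ i ∈ range (orderOf σ), a i *ᵥ (fun k => (σ ^ i) (v k)) := ⟨_, fun _ => rfl⟩
  -- the vectors `bv v` span
  have hspan : Submodule.span F (Set.range bv) = ⊤ := by
    by_contra hne
    obtain ⟨f, hf0, hf⟩ := Submodule.exists_le_ker_of_lt_top _ (lt_top_iff_ne_top.2 hne)
    apply hf0
    apply LinearMap.ext
    intro v
    have h1 : ∀ l : F, ∑ i ∈ range (orderOf σ),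
        f (a i *ᵥ (fun k => (σ ^ i) (v k))) * (σ ^ i) l = 0 := by
      intro l
      have h2 : f (bv (l • v)) = 0 := by
        have h3 : bv (l • v) ∈ LinearMap.ker f := hf (Submodule.subset_span ⟨_, rfl⟩)
        exact h3
      rw [hbv, map_sum] at h2
      rw [← h2]
      apply Finset.sum_congr rfl
      intro i _
      have h4 : (fun k => (σ ^ i) ((l • v) k)) = (σ ^ i) l • (fun k => (σ ^ i) (v k)) := by
        funext k
        simp only [Pi.smul_apply, smul_eq_mul, map_mul]
      rw [h4, Matrix.mulVec_smul, map_smul, smul_eq_mul, mul_comm]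
    have h5 := dedekind σ (fun i => f (a i *ᵥ (fun k => (σ ^ i) (v k)))) h1 0 hpos
    simp only [ha0, Matrix.one_mulVec, pow_zero] at h5
    rw [LinearMap.zero_apply, ← h5]
    rfl
  obtain ⟨s, hs, hspan2, hli⟩ := exists_linearIndependent F (Set.range bv)
  have hb : ⊤ ≤ Submodule.span F (Set.range ((↑) : s → ι → F)) := by
    rw [Subtype.range_coe, hspan2, hspan]
  obtain ⟨e⟩ : Nonempty (ι ≃ s) := ⟨(Pi.basisFun F ι).indexEquiv (Module.Basis.mk hli hb)⟩
  have hV : ∀ j : ι, ∃ v : ι → F, bv v = ((e j : s) : ι → F) := fun j => hs (e j).2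
  choose V hV using hV
  obtain ⟨c, hc⟩ : ∃ c : Matrix ι ι F, ∀ i j, c i j = V j i := ⟨Matrix.of (fun i j => V j i), fun _ _ => rfl⟩
  refine ⟨∑ i ∈ range (orderOf σ), a i * c.map (σ ^ i), ?_, ?_⟩
  · rw [← Matrix.linearIndependent_cols_iff_isUnit]
    have h1 : (∑ i ∈ range (orderOf σ), a i * c.map (σ ^ i)).col =
        (fun j => ((e j : s) : ι → F)) := by
      funext j k
      rw [← hV j, hbv, Matrix.col_apply, Matrix.sum_apply, Finset.sum_apply]
      apply Finset.sum_congr rfl
      intro i _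
      rw [Matrix.mul_apply, Matrix.mulVec, dotProduct]
      apply Finset.sum_congr rfl
      intro l _
      rw [Matrix.map_apply, hc]
    rw [h1]
    exact hli.comp e e.injective
  · have hmap : ∀ M : Matrix ι ι F, M.map σ = RingHom.mapMatrix (σ : F →+* F) M := fun M => rfl
    rw [hmap, map_sum, Finset.mul_sum]
    have h1 : ∀ i ∈ range (orderOf σ),
        g * (RingHom.mapMatrix (σ : F →+* F)) (a i * c.map (σ ^ i)) =
        a (i + 1) * c.map (σ ^ (i + 1)) := by
      intro i _
      rw [map_mul, ← mul_assoc, hstep]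
      congr 1
      ext k l
      simp only [RingHom.mapMatrix_apply, Matrix.map_apply, RingHom.coe_coe, pow_succ_apply]
    rw [Finset.sum_congr rfl h1]
    have h2 := Finset.sum_range_succ' (fun i => a i * c.map (σ ^ i)) (orderOf σ)
    have h3 := Finset.sum_range_succ (fun i => a i * c.map (σ ^ i)) (orderOf σ)
    rw [h3] at h2
    have h4 : c.map (σ ^ orderOf σ) = c.map (σ ^ 0 : RingAut F) := by
      ext k l
      rw [Matrix.map_apply, Matrix.map_apply, pow_orderOf_apply]
      rfl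
    rw [har, ha0, h4] at h2
    exact (add_right_cancel h2).symm

end Cfsg.Agent.Lib.Helper43.H90GL
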