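import Mathlib
import Cfsg.Agent.Lib.Helper43.H90GL

set_option autoImplicit false

namespace Cfsg.Agent.Lib.Helper43.H90Fin

open Finset Cfsg.Agent.Lib.Helper43.H90GL

variable {F : Type*} [Field F]

/-- a field automorphism acting on units -/
def uσ (σ : RingAut F) : Fˣ →* Fˣ := Units.map (RingEquiv.toRingHom σ).toMonoidHom

theorem uσ_coe (σ : RingAut F) (μ : Fˣ) : ((uσ σ μ : Fˣ) : F) = σ μ := rfl

/-- the norm on units -/
noncomputable def nmU (σ : RingAut F) : Fˣ →* Fˣ := ∏ i ∈ range (orderOf σ), uσ (σ ^ i)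

theorem nmU_coe (σ : RingAut F) (μ : Fˣ) : ((nmU σ μ : Fˣ) : F) = nm σ μ (orderOf σ) := by
  unfold nmU nm
  rw [MonoidHom.finsetProd_apply, Units.coe_prod]
  rfl

/-- `μ ↦ μ / σ μ` -/
def thU (σ : RingAut F) : Fˣ →* Fˣ := MonoidHom.id Fˣ / uσ σ

theorem thU_apply (σ : RingAut F) (μ : Fˣ) : thU σ μ = μ / uσ σ μ := rfl

theorem mem_ker_thU (σ : RingAut F) (μ : Fˣ) : μ ∈ (thU σ).ker ↔ σ (μ : F) = μ := by
  rw [MonoidHom.mem_ker, thU_apply, div_eq_one]
  constructor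
  · intro h
    have h1 := congrArg (fun u : Fˣ => (u : F)) h
    exact h1.symm
  · intro h
    apply Units.ext
    rw [uσ_coe, h]

theorem mem_ker_nmU (σ : RingAut F) (μ : Fˣ) :
    μ ∈ (nmU σ).ker ↔ nm σ (μ : F) (orderOf σ) = 1 := by
  rw [MonoidHom.mem_ker, ← nmU_coe, Units.val_eq_one]

theorem range_thU (σ : RingAut F) (hpos : 0 < orderOf σ) : (thU σ).range = (nmU σ).ker := by
  ext l
  constructor
  · rintro ⟨μ, rfl⟩
    rw [mem_ker_nmU, thU_apply]
    have h1 : ((μ / uσ σ μ : Fˣ) : F) = (μ : F) * (σ (μ : F))⁻¹ := by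
      rw [div_eq_mul_inv, Units.val_mul, Units.val_inv_eq_inv_val, uσ_coe]
    have h2 : nm σ ((μ : F) * (σ (μ : F))⁻¹) (orderOf σ) * nm σ (σ (μ : F)) (orderOf σ) =
        nm σ (μ : F) (orderOf σ) := by
      rw [← nm_mul, inv_mul_cancel_right₀]
      exact (map_ne_zero_iff σ σ.injective).2 μ.ne_zero
    rw [nm_map, σ_nm σ _ μ.ne_zero] at h2
    rw [h1]
    exact mul_right_cancel₀ (nm_ne_zero σ _ μ.ne_zero _) (by rw [h2, one_mul])
  · intro hl
    rw [mem_ker_nmU] at hl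
    obtain ⟨μ, hμ, h⟩ := h90 σ hpos _ hl
    refine ⟨Units.mk0 μ hμ, ?_⟩
    rw [thU_apply, div_eq_iff_eq_mul]
    apply Units.ext
    rw [Units.val_mul, uσ_coe]
    exact h.symm

theorem range_nmU_le (σ : RingAut F) : (nmU σ).range ≤ (thU σ).ker := by
  rintro _ ⟨μ, rfl⟩
  rw [mem_ker_thU, nmU_coe]
  exact σ_nm σ _ μ.ne_zero

/-- surjectivity of the norm onto the fixed units -/
theorem range_nmU [Finite F] (σ : RingAut F) : (nmU σ).range = (thU σ).ker := by
  have hpos := orderOf_pos_ringAut σ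
  apply Subgroup.eq_of_le_of_card_ge (range_nmU_le σ)
  have h1 := Subgroup.card_mul_index (thU σ).ker
  have h2 := Subgroup.card_mul_index (nmU σ).ker
  rw [Subgroup.index_ker, range_thU σ hpos] at h1
  rw [Subgroup.index_ker, ← h1, mul_comm] at h2
  exact (Nat.eq_of_mul_eq_mul_right Nat.card_pos h2).ge

theorem norm_surj [Finite F] (σ : RingAut F) (t : F) (ht : t ≠ 0) (hσt : σ t = t) :
    ∃ μ : F, μ ≠ 0 ∧ nm σ μ (orderOf σ) = t := by
  have h1 : Units.mk0 t ht ∈ (thU σ).ker := by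
    rw [mem_ker_thU]
    exact hσt
  rw [← range_nmU] at h1
  obtain ⟨μ, hμ⟩ := h1
  refine ⟨μ, μ.ne_zero, ?_⟩
  rw [← nmU_coe, hμ]
  rfl

/-- the fixed field -/
noncomputable def fixF (σ : RingAut F) : Subfield F :=
  FixedPoints.subfield (↥(Subgroup.zpowers σ)) F

theorem mem_fixF (σ : RingAut F) (a : F) : a ∈ fixF σ ↔ σ a = a := by
  constructor
  · intro h
    exact h ⟨σ, Subgroup.mem_zpowers σ⟩
  · intro h m
    have h1 : Subgroup.zpowers σ ≤ MulAction.stabilizer (RingAut F) a := by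
      rw [Subgroup.zpowers_le]
      exact h
    exact h1 m.2

theorem card_fixF [Finite F] (σ : RingAut F) :
    Nat.card (fixF σ) ^ orderOf σ = Nat.card F := by
  haveI := finite_ringAut (F := F)
  haveI := Fintype.ofFinite F
  haveI := Fintype.ofFinite (fixF σ)
  haveI := Fintype.ofFinite (↥(Subgroup.zpowers σ))
  have h1 := FixedPoints.finrank_eq_card (↥(Subgroup.zpowers σ)) F
  have h2 := Module.card_eq_pow_finrank (K := ↥(fixF σ)) (V := F)
  rw [Nat.card_eq_fintype_card, Nat.card_eq_fintype_card, h2]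
  congr 1
  rw [← Nat.card_zpowers, Nat.card_eq_fintype_card]
  exact h1.symm

theorem card_ker_thU [Finite F] (σ : RingAut F) :
    Nat.card (thU σ).ker = Nat.card (fixF σ) - 1 := by
  rw [← Nat.card_units]
  symm
  obtain ⟨f, hf⟩ : ∃ f : (fixF σ)ˣ → (thU σ).ker, ∀ u, ((f u : Fˣ) : F) = ((u : fixF σ) : F) := by
    refine ⟨fun u => ⟨Units.map (fixF σ).subtype.toMonoidHom u, ?_⟩, fun u => rfl⟩
    rw [mem_ker_thU]
    exact (mem_fixF σ _).1 (u : fixF σ).2
  apply Nat.card_congr (Equiv.ofBijective f ⟨?_, ?_⟩)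
  · intro u v huv
    apply Units.ext
    apply Subtype.ext
    rw [← hf, ← hf, huv]
  · intro μ
    have h1 : ((μ : Fˣ) : F) ∈ fixF σ := (mem_fixF σ _).2 ((mem_ker_thU σ _).1 μ.2)
    refine ⟨Units.mk0 ⟨_, h1⟩ ?_, ?_⟩
    · intro h
      exact (μ : Fˣ).ne_zero (congrArg Subtype.val h)
    · apply Subtype.ext
      apply Units.ext
      rw [hf]
      rfl

theorem card_ker_nmU [Finite F] (σ : RingAut F) :
    Nat.card (nmU σ).ker * (Nat.card (fixF σ) - 1) = Nat.card F - 1 := by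
  have h2 := Subgroup.card_mul_index (nmU σ).ker
  rw [Subgroup.index_ker, range_nmU, card_ker_thU, Nat.card_units] at h2
  exact h2

theorem card_fixF_sub_one_dvd [Finite F] (σ : RingAut F) :
    Nat.card (fixF σ) - 1 ∣ Nat.card F - 1 :=
  Dvd.intro_left _ (card_ker_nmU σ)

end Cfsg.Agent.Lib.Helper43.H90Fin
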