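import Mathlib
import Cfsg.Agent.Lib.Helper43.RegNilpComm

set_option autoImplicit false

namespace Cfsg.Agent.Lib.Helper43.PolyMatMore

open Module Matrix Cfsg.Agent.Lib.Helper43.RegNilpComm

variable {F : Type*} [Field F] {ι : Type*} [Fintype ι] [DecidableEq ι]

theorem commute_polyMat_polyMat (N : Matrix ι ι F) (a b : Fin (Fintype.card ι) → F) :
    Commute (polyMat N a) (polyMat N b) := by
  unfold polyMat
  apply Commute.sum_right
  intro i _
  apply Commute.sum_left
  intro j _
  exact (((Commute.refl N).pow_pow _ _).smul_left _).smul_right _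

theorem polyMat_add (N : Matrix ι ι F) (a b : Fin (Fintype.card ι) → F) :
    polyMat N (a + b) = polyMat N a + polyMat N b := by
  unfold polyMat
  rw [← Finset.sum_add_distrib]
  apply Finset.sum_congr rfl
  intro i _
  rw [Pi.add_apply, add_smul]

theorem polyMat_neg (N : Matrix ι ι F) (a : Fin (Fintype.card ι) → F) :
    polyMat N (-a) = -polyMat N a := by
  unfold polyMat
  rw [← Finset.sum_neg_distrib]
  apply Finset.sum_congr rfl
  intro i _
  rw [Pi.neg_apply, neg_smul]

theorem polyMat_single_zero (N : Matrix ι ι F) (hpos : 0 < Fintype.card ι) (c : F) :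
    polyMat N (Pi.single ⟨0, hpos⟩ c) = c • (1 : Matrix ι ι F) := by
  unfold polyMat
  rw [Finset.sum_eq_single (⟨0, hpos⟩ : Fin (Fintype.card ι))]
  · simp
  · intro i _ hi
    simp [Pi.single_eq_of_ne hi]
  · intro h
    exact absurd (Finset.mem_univ _) h

theorem neg_one_pow_smul (N : Matrix ι ι F) (k : ℕ) :
    ((-1 : F) ^ k) • N ^ k = (-N) ^ k := by
  rcases Nat.even_or_odd k with h | h
  · rw [h.neg_one_pow, h.neg_pow, one_smul]
  · rw [h.neg_one_pow, h.neg_pow, neg_smul, one_smul]

theorem polyMat_neg_left (N : Matrix ι ι F) (a : Fin (Fintype.card ι) → F) :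
    polyMat (-N) a = polyMat N (fun i => (-1) ^ (i : ℕ) * a i) := by
  unfold polyMat
  apply Finset.sum_congr rfl
  intro i _
  rw [← neg_one_pow_smul, smul_smul, mul_comm]

theorem exists_ker_ne_zero (N : Matrix ι ι F) (hnil : N ^ Fintype.card ι = 0)
    (hpos : 0 < Fintype.card ι) : ∃ w : ι → F, w ≠ 0 ∧ N *ᵥ w = 0 := by
  have hne : Nonempty ι := Fintype.card_pos_iff.mp hpos
  have hdet : N.det = 0 := by
    have h1 : N.det ^ Fintype.card ι = 0 := by
      rw [← Matrix.det_pow, hnil, Matrix.det_zero]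
    exact pow_eq_zero_iff (by omega) |>.1 h1
  exact Matrix.exists_mulVec_eq_zero_iff.2 hdet

theorem polyMat_mulVec_ker (N : Matrix ι ι F) (a : Fin (Fintype.card ι) → F)
    (hpos : 0 < Fintype.card ι) (w : ι → F) (hw : N *ᵥ w = 0) :
    polyMat N a *ᵥ w = a ⟨0, hpos⟩ • w := by
  rw [polyMat_mulVec, Finset.sum_eq_single (⟨0, hpos⟩ : Fin (Fintype.card ι))]
  · simp
  · intro i _ hi
    have hi0 : (i : ℕ) ≠ 0 := fun h => hi (Fin.ext h)
    obtain ⟨k, hk⟩ : ∃ k, (i : ℕ) = k + 1 := ⟨(i : ℕ) - 1, by omega⟩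
    rw [hk, pow_succ, ← Matrix.mulVec_mulVec, hw, Matrix.mulVec_zero, smul_zero]
  · intro h
    exact absurd (Finset.mem_univ _) h

/-- the inverse of a matrix commuting with `M` commutes with `M` -/
theorem commute_of_inverse (M X W : Matrix ι ι F) (hX : Commute X M) (h1 : X * W = 1)
    (h2 : W * X = 1) : Commute W M := by
  show W * M = M * W
  calc W * M = W * M * (X * W) := by rw [h1, Matrix.mul_one]
    _ = W * (M * X) * W := by simp only [Matrix.mul_assoc]
    _ = W * (X * M) * W := by rw [hX.eq]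
    _ = (W * X) * M * W := by simp only [Matrix.mul_assoc]
    _ = M * W := by rw [h2, Matrix.one_mul]

end Cfsg.Agent.Lib.Helper43.PolyMatMore
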