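import Mathlib
import Cfsg.Agent.Lib.Helper44.BCStmt
import Cfsg.Agent.Lib.Helper44.OTyp3

set_option autoImplicit false

/-! S2362 piece COUNT1: the number of vectors of value `1` in the irreducible block. -/

namespace Cfsg.Agent.Lib.Helper43.BCCOUNT1

open Matrix Polynomial
open Cfsg.Agent.Lib.Helper44.QSpace Cfsg.Agent.Lib.Helper44.OGroup Cfsg.Agent.Lib.Helper44.OMat
open Cfsg.Agent.Lib.Helper44.OExt Cfsg.Agent.Lib.Helper44.BCStmt

universe u

theorem arith (q k Z A : ℕ) (hq : 2 ≤ q)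
    (hobs : Z * q = q ^ (k + 1) + q ^ 2 * ((q ^ k - 1) * q ^ k))
    (hfib : q ^ (2 * (k + 1)) = Z + (q - 1) * A) :
    A = q ^ k * (q ^ (k + 1) + 1) := by
  have hq1 : 1 ≤ q := by omega
  have hx1 : 1 ≤ q ^ k := Nat.one_le_pow _ _ hq1
  zify [hq1, hx1] at hobs hfib ⊢
  have hqq : ((q : ℤ) * ((q : ℤ) - 1)) ≠ 0 := by
    have h1 : (2 : ℤ) ≤ (q : ℤ) := by exact_mod_cast hq
    have h2 : (0 : ℤ) < (q : ℤ) * ((q : ℤ) - 1) := by nlinarith
    exact ne_of_gt h2
  have key : ((A : ℤ) - (q : ℤ) ^ k * ((q : ℤ) ^ (k + 1) + 1)) * ((q : ℤ) * ((q : ℤ) - 1)) = 0 := by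
    linear_combination (-(q : ℤ)) * hfib - hobs
  rcases mul_eq_zero.mp key with h | h
  · linarith
  · exact absurd h hqq

theorem main : Level.{u} → Cfsg.Agent.Lib.Helper44.SPStmt.NoFixIff.{u} → Count1.{u} := by
  intro hLevel hNF F _ _ p _ _ r m h2 hr hr2 hrp hord hm κ _ _ N T hcard hdet hTQ hTr hfix
  classical
  obtain ⟨k, rfl⟩ : ∃ k, m = k + 1 := ⟨m - 1, by omega⟩
  have hS : Sep (qN N) := sep_qN hdet
  have hsL : ¬ (X - C (1 : F)) ∣ T.charpoly := (hNF F κ T).mp hfix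
  haveI : Fact r.Prime := ⟨hr⟩
  have hq0 : ((Fintype.card F : ℕ) : ZMod r) ≠ 0 := by
    intro h0
    have h1 := pow_orderOf_eq_one ((Fintype.card F : ℕ) : ZMod r)
    rw [hord, h0, zero_pow (by omega)] at h1
    exact zero_ne_one h1
  have hdvd : 2 * (k + 1) ∣ r - 1 := by
    rw [← hord]
    exact ZMod.orderOf_dvd_card_sub_one hq0
  have ht : (r - 1) / (2 * (k + 1)) * (2 * (k + 1)) = r - 1 := Nat.div_mul_cancel hdvd
  have hnot : ¬ (Odd (2 * (k + 1)) ∨ Even (2 * (k + 1) / (2 * (k + 1)))) := by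
    rw [Nat.div_self (by omega)]
    rintro (h | h)
    · exact (Nat.not_odd_iff_even.mpr (even_two_mul _)) h
    · exact Nat.not_even_one h
  have hobs := (Cfsg.Agent.Lib.Helper44.OTyp3.obs_matrix (p := p) (qN N) hS hcard r (2 * (k + 1))
    ((r - 1) / (2 * (k + 1))) hr hr2 hrp hord.symm ht T hTr hTQ hsL).2 hnot
  have hlev : ∀ c : F, c ≠ 0 →
      Nat.card {x : κ → F // qN N x = c} = Nat.card {x : κ → F // qN N x = 1} :=
    fun c hc => hLevel F κ (qN N) h2 hS k hcard c hc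
  have hfib : Fintype.card F ^ (2 * (k + 1)) = Nat.card {x : κ → F // qN N x = 0}
      + (Fintype.card F - 1) * Nat.card {x : κ → F // qN N x = 1} := by
    have e := Nat.card_congr (Equiv.sigmaFiberEquiv (fun x : κ → F => qN N x))
    rw [Nat.card_sigma, Nat.card_fun, Nat.card_eq_fintype_card, Nat.card_eq_fintype_card,
      hcard] at e
    rw [← e, ← Finset.add_sum_erase Finset.univ _ (Finset.mem_univ (0 : F))]
    congr 1
    rw [Finset.sum_congr rfl (fun c hc => hlev c (Finset.ne_of_mem_erase hc)), Finset.sum_const,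
      Finset.card_erase_of_mem (Finset.mem_univ _), Finset.card_univ, smul_eq_mul]
  have hq : 2 ≤ Fintype.card F := Fintype.one_lt_card
  rw [Nat.add_sub_cancel]
  exact arith (Fintype.card F) k _ _ hq hobs hfib

end Cfsg.Agent.Lib.Helper43.BCCOUNT1
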