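import Mathlib
import Cfsg.Agent.Lib.Helper44.GAStmt
import Cfsg.Agent.Lib.Helper44.OMat
import Cfsg.Agent.Lib.Helper44.QSpace

set_option autoImplicit false

/-! Shared lemmas for pieces [CA], [CB] of S2718: similarities and reflection matrices. -/

namespace Cfsg.Agent.Lib.Helper43.GARefl

open Matrix QuadraticMap Module
open Cfsg.Agent.Lib.Helper44.OMat Cfsg.Agent.Lib.Helper44.OGroup Cfsg.Agent.Lib.Helper44.QSpace

variable {F : Type*} [Field F] {ι : Type} [Fintype ι] [DecidableEq ι]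

theorem refl_apply (Q : QuadraticForm F (ι → F)) (v x : ι → F) :
    Cfsg.reflectionMatrix (⇑Q) v *ᵥ x = x - ((Q v)⁻¹ * polar Q x v) • v := by
  rw [reflection_mulVec, reflE_apply]

theorem polar_sim (Q : QuadraticForm F (ι → F)) (G : Matrix ι ι F) (μ : F)
    (hG : ∀ x, Q (G *ᵥ x) = μ * Q x) (x y : ι → F) :
    polar Q (G *ᵥ x) (G *ᵥ y) = μ * polar Q x y := by
  unfold polar
  rw [← Matrix.mulVec_add, hG, hG, hG]
  ring

/-- a similarity conjugates the reflection in `u` to the reflection in its image -/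
theorem conj_refl (Q : QuadraticForm F (ι → F)) (G : Matrix ι ι F) (μ : F) (hμ : μ ≠ 0)
    (hG : ∀ x, Q (G *ᵥ x) = μ * Q x) (u : ι → F) :
    G * Cfsg.reflectionMatrix (⇑Q) u = Cfsg.reflectionMatrix (⇑Q) (G *ᵥ u) * G := by
  apply matrix_ext_mulVec
  intro x
  rw [← Matrix.mulVec_mulVec, ← Matrix.mulVec_mulVec, refl_apply, refl_apply, Matrix.mulVec_sub,
    Matrix.mulVec_smul, hG, polar_sim Q G μ hG]
  congr 2
  rw [mul_inv, mul_mul_mul_comm, inv_mul_cancel₀ hμ, one_mul]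

theorem refl_smul (Q : QuadraticForm F (ι → F)) (c : F) (hc : c ≠ 0) (u : ι → F) :
    Cfsg.reflectionMatrix (⇑Q) (c • u) = Cfsg.reflectionMatrix (⇑Q) u := by
  apply matrix_ext_mulVec
  intro x
  rw [refl_apply, refl_apply, QuadraticMap.map_smul, polar_smul_right, smul_smul]
  congr 2
  simp only [smul_eq_mul]
  by_cases ha : Q u = 0
  · simp [ha]
  · field_simp

theorem refl_comm (Q : QuadraticForm F (ι → F)) (u w : ι → F) (h : polar Q u w = 0) :
    Cfsg.reflectionMatrix (⇑Q) u * Cfsg.reflectionMatrix (⇑Q) w =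
      Cfsg.reflectionMatrix (⇑Q) w * Cfsg.reflectionMatrix (⇑Q) u := by
  have h' : polar Q w u = 0 := by rw [polar_comm]; exact h
  apply matrix_ext_mulVec
  intro x
  rw [← Matrix.mulVec_mulVec, ← Matrix.mulVec_mulVec, refl_apply, refl_apply, refl_apply,
    refl_apply, polar_sub_left, polar_smul_left, polar_sub_left, polar_smul_left, h, h']
  simp only [smul_eq_mul, mul_zero, sub_zero]
  abel

/-- products of two reflections in the `e`-eigenspace commute with `G` -/
theorem comm_of_eigen (Q : QuadraticForm F (ι → F)) (G : Matrix ι ι F) (μ : F) (hμ : μ ≠ 0)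
    (hG : ∀ x, Q (G *ᵥ x) = μ * Q x) (e : F) (he : e ≠ 0) (u u' : ι → F)
    (hu : G *ᵥ u = e • u) (hu' : G *ᵥ u' = e • u') :
    G * (Cfsg.reflectionMatrix (⇑Q) u * Cfsg.reflectionMatrix (⇑Q) u') =
      (Cfsg.reflectionMatrix (⇑Q) u * Cfsg.reflectionMatrix (⇑Q) u') * G := by
  have c1 : G * Cfsg.reflectionMatrix (⇑Q) u = Cfsg.reflectionMatrix (⇑Q) u * G := by
    rw [conj_refl Q G μ hμ hG, hu, refl_smul Q e he]
  have c2 : G * Cfsg.reflectionMatrix (⇑Q) u' = Cfsg.reflectionMatrix (⇑Q) u' * G := by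
    rw [conj_refl Q G μ hμ hG, hu', refl_smul Q e he]
  rw [← Matrix.mul_assoc, c1, Matrix.mul_assoc, c2, Matrix.mul_assoc]

theorem not_isSquare_mul (a ν : F) (ha : a ≠ 0) (hν : ¬ IsSquare ν) : ¬ IsSquare (a * (ν * a)) := by
  rintro ⟨s, hs⟩
  apply hν
  refine ⟨s / a, ?_⟩
  field_simp
  linear_combination hs

end Cfsg.Agent.Lib.Helper43.GARefl
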