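import Mathlib
import Cfsg.Agent.Lib.Helper44.GAStmt
import Cfsg.Agent.Lib.Helper44.NegPairs
import Cfsg.Agent.Lib.Helper44.FinSq
import Cfsg.Agent.Lib.Helper43.GARefl

set_option autoImplicit false

/-! Piece [CA] of S2718: a similarity with `g² = c²`, multiplier `c²`, commutes with a
product of two reflections whose values have non-square product. -/

namespace Cfsg.Agent.Lib.Helper43.GACA

open Matrix Module QuadraticMap
open Cfsg.Agent.Lib.Helper43.OPlAut Cfsg.Agent.Lib.Helper45.OmegaAut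
open Cfsg.Agent.Lib.Helper44.OFld0 Cfsg.Agent.Lib.Helper44.OFld1
  Cfsg.Agent.Lib.Helper44.OFldStmt Cfsg.Agent.Lib.Helper44.GFStmt
open Cfsg.Agent.Lib.Helper44.QSpace Cfsg.Agent.Lib.Helper44.NegPairs
open Cfsg.Agent.Lib.Helper44.FinSq
open Cfsg.Agent.Lib.Helper43.GARefl

universe u

variable {F : Type*} [Field F] {ι : Type} [Fintype ι] [DecidableEq ι]

/-- the `e`-eigenspace of the matrix `G` -/
def eig (G : Matrix ι ι F) (e : F) : Submodule F (ι → F) where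
  carrier := {x | G *ᵥ x = e • x}
  add_mem' := by
    intro a b ha hb
    simp only [Set.mem_setOf_eq] at *
    rw [Matrix.mulVec_add, ha, hb, smul_add]
  zero_mem' := by simp
  smul_mem' := by
    intro c x hx
    simp only [Set.mem_setOf_eq] at *
    rw [Matrix.mulVec_smul, hx, smul_comm]

theorem mem_eig (G : Matrix ι ι F) (e : F) (x : ι → F) : x ∈ eig G e ↔ G *ᵥ x = e • x := Iff.rfl

theorem orth (Q : QuadraticForm F (ι → F)) (h2 : (2 : F) ≠ 0) (G : Matrix ι ι F) (e : F)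
    (he : e ≠ 0) (hG : ∀ x, Q (G *ᵥ x) = e ^ 2 * Q x) (x y : ι → F)
    (hx : G *ᵥ x = e • x) (hy : G *ᵥ y = (-e) • y) : polar Q x y = 0 := by
  have h1 := polar_sim Q G (e ^ 2) hG x y
  rw [hx, hy, polar_smul_left, polar_smul_right, smul_eq_mul, smul_eq_mul] at h1
  have h3 : (2 * e ^ 2) * polar Q x y = 0 := by linear_combination -h1
  rcases mul_eq_zero.mp h3 with h | h
  · exact absurd h (mul_ne_zero h2 (pow_ne_zero 2 he))
  · exact h

theorem proj_mem (G : Matrix ι ι F) (e μ : F) (hμ : e * e = μ)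
    (hGGx : ∀ x, G *ᵥ (G *ᵥ x) = μ • x) (x : ι → F) :
    (2 * e)⁻¹ • (G *ᵥ x + e • x) ∈ eig G e := by
  rw [mem_eig, Matrix.mulVec_smul, Matrix.mulVec_add, Matrix.mulVec_smul, hGGx, smul_comm e,
    ← hμ]
  congr 1
  rw [smul_add, smul_smul, add_comm]

theorem decomp (G : Matrix ι ι F) (e : F) (he : e ≠ 0) (h2 : (2 : F) ≠ 0) (x : ι → F) :
    x = (2 * e)⁻¹ • (G *ᵥ x + e • x) + (2 * (-e))⁻¹ • (G *ᵥ x + (-e) • x) := by
  ext i
  simp only [Pi.add_apply, Pi.smul_apply, smul_eq_mul]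
  field_simp
  ring

theorem sep_eig (Q : QuadraticForm F (ι → F)) (hSep : Sep Q) (h2 : (2 : F) ≠ 0)
    (G : Matrix ι ι F) (e : F) (he : e ≠ 0) (hGGx : ∀ x, G *ᵥ (G *ᵥ x) = e ^ 2 • x)
    (hG : ∀ x, Q (G *ᵥ x) = e ^ 2 * Q x) : Sep (res Q (eig G e)) := by
  intro x hx
  apply Subtype.ext
  apply hSep
  intro z
  rw [decomp G e he h2 z, polar_add_right]
  have h1 := hx ⟨_, proj_mem G e (e ^ 2) (by ring) hGGx z⟩
  rw [polar_res] at h1
  have h3 := orth Q h2 G e he hG x _ x.2 (proj_mem G (-e) (e ^ 2) (by ring) hGGx z)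
  rw [h1, h3, add_zero]

theorem pair_of_finrank [Fintype F] (Q : QuadraticForm F (ι → F)) (h2 : (2 : F) ≠ 0)
    (G : Matrix ι ι F) (μ : F) (hμ : μ ≠ 0) (hG : ∀ x, Q (G *ᵥ x) = μ * Q x) (e : F) (he : e ≠ 0)
    (hS : Sep (res Q (eig G e))) (hd : 2 ≤ finrank F (eig G e)) :
    ∃ u u' : ι → F, Q u ≠ 0 ∧ Q u' ≠ 0 ∧ ¬ IsSquare (Q u * Q u') ∧
      G * (Cfsg.reflectionMatrix (⇑Q) u * Cfsg.reflectionMatrix (⇑Q) u') =
        (Cfsg.reflectionMatrix (⇑Q) u * Cfsg.reflectionMatrix (⇑Q) u') * G := by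
  obtain ⟨v₁, v₂, hv₁, hv₂, h12⟩ := exists_orth_pair h2 hS hd
  rw [res_apply] at hv₁ hv₂
  rw [polar_res] at h12
  obtain ⟨ν, hν⟩ := FiniteField.exists_nonsquare (ringChar_ne_two_of_two_ne_zero h2)
  have hν0 : ν ≠ 0 := by
    rintro rfl
    exact hν ⟨0, by simp⟩
  obtain ⟨s, t, hst⟩ := exists_sq_add_sq hv₁ hv₂ (ν * Q (v₁ : ι → F))
  have hQ : Q (s • (v₁ : ι → F) + t • (v₂ : ι → F)) = ν * Q (v₁ : ι → F) := by
    rw [q_add, q_smul, q_smul, polar_smul_left, polar_smul_right, h12]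
    simp only [smul_eq_mul, mul_zero, add_zero]
    linear_combination hst
  refine ⟨v₁, s • (v₁ : ι → F) + t • (v₂ : ι → F), hv₁, ?_, ?_, ?_⟩
  · rw [hQ]; exact mul_ne_zero hν0 hv₁
  · rw [hQ]; exact not_isSquare_mul _ _ hv₁ hν
  · exact comm_of_eigen Q G μ hμ hG e he _ _ v₁.2
      ((eig G e).add_mem ((eig G e).smul_mem s v₁.2) ((eig G e).smul_mem t v₂.2))

theorem core [Fintype F] (Q : QuadraticForm F (ι → F)) (hSep : Sep Q)
    (hd : 3 ≤ finrank F (ι → F)) (h2 : (2 : F) ≠ 0)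
    (G : Matrix ι ι F) (c : F) (hc : c ≠ 0) (hGG : G * G = c ^ 2 • (1 : Matrix ι ι F))
    (hG : ∀ x, Q (G *ᵥ x) = c ^ 2 * Q x) :
    ∃ u u' : ι → F, Q u ≠ 0 ∧ Q u' ≠ 0 ∧ ¬ IsSquare (Q u * Q u') ∧
      G * (Cfsg.reflectionMatrix (⇑Q) u * Cfsg.reflectionMatrix (⇑Q) u') =
        (Cfsg.reflectionMatrix (⇑Q) u * Cfsg.reflectionMatrix (⇑Q) u') * G := by
  have hGGx : ∀ x, G *ᵥ (G *ᵥ x) = c ^ 2 • x := by
    intro x
    rw [Matrix.mulVec_mulVec, hGG, Matrix.smul_mulVec, Matrix.one_mulVec]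
  have hc2 : c ^ 2 ≠ 0 := pow_ne_zero 2 hc
  by_cases h : 2 ≤ finrank F (eig G c)
  · exact pair_of_finrank Q h2 G (c ^ 2) hc2 hG c hc (sep_eig Q hSep h2 G c hc hGGx hG) h
  · have hsup : eig G c ⊔ eig G (-c) = ⊤ := by
      rw [eq_top_iff]
      intro x _
      rw [Submodule.mem_sup]
      exact ⟨_, proj_mem G c (c ^ 2) (by ring) hGGx x, _,
        proj_mem G (-c) (c ^ 2) (by ring) hGGx x, (decomp G c hc h2 x).symm⟩
    have h' : 2 ≤ finrank F (eig G (-c)) := by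
      have h3 := Submodule.finrank_add_le_finrank_add_finrank (eig G c) (eig G (-c))
      rw [hsup, finrank_top] at h3
      omega
    have e1 : (-c) ^ 2 = c ^ 2 := by ring
    exact pair_of_finrank Q h2 G (c ^ 2) hc2 hG (-c) (neg_ne_zero.mpr hc)
      (sep_eig Q hSep h2 G (-c) (neg_ne_zero.mpr hc) (by rw [e1]; exact hGGx)
        (by rw [e1]; exact hG)) h'

theorem main : Cfsg.Agent.Lib.Helper44.GAStmt.CaseSq.{u} := by
  intro F _ _ m hm h2 g c hc hGG hG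
  have hd : 3 ≤ finrank F (Fin m ⊕ Fin m → F) := by
    rw [finrank_plus]; omega
  exact core (plusQ m F) (sep_plusQ m) hd h2 _ c hc hGG hG

end Cfsg.Agent.Lib.Helper43.GACA
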