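import Mathlib
import Cfsg.Agent.Lib.Helper44.GAStmt
import Cfsg.Agent.Lib.Helper44.NegPairs
import Cfsg.Agent.Lib.Helper43.GARefl

set_option autoImplicit false

/-! Piece [CB] of S2718: a similarity with `g² = ν`, multiplier `ν` a non-square, commutes with a
product of two reflections whose values have non-square product. -/

namespace Cfsg.Agent.Lib.Helper43.GACB

open Matrix Module QuadraticMap
open Cfsg.Agent.Lib.Helper43.OPlAut Cfsg.Agent.Lib.Helper45.OmegaAut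
open Cfsg.Agent.Lib.Helper44.OFld0 Cfsg.Agent.Lib.Helper44.OFld1
  Cfsg.Agent.Lib.Helper44.OFldStmt Cfsg.Agent.Lib.Helper44.GFStmt
open Cfsg.Agent.Lib.Helper44.QSpace Cfsg.Agent.Lib.Helper44.NegPairs
open Cfsg.Agent.Lib.Helper43.GARefl

universe u

variable {F : Type*} [Field F] {ι : Type} [Fintype ι] [DecidableEq ι]

theorem adj (Q : QuadraticForm F (ι → F)) (G : Matrix ι ι F) (ν : F) (hν0 : ν ≠ 0)
    (hGGx : ∀ x, G *ᵥ (G *ᵥ x) = ν • x) (hG : ∀ x, Q (G *ᵥ x) = ν * Q x) (x y : ι → F) :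
    polar Q x (G *ᵥ y) = polar Q (G *ᵥ x) y := by
  have h1 := polar_sim Q G ν hG x (G *ᵥ y)
  rw [hGGx, polar_smul_right, smul_eq_mul] at h1
  exact (mul_left_cancel₀ hν0 h1).symm

/-- the quadratic form `x ↦ B(x, G x)` -/
def pForm (Q : QuadraticForm F (ι → F)) (G : Matrix ι ι F) : QuadraticForm F (ι → F) :=
  LinearMap.BilinMap.toQuadraticMap ((polarBilin Q).compl₂ (Matrix.toLin' G))

theorem pForm_apply (Q : QuadraticForm F (ι → F)) (G : Matrix ι ι F) (x : ι → F) :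
    pForm Q G x = polar Q x (G *ᵥ x) := by
  simp [pForm, LinearMap.BilinMap.toQuadraticMap_apply]

theorem polar_pForm (Q : QuadraticForm F (ι → F)) (G : Matrix ι ι F) (x y : ι → F) :
    polar (pForm Q G) x y = polar Q x (G *ᵥ y) + polar Q y (G *ᵥ x) := by
  simp [pForm, LinearMap.BilinMap.polar_toQuadraticMap]

theorem sep_pForm (Q : QuadraticForm F (ι → F)) (hSep : Sep Q) (h2 : (2 : F) ≠ 0)
    (G : Matrix ι ι F) (ν : F) (hν0 : ν ≠ 0)
    (hGGx : ∀ x, G *ᵥ (G *ᵥ x) = ν • x) (hG : ∀ x, Q (G *ᵥ x) = ν * Q x) :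
    Sep (pForm Q G) := by
  intro x hx
  apply hSep
  intro z
  have h1 := hx (G *ᵥ z)
  rw [polar_pForm, hGGx, polar_smul_right, smul_eq_mul, adj Q G ν hν0 hGGx hG (G *ᵥ z) x,
    hGGx, polar_smul_left, smul_eq_mul, polar_comm Q z x] at h1
  have h3 : (2 * ν) * polar Q x z = 0 := by linear_combination h1
  rcases mul_eq_zero.mp h3 with h | h
  · exact absurd h (mul_ne_zero h2 hν0)
  · exact h

theorem key (Q : QuadraticForm F (ι → F)) (h2 : (2 : F) ≠ 0)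
    (G : Matrix ι ι F) (ν : F) (hν0 : ν ≠ 0)
    (hGGx : ∀ x, G *ᵥ (G *ᵥ x) = ν • x) (hG : ∀ x, Q (G *ᵥ x) = ν * Q x)
    (x y : ι → F) (hQx : Q x = 0) (hPx : polar Q x (G *ᵥ x) = 0) (hxy : polar Q x y = 1)
    (α β : F) (hβ : polar Q y (G *ᵥ y) + 2 * α * polar Q y (G *ᵥ x) + 2 * β * ν = 0) :
    polar Q (y + α • x + β • (G *ᵥ x)) (G *ᵥ (y + α • x + β • (G *ᵥ x))) = 0 ∧
      Q (y + α • x + β • (G *ᵥ x)) = Q y + α + β * polar Q y (G *ᵥ x) := by
  have e1 : polar Q y x = 1 := by rw [polar_comm]; exact hxy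
  have e2 : polar Q x (G *ᵥ y) = polar Q y (G *ᵥ x) := by
    rw [adj Q G ν hν0 hGGx hG, polar_comm]
  have e3 : polar Q (G *ᵥ x) (G *ᵥ y) = ν := by
    rw [polar_sim Q G ν hG, hxy, mul_one]
  have e4 : polar Q x x = 0 := by rw [polar_self', hQx, mul_zero]
  have e5 : polar Q (G *ᵥ x) (G *ᵥ x) = 0 := by
    rw [polar_sim Q G ν hG, e4, mul_zero]
  have e6 : polar Q (G *ᵥ x) x = 0 := by rw [polar_comm]; exact hPx
  have e7 : Q (G *ᵥ x) = 0 := by rw [hG, hQx, mul_zero]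
  have e8 : polar Q (G *ᵥ x) y = polar Q y (G *ᵥ x) := polar_comm _ _ _
  constructor
  · simp only [Matrix.mulVec_add, Matrix.mulVec_smul, hGGx, polar_add_left, polar_add_right,
      polar_smul_left, polar_smul_right, smul_eq_mul, e1, e2, e3, e4, e5, e6, hPx, hxy, e8]
    linear_combination hβ
  · rw [q_add, q_add, q_smul, q_smul, hQx, e7]
    simp only [polar_add_left, polar_add_right,
      polar_smul_left, polar_smul_right, smul_eq_mul, e1, e2, e3, e4, e5, e6, hPx, hxy, e8]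
    ring

theorem core [Fintype F] (Q : QuadraticForm F (ι → F)) (hSep : Sep Q)
    (hd : 3 ≤ finrank F (ι → F)) (h2 : (2 : F) ≠ 0)
    (G : Matrix ι ι F) (ν : F) (hν : ¬ IsSquare ν) (hGG : G * G = ν • (1 : Matrix ι ι F))
    (hG : ∀ x, Q (G *ᵥ x) = ν * Q x) :
    ∃ u u' : ι → F, Q u ≠ 0 ∧ Q u' ≠ 0 ∧ ¬ IsSquare (Q u * Q u') ∧
      G * (Cfsg.reflectionMatrix (⇑Q) u * Cfsg.reflectionMatrix (⇑Q) u') =
        (Cfsg.reflectionMatrix (⇑Q) u * Cfsg.reflectionMatrix (⇑Q) u') * G := by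
  have hν0 : ν ≠ 0 := by
    rintro rfl
    exact hν ⟨0, by simp⟩
  have hGGx : ∀ x, G *ᵥ (G *ᵥ x) = ν • x := by
    intro x
    rw [Matrix.mulVec_mulVec, hGG, Matrix.smul_mulVec, Matrix.one_mulVec]
  -- it suffices to find `u` with `Q u ≠ 0` and `B(u, G u) = 0`
  have fin : ∀ u : ι → F, Q u ≠ 0 → polar Q u (G *ᵥ u) = 0 →
      ∃ u u' : ι → F, Q u ≠ 0 ∧ Q u' ≠ 0 ∧ ¬ IsSquare (Q u * Q u') ∧
      G * (Cfsg.reflectionMatrix (⇑Q) u * Cfsg.reflectionMatrix (⇑Q) u') =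
        (Cfsg.reflectionMatrix (⇑Q) u * Cfsg.reflectionMatrix (⇑Q) u') * G := by
    intro u hu hP
    refine ⟨u, G *ᵥ u, hu, ?_, ?_, ?_⟩
    · rw [hG]; exact mul_ne_zero hν0 hu
    · rw [hG]; exact not_isSquare_mul _ _ hu hν
    · have c1 := conj_refl Q G ν hν0 hG u
      have c2 := conj_refl Q G ν hν0 hG (G *ᵥ u)
      rw [hGGx, refl_smul Q ν hν0] at c2
      rw [← Matrix.mul_assoc, c1, Matrix.mul_assoc, c2, ← Matrix.mul_assoc,
        refl_comm Q (G *ᵥ u) u (by rw [polar_comm]; exact hP)]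
  obtain ⟨x, hx0, hPx⟩ := exists_singular (sep_pForm Q hSep h2 G ν hν0 hGGx hG) hd
  rw [pForm_apply] at hPx
  by_cases hQx : Q x = 0
  · -- a hyperbolic partner
    have hy : ∃ y, polar Q x y ≠ 0 := by
      by_contra hcon
      push_neg at hcon
      exact hx0 (hSep x hcon)
    obtain ⟨y₀, hy₀⟩ := hy
    set y := (polar Q x y₀)⁻¹ • y₀ with hydef
    have hxy : polar Q x y = 1 := by
      rw [hydef, polar_smul_right, smul_eq_mul, inv_mul_cancel₀ hy₀]
    set t := polar Q y (G *ᵥ x) with ht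
    have hβ : ∀ α : F, polar Q y (G *ᵥ y) + 2 * α * t +
        2 * (-(polar Q y (G *ᵥ y) + 2 * α * t) / (2 * ν)) * ν = 0 := by
      intro α
      field_simp
      ring
    have k0 := key Q h2 G ν hν0 hGGx hG x y hQx hPx hxy 0 _ (hβ 0)
    have k1 := key Q h2 G ν hν0 hGGx hG x y hQx hPx hxy 1 _ (hβ 1)
    by_cases h0 : Q (y + (0 : F) • x + (-(polar Q y (G *ᵥ y) + 2 * 0 * t) / (2 * ν)) • (G *ᵥ x)) = 0
    · refine fin _ ?_ k1.1
      intro h1
      rw [k1.2] at h1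
      rw [k0.2] at h0
      apply hν
      refine ⟨t, ?_⟩
      have h3 : (Q y + 1 + -(polar Q y (G *ᵥ y) + 2 * 1 * t) / (2 * ν) * t) -
          (Q y + 0 + -(polar Q y (G *ᵥ y) + 2 * 0 * t) / (2 * ν) * t) = 0 := by
        rw [h1, h0, sub_zero]
      field_simp at h3
      have h4 : 2 * ν = 2 * (t * t) := by linear_combination h3
      exact mul_left_cancel₀ h2 h4
    · exact fin _ h0 k0.1
  · exact fin x hQx hPx

theorem main : Cfsg.Agent.Lib.Helper44.GAStmt.CaseNonsq.{u} := by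
  intro F _ _ m hm h2 g ν hν hGG hG
  have hd : 3 ≤ finrank F (Fin m ⊕ Fin m → F) := by
    rw [finrank_plus]; omega
  exact core (plusQ m F) (sep_plusQ m) hd h2 _ ν hν hGG hG

end Cfsg.Agent.Lib.Helper43.GACB
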