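import Mathlib
import Cfsg.Agent.Lib.Helper44.GFStmt
import Cfsg.Agent.Lib.Helper44.GFHs
import Cfsg.Agent.Lib.Helper44.MCentFin
import Cfsg.Agent.Lib.Helper45.OmegaAutKer

set_option autoImplicit false

/-! Piece [CI] of S2717: the centraliser of the standard graph-field involution in `Inndiag`. -/

namespace Cfsg.Agent.Lib.Helper43.GFCI

open Matrix Module QuadraticMap
open Cfsg.Agent.Lib.Helper43.OPlAut Cfsg.Agent.Lib.Helper45.OmegaAut
  Cfsg.Agent.Lib.Helper43.H90Fin Cfsg.Agent.Lib.Helper45.MinusInndiag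
open Cfsg.Agent.Lib.Helper44.OFld0 Cfsg.Agent.Lib.Helper44.OFld1
  Cfsg.Agent.Lib.Helper44.OFldStmt Cfsg.Agent.Lib.Helper44.MFld0
  Cfsg.Agent.Lib.Helper44.MFldStmt Cfsg.Agent.Lib.Helper44.MCentStmt
  Cfsg.Agent.Lib.Helper44.GFStmt Cfsg.Agent.Lib.Helper44.GFHs
  Cfsg.Agent.Lib.Helper44.NegPairs

universe u v

section Gen

variable {F : Type u} [Field F]

theorem cancel_right {ι κ : Type} [Fintype ι] [Fintype κ] [DecidableEq ι] [DecidableEq κ]
    {A B : Matrix ι ι F} {H : Matrix ι κ F} {H' : Matrix κ ι F} (h : H * H' = 1)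
    (e : A * H = B * H) : A = B := by
  calc A = A * (H * H') := by rw [h, Matrix.mul_one]
    _ = B * (H * H') := by rw [← Matrix.mul_assoc, e, Matrix.mul_assoc]
    _ = B := by rw [h, Matrix.mul_one]

theorem map_mul_aut {ι κ μ : Type} [Fintype κ] (σ : F ≃+* F) (A : Matrix ι κ F)
    (B : Matrix κ μ F) : (A * B).map σ = A.map σ * B.map σ := by
  ext i l
  simp [Matrix.mul_apply, map_sum]

theorem map_one_aut {ι : Type} [DecidableEq ι] (σ : F ≃+* F) :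
    (1 : Matrix ι ι F).map σ = 1 := by
  ext i l
  by_cases h : i = l
  · subst h; simp
  · simp [Matrix.one_apply_ne h]

theorem map_smul_aut {ι κ : Type} (σ : F ≃+* F) (c : F) (A : Matrix ι κ F) :
    (c • A).map σ = σ c • A.map σ := by
  ext i l
  simp

theorem go_ext {m : ℕ} {x y : GO m F}
    (h : ((x : GL (Fin m ⊕ Fin m) F) : Matrix (Fin m ⊕ Fin m) (Fin m ⊕ Fin m) F) =
      ((y : GL (Fin m ⊕ Fin m) F) : Matrix (Fin m ⊕ Fin m) (Fin m ⊕ Fin m) F)) : x = y :=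
  Subtype.ext (Units.ext h)

end Gen

section TwoFields

variable {F₀ : Type v} [Field F₀] [Fintype F₀] {F : Type u} [Field F] [Fintype F]

/-- a rational conjugate commutes with the graph-field involution on the matrix level -/
theorem comm_of_compat (j : F₀ →+* F) (σ : RingAut F)
    (hj : ∀ y : F, σ y = y ↔ ∃ y₀ : F₀, j y₀ = y) (k : ℕ) (ω ω' : F)
    (Hσ' : Matrix (MI k) (PI k) F) (hHσ : Hs k ω' ω * Hσ' = 1)
    (hmap : (Hs k ω ω').map σ = Hs k ω' ω) (b g : GO (k + 1) F)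
    (hb : ((b : GL (PI k) F) : Matrix (PI k) (PI k) F) * Hs k ω' ω = Hs k ω ω')
    (M₀ : Matrix (MI k) (MI k) F₀)
    (hg : ((g : GL (PI k) F) : Matrix (PI k) (PI k) F) * Hs k ω ω' = Hs k ω ω' * M₀.map j) :
    b * mapGO σ g = g * b := by
  apply go_ext
  show ((b : GL (PI k) F) : Matrix (PI k) (PI k) F) *
      ((g : GL (PI k) F) : Matrix (PI k) (PI k) F).map σ =
    ((g : GL (PI k) F) : Matrix (PI k) (PI k) F) * ((b : GL (PI k) F) : Matrix (PI k) (PI k) F)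
  apply cancel_right hHσ
  have hM₀ : (M₀.map j).map σ = M₀.map j := by
    ext i l
    exact (hj _).2 ⟨_, rfl⟩
  have e1 : ((g : GL (PI k) F) : Matrix (PI k) (PI k) F).map σ * Hs k ω' ω =
      Hs k ω' ω * M₀.map j := by
    rw [← hmap, ← map_mul_aut, hg, map_mul_aut, hM₀]
  rw [Matrix.mul_assoc, e1, ← Matrix.mul_assoc, hb, Matrix.mul_assoc, hb, hg]

set_option maxHeartbeats 1000000 in
/-- descent: a similarity commuting with the graph-field involution up to a scalar is, up to a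
scalar, conjugate under `Hs` to a rational similarity of the minus form -/
theorem descend (hDS : DescendSim.{u, v}) (j : F₀ →+* F) (σ : RingAut F)
    (hj : ∀ y : F, σ y = y ↔ ∃ y₀ : F₀, j y₀ = y) (k : ℕ) (a₀ b₀ : F₀) (ω ω' : F)
    (h1 : ω + ω' = j a₀) (h2 : ω * ω' = j b₀)
    (H' : Matrix (MI k) (PI k) F) (hHH' : Hs k ω ω' * H' = 1) (hH'H : H' * Hs k ω ω' = 1)
    (Hσ' : Matrix (MI k) (PI k) F) (hHσ : Hs k ω' ω * Hσ' = 1)
    (hmap : (Hs k ω ω').map σ = Hs k ω' ω) (b g : GO (k + 1) F)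
    (hb : ((b : GL (PI k) F) : Matrix (PI k) (PI k) F) * Hs k ω' ω = Hs k ω ω') (lam : F)
    (hlam : ((b : GL (PI k) F) : Matrix (PI k) (PI k) F) *
        ((g : GL (PI k) F) : Matrix (PI k) (PI k) F).map σ =
      lam • (((g : GL (PI k) F) : Matrix (PI k) (PI k) F) *
        ((b : GL (PI k) F) : Matrix (PI k) (PI k) F))) :
    ∃ (e : F) (g₀ : GOq (Cfsg.quadFormMinus k F₀ a₀ b₀)), e ≠ 0 ∧
      (e • ((g : GL (PI k) F) : Matrix (PI k) (PI k) F)) * Hs k ω ω' =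
        Hs k ω ω' * ((g₀ : GL (MI k) F₀) : Matrix (MI k) (MI k) F₀).map j := by
  obtain ⟨G, hG⟩ : ∃ G : Matrix (PI k) (PI k) F, G = ((g : GL (PI k) F) : Matrix (PI k) (PI k) F) :=
    ⟨_, rfl⟩
  obtain ⟨Gi, hGi⟩ : ∃ Gi : Matrix (PI k) (PI k) F,
      Gi = (((g : GL (PI k) F)⁻¹ : GL (PI k) F) : Matrix (PI k) (PI k) F) := ⟨_, rfl⟩
  obtain ⟨B, hB⟩ : ∃ B : Matrix (PI k) (PI k) F, B = ((b : GL (PI k) F) : Matrix (PI k) (PI k) F) :=
    ⟨_, rfl⟩
  have hGGi : G * Gi = 1 := by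
    rw [hG, hGi, ← Units.val_mul, mul_inv_cancel, Units.val_one]
  have hGiG : Gi * G = 1 := by
    rw [hG, hGi, ← Units.val_mul, inv_mul_cancel, Units.val_one]
  rw [← hG, ← hB] at hlam
  rw [← hB] at hb
  rw [← hG]
  obtain ⟨c, hc⟩ := g.2
  have hc' : ∀ v : PI k → F, Cfsg.quadFormPlus (k + 1) F (G *ᵥ v) =
      (c : F) * Cfsg.quadFormPlus (k + 1) F v := by
    intro v
    rw [hG]
    exact hc v
  obtain ⟨M, hM⟩ : ∃ M : Matrix (MI k) (MI k) F, M = H' * G * Hs k ω ω' := ⟨_, rfl⟩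
  obtain ⟨N, hN⟩ : ∃ N : Matrix (MI k) (MI k) F, N = H' * Gi * Hs k ω ω' := ⟨_, rfl⟩
  have hHM : Hs k ω ω' * M = G * Hs k ω ω' := by
    rw [hM, ← Matrix.mul_assoc, ← Matrix.mul_assoc, hHH', Matrix.one_mul]
  have hH'σ : H'.map σ = H' * B := by
    have e1 : H'.map σ * Hs k ω' ω = 1 := by rw [← hmap, ← map_mul_aut, hH'H, map_one_aut]
    have e2 : (H' * B) * Hs k ω' ω = 1 := by rw [Matrix.mul_assoc, hb, hH'H]
    calc H'.map σ = H'.map σ * (Hs k ω' ω * Hσ') := by rw [hHσ, Matrix.mul_one]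
      _ = (H' * B) * (Hs k ω' ω * Hσ') := by rw [← Matrix.mul_assoc, e1, ← Matrix.mul_assoc, e2]
      _ = H' * B := by rw [hHσ, Matrix.mul_one]
  have hMσ : M.map σ = lam • M := by
    rw [hM, map_mul_aut, map_mul_aut, hmap, hH'σ, Matrix.mul_assoc H' B, hlam, Matrix.mul_smul,
      Matrix.smul_mul, Matrix.mul_assoc, Matrix.mul_assoc G, hb, ← Matrix.mul_assoc]
  have hMN : M * N = 1 := by
    rw [hM, hN]
    calc H' * G * Hs k ω ω' * (H' * Gi * Hs k ω ω')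
        = H' * (G * ((Hs k ω ω' * H') * Gi)) * Hs k ω ω' := by simp only [Matrix.mul_assoc]
      _ = 1 := by rw [hHH', Matrix.one_mul, hGGi, Matrix.mul_one, hH'H]
  have hNM : N * M = 1 := by
    rw [hM, hN]
    calc H' * Gi * Hs k ω ω' * (H' * G * Hs k ω ω')
        = H' * (Gi * ((Hs k ω ω' * H') * G)) * Hs k ω ω' := by simp only [Matrix.mul_assoc]
      _ = 1 := by rw [hHH', Matrix.one_mul, hGiG, Matrix.mul_one, hH'H]
  have hiso : ∀ v : MI k → F, Cfsg.quadFormPlus (k + 1) F (Hs k ω ω' *ᵥ v) =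
      Cfsg.quadFormMinus k F (j a₀) (j b₀) v := by
    intro v
    rw [← h1, ← h2]
    exact hsIso F k ω ω' v
  have hsim : ∀ v : MI k → F, Cfsg.quadFormMinus k F (j a₀) (j b₀) (M *ᵥ v) =
      (c : F) * Cfsg.quadFormMinus k F (j a₀) (j b₀) v := by
    intro v
    rw [← hiso, Matrix.mulVec_mulVec, hHM, ← Matrix.mulVec_mulVec, hc', hiso]
  obtain ⟨m, hm⟩ : ∃ m : GOq (Cfsg.quadFormMinus k F (j a₀) (j b₀)),
      ((m : GL (MI k) F) : Matrix (MI k) (MI k) F) = M :=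
    ⟨⟨⟨M, N, hMN, hNM⟩, ⟨c, hsim⟩⟩, rfl⟩
  obtain ⟨i, l, hil⟩ : ∃ i l, M i l ≠ 0 := by
    by_contra hcon
    push_neg at hcon
    have h0 : M = 0 := by
      ext i l
      exact hcon i l
    rw [h0, Matrix.zero_mul] at hMN
    have h6 := congrFun (congrFun hMN (Sum.inr 0)) (Sum.inr 0)
    rw [Matrix.zero_apply, Matrix.one_apply_eq] at h6
    exact zero_ne_one h6
  obtain ⟨e, he⟩ : ∃ e, e = M i l := ⟨_, rfl⟩
  have he0 : e ≠ 0 := he ▸ hil
  have hσe : σ e = lam * e := by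
    have h7 := congrFun (congrFun hMσ i) l
    rw [Matrix.map_apply, Matrix.smul_apply, smul_eq_mul, ← he] at h7
    exact h7
  have hlam0 : lam ≠ 0 := by
    rintro rfl
    rw [zero_mul] at hσe
    exact he0 ((map_eq_zero σ).1 hσe)
  obtain ⟨z, hz⟩ : ∃ z : GOq (Cfsg.quadFormMinus k F (j a₀) (j b₀)),
      ((z : GL (MI k) F) : Matrix (MI k) (MI k) F) = e⁻¹ • (1 : Matrix (MI k) (MI k) F) :=
    Cfsg.Agent.Lib.Helper44.MCentFin.exists_scalar (minusQ k F (j a₀) (j b₀)) e⁻¹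
      (inv_ne_zero he0)
  have hzm : (((z * m : GOq (Cfsg.quadFormMinus k F (j a₀) (j b₀))) : GL (MI k) F) :
      Matrix (MI k) (MI k) F) = e⁻¹ • M := by
    show ((z : GL (MI k) F) : Matrix (MI k) (MI k) F) *
      ((m : GL (MI k) F) : Matrix (MI k) (MI k) F) = _
    rw [hz, hm, Matrix.smul_mul, Matrix.one_mul]
  have hfix : ∀ i' l', σ ((((z * m : GOq (Cfsg.quadFormMinus k F (j a₀) (j b₀))) :
      GL (MI k) F) : Matrix (MI k) (MI k) F) i' l') =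
      (((z * m : GOq (Cfsg.quadFormMinus k F (j a₀) (j b₀))) : GL (MI k) F) :
        Matrix (MI k) (MI k) F) i' l' := by
    intro i' l'
    have h7 := congrFun (congrFun hMσ i') l'
    rw [Matrix.map_apply, Matrix.smul_apply, smul_eq_mul] at h7
    rw [hzm, Matrix.smul_apply, smul_eq_mul, map_mul, map_inv₀, h7, hσe]
    field_simp
  obtain ⟨g₀, hg₀⟩ := hDS F₀ F j k a₀ b₀ (z * m) (fun i' l' => (hj _).1 (hfix i' l'))
  refine ⟨e⁻¹, g₀, inv_ne_zero he0, ?_⟩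
  rw [hg₀, hzm, Matrix.smul_mul, Matrix.mul_smul, hHM]

set_option maxHeartbeats 1000000 in
/-- piece [CI] -/
theorem main (hHI : HsInv.{u}) (hTH : ThetaExists.{u, v}) (hDS : DescendSim.{u, v})
    (hKC : KerCompat2.{u, v}) (hCPO : Compat2Odd.{u, v}) (hCPT : Compat2Two.{u, v})
    (hCM : CσMulPhi.{u}) (hC1 : CσOne.{u}) (hKP : KerPhiCσ.{u}) (hIE : InndiagEq.{u})
    (hILR : InndiagLeRange.{v}) : CentIso.{u, v} := by
  intro F₀ _ _ F _ _ j σ hσ2 hj k hk a₀ b₀ hab₀ ω hω1 hω2 hω3 ε hε b hb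
  have hσσ : ∀ x : F, σ (σ x) = x := by
    intro x
    have h := pow_orderOf_eq_one σ
    rw [hσ2, _root_.sq] at h
    have h' := congrArg (fun τ : RingAut F => τ x) h
    exact h'
  obtain ⟨H', hHH', hH'H⟩ := hHI F k ω (σ ω) (Ne.symm hω3)
  obtain ⟨Hσ', hHσ, _⟩ := hHI F k (σ ω) ω hω3
  have hmap : (Hs k ω (σ ω)).map σ = Hs k (σ ω) ω := by
    have h := hsMap F k ω (σ ω) σ
    rw [hσσ] at h
    exact h
  have hCP : ∀ (g₀ : GOq (Cfsg.quadFormMinus k F₀ a₀ b₀)) (g : GO (k + 1) F),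
      ((g : GL (PI k) F) : Matrix (PI k) (PI k) F) * Hs k ω (σ ω) =
        Hs k ω (σ ω) * ((g₀ : GL (MI k) F₀) : Matrix (MI k) (MI k) F₀).map j →
      (Phi (Cfsg.quadFormMinus k F₀ a₀ b₀) g₀ ∈ Cfsg.inndiagPOmegaMinus k F₀ a₀ b₀ ↔
        ε g = 1) := by
    intro g₀ g hg
    by_cases h2 : (2 : F) = 0
    · exact hCPT F₀ F j k hk a₀ b₀ hab₀ h2 ω (σ ω) hω1 hω2 (Ne.symm hω3) ε hε g₀ g hg
    · exact hCPO F₀ F j k hk a₀ b₀ hab₀ h2 ω (σ ω) hω1 hω2 (Ne.symm hω3) ε hε g₀ g hg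
  have hcent : ∀ g : GO (k + 1) F, Phi (Cfsg.quadFormPlus (k + 1) F) g ∈
      Subgroup.centralizer {Phi (Cfsg.quadFormPlus (k + 1) F) b * cσ σ} ↔
      Phi (Cfsg.quadFormPlus (k + 1) F) (b * mapGO σ g) =
        Phi (Cfsg.quadFormPlus (k + 1) F) (g * b) := by
    intro g
    rw [Subgroup.mem_centralizer_iff]
    constructor
    · intro h
      have h1 := h _ (Set.mem_singleton _)
      rw [mul_assoc, hCM F (k + 1) σ g, ← mul_assoc, ← mul_assoc, ← map_mul, ← map_mul] at h1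
      exact mul_right_cancel h1
    · intro h y hy
      rw [Set.mem_singleton_iff] at hy
      rw [hy, mul_assoc, hCM F (k + 1) σ g, ← mul_assoc, ← mul_assoc, ← map_mul, ← map_mul, h]
  have hi : ∀ d : MulAut (Cfsg.POmega F (Cfsg.quadFormPlus (k + 1) F)),
      d ∈ Cfsg.inndiagPOmegaPlus (k + 1) F ⊓ Subgroup.centralizer
          {Phi (Cfsg.quadFormPlus (k + 1) F) b * cσ σ} ↔
        ∃ (g₀ : GOq (Cfsg.quadFormMinus k F₀ a₀ b₀)) (g : GO (k + 1) F),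
          Phi (Cfsg.quadFormMinus k F₀ a₀ b₀) g₀ ∈ Cfsg.inndiagPOmegaMinus k F₀ a₀ b₀ ∧
          ((g : GL (PI k) F) : Matrix (PI k) (PI k) F) * Hs k ω (σ ω) =
            Hs k ω (σ ω) * ((g₀ : GL (MI k) F₀) : Matrix (MI k) (MI k) F₀).map j ∧
          d = Phi (Cfsg.quadFormPlus (k + 1) F) g := by
    intro d
    constructor
    · intro hd
      obtain ⟨hd1, hd2⟩ := Subgroup.mem_inf.1 hd
      rw [hIE F (k + 1) ε hε] at hd1
      obtain ⟨g, hgε, rfl⟩ := hd1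
      have hgε' : ε g = 1 := hgε
      have h2 := (hcent g).1 hd2
      have h3 : Phi (Cfsg.quadFormPlus (k + 1) F) ((g * b)⁻¹ * (b * mapGO σ g)) *
          cσ (RingEquiv.refl F) = 1 := by
        rw [hC1 F (k + 1), mul_one, map_mul, map_inv, h2, inv_mul_cancel]
      obtain ⟨_, lam, hlam⟩ := hKP F (k + 1) (by omega) _ _ h3
      have h4 : ((b : GL (PI k) F) : Matrix (PI k) (PI k) F) *
          ((g : GL (PI k) F) : Matrix (PI k) (PI k) F).map σ =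
          lam • (((g : GL (PI k) F) : Matrix (PI k) (PI k) F) *
            ((b : GL (PI k) F) : Matrix (PI k) (PI k) F)) := by
        have e : ((((g * b)⁻¹ * (b * mapGO σ g) : GO (k + 1) F) : GL (PI k) F) :
            Matrix (PI k) (PI k) F) = lam • (1 : Matrix (PI k) (PI k) F) :=
          Cfsg.Agent.Lib.Helper44.OMat.matrix_ext_mulVec (fun x => by
            rw [hlam, Matrix.smul_mulVec, Matrix.one_mulVec])
        have e2 : b * mapGO σ g = (g * b) * ((g * b)⁻¹ * (b * mapGO σ g)) := by group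
        have e3 : (((b * mapGO σ g : GO (k + 1) F) : GL (PI k) F) : Matrix (PI k) (PI k) F) =
            (((g * b : GO (k + 1) F) : GL (PI k) F) : Matrix (PI k) (PI k) F) *
              ((((g * b)⁻¹ * (b * mapGO σ g) : GO (k + 1) F) : GL (PI k) F) :
                Matrix (PI k) (PI k) F) := by
          conv_lhs => rw [e2]
          rfl
        rw [e, Matrix.mul_smul, Matrix.mul_one] at e3
        exact e3
      obtain ⟨e, g₀, he0, hg₀⟩ := descend hDS j σ hj k a₀ b₀ ω (σ ω) hω1 hω2 H' hHH' hH'H Hσ'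
        hHσ hmap b g hb lam h4
      obtain ⟨z, hz⟩ : ∃ z : GO (k + 1) F,
          ((z : GL (PI k) F) : Matrix (PI k) (PI k) F) = e • (1 : Matrix (PI k) (PI k) F) :=
        Cfsg.Agent.Lib.Helper44.MCentFin.exists_scalar (plusQ (k + 1) F) e he0
      have hzg : (((z * g : GO (k + 1) F) : GL (PI k) F) : Matrix (PI k) (PI k) F) =
          e • ((g : GL (PI k) F) : Matrix (PI k) (PI k) F) := by
        show ((z : GL (PI k) F) : Matrix (PI k) (PI k) F) *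
          ((g : GL (PI k) F) : Matrix (PI k) (PI k) F) = _
        rw [hz, Matrix.smul_mul, Matrix.one_mul]
      have hz1 : Phi (Cfsg.quadFormPlus (k + 1) F) z = 1 :=
        Cfsg.Agent.Lib.Helper45.OmegaAutKer.Phi_eq_one_of_scalar _ z e (fun x => by
          rw [hz, Matrix.smul_mulVec, Matrix.one_mulVec])
      have hεz : ε z = 1 := hε.scalar z ⟨e, fun x => by
        rw [hz, Matrix.smul_mulVec, Matrix.one_mulVec]⟩
      have hzgH : (((z * g : GO (k + 1) F) : GL (PI k) F) : Matrix (PI k) (PI k) F) *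
          Hs k ω (σ ω) =
          Hs k ω (σ ω) * ((g₀ : GL (MI k) F₀) : Matrix (MI k) (MI k) F₀).map j := by
        rw [hzg]
        exact hg₀
      refine ⟨g₀, z * g, (hCP g₀ (z * g) hzgH).2 (by rw [map_mul, hεz, hgε', one_mul]), hzgH, ?_⟩
      rw [map_mul, hz1, one_mul]
    · rintro ⟨g₀, g, hg₀, hgH, rfl⟩
      refine Subgroup.mem_inf.2 ⟨?_, ?_⟩
      · rw [hIE F (k + 1) ε hε]
        exact ⟨g, (hCP g₀ g hgH).1 hg₀, rfl⟩
      · rw [hcent, comm_of_compat j σ hj k ω (σ ω) Hσ' hHσ hmap b g hb _ hgH]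
  refine ⟨hi, ?_⟩
  have hcancel : ∀ x y : GO (k + 1) F,
      ((x : GL (PI k) F) : Matrix (PI k) (PI k) F) * Hs k ω (σ ω) =
        ((y : GL (PI k) F) : Matrix (PI k) (PI k) F) * Hs k ω (σ ω) → x = y :=
    fun x y h => go_ext (cancel_right hHH' h)
  obtain ⟨Θ, hΘ⟩ : ∃ Θ : GOq (Cfsg.quadFormMinus k F₀ a₀ b₀) →* GO (k + 1) F,
      ∀ g₀ : GOq (Cfsg.quadFormMinus k F₀ a₀ b₀),
        ((Θ g₀ : GL (PI k) F) : Matrix (PI k) (PI k) F) * Hs k ω (σ ω) =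
          Hs k ω (σ ω) * ((g₀ : GL (MI k) F₀) : Matrix (MI k) (MI k) F₀).map j := by
    choose θ hθ using (fun g₀ => hTH F₀ F j k a₀ b₀ ω (σ ω) hω1 hω2 (Ne.symm hω3) g₀)
    refine ⟨MonoidHom.mk' θ ?_, hθ⟩
    intro x y
    apply hcancel
    show ((θ (x * y) : GL (PI k) F) : Matrix (PI k) (PI k) F) * Hs k ω (σ ω) =
      (((θ x : GL (PI k) F) : Matrix (PI k) (PI k) F) *
        ((θ y : GL (PI k) F) : Matrix (PI k) (PI k) F)) * Hs k ω (σ ω)
    rw [hθ, Matrix.mul_assoc, hθ, ← Matrix.mul_assoc, hθ, Matrix.mul_assoc]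
    congr 1
    show (((x : GL (MI k) F₀) : Matrix (MI k) (MI k) F₀) *
      ((y : GL (MI k) F₀) : Matrix (MI k) (MI k) F₀)).map j = _
    exact Matrix.map_mul
  obtain ⟨G₀, hG₀⟩ : ∃ G₀ : Subgroup (GOq (Cfsg.quadFormMinus k F₀ a₀ b₀)),
      G₀ = (Cfsg.inndiagPOmegaMinus k F₀ a₀ b₀).comap (Phi (Cfsg.quadFormMinus k F₀ a₀ b₀)) :=
    ⟨_, rfl⟩
  have hmemG : ∀ g : GOq (Cfsg.quadFormMinus k F₀ a₀ b₀), g ∈ G₀ ↔
      Phi (Cfsg.quadFormMinus k F₀ a₀ b₀) g ∈ Cfsg.inndiagPOmegaMinus k F₀ a₀ b₀ := by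
    intro g
    rw [hG₀]
    exact Subgroup.mem_comap
  obtain ⟨f, hf⟩ : ∃ f : ↥G₀ →* MulAut (Cfsg.POmega F₀ (Cfsg.quadFormMinus k F₀ a₀ b₀)),
      f = (Phi (Cfsg.quadFormMinus k F₀ a₀ b₀)).comp G₀.subtype := ⟨_, rfl⟩
  obtain ⟨h, hh⟩ : ∃ h : ↥G₀ →* MulAut (Cfsg.POmega F (Cfsg.quadFormPlus (k + 1) F)),
      h = ((Phi (Cfsg.quadFormPlus (k + 1) F)).comp Θ).comp G₀.subtype := ⟨_, rfl⟩
  have hfa : ∀ g : ↥G₀, f g = Phi (Cfsg.quadFormMinus k F₀ a₀ b₀) g.1 := by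
    intro g
    rw [hf]
    rfl
  have hha : ∀ g : ↥G₀, h g = Phi (Cfsg.quadFormPlus (k + 1) F) (Θ g.1) := by
    intro g
    rw [hh]
    rfl
  have hker : f.ker = h.ker := by
    ext g
    rw [MonoidHom.mem_ker, MonoidHom.mem_ker, hfa, hha]
    exact hKC F₀ F j k hk a₀ b₀ hab₀ ω (σ ω) hω1 hω2 (Ne.symm hω3) g.1 (Θ g.1) (hΘ g.1)
  have hfr : f.range = Cfsg.inndiagPOmegaMinus k F₀ a₀ b₀ := by
    ext d
    constructor
    · rintro ⟨g, rfl⟩
      rw [hfa]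
      exact (hmemG g.1).1 g.2
    · intro hd
      obtain ⟨g, rfl⟩ := hILR F₀ k a₀ b₀ hd
      exact ⟨⟨g, (hmemG g).2 hd⟩, hfa _⟩
  have hhr : h.range = Cfsg.inndiagPOmegaPlus (k + 1) F ⊓ Subgroup.centralizer
      {Phi (Cfsg.quadFormPlus (k + 1) F) b * cσ σ} := by
    ext d
    constructor
    · rintro ⟨g, rfl⟩
      rw [hha]
      exact (hi _).2 ⟨g.1, Θ g.1, (hmemG g.1).1 g.2, hΘ g.1, rfl⟩
    · intro hd
      obtain ⟨g₀, g, hg₀, hgH, rfl⟩ := (hi d).1 hd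
      refine ⟨⟨g₀, (hmemG g₀).2 hg₀⟩, ?_⟩
      rw [hha]
      have e : Θ g₀ = g := hcancel _ _ ((hΘ g₀).trans hgH.symm)
      rw [e]
  obtain ⟨E⟩ := Cfsg.Agent.Lib.Helper44.MCentFin.range_equiv f h hker
  exact ⟨(MulEquiv.subgroupCongr hhr.symm).trans (E.trans (MulEquiv.subgroupCongr hfr))⟩

end TwoFields

end Cfsg.Agent.Lib.Helper43.GFCI
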