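import Mathlib
import Cfsg.Agent.Lib.Helper43.M3Frob
import Cfsg.Agent.Lib.Helper43.M3Grp
import Cfsg.Agent.Lib.Helper43.MAutGS
import Cfsg.Agent.Lib.Helper45.MinusInndiag
import Cfsg.Agent.Lib.Helper45.SemiAut
import Cfsg.Agent.Lib.Helper65.MFldGA
import Cfsg.Agent.Lib.Helper69.MFldNO
import Cfsg.Agent.Lib.Helper97.MFldMB
import Cfsg.Agent.Lib.Helper72.MAutSU

set_option autoImplicit false

/-! Odd characteristic: the structure of `Out(PΩ⁻_{2n+2}(F))` from `Aut = PΓO⁻`, the structure of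
`PGO⁻/Inn` and of `Inndiag/Inn`. -/

namespace Cfsg.Agent.Lib.Helper43.M3Out

open Matrix
open Cfsg.Agent.Lib.Helper94.Basic
  Cfsg.Agent.Lib.Helper45.OmegaAut Cfsg.Agent.Lib.Helper43.SemiSim
  Cfsg.Agent.Lib.Helper43.M2Semi Cfsg.Agent.Lib.Helper43.MiBase
  Cfsg.Agent.Lib.Helper43.M2Frob Cfsg.Agent.Lib.Helper43.M3Frob
  Cfsg.Agent.Lib.Helper43.MAutGS Cfsg.Agent.Lib.Helper43.M3Grp
  Cfsg.Agent.Lib.Helper44.MFld0 Cfsg.Agent.Lib.Helper44.MFldStmt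
  Cfsg.Agent.Lib.Helper44.QSpace Cfsg.Agent.Lib.Helper44.NegPairs
  Cfsg.Agent.Lib.Helper45.OmegaAutPsi Cfsg.Agent.Lib.Helper45.OmegaAutMain
  Cfsg.Agent.Lib.Helper45.OmegaInndiag Cfsg.Agent.Lib.Helper45.MinusInndiag

universe u

section Generic

variable {ι : Type} [Fintype ι] [DecidableEq ι] {F : Type u} [Field F] {Q : (ι → F) → F}

theorem pair_mem_GO {s : GL ι F} {c : F} (hs : SemiPair Q s (RingEquiv.refl F) c) :
    s ∈ Cfsg.Geo.quadSimilarityGroup (F := F) Q :=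
  ⟨Units.mk0 c hs.1, fun v => hs.2 v⟩

/-- a linear pair induces `Phi` -/
theorem semiAut_eq_Phi {s : GL ι F} {c : F} (hs : SemiPair Q s (RingEquiv.refl F) c)
    (hmem : s ∈ Cfsg.Geo.quadSimilarityGroup (F := F) Q) : semiAut hs = Phi Q ⟨s, hmem⟩ := by
  apply MulEquiv.ext
  intro x
  induction x using QuotientGroup.induction_on with
  | H t =>
    rw [semiAut_mk, Phi_mk]
    congr 1

/-- every element of `PΓO` is a similarity-induced automorphism times a power of a given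
semilinear isometry whose field automorphism generates `Aut(F)` -/
theorem decomp {φ : RingAut F} (hφ : ∀ σ : F ≃+* F, ∃ k : ℕ, σ = (φ ^ k : RingAut F))
    {g₀ : GL ι F} (h₀ : SemiPair Q g₀ φ 1) (α : MulAut (Cfsg.POmega F Q))
    (hα : α ∈ Cfsg.gammaPOmega F Q) :
    ∃ ρ ∈ (Phi Q).range, ∃ k : ℕ, α = ρ * semiAut h₀ ^ k := by
  obtain ⟨g, σ, c, hgc, rfl⟩ := gamma_semi α hα
  obtain ⟨k, rfl⟩ := hφ σ
  obtain ⟨hk, ek⟩ := pow_pair h₀ k
  have hs : SemiPair Q (g * (tw g₀ φ k)⁻¹) (RingEquiv.refl F) c := by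
    refine ⟨hgc.1, fun v => ?_⟩
    obtain ⟨y, rfl⟩ := Lσ_surj (tw g₀ φ k) (φ ^ k : RingAut F) v
    have e : ((g * (tw g₀ φ k)⁻¹ : GL ι F) : Matrix ι ι F) *ᵥ
        (fun i => (RingEquiv.refl F) (Lσ (tw g₀ φ k) (φ ^ k : RingAut F) y i)) =
          Lσ g (φ ^ k : RingAut F) y := by
      show ((g * (tw g₀ φ k)⁻¹ : GL ι F) : Matrix ι ι F) *ᵥ
        (((tw g₀ φ k : GL ι F) : Matrix ι ι F) *ᵥ fun i => (φ ^ k : RingAut F) (y i)) =
          (g : Matrix ι ι F) *ᵥ fun i => (φ ^ k : RingAut F) (y i)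
      rw [Matrix.mulVec_mulVec, ← Units.val_mul, inv_mul_cancel_right]
    rw [e, hgc.Q_L, hk.Q_L, one_mul]
    rfl
  have e1 : semiAut hgc = semiAut hs * semiAut hk := by
    rw [semiAut_mul]
    apply semiAut_ext
    intro s
    have e : ((φ ^ k : RingAut F) : F ≃+* F).trans (RingEquiv.refl F) = (φ ^ k : RingAut F) := by
      ext x
      rfl
    rw [map_refl, e, inv_mul_cancel_right]
  exact ⟨semiAut hs, ⟨⟨_, pair_mem_GO hs⟩, (semiAut_eq_Phi hs _).symm⟩, k, by rw [ek]; exact e1⟩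

theorem mem_of_map_mem {G : Type*} [Group G] (I H : Subgroup G) [I.Normal] (hIH : I ≤ H) {α : G}
    (h : QuotientGroup.mk' I α ∈ H.map (QuotientGroup.mk' I)) : α ∈ H := by
  obtain ⟨ρ, hρ, hρα⟩ := h
  have h1 : ρ⁻¹ * α ∈ I := QuotientGroup.eq.1 hρα
  have h2 : α = ρ * (ρ⁻¹ * α) := by group
  rw [h2]
  exact H.mul_mem hρ (hIH h1)

end Generic

section Minus

variable {F : Type u} [Field F] [Fintype F] {n : ℕ} (p : ℕ) [Fact p.Prime] [CharP F p]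

theorem hv0 (a b : F) : minusQ n F a b (wv ![1, 0]) ≠ 0 := by
  show Cfsg.quadFormMinus n F a b (wv ![1, 0]) ≠ 0
  rw [Q_wv]
  simp [N]

/-- the `f`-th power of the Frobenius-semilinear isometry is induced by the conjugation -/
theorem conj_pair (a b : F)
    (hab : ∀ z₁ z₂ : F, z₁ ^ 2 + a * z₁ * z₂ + b * z₂ ^ 2 = 0 → z₁ = 0 ∧ z₂ = 0)
    (f : ℕ) (hF : Fintype.card F = p ^ f) :
    ∃ hr : SemiPair (Cfsg.quadFormMinus n F a b) (gU n (-1) a (neg_ne_zero.2 one_ne_zero))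
        (RingEquiv.refl F) 1,
      semiAut (pairP (m := n) p a b hab) ^ f = semiAut hr := by
  obtain ⟨hf, ef⟩ := pow_pair (pairP (m := n) p a b hab) f
  have hr : SemiPair (Cfsg.quadFormMinus n F a b) (gU n (-1) a (neg_ne_zero.2 one_ne_zero))
      (RingEquiv.refl F) 1 := by
    have h := hf
    rw [twP_f p a b hab f hF, frobP_pow_f p f hF] at h
    exact h
  refine ⟨hr, ?_⟩
  rw [ef]
  apply semiAut_ext
  intro s
  rw [twP_f p a b hab f hF, frobP_pow_f p f hF]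

theorem beta_pow_two (a b : F)
    (hab : ∀ z₁ z₂ : F, z₁ ^ 2 + a * z₁ * z₂ + b * z₂ ^ 2 = 0 → z₁ = 0 ∧ z₂ = 0)
    (f : ℕ) (hF : Fintype.card F = p ^ f) :
    semiAut (pairP (m := n) p a b hab) ^ (2 * f) = 1 := by
  obtain ⟨hr, e⟩ := conj_pair (n := n) p a b hab f hF
  rw [mul_comm, pow_mul, e, pow_two, semiAut_mul]
  have h1 : semiAut (pair_mul hr hr) =
      semiAut (one_pair (Q := Cfsg.quadFormMinus n F a b)) := by
    apply semiAut_ext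
    intro s
    rw [map_refl, conj_sq]
    rfl
  rw [h1, semiAut_one]

/-- the field part is faithful modulo `PGO` -/
theorem beta_pow_mem (hn : 3 ≤ n) (a b : F)
    (hab : ∀ z₁ z₂ : F, z₁ ^ 2 + a * z₁ * z₂ + b * z₂ ^ 2 = 0 → z₁ = 0 ∧ z₂ = 0)
    (f : ℕ) (hF : Fintype.card F = p ^ f) (k : ℕ)
    (h : semiAut (pairP (m := n) p a b hab) ^ k ∈ (Phi (Cfsg.quadFormMinus n F a b)).range) :
    f ∣ k := by
  obtain ⟨hk, ek⟩ := pow_pair (pairP (m := n) p a b hab) k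
  have h1 := Cfsg.Agent.Lib.Helper72.MAutSU.main F n hn a b hab _ 1
    ((frobP F p ^ k : RingAut F) : F ≃+* F) (RingEquiv.refl F) (isPair hk)
    (isPair (one_pair (Q := Cfsg.quadFormMinus n F a b))) (by
      rw [semiP_eq (isPair hk) hk, semiP_eq (isPair one_pair) one_pair, semiAut_one, inv_one,
        mul_one, ← ek]
      exact h)
  exact dvd_of_frobP_pow p f hF k h1

/-- the conjugation is not inner-diagonal -/
theorem conj_not_inndiag (h2 : (2 : F) ≠ 0) (hn : 3 ≤ n) (a b : F)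
    (hab : ∀ z₁ z₂ : F, z₁ ^ 2 + a * z₁ * z₂ + b * z₂ ^ 2 = 0 → z₁ = 0 ∧ z₂ = 0)
    (hr : SemiPair (Cfsg.quadFormMinus n F a b) (gU n (-1) a (neg_ne_zero.2 one_ne_zero))
      (RingEquiv.refl F) 1) :
    semiAut hr ∉ Cfsg.inndiagPOmegaMinus n F a b := by
  intro hmem
  have hv₀ := hv0 (n := n) a b
  have hS := Cfsg.Agent.Lib.Helper44.NegPairs.sep_minusQ h2 n a b hab
  have hcard : Fintype.card ((Fin n ⊕ Fin n) ⊕ Fin 2) = 2 * (n + 1) := by
    simp only [Fintype.card_sum, Fintype.card_fin]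
    omega
  rw [inndiag_minus_eq h2 n hab hv₀] at hmem
  obtain ⟨s, hs, hse⟩ := hmem
  have hrGO : gU n (-1) a (neg_ne_zero.2 one_ne_zero) ∈
      Cfsg.Geo.quadSimilarityGroup (F := F) ⇑(minusQ n F a b) := pair_mem_GO hr
  have hse' : Phi ⇑(minusQ n F a b) s = Phi ⇑(minusQ n F a b) ⟨_, hrGO⟩ := by
    rw [hse]
    exact semiAut_eq_Phi hr hrGO
  have hker : s⁻¹ * ⟨_, hrGO⟩ ∈ (Phi ⇑(minusQ n F a b)).ker := by
    rw [MonoidHom.mem_ker, map_mul, map_inv, hse', inv_mul_cancel]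
  have hG0 := ker_le_G0 (minusQ n F a b) h2 hS hv₀ hcard (by rw [hcard]; omega) hker
  have hr0 : (⟨_, hrGO⟩ : ↥(Cfsg.Geo.quadSimilarityGroup (F := F) ⇑(minusQ n F a b))) ∈
      G0 (minusQ n F a b) hv₀ (n + 1) := by
    have h := Subgroup.mul_mem _ hs hG0
    rw [mul_inv_cancel_left] at h
    exact h
  have hiso : gU n (-1) a (neg_ne_zero.2 one_ne_zero) ∈
      Cfsg.isometryGroup F ⇑(minusQ n F a b) := by
    rw [mem_isometryGroup_iff]
    intro v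
    have h := hr.2 v
    rw [one_mul] at h
    exact h
  rw [mem_G0, dl_apply, mu_iso (minusQ n F a b) hv₀ _ hiso, inv_one, one_pow, mul_one] at hr0
  have h3 := congrArg Units.val hr0
  rw [Matrix.GeneralLinearGroup.val_det_apply] at h3
  have h4 := conj_det (m := n) a
  rw [h4] at h3
  apply h2
  have h5 : (-1 : F) = 1 := h3
  linear_combination -h5

theorem inndiag_normal (h2 : (2 : F) ≠ 0) (a b : F)
    (hab : ∀ z₁ z₂ : F, z₁ ^ 2 + a * z₁ * z₂ + b * z₂ ^ 2 = 0 → z₁ = 0 ∧ z₂ = 0)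
    (hΓ : Cfsg.gammaPOmega F (Cfsg.quadFormMinus n F a b) = ⊤) :
    (Cfsg.inndiagPOmegaMinus n F a b).Normal := by
  refine ⟨fun δ hδ α => ?_⟩
  obtain ⟨g, σ, c, h, rfl⟩ := gamma_semi α (by rw [hΓ]; exact Subgroup.mem_top α)
  have h1 := Cfsg.Agent.Lib.Helper69.MFldNO.main Cfsg.Agent.Lib.Helper65.MFldGA.semiConj F n a b
    hab h2 g σ (isPair h) δ hδ
  rw [semiP_eq (isPair h) h] at h1
  exact h1

theorem inn_le_inndiag (h2 : (2 : F) ≠ 0) (a b : F)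
    (hab : ∀ z₁ z₂ : F, z₁ ^ 2 + a * z₁ * z₂ + b * z₂ ^ 2 = 0 → z₁ = 0 ∧ z₂ = 0) :
    Cfsg.Inn (Cfsg.POmega F (Cfsg.quadFormMinus n F a b)) ≤ Cfsg.inndiagPOmegaMinus n F a b := by
  rw [inndiag_minus_eq h2 n hab (hv0 a b)]
  exact inn_le_D0 (minusQ n F a b) (hv0 a b) (n + 1)

theorem inndiag_le_pgo (a b : F) :
    Cfsg.inndiagPOmegaMinus n F a b ≤ Cfsg.pgoAut F (Cfsg.quadFormMinus n F a b) := by
  rw [pgo_eq]
  exact Cfsg.Agent.Lib.Helper97.MFldMB.inndiagLeRange F n a b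

theorem inn_le_pgo (a b : F) :
    Cfsg.Inn (Cfsg.POmega F (Cfsg.quadFormMinus n F a b)) ≤
      Cfsg.pgoAut F (Cfsg.quadFormMinus n F a b) := by
  rw [pgo_eq]
  exact Cfsg.Agent.Lib.Helper45.SemiAut.inn_le

/-- the element of `Out` and its properties -/
theorem out_core (h2 : (2 : F) ≠ 0) (hn : 3 ≤ n) (a b : F)
    (hab : ∀ z₁ z₂ : F, z₁ ^ 2 + a * z₁ * z₂ + b * z₂ ^ 2 = 0 → z₁ = 0 ∧ z₂ = 0)
    (f : ℕ) (hF : Fintype.card F = p ^ f)
    (hΓ : Cfsg.gammaPOmega F (Cfsg.quadFormMinus n F a b) = ⊤) :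
    ∃ x : Cfsg.Out (Cfsg.POmega F (Cfsg.quadFormMinus n F a b)),
      (∀ k : ℕ, x ^ k ∈ (Cfsg.pgoAut F (Cfsg.quadFormMinus n F a b)).map
          (QuotientGroup.mk' (Cfsg.Inn (Cfsg.POmega F (Cfsg.quadFormMinus n F a b)))) → f ∣ k) ∧
      x ^ (2 * f) = 1 ∧
      x ^ f ∈ (Cfsg.pgoAut F (Cfsg.quadFormMinus n F a b)).map
          (QuotientGroup.mk' (Cfsg.Inn (Cfsg.POmega F (Cfsg.quadFormMinus n F a b)))) ∧
      x ^ f ∉ (Cfsg.inndiagPOmegaMinus n F a b).map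
          (QuotientGroup.mk' (Cfsg.Inn (Cfsg.POmega F (Cfsg.quadFormMinus n F a b)))) ∧
      ∀ o : Cfsg.Out (Cfsg.POmega F (Cfsg.quadFormMinus n F a b)),
        ∃ e ∈ (Cfsg.pgoAut F (Cfsg.quadFormMinus n F a b)).map
          (QuotientGroup.mk' (Cfsg.Inn (Cfsg.POmega F (Cfsg.quadFormMinus n F a b)))),
          ∃ k : ℕ, o = e * x ^ k := by
  obtain ⟨hr, er⟩ := conj_pair (n := n) p a b hab f hF
  refine ⟨QuotientGroup.mk' _ (semiAut (pairP (m := n) p a b hab)), ?_, ?_, ?_, ?_, ?_⟩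
  · intro k hk
    rw [← map_pow] at hk
    have h1 := mem_of_map_mem _ _ (inn_le_pgo a b) hk
    rw [pgo_eq] at h1
    exact beta_pow_mem p hn a b hab f hF k h1
  · rw [← map_pow, beta_pow_two p a b hab f hF, map_one]
  · rw [← map_pow, er]
    apply Subgroup.mem_map_of_mem
    rw [pgo_eq, semiAut_eq_Phi hr (pair_mem_GO hr)]
    exact ⟨_, rfl⟩
  · intro hmem
    rw [← map_pow, er] at hmem
    exact conj_not_inndiag h2 hn a b hab hr (mem_of_map_mem _ _ (inn_le_inndiag h2 a b hab) hmem)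
  · intro o
    obtain ⟨α, rfl⟩ := QuotientGroup.mk_surjective o
    obtain ⟨ρ, hρ, k, rfl⟩ := decomp (exists_frobP_pow p) (pairP (m := n) p a b hab) α
      (by rw [hΓ]; exact Subgroup.mem_top α)
    refine ⟨QuotientGroup.mk' _ ρ, Subgroup.mem_map_of_mem _ (by rw [pgo_eq]; exact hρ), k, ?_⟩
    rw [← map_pow, ← map_mul]
    rfl

/-- the case `PGO⁻/Inn` of order 4 -/
theorem out_B (h2 : (2 : F) ≠ 0) (hn : 3 ≤ n) (a b : F)
    (hab : ∀ z₁ z₂ : F, z₁ ^ 2 + a * z₁ * z₂ + b * z₂ ^ 2 = 0 → z₁ = 0 ∧ z₂ = 0)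
    (f : ℕ) (hf : 0 < f) (hF : Fintype.card F = p ^ f)
    (hΓ : Cfsg.gammaPOmega F (Cfsg.quadFormMinus n F a b) = ⊤)
    (hE : ∃ φ : ↥(Cfsg.pgoAut F (Cfsg.quadFormMinus n F a b)) →* Multiplicative (ZMod 2 × ZMod 2),
      Function.Surjective φ ∧ φ.ker = (Cfsg.Inn (Cfsg.POmega F (Cfsg.quadFormMinus n F a b))).subgroupOf
        (Cfsg.pgoAut F (Cfsg.quadFormMinus n F a b)))
    (hD : ∃ φ : ↥(Cfsg.inndiagPOmegaMinus n F a b) →* Multiplicative (ZMod 2),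
      Function.Surjective φ ∧ φ.ker = (Cfsg.Inn (Cfsg.POmega F (Cfsg.quadFormMinus n F a b))).subgroupOf
        (Cfsg.inndiagPOmegaMinus n F a b)) :
    Nonempty (Cfsg.Out (Cfsg.POmega F (Cfsg.quadFormMinus n F a b)) ≃*
      Multiplicative (ZMod 2 × ZMod (2 * f))) := by
  haveI : Finite (Cfsg.POmega F (Cfsg.quadFormMinus n F a b)) := by
    unfold Cfsg.POmega
    infer_instance
  haveI := inndiag_normal h2 a b hab hΓ
  haveI : ((Cfsg.inndiagPOmegaMinus n F a b).map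
      (QuotientGroup.mk' (Cfsg.Inn (Cfsg.POmega F (Cfsg.quadFormMinus n F a b))))).Normal :=
    Subgroup.Normal.map inferInstance _ (QuotientGroup.mk'_surjective _)
  obtain ⟨x, hxE, hx2, hxfE, hxfD, hgen⟩ := out_core p h2 hn a b hab f hF hΓ
  obtain ⟨φE, hEs, hEk⟩ := hE
  obtain ⟨φD, hDs, hDk⟩ := hD
  obtain ⟨eE⟩ := map_equiv _ _ φE hEs hEk
  obtain ⟨eD⟩ := map_equiv _ _ φD hDs hDk
  exact split_B f hf _ _ (Subgroup.map_mono (inndiag_le_pgo a b))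
    (by rw [Nat.card_congr eD.toEquiv, Nat.card_eq_fintype_card]; rfl)
    (by rw [Nat.card_congr eE.toEquiv, Nat.card_eq_fintype_card]; rfl) x hxE hx2 hxfE hxfD hgen

/-- the dihedral case -/
theorem out_A (h2 : (2 : F) ≠ 0) (hn : 3 ≤ n) (a b : F)
    (hab : ∀ z₁ z₂ : F, z₁ ^ 2 + a * z₁ * z₂ + b * z₂ ^ 2 = 0 → z₁ = 0 ∧ z₂ = 0)
    (f : ℕ) (hf : Odd f) (hF : Fintype.card F = p ^ f)
    (hΓ : Cfsg.gammaPOmega F (Cfsg.quadFormMinus n F a b) = ⊤)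
    (hE : ∃ φ : ↥(Cfsg.pgoAut F (Cfsg.quadFormMinus n F a b)) →* DihedralGroup 4,
      Function.Surjective φ ∧ φ.ker = (Cfsg.Inn (Cfsg.POmega F (Cfsg.quadFormMinus n F a b))).subgroupOf
        (Cfsg.pgoAut F (Cfsg.quadFormMinus n F a b)))
    (hD : ∃ φ : ↥(Cfsg.inndiagPOmegaMinus n F a b) →* Multiplicative (ZMod 4),
      Function.Surjective φ ∧ φ.ker = (Cfsg.Inn (Cfsg.POmega F (Cfsg.quadFormMinus n F a b))).subgroupOf
        (Cfsg.inndiagPOmegaMinus n F a b)) :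
    Nonempty (Cfsg.Out (Cfsg.POmega F (Cfsg.quadFormMinus n F a b)) ≃*
      DihedralGroup 4 × Multiplicative (ZMod f)) := by
  haveI : Finite (Cfsg.POmega F (Cfsg.quadFormMinus n F a b)) := by
    unfold Cfsg.POmega
    infer_instance
  haveI := inndiag_normal h2 a b hab hΓ
  haveI : ((Cfsg.inndiagPOmegaMinus n F a b).map
      (QuotientGroup.mk' (Cfsg.Inn (Cfsg.POmega F (Cfsg.quadFormMinus n F a b))))).Normal :=
    Subgroup.Normal.map inferInstance _ (QuotientGroup.mk'_surjective _)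
  obtain ⟨x, hxE, hx2, hxfE, hxfD, hgen⟩ := out_core p h2 hn a b hab f hF hΓ
  obtain ⟨φE, hEs, hEk⟩ := hE
  obtain ⟨φD, hDs, hDk⟩ := hD
  obtain ⟨eE⟩ := map_equiv _ _ φE hEs hEk
  obtain ⟨eD⟩ := map_equiv _ _ φD hDs hDk
  exact split_A f hf _ _ (Subgroup.map_mono (inndiag_le_pgo a b))
    (isCyclic_of_surjective eD.symm eD.symm.surjective)
    (by rw [Nat.card_congr eD.toEquiv, Nat.card_eq_fintype_card]; rfl) ⟨eE⟩ x hxE hx2 hxfE hxfD
    hgen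

end Minus

theorem odd_of_pow_mod {p f : ℕ} (h : p ^ f % 4 = 3) : Odd f := by
  by_contra hne
  rw [Nat.not_odd_iff_even] at hne
  obtain ⟨j, rfl⟩ := hne
  rw [pow_add] at h
  have h1 := Nat.mul_mod (p ^ j) (p ^ j) 4
  have h2 := Nat.mod_lt (p ^ j) (by norm_num : 0 < 4)
  rw [h] at h1
  generalize p ^ j % 4 = t at h1 h2
  interval_cases t <;> omega

theorem charP_of_card {F : Type*} [Field F] [Fintype F] {p f : ℕ} [Fact p.Prime] (hf : 1 ≤ f)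
    (hF : Fintype.card F = p ^ f) : CharP F p := by
  obtain ⟨p', hp'⟩ := CharP.exists F
  haveI := hp'
  obtain ⟨m, hm1, hm2⟩ := FiniteField.card F p'
  have h1 : p ∣ p' ^ (m : ℕ) := by
    rw [← hm2, hF]
    exact dvd_pow_self p (by omega)
  have h2 : p = p' :=
    (Nat.prime_dvd_prime_iff_eq (Fact.out) hm1).1 (Nat.Prime.dvd_of_dvd_pow Fact.out h1)
  rw [h2]
  exact hp'

end Cfsg.Agent.Lib.Helper43.M3Out
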