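import Mathlib
import Cfsg.Agent.Lib.Helper43.MiLine
import Cfsg.Agent.Lib.Helper43.OPlFin


set_option autoImplicit false

namespace Cfsg.Agent.Lib.Helper43.MiFin

open Matrix
open Cfsg.Agent.Lib.Helper94.Basic Cfsg.Agent.Lib.Helper94.GLAux Cfsg.Agent.Lib.Helper94.Tv
  Cfsg.Agent.Lib.Helper94.QuadAbs Cfsg.Agent.Lib.Helper94.OrthSiegel
  Cfsg.Agent.Lib.Helper43.MiBase Cfsg.Agent.Lib.Helper43.MiRoot
  Cfsg.Agent.Lib.Helper43.MiRigid Cfsg.Agent.Lib.Helper43.OOdGen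
  Cfsg.Agent.Lib.Helper43.MiSyl Cfsg.Agent.Lib.Helper43.OPlGeo
  Cfsg.Agent.Lib.Helper43.MiLine Cfsg.Agent.Lib.Helper45.OmegaAut
open Cfsg.Agent.Lib.Helper43.OPlRoot (sg_add_left sg_inv sg_swap sg_self sg_conj_sim swap_inj
  exists_other)
open Cfsg.Agent.Lib.Helper43.OPlCent (sw1 sw2)
open Cfsg.Agent.Lib.Helper43.OPlLine (TS_isom Ind_gl NO ne_of_idx)
open Cfsg.Agent.Lib.Helper43.OPlFin (polar_sum_right Q_sum_perp NO_ll NO_lr NO_rl NO_rr)
open Cfsg.Agent.Lib.Helper94.SympAbs (bil_zero_left bil_zero_right bil_neg_left bil_neg_right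
  bil_sub_left bil_sub_right)

universe u

variable {F : Type u} [Field F] [Fintype F] {m : ℕ} {A B : F}

/-- root elements of two lines through a common point have commuting images -/
theorem comm_of_common_pt (hm : Hy m F A B) (p : ℕ) [Fact p.Prime] [CharP F p]
    (α : MulAut (Cfsg.POmega F (Cfsg.quadFormMinus m F A B))) {a e b d : Fin m ⊕ Fin m}
    (hae : NO a e) (hbd : NO b d) {q : MI m → F} (hq0 : q ≠ 0)
    (hq1 : q ∈ Ln hm p α a e) (hq2 : q ∈ Ln hm p α b d)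
    {x y : Cfsg.POmega F (Cfsg.quadFormMinus m F A B)} (hx : x ∈ RG hm (E a) (E e))
    (hy : y ∈ RG hm (E b) (E d)) : α x * α y = α y * α x := by
  obtain ⟨u1, v1, h1, i1, e1, l1⟩ := Ln_spec hm p α hae
  obtain ⟨u2, v2, h2, i2, e2, l2⟩ := Ln_spec hm p α hbd
  rw [l1] at hq1
  rw [l2] at hq2
  have hx' : α x ∈ RG hm u1 v1 := by
    rw [← e1]
    exact ⟨x, hx, rfl⟩
  have hy' : α y ∈ RG hm u2 v2 := by
    rw [← e2]
    exact ⟨y, hy, rfl⟩
  obtain ⟨τ1, hτ1⟩ := hx'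
  obtain ⟨τ2, hτ2⟩ := hy'
  obtain ⟨w1, hw1, hs1⟩ := line_through (hQ hm) h1 hq1 hq0 τ1
  obtain ⟨w2, hw2, hs2⟩ := line_through (hQ hm) h2 hq2 hq0 τ2
  rw [hτ1, hτ2, rt_congr hm hs1, rt_congr hm hs2]
  have hQq : Cfsg.quadFormMinus m F A B q = 0 := Q_span (hQ hm) h1 hq1
  have hB1 : QuadraticMap.polar (Cfsg.quadFormMinus m F A B) q w1 = 0 := B_span (hQ hm) h1 hq1 hw1
  have hB2 : QuadraticMap.polar (Cfsg.quadFormMinus m F A B) q w2 = 0 := B_span (hQ hm) h2 hq2 hw2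
  rw [← rt_add hm _ _ _ hQq hB1 hB2, ← rt_add hm _ _ _ hQq hB2 hB1, add_comm]

/-- the image of the frame -/
theorem main_pts (hm : Hy m F A B) (p : ℕ) [Fact p.Prime] [CharP F p]
    (α : MulAut (Cfsg.POmega F (Cfsg.quadFormMinus m F A B))) :
    ∃ P : Fin m ⊕ Fin m → MI m → F,
      (∀ a b, NO a b → TS (Cfsg.quadFormMinus m F A B) (P a) (P b) ∧ Ind (P a) (P b) ∧
        α '' RG hm (E a) (E b) = RG hm (P a) (P b)) ∧
      ∀ a, QuadraticMap.polar (Cfsg.quadFormMinus m F A B) (P a) (P a.swap) ≠ 0 := by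
  obtain ⟨P, hP⟩ := exists_pts hm p α
  have hInd : ∀ a b, NO a b → Ind (P a) (P b) := by
    intro a b hab s t hst
    by_contra hne
    have hs : s ≠ 0 := by
      intro hs0
      rw [hs0, zero_smul, zero_add] at hst
      rcases smul_eq_zero.1 hst with h | h
      · exact hne ⟨hs0, h⟩
      · exact (hP b).1 h
    have hPa : P a = (-(t / s)) • P b := by
      have h1 : s • P a = (-t) • P b := by
        linear_combination (norm := module) hst
      calc P a = s⁻¹ • (s • P a) := by rw [smul_smul, inv_mul_cancel₀ hs, one_smul]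
        _ = (-(t / s)) • P b := by
          rw [h1, smul_smul]
          congr 1
          field_simp
    obtain ⟨d, hda, hda', hdb, hdb'⟩ := exists_other hm.hm a b
    have hbd : NO b d := ⟨hdb, hdb'⟩
    have hab' : NO a b.swap := ⟨sw1 hab.2, sw2 hab.1⟩
    have hq2 : P a ∈ Ln hm p α b d := by
      rw [hPa]
      exact Submodule.smul_mem _ _ ((hP b).2 d hbd)
    have hcomm := comm_of_common_pt hm p α hab' hbd (hP a).1 ((hP a).2 _ hab') hq2
      (x := X (F := F) hm b.swap a 1) (y := X (F := F) hm b d 1)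
      (by rw [RG_symm hm hab']; exact ⟨1, rfl⟩) ⟨1, rfl⟩
    rw [← map_mul, ← map_mul] at hcomm
    have hcomm' := α.injective hcomm
    have hrel := X_rel (F := F) hm (a := b.swap) (b := a) (d := d) hab.symm.2
      (by rw [Sum.swap_swap]; exact hab.symm.1) hdb' (by rw [Sum.swap_swap]; exact hdb) hda hda'
      1 1
    rw [Sum.swap_swap, hcomm', mul_inv_cancel_right] at hrel
    have h1 : X (F := F) hm a d (1 * 1) = 1 := by
      have h2 : X (F := F) hm b d 1 * 1 = X (F := F) hm b d 1 * X (F := F) hm a d (1 * 1) := by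
        rw [mul_one]
        exact hrel
      exact (mul_left_cancel h2).symm
    have h3 := X_eq_one hm hda hda' h1
    rw [mul_one] at h3
    exact one_ne_zero h3
  have hmain : ∀ a b, NO a b → TS (Cfsg.quadFormMinus m F A B) (P a) (P b) ∧ Ind (P a) (P b) ∧
      α '' RG hm (E a) (E b) = RG hm (P a) (P b) := by
    intro a b hab
    obtain ⟨u, v, h1, i1, e1, l1⟩ := Ln_spec hm p α hab
    have ha : P a ∈ Submodule.span F ({u, v} : Set (MI m → F)) := by
      rw [← l1]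
      exact (hP a).2 b hab
    have hb : P b ∈ Submodule.span F ({u, v} : Set (MI m → F)) := by
      rw [← l1, Ln_symm hm p α hab]
      exact (hP b).2 a hab.symm
    have hTS : TS (Cfsg.quadFormMinus m F A B) (P a) (P b) :=
      ⟨Q_span (hQ hm) h1 ha, Q_span (hQ hm) h1 hb, B_span (hQ hm) h1 ha hb⟩
    refine ⟨hTS, hInd a b hab, ?_⟩
    rw [e1]
    exact (RG_eq_of_span hm h1 hTS (hInd a b hab) ha hb).symm
  refine ⟨P, hmain, ?_⟩
  intro a hzero
  obtain ⟨b, hb, hb', -, -⟩ := exists_other hm.hm a a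
  obtain ⟨c, hc, hc', hcb, hcb'⟩ := exists_other hm.hm a b
  have hab : NO a b := ⟨hb, hb'⟩
  have hac : NO a c := ⟨hc, hc'⟩
  have hbc : NO b c := ⟨hcb, hcb'⟩
  have ha'c : NO a.swap c := ⟨hc', by rw [Sum.swap_swap]; exact hc⟩
  have hba' : NO b a.swap := ⟨Ne.symm hb', fun h => hb (swap_inj h).symm⟩
  obtain ⟨t1, i1, e1⟩ := hmain a b hab
  obtain ⟨t2, i2, e2⟩ := hmain a.swap c ha'c
  have hx : α (X (F := F) hm a b 1) ∈ RG hm (P a) (P b) := by
    rw [← e1]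
    exact ⟨_, ⟨1, rfl⟩, rfl⟩
  have hy : α (X (F := F) hm a.swap c 1) ∈ RG hm (P a.swap) (P c) := by
    rw [← e2]
    exact ⟨_, ⟨1, rfl⟩, rfl⟩
  obtain ⟨τ1, hτ1⟩ := hx
  obtain ⟨τ2, hτ2⟩ := hy
  have hbl := (hQ hm).polar_bilinear
  have hperp : Perp (Cfsg.quadFormMinus m F A B) (P a) (τ1 • P b) (P a.swap) (τ2 • P c) := by
    refine ⟨hzero, ?_, ?_, ?_⟩
    · rw [hbl.smul_right, (hmain a c hac).1.2.2, mul_zero]
    · rw [hbl.smul_left, (hmain b a.swap hba').1.2.2, mul_zero]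
    · rw [hbl.smul_left, hbl.smul_right, (hmain b c hbc).1.2.2, mul_zero, mul_zero]
  have hsg := sg_comm_perp (hQ hm) (t1.smul_right (hQ hm) τ1) (t2.smul_right (hQ hm) τ2) hperp
  have hcomm := rt_comm_of_sg hm hsg
  rw [← hτ1, ← hτ2, ← map_mul, ← map_mul] at hcomm
  have hcomm' := α.injective hcomm
  have hrel := X_rel (F := F) hm hb hb' hc hc' hcb hcb' 1 1
  rw [hcomm', mul_inv_cancel_right] at hrel
  have h1 : X (F := F) hm b c (1 * 1) = 1 := by
    have h2 : X (F := F) hm a.swap c 1 * 1 =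
        X (F := F) hm a.swap c 1 * X (F := F) hm b c (1 * 1) := by
      rw [mul_one]
      exact hrel
    exact (mul_left_cancel h2).symm
  have h3 := X_eq_one hm hcb hcb' h1
  rw [mul_one] at h3
  exact one_ne_zero h3

/-- the Witt extension statement for hyperbolic frames -/
def WittStmt (m : ℕ) (F : Type u) [Field F] [Fintype F] (A B : F) : Prop :=
  ∀ f : Fin m ⊕ Fin m → MI m → F,
    (∀ a, Cfsg.quadFormMinus m F A B (f a) = 0) →
    (∀ i : Fin m, QuadraticMap.polar (Cfsg.quadFormMinus m F A B) (f (Sum.inl i))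
      (f (Sum.inr i)) = 1) →
    (∀ a b, b ≠ a → b ≠ a.swap →
      QuadraticMap.polar (Cfsg.quadFormMinus m F A B) (f a) (f b) = 0) →
    ∃ g : ↥(Cfsg.Geo.quadSimilarityGroup (F := F) (Cfsg.quadFormMinus m F A B)),
      (∀ v, Cfsg.quadFormMinus m F A B (((g : GL (MI m) F) :
        Matrix (MI m) (MI m) F) *ᵥ v) = Cfsg.quadFormMinus m F A B v) ∧
      ∀ a : Fin m ⊕ Fin m, ((g : GL (MI m) F) : Matrix (MI m) (MI m) F) *ᵥ
        (Pi.single (Sum.inl a) 1 : MI m → F) = f a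

theorem Phi_rt (hm : Hy m F A B)
    (g : ↥(Cfsg.Geo.quadSimilarityGroup (F := F) (Cfsg.quadFormMinus m F A B))) (ν : F) (hν : ν ≠ 0)
    (hg : ∀ v, Cfsg.quadFormMinus m F A B (((g : GL (MI m) F) :
        Matrix (MI m) (MI m) F) *ᵥ v) = ν * Cfsg.quadFormMinus m F A B v)
    (a w : MI m → F) (ha : Cfsg.quadFormMinus m F A B a = 0)
    (haw : QuadraticMap.polar (Cfsg.quadFormMinus m F A B) a w = 0) :
    Phi (Cfsg.quadFormMinus m F A B) g (rt hm a w) =
      rt hm (((g : GL (MI m) F) : Matrix (MI m) (MI m) F) *ᵥ a)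
        (ν⁻¹ • (((g : GL (MI m) F) : Matrix (MI m) (MI m) F) *ᵥ w)) := by
  unfold rt
  rw [Phi_mk]
  congr 1
  apply omega_ext
  rw [cjΩ_coe, T_coe, T_coe, sg_conj_sim (hQ hm) _ ν hν hg _ _ ha haw]

/-- **frame normalisation** -/
theorem frame_normal (hm : Hy m F A B) (hW : WittStmt m F A B)
    (α : MulAut (Cfsg.POmega F (Cfsg.quadFormMinus m F A B))) :
    ∃ g : ↥(Cfsg.Geo.quadSimilarityGroup (F := F) (Cfsg.quadFormMinus m F A B)),
      FrameStable hm ((Phi (Cfsg.quadFormMinus m F A B) g)⁻¹ * α) := by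
  obtain ⟨p, hp⟩ := CharP.exists F
  haveI : Fact p.Prime := ⟨CharP.char_is_prime F p⟩
  obtain ⟨P, hmain, hnd⟩ := main_pts hm p α
  have hbl := (hQ hm).polar_bilinear
  have hQP : ∀ a, Cfsg.quadFormMinus m F A B (P a) = 0 := by
    intro a
    obtain ⟨b, hb, hb', -, -⟩ := exists_other hm.hm a a
    exact (hmain a b ⟨hb, hb'⟩).1.1
  obtain ⟨f, hf⟩ : ∃ f : Fin m ⊕ Fin m → MI m → F,
      (∀ i : Fin m, f (Sum.inl i) = P (Sum.inl i)) ∧
      (∀ i : Fin m, f (Sum.inr i) = (1 / QuadraticMap.polar (Cfsg.quadFormMinus m F A B)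
        (P (Sum.inl i)) (P (Sum.inr i))) • P (Sum.inr i)) :=
    ⟨fun a => Sum.elim (fun i => P (Sum.inl i))
      (fun i => (1 / QuadraticMap.polar (Cfsg.quadFormMinus m F A B) (P (Sum.inl i))
        (P (Sum.inr i))) • P (Sum.inr i)) a, fun i => rfl, fun i => rfl⟩
  have hk : ∀ a, ∃ k : F, k ≠ 0 ∧ f a = k • P a := by
    intro a
    rcases a with i | i
    · exact ⟨1, one_ne_zero, by rw [hf.1, one_smul]⟩
    · exact ⟨_, div_ne_zero one_ne_zero (hnd (Sum.inl i)), hf.2 i⟩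
  have h1 : ∀ a, Cfsg.quadFormMinus m F A B (f a) = 0 := by
    intro a
    obtain ⟨k, -, hk⟩ := hk a
    rw [hk, (hQ hm).smul, hQP, mul_zero]
  have h2 : ∀ i : Fin m,
      QuadraticMap.polar (Cfsg.quadFormMinus m F A B) (f (Sum.inl i)) (f (Sum.inr i)) = 1 := by
    intro i
    rw [hf.1, hf.2, hbl.smul_right]
    exact div_mul_cancel₀ _ (hnd (Sum.inl i))
  have h3 : ∀ a b, b ≠ a → b ≠ a.swap →
      QuadraticMap.polar (Cfsg.quadFormMinus m F A B) (f a) (f b) = 0 := by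
    intro a b hab hab'
    obtain ⟨k, -, hka⟩ := hk a
    obtain ⟨k', -, hkb⟩ := hk b
    rw [hka, hkb, hbl.smul_left, hbl.smul_right, (hmain a b ⟨hab, hab'⟩).1.2.2, mul_zero,
      mul_zero]
  obtain ⟨g, hg, hgE⟩ := hW f h1 h2 h3
  have hg1 : ∀ v, Cfsg.quadFormMinus m F A B (((g : GL (MI m) F) :
        Matrix (MI m) (MI m) F) *ᵥ v) = 1 * Cfsg.quadFormMinus m F A B v := by
    intro v
    rw [hg, one_mul]
  refine ⟨g, ?_⟩
  intro a b hab hab' t
  obtain ⟨hTS, -, e1⟩ := hmain a b ⟨hab, hab'⟩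
  have hx : α (rt hm (E a) (t • E b)) ∈ RG hm (P a) (P b) := by
    rw [← e1]
    exact ⟨_, ⟨t, rfl⟩, rfl⟩
  obtain ⟨τ, hτ⟩ := hx
  obtain ⟨k, hk0, hka⟩ := hk a
  obtain ⟨k', hk0', hkb⟩ := hk b
  refine ⟨τ / (k * k'), ?_⟩
  have h4 : rt hm (P a) (τ • P b) = rt hm (f a) ((1 : F)⁻¹ • ((τ / (k * k')) • f b)) := by
    apply rt_congr
    rw [hka, hkb, sg_smul_left, smul_smul, smul_smul, smul_smul]
    congr 2
    field_simp
  have h5 : Phi (Cfsg.quadFormMinus m F A B) g (rt hm (E a) ((τ / (k * k')) • E b)) =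
      rt hm (f a) ((1 : F)⁻¹ • ((τ / (k * k')) • f b)) := by
    rw [Phi_rt hm g 1 one_ne_zero hg1 _ _ (Q_E a) (frame_perp hab' _), Matrix.mulVec_smul]
    have e1 := hgE a
    have e2 := hgE b
    unfold E
    rw [e1, e2]
  rw [MulAut.mul_apply, hτ, h4, ← h5, MulAut.inv_apply_self]

end Cfsg.Agent.Lib.Helper43.MiFin
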