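import Mathlib
import Cfsg.Agent.Lib.Helper43.MiFin
import Cfsg.Agent.Lib.Helper43.MiNorm

set_option autoImplicit false

namespace Cfsg.Agent.Lib.Helper43.MiShort

open Matrix
open Cfsg.Agent.Lib.Helper94.Basic Cfsg.Agent.Lib.Helper94.GLAux Cfsg.Agent.Lib.Helper94.Tv
  Cfsg.Agent.Lib.Helper94.QuadAbs Cfsg.Agent.Lib.Helper94.OrthSiegel
  Cfsg.Agent.Lib.Helper43.MiBase Cfsg.Agent.Lib.Helper43.MiRoot
  Cfsg.Agent.Lib.Helper43.MiRigid Cfsg.Agent.Lib.Helper43.OOdGen
  Cfsg.Agent.Lib.Helper43.MiSyl Cfsg.Agent.Lib.Helper43.OPlGeo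
  Cfsg.Agent.Lib.Helper43.MiLine Cfsg.Agent.Lib.Helper43.MiFin
  Cfsg.Agent.Lib.Helper45.OmegaAut
open Cfsg.Agent.Lib.Helper43.OPlRoot (sg_add_left sg_inv sg_swap sg_self sg_conj_sim swap_inj
  exists_other)
open Cfsg.Agent.Lib.Helper43.OPlCent (sw1 sw2)
open Cfsg.Agent.Lib.Helper43.OPlLine (TS_isom Ind_gl NO ne_of_idx)
open Cfsg.Agent.Lib.Helper94.SympAbs (bil_zero_left bil_zero_right bil_neg_left bil_neg_right
  bil_sub_left bil_sub_right)

universe u

variable {F : Type u} [Field F] [Fintype F] {m : ℕ} {A B : F}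

/-- the automorphism acts on the frame root groups through the maps `φ` -/
def Acts (hm : Hy m F A B) (β : MulAut (Cfsg.POmega F (Cfsg.quadFormMinus m F A B)))
    (φ : Fin m ⊕ Fin m → Fin m ⊕ Fin m → F → F) : Prop :=
  ∀ a b : Fin m ⊕ Fin m, b ≠ a → b ≠ a.swap → ∀ t : F, β (X hm a b t) = X hm a b (φ a b t)

theorem exists_acts (hm : Hy m F A B)
    (β : MulAut (Cfsg.POmega F (Cfsg.quadFormMinus m F A B)))
    (h : FrameStable hm β) : ∃ φ, Acts hm β φ := by
  have h' : ∀ (a b : Fin m ⊕ Fin m) (t : F), ∃ t' : F, b ≠ a → b ≠ a.swap →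
      β (X hm a b t) = X hm a b t' := by
    intro a b t
    by_cases h1 : b ≠ a ∧ b ≠ a.swap
    · obtain ⟨t', ht'⟩ := h a b h1.1 h1.2 t
      exact ⟨t', fun _ _ => ht'⟩
    · exact ⟨0, fun h2 h3 => absurd ⟨h2, h3⟩ h1⟩
  choose φ hφ using h'
  exact ⟨φ, fun a b h1 h2 t => hφ a b t h1 h2⟩

namespace Acts

variable {hm : Hy m F A B} {β : MulAut (Cfsg.POmega F (Cfsg.quadFormMinus m F A B))}
  {φ : Fin m ⊕ Fin m → Fin m ⊕ Fin m → F → F}

theorem add (h : Acts hm β φ) {a b : Fin m ⊕ Fin m} (hab : b ≠ a) (hab' : b ≠ a.swap) (s t : F) :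
    φ a b (s + t) = φ a b s + φ a b t := by
  apply X_inj hm hab hab'
  rw [← h a b hab hab', X_add hm hab', map_mul, h a b hab hab', h a b hab hab', ← X_add hm hab']

theorem zero (h : Acts hm β φ) {a b : Fin m ⊕ Fin m} (hab : b ≠ a) (hab' : b ≠ a.swap) :
    φ a b 0 = 0 := by
  have := h.add hab hab' 0 0
  rw [add_zero] at this
  exact left_eq_add.1 this

theorem neg (h : Acts hm β φ) {a b : Fin m ⊕ Fin m} (hab : b ≠ a) (hab' : b ≠ a.swap) (t : F) :
    φ a b (-t) = - φ a b t := by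
  have := h.add hab hab' t (-t)
  rw [add_neg_cancel, h.zero hab hab'] at this
  exact eq_neg_of_add_eq_zero_right this.symm

theorem inj (h : Acts hm β φ) {a b : Fin m ⊕ Fin m} (hab : b ≠ a) (hab' : b ≠ a.swap) :
    Function.Injective (φ a b) := by
  intro s t hst
  apply X_inj hm hab hab'
  apply β.injective
  rw [h a b hab hab', h a b hab hab', hst]

theorem symm (h : Acts hm β φ) {a b : Fin m ⊕ Fin m} (hab : b ≠ a) (hab' : b ≠ a.swap) (t : F) :
    φ a b t = φ b a t := by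
  have hba : a ≠ b := Ne.symm hab
  have hba' : a ≠ b.swap := fun h' => hab' (by rw [h', Sum.swap_swap])
  apply X_inj hm hab hab'
  rw [← h a b hab hab', X_symm hm hab', h b a hba hba', h.neg hba hba', ← X_symm hm hab']

/-- the commutator relation for the maps `φ` -/
theorem rel (h : Acts hm β φ) {a b d : Fin m ⊕ Fin m} (hba : b ≠ a) (hba' : b ≠ a.swap)
    (hda : d ≠ a) (hda' : d ≠ a.swap) (hdb : d ≠ b) (hdb' : d ≠ b.swap) (s t : F) :
    φ b d (s * t) = φ a b s * φ a.swap d t := by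
  apply X_inj hm hdb hdb'
  have hda'' : d ≠ a.swap.swap := by rw [Sum.swap_swap]; exact hda
  have h1 := congrArg β (X_rel hm hba hba' hda hda' hdb hdb' s t)
  rw [map_mul, map_mul, map_inv, map_mul, h a b hba hba', h a.swap d hda' hda'', h b d hdb hdb',
    X_rel hm hba hba' hda hda' hdb hdb'] at h1
  exact (mul_left_cancel h1).symm

theorem surj (h : Acts hm β φ) {a b : Fin m ⊕ Fin m} (hab : b ≠ a) (hab' : b ≠ a.swap) (s : F) :
    ∃ s' : F, β (X hm a b s') = X hm a b s := by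
  obtain ⟨s', hs'⟩ := (Finite.injective_iff_surjective.1 (h.inj hab hab')) s
  exact ⟨s', by rw [h a b hab hab', hs']⟩

theorem toAA (h : Acts hm β φ) : Cfsg.Agent.Lib.Helper43.MiNorm.AA φ :=
  ⟨fun hab hab' s t => h.add hab hab' s t, fun hab hab' => h.inj hab hab',
    fun hab hab' t => h.symm hab hab' t,
    fun hba hba' hda hda' hdb hdb' s t => h.rel hba hba' hda hda' hdb hdb' s t⟩

end Acts

theorem comm_SX (hm : Hy m F A B) {a b : Fin m ⊕ Fin m} (hab' : b ≠ a.swap) (z : Fin 2 → F)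
    (s : F) : S hm a z * X hm a b s = X hm a b s * S hm a z := by
  unfold S X
  rw [← rt_add hm _ _ _ (Q_E a) (wv_perp a z) (frame_perp hab' s),
    ← rt_add hm _ _ _ (Q_E a) (frame_perp hab' s) (wv_perp a z), add_comm]

theorem comm_SX' (hm : Hy m F A B) {a b c : Fin m ⊕ Fin m} (hba' : b ≠ a.swap)
    (hca' : c ≠ a.swap) (z : Fin 2 → F) (s : F) :
    S hm a z * X hm b c s = X hm b c s * S hm a z := by
  have e1 : ((sg (hQ hm) (E a) (wv z) : GL (MI m) F) : Matrix (MI m) (MI m) F) *ᵥ E b =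
      E b := by
    rw [short_mulVec hm, E_ne (Ne.symm hba'), B_comm, wv_perp]
    simp
  have e2 : ((sg (hQ hm) (E a) (wv z) : GL (MI m) F) : Matrix (MI m) (MI m) F) *ᵥ
      (s • E c) = s • E c := by
    rw [Matrix.mulVec_smul, short_mulVec hm, E_ne (Ne.symm hca'), B_comm, wv_perp]
    simp
  have h := rt_conj hm (T hm (E a) (wv z)) (E b) (s • E c)
  rw [T_coe, e1, e2] at h
  exact mul_inv_eq_iff_eq_mul.1 h

/-- a totally singular line commuting with all frame lines through a frame point passes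
through this point -/
theorem thru (hm : Hy m F A B) {a : Fin m ⊕ Fin m} {u v : MI m → F}
    (h1 : TS (Cfsg.quadFormMinus m F A B) u v) (i1 : Ind u v)
    (hc : ∀ c : Fin m ⊕ Fin m, c ≠ a → c ≠ a.swap →
      (∃ q : MI m → F, q ≠ 0 ∧ q ∈ Submodule.span F ({u, v} : Set (MI m → F)) ∧
        q ∈ Submodule.span F ({E a, E c} : Set (MI m → F))) ∨
      Perp (Cfsg.quadFormMinus m F A B) u v (E a) (E c)) :
    (E a : MI m → F) ∈ Submodule.span F ({u, v} : Set (MI m → F)) := by
  by_contra hE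
  have hbl := (hQ hm).polar_bilinear
  have hq : ∀ c : Fin m ⊕ Fin m, ∀ q : MI m → F, q ≠ 0 →
      q ∈ Submodule.span F ({u, v} : Set (MI m → F)) →
      q ∈ Submodule.span F ({E a, E c} : Set (MI m → F)) →
      ∃ α β : F, β ≠ 0 ∧ q = α • (E a : MI m → F) + β • E c := by
    intro c q hq0 hq1 hq2
    obtain ⟨α, β, rfl⟩ := Submodule.mem_span_pair.1 hq2
    refine ⟨α, β, ?_, rfl⟩
    rintro rfl
    rw [zero_smul, add_zero] at hq0 hq1
    have hα : α ≠ 0 := by
      rintro rfl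
      exact hq0 (zero_smul _ _)
    apply hE
    have := Submodule.smul_mem _ α⁻¹ hq1
    rwa [smul_smul, inv_mul_cancel₀ hα, one_smul] at this
  have hA : ∀ y ∈ Submodule.span F ({u, v} : Set (MI m → F)),
      QuadraticMap.polar (Cfsg.quadFormMinus m F A B) (E a) y = 0 := by
    by_contra hne
    push Not at hne
    obtain ⟨y, hy, hy0⟩ := hne
    have hnp : ∀ c : Fin m ⊕ Fin m,
        ¬ Perp (Cfsg.quadFormMinus m F A B) u v (E a) (E c) := by
      intro c hp
      apply hy0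
      obtain ⟨s, t, rfl⟩ := Submodule.mem_span_pair.1 hy
      rw [hbl.add_right, hbl.smul_right, hbl.smul_right,
        B_comm (Cfsg.quadFormMinus m F A B) (E a) u,
        B_comm (Cfsg.quadFormMinus m F A B) (E a) v, hp.1, hp.2.2.1]
      simp
    obtain ⟨c1, h1a, h1a', -, -⟩ := exists_other hm.hm a a
    obtain ⟨c2, h2a, h2a', h21, h21'⟩ := exists_other hm.hm a c1
    obtain ⟨q1, hq10, hq11, hq12⟩ := (hc c1 h1a h1a').resolve_right (hnp c1)
    obtain ⟨q2, hq20, hq21, hq22⟩ := (hc c2 h2a h2a').resolve_right (hnp c2)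
    obtain ⟨α1, β1, hβ1, rfl⟩ := hq c1 q1 hq10 hq11 hq12
    obtain ⟨α2, β2, hβ2, rfl⟩ := hq c2 q2 hq20 hq21 hq22
    have hind : Ind (α1 • (E a : MI m → F) + β1 • E c1) (α2 • (E a : MI m → F) + β2 • E c2) := by
      intro s t hst
      have e1 := congrFun hst (Sum.inl c1)
      have e2 := congrFun hst (Sum.inl c2)
      simp only [Pi.add_apply, Pi.smul_apply, smul_eq_mul, Pi.zero_apply, E_self, E_ne h1a,
        E_ne h2a, E_ne h21, E_ne (Ne.symm h21), mul_one, mul_zero, add_zero, zero_add] at e1 e2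
      exact ⟨(mul_eq_zero.1 e1).resolve_right hβ1, (mul_eq_zero.1 e2).resolve_right hβ2⟩
    have hsp := span_eq_of_mem hind hq11 hq21
    rw [← hsp] at hy
    obtain ⟨s, t, rfl⟩ := Submodule.mem_span_pair.1 hy
    apply hy0
    rw [polar_E]
    simp [E_ne (swap_ne a), E_ne (Ne.symm h1a'), E_ne (Ne.symm h2a')]
  have hB : ∀ c : Fin m ⊕ Fin m, c ≠ a → c ≠ a.swap →
      ∀ y ∈ Submodule.span F ({u, v} : Set (MI m → F)),
      QuadraticMap.polar (Cfsg.quadFormMinus m F A B) (E c) y = 0 := by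
    intro c hca hca' y hy
    rcases hc c hca hca' with ⟨q, hq0, hq1, hq2⟩ | hp
    · obtain ⟨α, β, hβ, rfl⟩ := hq c q hq0 hq1 hq2
      have e := B_span (hQ hm) h1 hq1 hy
      rw [hbl.add_left, hbl.smul_left, hbl.smul_left, hA y hy, mul_zero, zero_add] at e
      exact (mul_eq_zero.1 e).resolve_left hβ
    · obtain ⟨s, t, rfl⟩ := Submodule.mem_span_pair.1 hy
      rw [hbl.add_right, hbl.smul_right, hbl.smul_right,
        B_comm (Cfsg.quadFormMinus m F A B) (E c) u,
        B_comm (Cfsg.quadFormMinus m F A B) (E c) v, hp.2.1, hp.2.2.2]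
      simp
  have hC : ∀ y ∈ Submodule.span F ({u, v} : Set (MI m → F)),
      ∃ t : F, y = t • (E a : MI m → F) := by
    intro y hy
    have hfr : ∀ d : Fin m ⊕ Fin m, d ≠ a → y (Sum.inl d) = 0 := by
      intro d hd
      by_cases hd' : d = a.swap
      · have := hA y hy
        rw [polar_E] at this
        rw [hd']
        exact this
      · have := hB d.swap (sw1 hd') (sw2 hd) y hy
        rwa [polar_E, Sum.swap_swap] at this
    obtain ⟨z, hz⟩ : ∃ z : Fin 2 → F, z = fun j => y (Sum.inr j) := ⟨_, rfl⟩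
    obtain ⟨t, ht⟩ : ∃ t : F, t = y (Sum.inl a) := ⟨_, rfl⟩
    have e : y = wv z + t • (E a : MI m → F) := by
      have e0 := eq_sum_E y
      have e2 : ∑ k, y (Sum.inl k) • (E k : MI m → F) = t • E a := by
        rw [Finset.sum_eq_single a, ht]
        · intro d _ hd
          rw [hfr d hd, zero_smul]
        · intro h
          exact absurd (Finset.mem_univ _) h
      rw [e2, ← hz] at e0
      exact e0
    have hQy := Q_span (hQ hm) h1 hy
    rw [e, Q_add (Cfsg.quadFormMinus m F A B), Q_wv, (hQ hm).smul, Q_E, hbl.smul_right, B_comm,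
      wv_perp] at hQy
    have hN : z 0 ^ 2 + A * z 0 * z 1 + B * z 1 ^ 2 = 0 := by
      unfold N at hQy
      linear_combination hQy
    have hz0 := hm.hab _ _ hN
    have hzz : z = 0 := by
      funext j
      fin_cases j
      · exact hz0.1
      · exact hz0.2
    refine ⟨t, ?_⟩
    rw [e, hzz, wv_zero, zero_add]
  obtain ⟨cu, hcu⟩ := hC u (Submodule.subset_span (by simp))
  obtain ⟨cv, hcv⟩ := hC v (Submodule.subset_span (by simp))
  have h0 := i1 cv (-cu) (by rw [hcu, hcv]; module)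
  apply i1.ne_zero_left
  rw [hcu, neg_eq_zero.1 h0.2, zero_smul]

/-- the image of a short root element lies in the unipotent radical of the point stabiliser -/
theorem short_pre (hm : Hy m F A B) {β : MulAut (Cfsg.POmega F (Cfsg.quadFormMinus m F A B))}
    {φ : Fin m ⊕ Fin m → Fin m ⊕ Fin m → F → F} (h : Acts hm β φ) (a : Fin m ⊕ Fin m)
    (z : Fin 2 → F) :
    ∃ w : MI m → F, QuadraticMap.polar (Cfsg.quadFormMinus m F A B) (E a) w = 0 ∧
      β (S hm a z) = rt hm (E a) w := by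
  obtain ⟨p, hp⟩ := CharP.exists F
  haveI : Fact p.Prime := ⟨CharP.char_is_prime F p⟩
  have hbl := (hQ hm).polar_bilinear
  obtain ⟨b, hba, hba', -, -⟩ := exists_other hm.hm a a
  have hab : NO a b := ⟨hba, hba'⟩
  have hab' : NO a b.swap := NO_swr hab
  obtain ⟨v1, hv1⟩ : ∃ v1 : MI m → F, v1 = E b + wv z - N A B z • E b.swap := ⟨_, rfl⟩
  have k1 : ((sg (hQ hm) (E b.swap) (wv z) : GL (MI m) F) : Matrix (MI m) (MI m) F) *ᵥ
      (E a : MI m → F) = E a := by
    rw [short_mulVec hm, Sum.swap_swap, E_ne hba, B_comm, wv_perp]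
    simp
  have k2 : ((sg (hQ hm) (E b.swap) (wv z) : GL (MI m) F) : Matrix (MI m) (MI m) F) *ᵥ
      (E b : MI m → F) = v1 := by
    rw [short_mulVec hm, Sum.swap_swap, E_self, B_comm, wv_perp, hv1]
    module
  obtain ⟨u, v, h1, i1, e1, -⟩ := Ln_spec hm p
    (β * MulAut.conj (QuotientGroup.mk (T hm (E b.swap) (wv z)))) hab
  have e2 : β '' RG hm (E a) v1 = RG hm u v := by
    rw [← e1, MulAut.coe_mul, Set.image_comp, conj_RG, T_coe, k1, k2]
  have hp1 : QuadraticMap.polar (Cfsg.quadFormMinus m F A B) (E a) v1 = 0 := by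
    rw [hv1, polar_E]
    simp [E_ne (Ne.symm hba'), E_ne (fun h => hba (swap_inj h).symm : a.swap ≠ b.swap), wv_fr]
  have hy : rt hm u ((1 : F) • v) ∈ β '' RG hm (E a) v1 := by
    rw [e2]
    exact ⟨1, rfl⟩
  obtain ⟨_, ⟨t, rfl⟩, ht⟩ := hy
  rw [one_smul] at ht
  have hthru : (E a : MI m → F) ∈ Submodule.span F ({u, v} : Set (MI m → F)) := by
    apply thru hm h1 i1
    intro c hca hca'
    obtain ⟨s', hs'⟩ := h.surj hca hca' 1
    have hc1 : rt hm (E a) (t • v1) * X hm a c s' = X hm a c s' * rt hm (E a) (t • v1) := by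
      have hp2 : QuadraticMap.polar (Cfsg.quadFormMinus m F A B) (E a) (t • v1) = 0 := by
        rw [hbl.smul_right, hp1, mul_zero]
      unfold X
      rw [← rt_add hm _ _ _ (Q_E a) hp2 (frame_perp hca' s'),
        ← rt_add hm _ _ _ (Q_E a) (frame_perp hca' s') hp2, add_comm]
    have hc2 := congrArg β hc1
    rw [map_mul, map_mul, hs', ht] at hc2
    unfold X at hc2
    have e3 := rt_comm_lift hm p hc2
    rw [one_smul] at e3
    have hcomm : ∀ x, Nop (Cfsg.quadFormMinus m F A B) u v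
        (Nop (Cfsg.quadFormMinus m F A B) (E a) (E c) x) =
        Nop (Cfsg.quadFormMinus m F A B) (E a) (E c)
          (Nop (Cfsg.quadFormMinus m F A B) u v x) := by
      intro x
      have e4 := congrArg (fun g : GL (MI m) F => (g : Matrix (MI m) (MI m) F) *ᵥ x) e3
      simp only [Units.val_mul, ← Matrix.mulVec_mulVec, sg_eq (hQ hm) h1,
        sg_eq (hQ hm) (TS_frame hca'), Nop_add (hQ hm)] at e4
      linear_combination (norm := module) e4
    exact comm_meet_or_perp (hQ hm) i1 (Ind_frame hca) hcomm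
  have hy2 : β (rt hm (E a) ((1 : F) • v1)) ∈ RG hm u v := by
    rw [← e2]
    exact ⟨_, ⟨1, rfl⟩, rfl⟩
  obtain ⟨τ, hτ⟩ := hy2
  obtain ⟨w, hw, hsw⟩ := line_through (hQ hm) h1 hthru (E_ne_zero a) τ
  have hwp : QuadraticMap.polar (Cfsg.quadFormMinus m F A B) (E a) w = 0 :=
    B_span (hQ hm) h1 hthru hw
  rw [rt_congr hm hsw] at hτ
  have hpb : QuadraticMap.polar (Cfsg.quadFormMinus m F A B) (E a)
      ((1 : F) • E b + (-(N A B z)) • E b.swap) = 0 := by
    rw [hbl.add_right, frame_perp hba', frame_perp hab'.2, add_zero]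
  have e5 : rt hm (E a) ((1 : F) • v1) =
      S hm a z * (X hm a b 1 * X hm a b.swap (-(N A B z))) := by
    unfold S X
    rw [← rt_add hm _ _ _ (Q_E a) (frame_perp hba' 1) (frame_perp hab'.2 _),
      ← rt_add hm _ _ _ (Q_E a) (wv_perp a z) hpb]
    congr 1
    rw [hv1]
    module
  rw [e5, map_mul, map_mul, h a b hba hba', h a b.swap hab'.1 hab'.2] at hτ
  obtain ⟨φ1, hφ1⟩ : ∃ φ1 : F, φ1 = φ a b 1 := ⟨_, rfl⟩
  obtain ⟨φ2, hφ2⟩ : ∃ φ2 : F, φ2 = φ a b.swap (-(N A B z)) := ⟨_, rfl⟩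
  rw [← hφ1, ← hφ2] at hτ
  obtain ⟨w', hw'⟩ : ∃ w' : MI m → F, w' = w + ((-φ1) • E b + (-φ2) • E b.swap) := ⟨_, rfl⟩
  have hpw' : QuadraticMap.polar (Cfsg.quadFormMinus m F A B) (E a) w' = 0 := by
    rw [hw', hbl.add_right, hbl.add_right, hwp, frame_perp hba', frame_perp hab'.2]
    simp
  have hpb2 : QuadraticMap.polar (Cfsg.quadFormMinus m F A B) (E a)
      (φ1 • E b + φ2 • E b.swap) = 0 := by
    rw [hbl.add_right, frame_perp hba', frame_perp hab'.2, add_zero]
  have e6 : rt hm (E a) w' * (X hm a b φ1 * X hm a b.swap φ2) = rt hm (E a) w := by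
    unfold X
    rw [← rt_add hm _ _ _ (Q_E a) (frame_perp hba' φ1) (frame_perp hab'.2 φ2),
      ← rt_add hm _ _ _ (Q_E a) hpw' hpb2]
    congr 1
    rw [hw']
    module
  refine ⟨w', hpw', ?_⟩
  rw [← e6] at hτ
  exact mul_right_cancel hτ

/-- **the image of a short root element is a short root element** -/
theorem short_image (hm : Hy m F A B)
    {β : MulAut (Cfsg.POmega F (Cfsg.quadFormMinus m F A B))}
    {φ : Fin m ⊕ Fin m → Fin m ⊕ Fin m → F → F} (h : Acts hm β φ) (a : Fin m ⊕ Fin m)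
    (z : Fin 2 → F) : ∃ z' : Fin 2 → F, β (S hm a z) = S hm a z' := by
  obtain ⟨p, hp⟩ := CharP.exists F
  haveI : Fact p.Prime := ⟨CharP.char_is_prime F p⟩
  have hbl := (hQ hm).polar_bilinear
  obtain ⟨w, hw, e⟩ := short_pre hm h a z
  have hfr : ∀ c : Fin m ⊕ Fin m, c ≠ a → c ≠ a.swap → w (Sum.inl c) = 0 := by
    intro c hca hca'
    obtain ⟨d, hda, hda', hdc, hdc'⟩ := exists_other hm.hm a c
    have hed : c.swap ≠ d := Ne.symm hdc'
    have hed' : c.swap ≠ d.swap := sw2 (Ne.symm hdc)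
    have hea' : c.swap ≠ a.swap := sw2 hca
    obtain ⟨s', hs'⟩ := h.surj hed hed' 1
    have hc1 := comm_SX' hm hda' hea' z s'
    have hc2 := congrArg β hc1
    rw [map_mul, map_mul, hs', e] at hc2
    unfold X at hc2
    have e1 := rt_comm_lift hm p hc2
    have k1 : ((sg (hQ hm) (E d) ((1 : F) • E c.swap) : GL (MI m) F) :
        Matrix (MI m) (MI m) F) *ᵥ (E d.swap : MI m → F) = E d.swap + E c.swap := by
      rw [frame_mulVec hm hed', E_self, Sum.swap_swap,
        E_ne (fun h' => hdc' (by rw [h', Sum.swap_swap]) : c ≠ d.swap)]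
      module
    have k3 : ((sg (hQ hm) (E a) w : GL (MI m) F) : Matrix (MI m) (MI m) F) *ᵥ
        (E d.swap : MI m → F) = E d.swap - w (Sum.inl d) • E a := by
      rw [sg_mulVec (hQ hm) _ _ (Q_E a) hw, polar_E,
        E_ne (fun h' => hda (swap_inj h').symm : a.swap ≠ d.swap), polar_E', Sum.swap_swap]
      module
    have k5 : ((sg (hQ hm) (E a) w : GL (MI m) F) : Matrix (MI m) (MI m) F) *ᵥ
        (E c.swap : MI m → F) = E c.swap - w (Sum.inl c) • E a := by
      rw [sg_mulVec (hQ hm) _ _ (Q_E a) hw, polar_E,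
        E_ne (fun h' => hca (swap_inj h').symm : a.swap ≠ c.swap), polar_E', Sum.swap_swap]
      module
    have k4 : ((sg (hQ hm) (E d) ((1 : F) • E c.swap) : GL (MI m) F) :
        Matrix (MI m) (MI m) F) *ᵥ (E a : MI m → F) = E a := by
      rw [frame_mulVec hm hed', E_ne (sw1 hda'), Sum.swap_swap, E_ne hca]
      module
    have e2 := congrArg (fun g : GL (MI m) F =>
      (g : Matrix (MI m) (MI m) F) *ᵥ (E d.swap : MI m → F)) e1
    simp only [Units.val_mul, ← Matrix.mulVec_mulVec] at e2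
    rw [k1, Matrix.mulVec_add, k3, k5, Matrix.mulVec_sub, Matrix.mulVec_smul, k1, k4] at e2
    have e3 : w (Sum.inl c) • (E a : MI m → F) = 0 := by
      linear_combination (norm := module) -e2
    exact (smul_eq_zero.1 e3).resolve_right (E_ne_zero a)
  obtain ⟨z', hz'⟩ : ∃ z' : Fin 2 → F, z' = fun j => w (Sum.inr j) := ⟨_, rfl⟩
  obtain ⟨t, ht⟩ : ∃ t : F, t = w (Sum.inl a) := ⟨_, rfl⟩
  have ew : w = wv z' + t • (E a : MI m → F) := by
    have e0 := eq_sum_E w
    have e2 : ∑ k, w (Sum.inl k) • (E k : MI m → F) = t • E a := by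
      rw [Finset.sum_eq_single a, ht]
      · intro d _ hd
        by_cases hd' : d = a.swap
        · have := hw
          rw [polar_E] at this
          rw [hd', this, zero_smul]
        · rw [hfr d hd hd', zero_smul]
      · intro h'
        exact absurd (Finset.mem_univ _) h'
    rw [e2, ← hz'] at e0
    exact e0
  refine ⟨z', ?_⟩
  rw [e, ew, rt_add hm _ _ _ (Q_E a) (wv_perp a z')
    (by rw [hbl.smul_right, polar_E, E_ne (swap_ne a), mul_zero]),
    rt_eq_one hm (sg_self (hQ hm) _ _), mul_one]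
  rfl

end Cfsg.Agent.Lib.Helper43.MiShort
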