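import Mathlib
import Cfsg.Agent.Lib.Helper43.MiShort
import Cfsg.Agent.Lib.Helper43.SemiSim

set_option autoImplicit false

namespace Cfsg.Agent.Lib.Helper43.MiFrame

open Matrix
open Cfsg.Agent.Lib.Helper94.Basic Cfsg.Agent.Lib.Helper94.GLAux Cfsg.Agent.Lib.Helper94.Tv
  Cfsg.Agent.Lib.Helper94.QuadAbs Cfsg.Agent.Lib.Helper94.OrthSiegel
  Cfsg.Agent.Lib.Helper43.MiBase Cfsg.Agent.Lib.Helper43.MiRoot
  Cfsg.Agent.Lib.Helper43.MiRigid Cfsg.Agent.Lib.Helper43.OOdGen
  Cfsg.Agent.Lib.Helper43.MiSyl Cfsg.Agent.Lib.Helper43.OPlGeo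
  Cfsg.Agent.Lib.Helper43.MiLine Cfsg.Agent.Lib.Helper43.MiFin
  Cfsg.Agent.Lib.Helper43.MiShort Cfsg.Agent.Lib.Helper43.SemiSim
  Cfsg.Agent.Lib.Helper45.OmegaAut
open Cfsg.Agent.Lib.Helper43.OPlRoot (sg_add_left sg_inv sg_swap sg_self sg_conj_sim swap_inj
  exists_other)
open Cfsg.Agent.Lib.Helper43.OPlCent (sw1 sw2)
open Cfsg.Agent.Lib.Helper43.OPlLine (TS_isom Ind_gl NO ne_of_idx)
open Cfsg.Agent.Lib.Helper43.OPlAut (dv)
open Cfsg.Agent.Lib.Helper43.MiNorm (dv_swap)
open Cfsg.Agent.Lib.Helper94.SympAbs (bil_zero_left bil_zero_right bil_neg_left bil_neg_right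
  bil_sub_left bil_sub_right)

universe u

variable {F : Type u} [Field F] [Fintype F] {m : ℕ} {A B : F}

/-- uniqueness of the normal form in the group generated by two short root groups -/
theorem XSS_inj (hm : Hy m F A B) {a b : Fin m ⊕ Fin m} (hba : b ≠ a) (hba' : b ≠ a.swap)
    {s s₂ : F} {w w₂ w' w'₂ : Fin 2 → F}
    (h : X hm b a s * (S hm a w * S hm b w') = X hm b a s₂ * (S hm a w₂ * S hm b w'₂)) :
    s = s₂ ∧ w = w₂ ∧ w' = w'₂ := by
  obtain ⟨p, hp⟩ := CharP.exists F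
  haveI : Fact p.Prime := ⟨CharP.char_is_prime F p⟩
  have hbl := (hQ hm).polar_bilinear
  have hab : a ≠ b := Ne.symm hba
  have hab' : a ≠ b.swap := fun h' => hba' (by rw [h', Sum.swap_swap])
  have hperp : ∀ (s : F) (w' : Fin 2 → F),
      QuadraticMap.polar (Cfsg.quadFormMinus m F A B) (E b) (s • E a + wv w') = 0 := by
    intro s w'
    rw [hbl.add_right, frame_perp hab', wv_perp, add_zero]
  have key : ∀ (s : F) (w w' : Fin 2 → F), X hm b a s * (S hm a w * S hm b w') =
      S hm a w * rt hm (E b) (s • E a + wv w') := by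
    intro s w w'
    have hc : X hm b a s * S hm a w = S hm a w * X hm b a s := by
      rw [X_symm hm hab' s]
      exact (comm_SX hm hba' w (-s)).symm
    rw [← mul_assoc, hc, mul_assoc]
    congr 1
    unfold X S
    rw [← rt_add hm _ _ _ (Q_E b) (frame_perp hab' s) (wv_perp b w')]
  rw [key, key] at h
  have hperp2 : QuadraticMap.polar (Cfsg.quadFormMinus m F A B) (E b)
      ((s₂ • E a + wv w'₂) - (s • E a + wv w')) = 0 := by
    rw [bil_sub_right hbl, hperp, hperp, sub_zero]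
  have e2 : rt hm (E b) ((s₂ • E a + wv w'₂) - (s • E a + wv w')) *
      rt hm (E b) (s • E a + wv w') = rt hm (E b) (s₂ • E a + wv w'₂) := by
    rw [← rt_add hm _ _ _ (Q_E b) hperp2 (hperp s w'), sub_add_cancel]
  rw [← e2, ← mul_assoc] at h
  have h2 := mul_right_cancel h
  have h3 : S hm a (w - w₂) = rt hm (E b) ((s₂ • E a + wv w'₂) - (s • E a + wv w')) := by
    rw [sub_eq_neg_add, S_add hm, S_neg hm, h2, inv_mul_cancel_left]
  unfold S at h3
  have h4 := rt_inj hm p h3
  have h5 := congrArg (fun g : GL (MI m) F =>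
    (g : Matrix (MI m) (MI m) F) *ᵥ (E b.swap : MI m → F)) h4
  rw [short_mulVec hm, E_ne (sw2 hab : a.swap ≠ b.swap), B_comm, wv_perp,
    sg_mulVec (hQ hm) _ _ (Q_E b) hperp2, polar_E, E_self] at h5
  have c1 := congrFun h5 (Sum.inl a)
  have c2 : ∀ j : Fin 2, w'₂ j = w' j := by
    intro j
    have c := congrFun h5 (Sum.inr j)
    simp [E_an, wv_an] at c
    linear_combination -c
  simp [E_self, E_ne hab, wv_fr] at c1
  have hs : s = s₂ := by linear_combination -c1
  have hw' : w' = w'₂ := (funext c2).symm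
  refine ⟨hs, ?_, hw'⟩
  rw [hs, hw', sub_self, rt_eq_one hm (sg_zero_right (hQ hm) _), mul_one] at h2
  exact S_inj hm a h2

/-- the automorphism acts on the short root groups through the maps `ρ` -/
def ActsS (hm : Hy m F A B) (β : MulAut (Cfsg.POmega F (Cfsg.quadFormMinus m F A B)))
    (ρ : Fin m ⊕ Fin m → (Fin 2 → F) → (Fin 2 → F)) : Prop :=
  ∀ (a : Fin m ⊕ Fin m) (z : Fin 2 → F), β (S hm a z) = S hm a (ρ a z)

theorem exists_actsS (hm : Hy m F A B)
    {β : MulAut (Cfsg.POmega F (Cfsg.quadFormMinus m F A B))}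
    {φ : Fin m ⊕ Fin m → Fin m ⊕ Fin m → F → F} (h : Acts hm β φ) :
    ∃ ρ, ActsS hm β ρ := by
  have h' := fun (a : Fin m ⊕ Fin m) (z : Fin 2 → F) => short_image hm h a z
  choose ρ hρ using h'
  exact ⟨ρ, hρ⟩

namespace ActsS

variable {hm : Hy m F A B} {β : MulAut (Cfsg.POmega F (Cfsg.quadFormMinus m F A B))}
  {φ : Fin m ⊕ Fin m → Fin m ⊕ Fin m → F → F}
  {ρ : Fin m ⊕ Fin m → (Fin 2 → F) → (Fin 2 → F)}

theorem add (hS : ActsS hm β ρ) (a : Fin m ⊕ Fin m) (z u : Fin 2 → F) :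
    ρ a (z + u) = ρ a z + ρ a u := by
  apply S_inj hm a
  rw [← hS a, S_add hm, map_mul, hS a, hS a, ← S_add hm]

/-- the relation between short and long root groups -/
theorem rel2 (h : Acts hm β φ) (hS : ActsS hm β ρ) {a b : Fin m ⊕ Fin m} (hba : b ≠ a)
    (hba' : b ≠ a.swap) (t : F) (z : Fin 2 → F) :
    ρ b (t • z) = φ a.swap b t • ρ a z ∧
      φ b a (t * N A B z) = φ a.swap b t * N A B (ρ a z) := by
  have hab : a ≠ b := Ne.symm hba
  have hab' : a ≠ b.swap := fun h' => hba' (by rw [h', Sum.swap_swap])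
  have hb2 : b ≠ a.swap.swap := by rw [Sum.swap_swap]; exact hba
  have h1 := congrArg β (S_rel2 hm hba hba' t z)
  rw [map_mul, map_mul, map_inv, map_mul, map_mul, h a.swap b hba' hb2, hS a, hS b,
    h b a hab hab', S_rel2 hm hba hba'] at h1
  obtain ⟨e1, -, e3⟩ := XSS_inj hm hba hba' h1
  exact ⟨e3.symm, e1.symm⟩

end ActsS

omit [Fintype F] in
theorem N_smul (t : F) (z : Fin 2 → F) : N A B (t • z) = t ^ 2 * N A B z := by
  unfold N
  simp only [Pi.smul_apply, smul_eq_mul]
  ring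

/-- the image of a root element under a semisimilarity -/
theorem semi_rt (hm : Hy m F A B) {g : GL (MI m) F} {σ : F ≃+* F} {c : F}
    (hpair : SemiPair (Cfsg.quadFormMinus m F A B) g σ c) (u w : MI m → F)
    (hu : Cfsg.quadFormMinus m F A B u = 0)
    (huw : QuadraticMap.polar (Cfsg.quadFormMinus m F A B) u w = 0) :
    semiAut hpair (rt hm u w) = rt hm (Lσ g σ u) (c⁻¹ • Lσ g σ w) := by
  unfold rt
  rw [semiAut_mk]
  congr 1
  apply omega_ext
  rw [omAut_coe, T_coe, T_coe, sg_semi (hQ hm) hpair u w hu huw]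

/-- **frame stable automorphisms are induced by semisimilarities** -/
theorem of_frameStable (hm : Hy m F A B)
    (hsimple : IsSimpleGroup (Cfsg.POmega F (Cfsg.quadFormMinus m F A B)))
    (β : MulAut (Cfsg.POmega F (Cfsg.quadFormMinus m F A B))) (hβ : FrameStable hm β) :
    β ∈ Cfsg.gammaPOmega F (Cfsg.quadFormMinus m F A B) := by
  obtain ⟨φ, h⟩ := exists_acts hm β hβ
  obtain ⟨ρ, hS⟩ := exists_actsS hm h
  obtain ⟨c, μ, σ, hφ⟩ := Cfsg.Agent.Lib.Helper43.MiNorm.normal hm.hm h.toAA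
  obtain ⟨d, hd⟩ : ∃ d : Fin m ⊕ Fin m → F, d = fun a => (dv c μ a : F) := ⟨_, rfl⟩
  have hd0 : ∀ a, d a ≠ 0 := by
    intro a
    rw [hd]
    exact Units.ne_zero _
  have hμ0 : (μ : F) ≠ 0 := Units.ne_zero _
  have hdd : ∀ a : Fin m ⊕ Fin m, d a * d a.swap = μ := by
    intro a
    rw [hd]
    exact dv_swap c μ a
  have hφ' : ∀ a b : Fin m ⊕ Fin m, b ≠ a → b ≠ a.swap → ∀ t : F,
      φ a b t = d a * d b * (μ : F)⁻¹ * σ t := by
    intro a b hab hab' t
    rw [hd]
    exact hφ a b hab hab' t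
  have hR2 : ∀ a b : Fin m ⊕ Fin m, b ≠ a → b ≠ a.swap → ∀ (t : F) (z : Fin 2 → F),
      ρ b (t • z) = (d b / d a * σ t) • ρ a z := by
    intro a b hba hba' t z
    have hb2 : b ≠ a.swap.swap := by rw [Sum.swap_swap]; exact hba
    rw [(hS.rel2 h hba hba' t z).1, hφ' a.swap b hba' hb2]
    congr 1
    have h1 := hdd a
    have h2 := hd0 a
    have h3 := hd0 a.swap
    rw [← h1]
    field_simp
  have hR3 : ∀ (a : Fin m ⊕ Fin m) (z : Fin 2 → F),
      N A B (ρ a z) = d a ^ 2 * (μ : F)⁻¹ * σ (N A B z) := by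
    intro a z
    obtain ⟨b, hba, hba', -, -⟩ := exists_other hm.hm a a
    have hab : a ≠ b := Ne.symm hba
    have hab' : a ≠ b.swap := fun h' => hba' (by rw [h', Sum.swap_swap])
    have hb2 : b ≠ a.swap.swap := by rw [Sum.swap_swap]; exact hba
    have e := (hS.rel2 h hba hba' 1 z).2
    rw [one_mul, hφ' b a hab hab', hφ' a.swap b hba' hb2, map_one, mul_one] at e
    have e' : d a.swap * N A B (ρ a z) = d a * σ (N A B z) := by
      have hne : d b * (μ : F)⁻¹ ≠ 0 := mul_ne_zero (hd0 b) (inv_ne_zero hμ0)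
      apply mul_left_cancel₀ hne
      linear_combination -e
    have e'' : (μ : F) * N A B (ρ a z) = d a ^ 2 * σ (N A B z) := by
      rw [← hdd a]
      linear_combination (d a) * e'
    calc N A B (ρ a z) = (μ : F)⁻¹ * ((μ : F) * N A B (ρ a z)) := by
          rw [← mul_assoc, inv_mul_cancel₀ hμ0, one_mul]
      _ = d a ^ 2 * (μ : F)⁻¹ * σ (N A B z) := by
          rw [e'']
          ring
  obtain ⟨o, ho⟩ : ∃ o : Fin m ⊕ Fin m, o = Sum.inl ⟨0, by have := hm.hm; omega⟩ := ⟨_, rfl⟩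
  obtain ⟨ρ₀, hρ₀⟩ : ∃ ρ₀ : (Fin 2 → F) → (Fin 2 → F), ρ₀ = fun z => (d o)⁻¹ • ρ o z :=
    ⟨_, rfl⟩
  have hρ₀' : ∀ z, ρ₀ z = (d o)⁻¹ • ρ o z := fun z => by rw [hρ₀]
  have hρa : ∀ (a : Fin m ⊕ Fin m) (z : Fin 2 → F), ρ a z = d a • ρ₀ z := by
    have key : ∀ a : Fin m ⊕ Fin m, a ≠ o → a ≠ o.swap → ∀ z, ρ a z = d a • ρ₀ z := by
      intro a ha ha' z
      have e := hR2 o a ha ha' 1 z
      rw [one_smul, map_one, mul_one] at e
      rw [e, hρ₀', smul_smul]
      congr 1
      exact div_eq_mul_inv _ _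
    intro a z
    by_cases ha : a = o
    · rw [ha, hρ₀', smul_smul, mul_inv_cancel₀ (hd0 o), one_smul]
    by_cases ha' : a = o.swap
    · obtain ⟨b, hb, hb', -, -⟩ := exists_other hm.hm o o
      have hab : a ≠ b := by
        rw [ha']
        exact fun h' => hb' h'.symm
      have hab' : a ≠ b.swap := by
        rw [ha']
        exact fun h' => hb (swap_inj h').symm
      have e := hR2 b a hab hab' 1 z
      rw [one_smul, map_one, mul_one, key b hb hb' z, smul_smul] at e
      rw [e]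
      congr 1
      have := hd0 b
      field_simp
    exact key a ha ha' z
  have hsemi : ∀ (t : F) (z : Fin 2 → F), ρ₀ (t • z) = σ t • ρ₀ z := by
    intro t z
    obtain ⟨b, hb, hb', -, -⟩ := exists_other hm.hm o o
    have e := hR2 o b hb hb' t z
    rw [hρa b, hρa o, smul_smul] at e
    have e2 : d b • ρ₀ (t • z) = d b • (σ t • ρ₀ z) := by
      rw [e, smul_smul]
      congr 1
      have := hd0 o
      field_simp
    exact smul_right_injective _ (hd0 b) e2
  have hadd : ∀ z u : Fin 2 → F, ρ₀ (z + u) = ρ₀ z + ρ₀ u := by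
    intro z u
    rw [hρ₀', hρ₀', hρ₀', hS.add, smul_add]
  have hN : ∀ z : Fin 2 → F, N A B (ρ₀ z) = (μ : F)⁻¹ * σ (N A B z) := by
    intro z
    rw [hρ₀', N_smul, hR3 o z]
    have := hd0 o
    field_simp
  obtain ⟨r, hr⟩ : ∃ r : Fin 2 → Fin 2 → F, r = fun j => ρ₀ (Pi.single j 1) := ⟨_, rfl⟩
  have hdec : ∀ z : Fin 2 → F, ρ₀ z = σ (z 0) • r 0 + σ (z 1) • r 1 := by
    intro z
    have ez : z = z 0 • (Pi.single 0 1 : Fin 2 → F) + z 1 • (Pi.single 1 1 : Fin 2 → F) := by
      funext j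
      fin_cases j <;> simp
    rw [hr]
    conv_lhs => rw [ez]
    rw [hadd, hsemi, hsemi]
  -- the linear map
  obtain ⟨f, hf⟩ : ∃ f : (MI m → F) →ₗ[F] (MI m → F), ∀ (x : MI m → F) (l : MI m),
      f x l = Sum.elim (fun k => d k * x (Sum.inl k))
        (fun j => (μ : F) * (x (Sum.inr 0) * r 0 j + x (Sum.inr 1) * r 1 j)) l :=
    ⟨{ toFun := fun x l => Sum.elim (fun k => d k * x (Sum.inl k))
        (fun j => (μ : F) * (x (Sum.inr 0) * r 0 j + x (Sum.inr 1) * r 1 j)) l
       map_add' := fun x y => by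
        funext l
        rcases l with k | j
        · simp only [Sum.elim_inl, Pi.add_apply]
          ring
        · simp only [Sum.elim_inr, Pi.add_apply]
          ring
       map_smul' := fun t x => by
        funext l
        rcases l with k | j
        · simp only [Sum.elim_inl, Pi.smul_apply, smul_eq_mul, RingHom.id_apply]
          ring
        · simp only [Sum.elim_inr, Pi.smul_apply, smul_eq_mul, RingHom.id_apply]
          ring }, fun x l => rfl⟩
  have hf1 : ∀ (x : MI m → F) (k : Fin m ⊕ Fin m), f x (Sum.inl k) = d k * x (Sum.inl k) :=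
    fun x k => by rw [hf]; rfl
  have hf2 : ∀ (x : MI m → F) (j : Fin 2), f x (Sum.inr j) =
      (μ : F) * (x (Sum.inr 0) * r 0 j + x (Sum.inr 1) * r 1 j) :=
    fun x j => by rw [hf]; rfl
  have hN0 : N A B (0 : Fin 2 → F) = 0 := by simp [N]
  have hinj : Function.Injective f := by
    rw [← LinearMap.ker_eq_bot, LinearMap.ker_eq_bot']
    intro x hx
    have hz0 : ∀ j : Fin 2, x (Sum.inr j) = 0 := by
      obtain ⟨z, hz⟩ : ∃ z : Fin 2 → F, z = fun j => σ.symm (x (Sum.inr j)) := ⟨_, rfl⟩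
      have e1 : ρ₀ z = 0 := by
        rw [hdec, hz]
        funext j'
        have := congrFun hx (Sum.inr j')
        rw [hf2] at this
        simp only [RingEquiv.apply_symm_apply, Pi.add_apply, Pi.smul_apply, smul_eq_mul,
          Pi.zero_apply]
        exact (mul_eq_zero.1 this).resolve_left hμ0
      have e2 := hN z
      rw [e1, hN0] at e2
      have e4 : σ (N A B z) = 0 := (mul_eq_zero.1 e2.symm).resolve_left (inv_ne_zero hμ0)
      have e5 : N A B z = 0 := by
        rw [← map_zero σ] at e4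
        exact σ.injective e4
      have e6 := hm.hab (z 0) (z 1) e5
      intro j
      have e7 : z j = 0 := by
        fin_cases j
        · exact e6.1
        · exact e6.2
      rw [hz] at e7
      have e8 : σ.symm (x (Sum.inr j)) = σ.symm 0 := by rw [map_zero]; exact e7
      exact σ.symm.injective e8
    funext l
    rcases l with k | j
    · have := congrFun hx (Sum.inl k)
      rw [hf1] at this
      exact (mul_eq_zero.1 this).resolve_left (hd0 k)
    · exact hz0 j
  have hmat : ∀ v, (LinearMap.toMatrix' f) *ᵥ v = f v := by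
    intro v
    rw [← Matrix.toLin'_apply, Matrix.toLin'_toMatrix']
  obtain ⟨g, hg⟩ : ∃ g : GL (MI m) F, ∀ x, (g : Matrix (MI m) (MI m) F) *ᵥ x = f x := by
    have hu : IsUnit (LinearMap.toMatrix' f) := by
      rw [← Matrix.mulVec_injective_iff_isUnit]
      intro x y hxy
      apply hinj
      rw [← hmat, ← hmat]
      exact hxy
    obtain ⟨g, hg⟩ := hu
    exact ⟨g, fun x => by rw [hg, hmat]⟩
  -- the semisimilarity
  have hpair : SemiPair (Cfsg.quadFormMinus m F A B) g σ (μ : F) := by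
    refine ⟨hμ0, fun v => ?_⟩
    rw [hg]
    obtain ⟨z, hz⟩ : ∃ z : Fin 2 → F, z = fun j => v (Sum.inr j) := ⟨_, rfl⟩
    have hz0 : v (Sum.inr 0) = z 0 := by rw [hz]
    have hz1 : v (Sum.inr 1) = z 1 := by rw [hz]
    have hz2 : ∀ j, f (fun i => σ (v i)) (Sum.inr j) = μ * ρ₀ z j := by
      intro j
      rw [hf2, hdec, hz]
      simp only [Pi.add_apply, Pi.smul_apply, smul_eq_mul]
    have e'' : (μ : F) * N A B (ρ₀ z) = σ (N A B z) := by
      rw [hN z, ← mul_assoc, mul_inv_cancel₀ hμ0, one_mul]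
    unfold N at e''
    unfold Cfsg.quadFormMinus
    rw [hz2, hz2]
    simp only [hf1]
    have hsum : ∑ i : Fin m, d (Sum.inl i) * σ (v (Sum.inl (Sum.inl i))) *
        (d (Sum.inr i) * σ (v (Sum.inl (Sum.inr i)))) =
        μ * σ (∑ i : Fin m, v (Sum.inl (Sum.inl i)) * v (Sum.inl (Sum.inr i))) := by
      rw [map_sum, Finset.mul_sum]
      apply Finset.sum_congr rfl
      intro i _
      have e := hdd (Sum.inl i)
      rw [map_mul, ← e]
      show _ = d (Sum.inl i) * d (Sum.inr i) * _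
      ring
    rw [hsum, map_add, mul_add, hz0, hz1]
    congr 1
    linear_combination (μ : F) * e''
  -- the action of the semisimilarity
  have hLE : ∀ a : Fin m ⊕ Fin m, Lσ g σ (E a : MI m → F) = d a • E a := by
    intro a
    unfold Lσ
    rw [hg]
    funext l
    rcases l with k | j
    · rw [hf1, Pi.smul_apply, smul_eq_mul]
      by_cases hk : k = a
      · rw [hk, E_self, map_one]
      · rw [E_ne hk, map_zero, mul_zero, mul_zero]
    · rw [hf2, Pi.smul_apply, smul_eq_mul, E_an, E_an, E_an, map_zero]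
      ring
  have hLw : ∀ z : Fin 2 → F, Lσ g σ (wv z : MI m → F) = wv ((μ : F) • ρ₀ z) := by
    intro z
    unfold Lσ
    rw [hg]
    funext l
    rcases l with k | j
    · rw [hf1, wv_fr, wv_fr, map_zero, mul_zero]
    · rw [hf2, wv_an, wv_an, wv_an, hdec]
      simp only [Pi.add_apply, Pi.smul_apply, smul_eq_mul]
  have hψX : ∀ a b : Fin m ⊕ Fin m, b ≠ a → b ≠ a.swap → ∀ t : F,
      semiAut hpair (X hm a b t) = X hm a b (φ a b t) := by
    intro a b hab hab' t
    unfold X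
    rw [semi_rt hm hpair _ _ (Q_E a) (frame_perp hab' t), Lσ_smul, hLE, hLE]
    apply rt_congr
    rw [sg_smul_left, hφ' a b hab hab']
    congr 1
    module
  have hψS : ∀ (a : Fin m ⊕ Fin m) (z : Fin 2 → F),
      semiAut hpair (S hm a z) = S hm a (ρ a z) := by
    intro a z
    unfold S
    rw [semi_rt hm hpair _ _ (Q_E a) (wv_perp a z), hLE, hLw]
    apply rt_congr
    rw [sg_smul_left, hρa, wv_smul, wv_smul, smul_smul, smul_smul, mul_assoc,
      inv_mul_cancel₀ hμ0, mul_one]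
  have hfixX : ∀ a b : Fin m ⊕ Fin m, b ≠ a → b ≠ a.swap → ∀ t : F,
      ((semiAut hpair)⁻¹ * β : MulAut (Cfsg.POmega F (Cfsg.quadFormMinus m F A B)))
        (X hm a b t) = X hm a b t := by
    intro a b hab hab' t
    rw [MulAut.mul_apply, h a b hab hab', MulAut.inv_apply, MulEquiv.symm_apply_eq,
      hψX a b hab hab']
  have hfixS : ∀ (a : Fin m ⊕ Fin m) (z : Fin 2 → F),
      ((semiAut hpair)⁻¹ * β : MulAut (Cfsg.POmega F (Cfsg.quadFormMinus m F A B)))
        (S hm a z) = S hm a z := by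
    intro a z
    rw [MulAut.mul_apply, hS a, MulAut.inv_apply, MulEquiv.symm_apply_eq, hψS]
  have h3 := rigid hm hsimple _ hfixX hfixS
  have h4 : β = semiAut hpair := by
    have := congrArg (fun x => semiAut hpair * x) h3
    simpa using this
  rw [h4]
  exact semiAut_mem hpair

/-- **the automorphism group of `PΩ⁻_{2m+2}(q)`, `m ≥ 3`** (modulo the Witt extension
statement for hyperbolic frames) -/
theorem gamma_eq_top (hm : Hy m F A B) (hW : WittStmt m F A B)
    (hsimple : IsSimpleGroup (Cfsg.POmega F (Cfsg.quadFormMinus m F A B))) :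
    Cfsg.gammaPOmega F (Cfsg.quadFormMinus m F A B) = ⊤ := by
  rw [eq_top_iff]
  intro α _
  obtain ⟨g, hg⟩ := frame_normal hm hW α
  have h1 := of_frameStable hm hsimple _ hg
  have h2 := Subgroup.mul_mem _ (Phi_mem g) h1
  rwa [mul_inv_cancel_left] at h2

end Cfsg.Agent.Lib.Helper43.MiFrame
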