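import Mathlib
import Cfsg.Agent.Lib.Helper43.MiFin
import Cfsg.Agent.Lib.Helper44.OTyp1
import Cfsg.Agent.Lib.Helper45.PlusInndiag

set_option autoImplicit false

namespace Cfsg.Agent.Lib.Helper43.MiWitt

open Matrix
open Cfsg.Agent.Lib.Helper94.Basic Cfsg.Agent.Lib.Helper94.GLAux Cfsg.Agent.Lib.Helper94.Tv
  Cfsg.Agent.Lib.Helper94.QuadAbs Cfsg.Agent.Lib.Helper94.OrthSiegel
  Cfsg.Agent.Lib.Helper43.MiBase Cfsg.Agent.Lib.Helper43.MiRoot
  Cfsg.Agent.Lib.Helper43.MiFin
open Cfsg.Agent.Lib.Helper43.OPlRoot (swap_inj)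
open Cfsg.Agent.Lib.Helper43.OPlLine (NO)
open Cfsg.Agent.Lib.Helper43.OPlFin (polar_sum_right Q_sum_perp NO_ll NO_lr NO_rl NO_rr)
open Cfsg.Agent.Lib.Helper94.SympAbs (bil_zero_left bil_zero_right bil_neg_left bil_neg_right
  bil_sub_left bil_sub_right)
open Cfsg.Agent.Lib.Helper44.QSpace (Sep res polar_res)
open Cfsg.Agent.Lib.Helper44.NegPairs (minusQ)
open Cfsg.Agent.Lib.Helper45.OmegaCenter (sep_minusQ')

universe u

variable {F : Type u} [Field F] [Fintype F] {m : ℕ} {A B : F}

/-- hyperbolic frames -/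
structure HF (m : ℕ) (A B : F) (f : Fin m ⊕ Fin m → MI m → F) : Prop where
  h1 : ∀ a, Cfsg.quadFormMinus m F A B (f a) = 0
  h2 : ∀ a, QuadraticMap.polar (Cfsg.quadFormMinus m F A B) (f a) (f a.swap) = 1
  h3 : ∀ a b, b ≠ a → b ≠ a.swap →
    QuadraticMap.polar (Cfsg.quadFormMinus m F A B) (f a) (f b) = 0

theorem HF.polar (hm : Hy m F A B) {f : Fin m ⊕ Fin m → MI m → F} (hf : HF m A B f)
    (a b : Fin m ⊕ Fin m) :
    QuadraticMap.polar (Cfsg.quadFormMinus m F A B) (f a) (f b) =
      if b = a.swap then 1 else 0 := by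
  by_cases h : b = a.swap
  · rw [if_pos h, h]
    exact hf.h2 a
  · rw [if_neg h]
    by_cases h' : b = a
    · rw [h']
      exact polar_self_sing (hQ hm) _ (hf.h1 a)
    · exact hf.h3 a b h' h

omit [Fintype F] in
theorem HF_E : HF m A B (fun a => (E a : MI m → F)) :=
  ⟨fun a => Q_E a, fun a => by rw [polar_E, E_self],
    fun a b _ hab' => by rw [polar_E, E_ne (Ne.symm hab')]⟩

/-- the orthogonal complement of a frame -/
def Wc (hm : Hy m F A B) (f : Fin m ⊕ Fin m → MI m → F) : Submodule F (MI m → F) where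
  carrier := {x | ∀ a, QuadraticMap.polar (Cfsg.quadFormMinus m F A B) (f a) x = 0}
  add_mem' := by
    intro x y hx hy a
    rw [(hQ hm).polar_bilinear.add_right, hx a, hy a, add_zero]
  zero_mem' := fun a => bil_zero_right (hQ hm).polar_bilinear _
  smul_mem' := by
    intro c x hx a
    rw [(hQ hm).polar_bilinear.smul_right, hx a, mul_zero]

/-- the projection onto the complement -/
def pr (hm : Hy m F A B) (f : Fin m ⊕ Fin m → MI m → F) (x : MI m → F) : MI m → F :=
  x - ∑ a, QuadraticMap.polar (Cfsg.quadFormMinus m F A B) (f a.swap) x • f a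

theorem pr_mem (hm : Hy m F A B) {f : Fin m ⊕ Fin m → MI m → F} (hf : HF m A B f)
    (x : MI m → F) : pr hm f x ∈ Wc hm f := by
  have hbl := (hQ hm).polar_bilinear
  intro b
  unfold pr
  rw [bil_sub_right hbl, polar_sum_right (hQ hm), Finset.sum_eq_single b.swap]
  · rw [hbl.smul_right, Sum.swap_swap, hf.h2 b, mul_one, sub_self]
  · intro a _ ha
    rw [hbl.smul_right, hf.polar hm, if_neg ha, mul_zero]
  · intro h
    exact absurd (Finset.mem_univ _) h

theorem sep_Wc (hm : Hy m F A B) {f : Fin m ⊕ Fin m → MI m → F} (hf : HF m A B f) :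
    Sep (res (minusQ m F A B) (Wc hm f)) := by
  have hbl := (hQ hm).polar_bilinear
  intro x hx
  have hS := sep_minusQ' m A B hm.hab
  have h0 : (x : MI m → F) = 0 := by
    apply hS
    intro v
    have e : v = pr hm f v +
        ∑ a, QuadraticMap.polar (Cfsg.quadFormMinus m F A B) (f a.swap) v • f a := by
      unfold pr
      rw [sub_add_cancel]
    show QuadraticMap.polar (Cfsg.quadFormMinus m F A B) (x : MI m → F) v = 0
    rw [e, hbl.add_right, polar_sum_right (hQ hm)]
    have e1 : QuadraticMap.polar (Cfsg.quadFormMinus m F A B) (x : MI m → F) (pr hm f v) = 0 :=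
      hx ⟨pr hm f v, pr_mem hm hf v⟩
    rw [e1, zero_add]
    apply Finset.sum_eq_zero
    intro a _
    rw [hbl.smul_right, B_comm (Cfsg.quadFormMinus m F A B) (x : MI m → F) (f a), x.2 a,
      mul_zero]
  exact Subtype.ext h0

theorem finrank_Wc (hm : Hy m F A B) {f : Fin m ⊕ Fin m → MI m → F} (hf : HF m A B f) :
    Module.finrank F (Wc hm f) = 2 := by
  have hbl := (hQ hm).polar_bilinear
  obtain ⟨L, hL⟩ : ∃ L : (MI m → F) →ₗ[F] (Fin m ⊕ Fin m → F),
      ∀ x a, L x a = QuadraticMap.polar (Cfsg.quadFormMinus m F A B) (f a) x :=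
    ⟨{ toFun := fun x a => QuadraticMap.polar (Cfsg.quadFormMinus m F A B) (f a) x
       map_add' := fun x y => by funext a; exact hbl.add_right _ _ _
       map_smul' := fun c x => by funext a; exact hbl.smul_right _ _ _ }, fun x a => rfl⟩
  have hker : LinearMap.ker L = Wc hm f := by
    ext x
    rw [LinearMap.mem_ker]
    constructor
    · intro h a
      rw [← hL, h]
      rfl
    · intro h
      funext a
      rw [hL]
      exact h a
  have hsurj : LinearMap.range L = ⊤ := by
    rw [eq_top_iff]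
    intro y _
    refine ⟨∑ b, y b • f b.swap, ?_⟩
    funext a
    rw [hL, polar_sum_right (hQ hm), Finset.sum_eq_single a]
    · rw [hbl.smul_right, hf.h2 a, mul_one]
    · intro b _ hb
      rw [hbl.smul_right, hf.polar hm, if_neg (fun h => hb (swap_inj h)), mul_zero]
    · intro h
      exact absurd (Finset.mem_univ _) h
  have h1 := LinearMap.finrank_range_add_finrank_ker L
  rw [hsurj, finrank_top, hker] at h1
  simp only [Module.finrank_fintype_fun_eq_card, Fintype.card_sum, Fintype.card_fin] at h1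
  omega

theorem aniso_Wc (hm : Hy m F A B) {f : Fin m ⊕ Fin m → MI m → F} (hf : HF m A B f)
    {w : MI m → F} (hw : w ∈ Wc hm f) (hQw : Cfsg.quadFormMinus m F A B w = 0) : w = 0 := by
  have hbl := (hQ hm).polar_bilinear
  by_contra hw0
  obtain ⟨v, hv⟩ : ∃ v : Fin m ⊕ Unit → MI m → F,
      v = Sum.elim (fun i => f (Sum.inl i)) (fun _ => w) := ⟨_, rfl⟩
  have hvl : ∀ i : Fin m, v (Sum.inl i) = f (Sum.inl i) := fun i => by rw [hv]; rfl
  have hvr : ∀ u : Unit, v (Sum.inr u) = w := fun u => by rw [hv]; rfl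
  have hli : LinearIndependent F v := by
    rw [Fintype.linearIndependent_iff]
    intro c hc
    have hu : ∑ a₂ : Unit, c (Sum.inr a₂) • v (Sum.inr a₂) =
        c (Sum.inr default) • v (Sum.inr default) := Fintype.sum_unique _
    rw [Fintype.sum_sum_type, hu] at hc
    have hci : ∀ j : Fin m, c (Sum.inl j) = 0 := by
      intro j
      have e := congrArg (fun x => QuadraticMap.polar (Cfsg.quadFormMinus m F A B)
        (f (Sum.inr j)) x) hc
      rw [hbl.add_right, polar_sum_right (hQ hm), Finset.sum_eq_single j,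
        bil_zero_right hbl] at e
      · rw [hvl, hvr, hbl.smul_right, hbl.smul_right, hw (Sum.inr j)] at e
        have e2 := hf.h2 (Sum.inr j)
        rw [show (Sum.inr j : Fin m ⊕ Fin m).swap = Sum.inl j from rfl] at e2
        rw [e2] at e
        simpa using e
      · intro i _ hij
        rw [hvl, hbl.smul_right, hf.polar hm,
          if_neg (by simp [hij] : ¬ (Sum.inl i : Fin m ⊕ Fin m) = (Sum.inr j).swap), mul_zero]
      · intro h
        exact absurd (Finset.mem_univ _) h
    have hc0 : c (Sum.inr default) = 0 := by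
      rw [Finset.sum_eq_zero (fun i _ => by rw [hci i, zero_smul]), zero_add, hvr] at hc
      exact (smul_eq_zero.1 hc).resolve_right hw0
    intro i
    rcases i with i | u
    · exact hci i
    · exact hc0
  have hfr := finrank_span_eq_card hli
  have hTS : ∀ x ∈ Submodule.span F (Set.range v), minusQ m F A B x = 0 := by
    intro x hx
    obtain ⟨c, rfl⟩ := (Submodule.mem_span_range_iff_exists_fun F).1 hx
    show Cfsg.quadFormMinus m F A B (∑ i, c i • v i) = 0
    have hQv : ∀ i, Cfsg.quadFormMinus m F A B (v i) = 0 := by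
      intro i
      rcases i with i | u
      · rw [hvl]
        exact hf.h1 _
      · rw [hvr]
        exact hQw
    have hpv : ∀ i j, i ≠ j →
        QuadraticMap.polar (Cfsg.quadFormMinus m F A B) (v i) (v j) = 0 := by
      intro i j hij
      rcases i with i | u <;> rcases j with j | u'
      · rw [hvl, hvl, hf.polar hm, if_neg (by simp)]
      · rw [hvl, hvr]
        exact hw _
      · rw [hvl, hvr, B_comm]
        exact hw _
      · exact absurd rfl hij
    rw [Q_sum_perp (hQ hm)]
    · apply Finset.sum_eq_zero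
      intro i _
      rw [(hQ hm).smul, hQv i, mul_zero]
    · intro i _ j _ hij
      rw [hbl.smul_left, hbl.smul_right, hpv i j hij, mul_zero, mul_zero]
  have h1 := Cfsg.Agent.Lib.Helper44.Inv8.minus_ts_le (sep_minusQ' m A B hm.hab) hm.hab hTS
  rw [hfr, Fintype.card_sum, Fintype.card_fin, Fintype.card_unit] at h1
  omega

theorem card_sing (hm : Hy m F A B) {f : Fin m ⊕ Fin m → MI m → F} (hf : HF m A B f) :
    Nat.card {v : ↥(Wc hm f) // res (minusQ m F A B) (Wc hm f) v = 0} = 1 := by
  rw [Nat.card_eq_one_iff_unique]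
  refine ⟨⟨fun x y => ?_⟩, ⟨⟨0, map_zero _⟩⟩⟩
  have hx : (x : ↥(Wc hm f)) = 0 := Subtype.ext (aniso_Wc hm hf x.1.2 x.2)
  have hy : (y : ↥(Wc hm f)) = 0 := Subtype.ext (aniso_Wc hm hf y.1.2 y.2)
  exact Subtype.ext (hx.trans hy.symm)

/-- **Witt extension for hyperbolic frames of the minus type form** -/
theorem witt (hm : Hy m F A B) : WittStmt m F A B := by
  intro f h1 h2 h3
  have hbl := (hQ hm).polar_bilinear
  have hf : HF m A B f := ⟨h1, fun a => by
    rcases a with i | i
    · exact h2 i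
    · rw [B_comm]
      exact h2 i, h3⟩
  have hE : HF m A B (fun a => (E a : MI m → F)) := HF_E
  obtain ⟨j, hj⟩ := Cfsg.Agent.Lib.Helper44.OTyp1.exists_iso
    (res (minusQ m F A B) (Wc hm (fun a => (E a : MI m → F))))
    (res (minusQ m F A B) (Wc hm f)) (sep_Wc hm hE) (sep_Wc hm hf) (k := 0)
    (by rw [finrank_Wc hm hE]) (by rw [finrank_Wc hm hf])
    (by rw [card_sing hm hE, card_sing hm hf])
  have hwv : ∀ z : Fin 2 → F, (wv z : MI m → F) ∈ Wc hm (fun a => (E a : MI m → F)) :=
    fun z a => wv_perp a z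
  obtain ⟨L, hL⟩ : ∃ L : (MI m → F) →ₗ[F] (MI m → F), ∀ x : MI m → F,
      L x = (j ⟨wv (fun k => x (Sum.inr k)), hwv _⟩ : MI m → F) +
        ∑ a, x (Sum.inl a) • f a :=
    ⟨{ toFun := fun x => (j ⟨wv (fun k => x (Sum.inr k)), hwv _⟩ : MI m → F) +
        ∑ a, x (Sum.inl a) • f a
       map_add' := fun x y => by
        have e : (⟨wv (fun k => (x + y) (Sum.inr k)), hwv _⟩ :
            ↥(Wc hm (fun a => (E a : MI m → F)))) =
            ⟨wv (fun k => x (Sum.inr k)), hwv _⟩ + ⟨wv (fun k => y (Sum.inr k)), hwv _⟩ :=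
          Subtype.ext (wv_add _ _)
        rw [e, map_add, Submodule.coe_add]
        simp only [Pi.add_apply, add_smul, Finset.sum_add_distrib]
        abel
       map_smul' := fun t x => by
        have e : (⟨wv (fun k => (t • x) (Sum.inr k)), hwv _⟩ :
            ↥(Wc hm (fun a => (E a : MI m → F)))) =
            t • ⟨wv (fun k => x (Sum.inr k)), hwv _⟩ :=
          Subtype.ext (wv_smul _ _)
        rw [e, map_smul, Submodule.coe_smul]
        simp only [Pi.smul_apply, smul_eq_mul, RingHom.id_apply, smul_add, Finset.smul_sum,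
          smul_smul] }, fun x => rfl⟩
  have hLQ : ∀ x, minusQ m F A B (L x) = ((1 : Fˣ) : F) * minusQ m F A B x := by
    intro x
    rw [Units.val_one, one_mul, hL]
    obtain ⟨y, hy⟩ : ∃ y : ↥(Wc hm f), y = j ⟨wv (fun k => x (Sum.inr k)), hwv _⟩ := ⟨_, rfl⟩
    rw [← hy]
    show Cfsg.quadFormMinus m F A B ((y : MI m → F) + ∑ a, x (Sum.inl a) • f a) =
      Cfsg.quadFormMinus m F A B x
    have hQy : Cfsg.quadFormMinus m F A B (y : MI m → F) = N A B (fun k => x (Sum.inr k)) := by
      have e2 : Cfsg.quadFormMinus m F A B (y : MI m → F) =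
          Cfsg.quadFormMinus m F A B (wv (fun k => x (Sum.inr k))) := by
        rw [hy]
        exact hj ⟨wv (fun k => x (Sum.inr k)), hwv _⟩
      rw [e2, Q_wv]
    have hpy : QuadraticMap.polar (Cfsg.quadFormMinus m F A B) (y : MI m → F)
        (∑ a, x (Sum.inl a) • f a) = 0 := by
      rw [polar_sum_right (hQ hm)]
      apply Finset.sum_eq_zero
      intro a _
      rw [hbl.smul_right, B_comm, y.2 a, mul_zero]
    have e1 : ∀ i : Fin m, Cfsg.quadFormMinus m F A B
        (x (Sum.inl (Sum.inl i)) • f (Sum.inl i) + x (Sum.inl (Sum.inr i)) • f (Sum.inr i)) =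
        x (Sum.inl (Sum.inl i)) * x (Sum.inl (Sum.inr i)) := by
      intro i
      rw [Q_add (Cfsg.quadFormMinus m F A B), (hQ hm).smul, (hQ hm).smul, h1, h1, hbl.smul_left,
        hbl.smul_right, h2 i]
      ring
    have hsum : Cfsg.quadFormMinus m F A B (∑ a, x (Sum.inl a) • f a) =
        ∑ i : Fin m, x (Sum.inl (Sum.inl i)) * x (Sum.inl (Sum.inr i)) := by
      rw [Fintype.sum_sum_type, ← Finset.sum_add_distrib, Q_sum_perp (hQ hm),
        Finset.sum_congr rfl (fun i _ => e1 i)]
      intro i _ j _ hij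
      simp only [hbl.add_left, hbl.add_right, hbl.smul_left, hbl.smul_right]
      rw [h3 _ _ (NO_ll hij).1 (NO_ll hij).2, h3 _ _ (NO_lr hij).1 (NO_lr hij).2,
        h3 _ _ (NO_rl hij).1 (NO_rl hij).2, h3 _ _ (NO_rr hij).1 (NO_rr hij).2]
      ring
    rw [Q_add (Cfsg.quadFormMinus m F A B), hQy, hpy, hsum]
    unfold Cfsg.quadFormMinus N
    ring
  obtain ⟨g, hg⟩ := Cfsg.Agent.Lib.Helper45.PlusInndiag.exists_sim_mulVec (minusQ m F A B)
    (sep_minusQ' m A B hm.hab) L 1 hLQ
  refine ⟨g, fun v => ?_, fun a => ?_⟩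
  · rw [hg]
    have := hLQ v
    rw [Units.val_one, one_mul] at this
    exact this
  · rw [hg, hL]
    have e0 : (⟨wv (fun k => (Pi.single (Sum.inl a) (1 : F) : MI m → F) (Sum.inr k)), hwv _⟩ :
        ↥(Wc hm (fun a => (E a : MI m → F)))) = 0 := by
      apply Subtype.ext
      show (wv (fun k => (Pi.single (Sum.inl a) (1 : F) : MI m → F) (Sum.inr k)) : MI m → F) = 0
      funext l
      rcases l with l | k
      · rw [wv_fr]
        rfl
      · rw [wv_an]
        simp
    rw [e0, map_zero, Submodule.coe_zero, zero_add, Finset.sum_eq_single a]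
    · rw [Pi.single_eq_same, one_smul]
    · intro b _ hb
      rw [Pi.single_apply, if_neg (fun h => hb (Sum.inl_injective h)), zero_smul]
    · intro h
      exact absurd (Finset.mem_univ _) h

end Cfsg.Agent.Lib.Helper43.MiWitt
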