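import Mathlib
import Cfsg.Prelude.Def_LieTypeDatum
import Cfsg.Agent.Lib.Helper94.OrthSiegel
import Cfsg.Agent.Lib.Helper94.OrthPara
import Cfsg.Agent.Lib.Helper44.NegPairs
import Cfsg.Agent.Lib.Helper45.OmegaAut

set_option autoImplicit false

namespace Cfsg.Agent.Lib.Helper43.OOdBase

open Matrix
open Cfsg.Agent.Lib.Helper94.Basic Cfsg.Agent.Lib.Helper94.GLAux Cfsg.Agent.Lib.Helper94.Tv
  Cfsg.Agent.Lib.Helper94.QuadAbs Cfsg.Agent.Lib.Helper94.OrthSiegel

/-- the index type of the odd dimensional orthogonal space -/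
abbrev OI (m : ℕ) : Type := Unit ⊕ (Fin m ⊕ Fin m)

/-- the standing hypotheses: odd characteristic and rank at least three -/
structure Hy (m : ℕ) (F : Type*) [Field F] : Prop where
  h2 : (2 : F) ≠ 0
  hm : 3 ≤ m

/-- the odd dimensional form is a nondegenerate quadratic form -/
theorem hQ {m : ℕ} {F : Type*} [Field F] (hm : Hy m F) :
    Cfsg.Geo.IsNondegenerateQuadraticForm (Cfsg.quadFormOdd m F) :=
  Cfsg.Agent.Lib.Helper94.OrthPara.nondeg_of_sep (Cfsg.Agent.Lib.Helper44.NegPairs.oddQ m F)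
    (Cfsg.Agent.Lib.Helper44.NegPairs.sep_oddQ hm.h2 m)

variable {F : Type*} [Field F] {m : ℕ}

/-- the polar form of the odd dimensional form -/
theorem polar_eq (u v : OI m → F) :
    QuadraticMap.polar (Cfsg.quadFormOdd m F) u v =
      2 * u (Sum.inl ()) * v (Sum.inl ()) +
      ∑ i : Fin m, (u (Sum.inr (Sum.inl i)) * v (Sum.inr (Sum.inr i)) +
        u (Sum.inr (Sum.inr i)) * v (Sum.inr (Sum.inl i))) := by
  unfold QuadraticMap.polar Cfsg.quadFormOdd
  simp only [Pi.add_apply]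
  have key : ∑ i : Fin m, (u (Sum.inr (Sum.inl i)) + v (Sum.inr (Sum.inl i))) *
      (u (Sum.inr (Sum.inr i)) + v (Sum.inr (Sum.inr i))) =
      ∑ i : Fin m, u (Sum.inr (Sum.inl i)) * u (Sum.inr (Sum.inr i)) +
      ∑ i : Fin m, v (Sum.inr (Sum.inl i)) * v (Sum.inr (Sum.inr i)) +
      ∑ i : Fin m, (u (Sum.inr (Sum.inl i)) * v (Sum.inr (Sum.inr i)) +
        u (Sum.inr (Sum.inr i)) * v (Sum.inr (Sum.inl i))) := by
    rw [← Finset.sum_add_distrib, ← Finset.sum_add_distrib]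
    apply Finset.sum_congr rfl
    intro i _
    ring
  rw [key]
  ring

/-- the frame vectors -/
def E (k : Fin m ⊕ Fin m) : OI m → F := Pi.single (Sum.inr k) 1

/-- the anisotropic vector -/
def e0 : OI m → F := Pi.single (Sum.inl ()) 1

theorem E_apply (k : Fin m ⊕ Fin m) (l : OI m) :
    (E k : OI m → F) l = if l = Sum.inr k then 1 else 0 := by
  unfold E
  rw [Pi.single_apply]

theorem E_inr (k l : Fin m ⊕ Fin m) :
    (E k : OI m → F) (Sum.inr l) = if l = k then 1 else 0 := by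
  rw [E_apply]
  by_cases h : l = k
  · rw [if_pos h, if_pos (by rw [h])]
  · rw [if_neg h, if_neg (fun h' => h (Sum.inr_injective h'))]

theorem E_inl (k : Fin m ⊕ Fin m) : (E k : OI m → F) (Sum.inl ()) = 0 := by
  rw [E_apply, if_neg (by simp)]

theorem E_self (k : Fin m ⊕ Fin m) : (E k : OI m → F) (Sum.inr k) = 1 := by
  rw [E_inr, if_pos rfl]

theorem E_ne {k l : Fin m ⊕ Fin m} (h : l ≠ k) : (E k : OI m → F) (Sum.inr l) = 0 := by
  rw [E_inr, if_neg h]

theorem e0_inl : (e0 : OI m → F) (Sum.inl ()) = 1 := by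
  unfold e0
  rw [Pi.single_apply, if_pos rfl]

theorem e0_inr (l : Fin m ⊕ Fin m) : (e0 : OI m → F) (Sum.inr l) = 0 := by
  unfold e0
  rw [Pi.single_apply, if_neg (by simp)]

theorem polar_E (k : Fin m ⊕ Fin m) (x : OI m → F) :
    QuadraticMap.polar (Cfsg.quadFormOdd m F) (E k) x = x (Sum.inr k.swap) := by
  rw [polar_eq]
  rcases k with i | i
  · simp [E_inr, E_inl]
  · simp [E_inr, E_inl]

theorem polar_E' (x : OI m → F) (k : Fin m ⊕ Fin m) :
    QuadraticMap.polar (Cfsg.quadFormOdd m F) x (E k) = x (Sum.inr k.swap) := by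
  rw [B_comm, polar_E]

theorem polar_e0 (x : OI m → F) :
    QuadraticMap.polar (Cfsg.quadFormOdd m F) e0 x = 2 * x (Sum.inl ()) := by
  rw [polar_eq]
  simp [e0_inr, e0_inl]

theorem polar_e0' (x : OI m → F) :
    QuadraticMap.polar (Cfsg.quadFormOdd m F) x e0 = 2 * x (Sum.inl ()) := by
  rw [B_comm, polar_e0]

theorem Q_E (k : Fin m ⊕ Fin m) : Cfsg.quadFormOdd m F (E k) = 0 := by
  unfold Cfsg.quadFormOdd
  rcases k with i | i
  · simp [E_inr, E_inl]
  · simp [E_inr, E_inl]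

theorem Q_e0 : Cfsg.quadFormOdd m F (e0 : OI m → F) = 1 := by
  unfold Cfsg.quadFormOdd
  simp [e0_inr, e0_inl]

theorem swap_ne (k : Fin m ⊕ Fin m) : k.swap ≠ k := by
  rcases k with i | i <;> simp

theorem eq_sum_E (x : OI m → F) :
    x = x (Sum.inl ()) • (e0 : OI m → F) + ∑ k, x (Sum.inr k) • (E k : OI m → F) := by
  funext l
  rw [Pi.add_apply, Finset.sum_apply]
  rcases l with u | l
  · obtain rfl : u = () := rfl
    simp [E_inl, e0_inl]
  · simp [E_inr, e0_inr]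

theorem mulVec_E (M : Matrix (OI m) (OI m) F) (k : Fin m ⊕ Fin m) (l : OI m) :
    (M *ᵥ E k) l = M l (Sum.inr k) := by
  unfold E
  rw [Matrix.mulVec_single_one]
  rfl

theorem mulVec_e0 (M : Matrix (OI m) (OI m) F) (l : OI m) :
    (M *ᵥ e0) l = M l (Sum.inl ()) := by
  unfold e0
  rw [Matrix.mulVec_single_one]
  rfl

variable [Fintype F]

theorem card_ge (hm : Hy m F) : 5 ≤ Fintype.card (OI m) := by
  have := hm.hm
  rw [Fintype.card_sum, Fintype.card_sum, Fintype.card_fin, Fintype.card_unit]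
  omega

/-- Siegel elements as elements of `Ω` -/
noncomputable def T (hm : Hy m F) (a w : OI m → F) :
    ↥(Cfsg.Omega F (Cfsg.quadFormOdd m F)) :=
  ⟨⟨sg (hQ hm) a w, (mem_isometryGroup_iff _ _).2 (sg_isom (hQ hm) a w)⟩, by
    obtain ⟨s, hs, hs'⟩ := sg_mem_omega (hQ hm) (card_ge hm) a w
    have h1 : s = ⟨sg (hQ hm) a w, (mem_isometryGroup_iff _ _).2 (sg_isom (hQ hm) a w)⟩ :=
      Subtype.ext hs'
    rw [← h1]
    exact hs⟩

theorem T_coe (hm : Hy m F) (a w : OI m → F) :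
    (((T hm a w : ↥(Cfsg.Omega F (Cfsg.quadFormOdd m F))) :
      ↥(Cfsg.isometryGroup F (Cfsg.quadFormOdd m F))) : GL (OI m) F) =
      sg (hQ hm) a w := rfl

/-- extensionality for elements of `Ω` -/
theorem omega_ext {s s' : ↥(Cfsg.Omega F (Cfsg.quadFormOdd m F))}
    (h : ((s : ↥(Cfsg.isometryGroup F (Cfsg.quadFormOdd m F))) : GL (OI m) F) =
      ((s' : ↥(Cfsg.isometryGroup F (Cfsg.quadFormOdd m F))) : GL (OI m) F)) :
    s = s' :=
  Subtype.ext (Subtype.ext h)

/-- root elements of `PΩ` -/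
noncomputable def rt (hm : Hy m F) (a w : OI m → F) :
    Cfsg.POmega F (Cfsg.quadFormOdd m F) :=
  QuotientGroup.mk (T hm a w)

/-- the frame root groups are stabilised by the automorphism -/
def FrameStable (hm : Hy m F) (β : MulAut (Cfsg.POmega F (Cfsg.quadFormOdd m F))) : Prop :=
  ∀ (a b : Fin m ⊕ Fin m), b ≠ a → b ≠ a.swap → ∀ t : F,
    ∃ t' : F, β (rt hm (E a) (t • E b)) = rt hm (E a) (t' • E b)

end Cfsg.Agent.Lib.Helper43.OOdBase
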