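import Mathlib
import Cfsg.Agent.Lib.Helper43.OOdBase
import Cfsg.Agent.Lib.Helper43.OPlRoot

set_option autoImplicit false

namespace Cfsg.Agent.Lib.Helper43.OOdRoot

open Matrix
open Cfsg.Agent.Lib.Helper94.Basic Cfsg.Agent.Lib.Helper94.GLAux Cfsg.Agent.Lib.Helper94.Tv
  Cfsg.Agent.Lib.Helper94.QuadAbs Cfsg.Agent.Lib.Helper94.OrthSiegel
  Cfsg.Agent.Lib.Helper43.OOdBase
open Cfsg.Agent.Lib.Helper43.OPlRoot (sg_add_left sg_inv sg_swap sg_self sg_conj_sim swap_inj
  exists_other)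
open Cfsg.Agent.Lib.Helper94.SympAbs (bil_zero_left bil_zero_right bil_neg_left bil_neg_right
  bil_sub_left bil_sub_right)

section Frame

variable {F : Type*} [Field F] {m : ℕ}

theorem frame_perp {a b : Fin m ⊕ Fin m} (hab' : b ≠ a.swap) (t : F) :
    QuadraticMap.polar (Cfsg.quadFormOdd m F) (E a) (t • E b) = 0 := by
  rw [polar_E, Pi.smul_apply, E_ne (Ne.symm hab'), smul_zero]

theorem e0_perp (a : Fin m ⊕ Fin m) (t : F) :
    QuadraticMap.polar (Cfsg.quadFormOdd m F) (E a) (t • e0) = 0 := by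
  rw [polar_E, Pi.smul_apply, e0_inr, smul_zero]

theorem Q_smul_E (hm : Hy m F) (t : F) (b : Fin m ⊕ Fin m) :
    Cfsg.quadFormOdd m F (t • E b) = 0 := by
  rw [(hQ hm).smul, Q_E, mul_zero]

theorem Q_smul_e0 (hm : Hy m F) (t : F) :
    Cfsg.quadFormOdd m F (t • (e0 : OI m → F)) = t ^ 2 := by
  rw [(hQ hm).smul, Q_e0, mul_one]

/-- the action of a frame root element -/
theorem frame_mulVec (hm : Hy m F) {a b : Fin m ⊕ Fin m} (hab' : b ≠ a.swap) (t : F)
    (x : OI m → F) :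
    ((sg (hQ hm) (E a) (t • E b) : GL (OI m) F) : Matrix (OI m) (OI m) F) *ᵥ x =
      x + (t * x (Sum.inr a.swap)) • E b - (t * x (Sum.inr b.swap)) • E a := by
  rw [sg_mulVec (hQ hm) _ _ (Q_E a) (frame_perp hab' t), Q_smul_E hm, polar_E,
    (hQ hm).polar_bilinear.smul_left, polar_E]
  module

/-- the action of a short root element -/
theorem short_mulVec (hm : Hy m F) (a : Fin m ⊕ Fin m) (t : F) (x : OI m → F) :
    ((sg (hQ hm) (E a) (t • e0) : GL (OI m) F) : Matrix (OI m) (OI m) F) *ᵥ x =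
      x + (t * x (Sum.inr a.swap)) • e0 - (2 * t * x (Sum.inl ())) • E a -
        (t ^ 2 * x (Sum.inr a.swap)) • E a := by
  rw [sg_mulVec (hQ hm) _ _ (Q_E a) (e0_perp a t), Q_smul_e0 hm, polar_E,
    (hQ hm).polar_bilinear.smul_left, polar_e0]
  module

theorem frame_symm (hm : Hy m F) {a b : Fin m ⊕ Fin m} (hab' : b ≠ a.swap) (t : F) :
    sg (hQ hm) (E a) (t • E b) = sg (hQ hm) (E b) ((-t) • E a) := by
  rw [sg_swap (hQ hm) _ _ (Q_E a) (Q_smul_E hm t b) (frame_perp hab' t), sg_smul_left, smul_neg,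
    neg_smul]

theorem frame_add (hm : Hy m F) {a b : Fin m ⊕ Fin m} (hab' : b ≠ a.swap) (s t : F) :
    sg (hQ hm) (E a) ((s + t) • E b) =
      sg (hQ hm) (E a) (s • E b) * sg (hQ hm) (E a) (t • E b) := by
  rw [sg_mul (hQ hm) _ _ _ (Q_E a) (frame_perp hab' s) (frame_perp hab' t), add_smul]

theorem frame_eq_one (hm : Hy m F) {b d : Fin m ⊕ Fin m} (hbd : d ≠ b) (hbd' : d ≠ b.swap)
    {u : F} (h : sg (hQ hm) (E b) (u • E d) = 1) : u = 0 := by
  have h1 := congrArg (fun g : GL (OI m) F =>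
    ((g : Matrix (OI m) (OI m) F) *ᵥ (E b.swap : OI m → F)) (Sum.inr d)) h
  simp only [frame_mulVec hm hbd', Units.val_one, Matrix.one_mulVec] at h1
  have h2 : d ≠ b.swap := hbd'
  have h3 : d.swap ≠ b.swap := fun h => hbd (swap_inj h)
  simpa [E_inr, h2, h3, Sum.swap_swap, hbd] using h1

theorem short_eq_one (hm : Hy m F) (a : Fin m ⊕ Fin m) {t : F}
    (h : sg (hQ hm) (E a) (t • e0) = 1) : t = 0 := by
  have h1 := congrArg (fun g : GL (OI m) F =>
    ((g : Matrix (OI m) (OI m) F) *ᵥ (E a.swap : OI m → F)) (Sum.inl ())) h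
  simp only [short_mulVec hm, Units.val_one, Matrix.one_mulVec] at h1
  simpa [E_inr, E_inl, e0_inl] using h1

/-- the commutator relation for frame root elements -/
theorem frame_rel (hm : Hy m F) {a b d : Fin m ⊕ Fin m} (hba : b ≠ a) (hba' : b ≠ a.swap)
    (hda : d ≠ a) (hda' : d ≠ a.swap) (hdb : d ≠ b) (hdb' : d ≠ b.swap) (s t : F) :
    sg (hQ hm) (E a) (s • E b) * sg (hQ hm) (E a.swap) (t • E d) *
        (sg (hQ hm) (E a) (s • E b))⁻¹ =
      sg (hQ hm) (E a.swap) (t • E d) * sg (hQ hm) (E b) ((s * t) • E d) := by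
  have hbl := (hQ hm).polar_bilinear
  rw [sg_conj (hQ hm) _ (sg_isom (hQ hm) _ _), frame_mulVec hm hba', frame_mulVec hm hba']
  have h1 : (E a.swap : OI m → F) + (s * (E a.swap : OI m → F) (Sum.inr a.swap)) • E b -
      (s * (E a.swap : OI m → F) (Sum.inr b.swap)) • E a = E a.swap + s • E b := by
    rw [E_self, E_ne (fun h => hba (swap_inj h)), mul_one, mul_zero, zero_smul, sub_zero]
  have h2 : t • (E d : OI m → F) + (s * (t • (E d : OI m → F)) (Sum.inr a.swap)) • E b -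
      (s * (t • (E d : OI m → F)) (Sum.inr b.swap)) • E a = t • E d := by
    rw [Pi.smul_apply, Pi.smul_apply, E_ne (Ne.symm hda'), E_ne (Ne.symm hdb')]
    simp
  rw [h1, h2]
  have hdsw : d ≠ a.swap.swap := by rw [Sum.swap_swap]; exact hda
  rw [sg_add_left (hQ hm) _ _ _ (Q_E _) (Q_smul_E hm s b) (Q_smul_E hm t d)
    (by rw [polar_E, Sum.swap_swap, Pi.smul_apply, E_ne (Ne.symm hba), smul_zero])
    (frame_perp hdsw t)
    (by rw [hbl.smul_left, frame_perp hdb' t, mul_zero])]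
  rw [sg_smul_left, smul_smul]

/-- the commutator relation for short root elements -/
theorem short_rel (hm : Hy m F) {a b : Fin m ⊕ Fin m} (hba : b ≠ a) (hba' : b ≠ a.swap)
    (t u : F) :
    sg (hQ hm) (E a) (t • e0) * sg (hQ hm) (E b) (u • e0) * (sg (hQ hm) (E a) (t • e0))⁻¹ =
      sg (hQ hm) (E b) (u • e0) * sg (hQ hm) (E b) ((-(2 * t * u)) • E a) := by
  rw [sg_conj (hQ hm) _ (sg_isom (hQ hm) _ _), short_mulVec hm, short_mulVec hm]
  have h1 : (E b : OI m → F) + (t * (E b : OI m → F) (Sum.inr a.swap)) • e0 -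
      (2 * t * (E b : OI m → F) (Sum.inl ())) • E a -
      (t ^ 2 * (E b : OI m → F) (Sum.inr a.swap)) • E a = E b := by
    rw [E_ne (Ne.symm hba'), E_inl]
    simp
  have h2 : u • (e0 : OI m → F) + (t * (u • (e0 : OI m → F)) (Sum.inr a.swap)) • e0 -
      (2 * t * (u • (e0 : OI m → F)) (Sum.inl ())) • E a -
      (t ^ 2 * (u • (e0 : OI m → F)) (Sum.inr a.swap)) • E a
      = u • e0 + (-(2 * t * u)) • E a := by
    rw [Pi.smul_apply, Pi.smul_apply, e0_inr, e0_inl]
    simp only [smul_eq_mul, mul_zero, zero_smul, add_zero, sub_zero, mul_one]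
    module
  rw [h1, h2]
  have hab' : a ≠ b.swap := fun h => hba' (by rw [h, Sum.swap_swap])
  rw [sg_mul (hQ hm) _ _ _ (Q_E b) (e0_perp b u) (frame_perp hab' _)]

end Frame

section Proj

variable {F : Type*} [Field F] [Fintype F] {m : ℕ}

theorem rt_add (hm : Hy m F) (a w w' : OI m → F) (ha : Cfsg.quadFormOdd m F a = 0)
    (hw : QuadraticMap.polar (Cfsg.quadFormOdd m F) a w = 0)
    (hw' : QuadraticMap.polar (Cfsg.quadFormOdd m F) a w' = 0) :
    rt hm a (w + w') = rt hm a w * rt hm a w' := by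
  unfold rt
  rw [← QuotientGroup.mk_mul]
  congr 1
  apply omega_ext
  show sg (hQ hm) a (w + w') = sg (hQ hm) a w * sg (hQ hm) a w'
  rw [sg_mul (hQ hm) a w w' ha hw hw']

theorem rt_eq_one (hm : Hy m F) {a w : OI m → F} (h : sg (hQ hm) a w = 1) :
    rt hm a w = 1 := by
  unfold rt
  have : T hm a w = 1 := by
    apply omega_ext
    rw [T_coe, h]
    rfl
  rw [this, QuotientGroup.mk_one]

theorem rt_conj (hm : Hy m F) (g : ↥(Cfsg.Omega F (Cfsg.quadFormOdd m F)))
    (a w : OI m → F) :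
    (QuotientGroup.mk g : Cfsg.POmega F (Cfsg.quadFormOdd m F)) * rt hm a w *
        (QuotientGroup.mk g)⁻¹ =
      rt hm ((((g : ↥(Cfsg.isometryGroup F (Cfsg.quadFormOdd m F))) : GL (OI m) F) :
          Matrix (OI m) (OI m) F) *ᵥ a)
        ((((g : ↥(Cfsg.isometryGroup F (Cfsg.quadFormOdd m F))) : GL (OI m) F) :
          Matrix (OI m) (OI m) F) *ᵥ w) := by
  unfold rt
  rw [← QuotientGroup.mk_inv, ← QuotientGroup.mk_mul, ← QuotientGroup.mk_mul]
  congr 1
  apply omega_ext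
  rw [T_coe]
  exact sg_conj (hQ hm) _ ((mem_isometryGroup_iff _ _).1 g.1.2) a w

/-- the frame root elements in `PΩ` -/
noncomputable def X (hm : Hy m F) (a b : Fin m ⊕ Fin m) (t : F) :
    Cfsg.POmega F (Cfsg.quadFormOdd m F) :=
  rt hm (E a) (t • E b)

/-- the short root elements in `PΩ` -/
noncomputable def S (hm : Hy m F) (a : Fin m ⊕ Fin m) (t : F) :
    Cfsg.POmega F (Cfsg.quadFormOdd m F) :=
  rt hm (E a) (t • e0)

theorem X_add (hm : Hy m F) {a b : Fin m ⊕ Fin m} (hab' : b ≠ a.swap) (s t : F) :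
    X hm a b (s + t) = X hm a b s * X hm a b t := by
  unfold X
  rw [add_smul, rt_add hm _ _ _ (Q_E a) (frame_perp hab' s) (frame_perp hab' t)]

theorem X_zero (hm : Hy m F) (a b : Fin m ⊕ Fin m) : X hm a b (0 : F) = 1 := by
  unfold X
  rw [zero_smul]
  exact rt_eq_one hm (sg_zero_right (hQ hm) _)

theorem X_neg (hm : Hy m F) {a b : Fin m ⊕ Fin m} (hab' : b ≠ a.swap) (t : F) :
    X hm a b (-t) = (X hm a b t)⁻¹ := by
  apply eq_inv_of_mul_eq_one_left
  rw [← X_add hm hab', neg_add_cancel, X_zero]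

theorem X_symm (hm : Hy m F) {a b : Fin m ⊕ Fin m} (hab' : b ≠ a.swap) (t : F) :
    X hm a b t = X hm b a (-t) := by
  unfold X rt
  congr 1
  apply omega_ext
  rw [T_coe, T_coe]
  exact frame_symm hm hab' t

/-- the commutator relation in `PΩ` -/
theorem X_rel (hm : Hy m F) {a b d : Fin m ⊕ Fin m} (hba : b ≠ a) (hba' : b ≠ a.swap)
    (hda : d ≠ a) (hda' : d ≠ a.swap) (hdb : d ≠ b) (hdb' : d ≠ b.swap) (s t : F) :
    X hm a b s * X hm a.swap d t * (X hm a b s)⁻¹ = X hm a.swap d t * X hm b d (s * t) := by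
  unfold X rt
  rw [← QuotientGroup.mk_inv, ← QuotientGroup.mk_mul, ← QuotientGroup.mk_mul,
    ← QuotientGroup.mk_mul]
  congr 1
  apply omega_ext
  exact frame_rel hm hba hba' hda hda' hdb hdb' s t

theorem X_eq_one (hm : Hy m F) {b d : Fin m ⊕ Fin m} (hdb : d ≠ b) (hdb' : d ≠ b.swap) {u : F}
    (h : X hm b d u = 1) : u = 0 := by
  obtain ⟨c, hcb, hcb', hcd, hcd'⟩ := exists_other hm.hm b d
  unfold X rt at h
  rw [QuotientGroup.eq_one_iff] at h
  have h1 := Subgroup.mem_center_iff.1 h (T hm (E b.swap) ((1 : F) • E c))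
  have h2 : sg (hQ hm) (E b.swap) ((1 : F) • E c) * sg (hQ hm) (E b) (u • E d) =
      sg (hQ hm) (E b) (u • E d) * sg (hQ hm) (E b.swap) ((1 : F) • E c) := by
    have := congrArg (fun s : ↥(Cfsg.Omega F (Cfsg.quadFormOdd m F)) =>
      ((s : ↥(Cfsg.isometryGroup F (Cfsg.quadFormOdd m F))) : GL (OI m) F)) h1
    exact this
  have h3 := frame_rel hm (a := b) (b := d) (d := c) hdb hdb' hcb hcb' hcd hcd' u 1
  rw [← h2, mul_inv_cancel_right] at h3
  have h4 : sg (hQ hm) (E d) ((u * 1) • E c) = 1 := by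
    have := h3.symm
    rwa [mul_eq_left] at this
  rw [mul_one] at h4
  exact frame_eq_one hm hcd hcd' h4

theorem X_inj (hm : Hy m F) {b d : Fin m ⊕ Fin m} (hdb : d ≠ b) (hdb' : d ≠ b.swap) {s t : F}
    (h : X hm b d s = X hm b d t) : s = t := by
  have h1 : X hm b d (s - t) = 1 := by
    rw [sub_eq_add_neg, X_add hm hdb', X_neg hm hdb', h, mul_inv_cancel]
  exact sub_eq_zero.1 (X_eq_one hm hdb hdb' h1)

theorem S_add (hm : Hy m F) (a : Fin m ⊕ Fin m) (s t : F) :
    S hm a (s + t) = S hm a s * S hm a t := by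
  unfold S
  rw [add_smul, rt_add hm _ _ _ (Q_E a) (e0_perp a s) (e0_perp a t)]

theorem S_zero (hm : Hy m F) (a : Fin m ⊕ Fin m) : S hm a (0 : F) = 1 := by
  unfold S
  rw [zero_smul]
  exact rt_eq_one hm (sg_zero_right (hQ hm) _)

theorem S_neg (hm : Hy m F) (a : Fin m ⊕ Fin m) (t : F) :
    S hm a (-t) = (S hm a t)⁻¹ := by
  apply eq_inv_of_mul_eq_one_left
  rw [← S_add hm, neg_add_cancel, S_zero]

/-- the commutator relation for short root elements in `PΩ` -/
theorem S_rel (hm : Hy m F) {a b : Fin m ⊕ Fin m} (hba : b ≠ a) (hba' : b ≠ a.swap) (t u : F) :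
    S hm a t * S hm b u * (S hm a t)⁻¹ = S hm b u * X hm b a (-(2 * t * u)) := by
  unfold X S rt
  rw [← QuotientGroup.mk_inv, ← QuotientGroup.mk_mul, ← QuotientGroup.mk_mul,
    ← QuotientGroup.mk_mul]
  congr 1
  apply omega_ext
  exact short_rel hm hba hba' t u

theorem S_eq_one (hm : Hy m F) (a : Fin m ⊕ Fin m) {t : F} (h : S hm a t = 1) : t = 0 := by
  obtain ⟨b, hba, hba', -, -⟩ := exists_other hm.hm a a
  unfold S rt at h
  rw [QuotientGroup.eq_one_iff] at h
  have h1 := Subgroup.mem_center_iff.1 h (T hm (E b) ((1 : F) • e0))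
  have h2 : sg (hQ hm) (E b) ((1 : F) • e0) * sg (hQ hm) (E a) (t • e0) =
      sg (hQ hm) (E a) (t • e0) * sg (hQ hm) (E b) ((1 : F) • e0) := by
    have := congrArg (fun s : ↥(Cfsg.Omega F (Cfsg.quadFormOdd m F)) =>
      ((s : ↥(Cfsg.isometryGroup F (Cfsg.quadFormOdd m F))) : GL (OI m) F)) h1
    exact this
  have h3 := short_rel hm hba hba' t (1 : F)
  rw [← h2, mul_inv_cancel_right] at h3
  have h4 : sg (hQ hm) (E b) ((-(2 * t * 1)) • E a) = 1 := by
    have := h3.symm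
    rwa [mul_eq_left] at this
  have hab' : a ≠ b.swap := fun h => hba' (by rw [h, Sum.swap_swap])
  have h5 := frame_eq_one hm (Ne.symm hba) hab' h4
  rw [neg_eq_zero, mul_one] at h5
  exact (mul_eq_zero.1 h5).resolve_left hm.h2

theorem S_inj (hm : Hy m F) (a : Fin m ⊕ Fin m) {s t : F} (h : S hm a s = S hm a t) : s = t := by
  have h1 : S hm a (s - t) = 1 := by
    rw [sub_eq_add_neg, S_add hm, S_neg hm, h, mul_inv_cancel]
  exact sub_eq_zero.1 (S_eq_one hm a h1)

end Proj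

end Cfsg.Agent.Lib.Helper43.OOdRoot
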