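import Mathlib
import Cfsg.Agent.Lib.Helper43.OPlRoot

set_option autoImplicit false

namespace Cfsg.Agent.Lib.Helper43.OPlGeo

open Matrix
open Cfsg.Agent.Lib.Helper94.Basic Cfsg.Agent.Lib.Helper94.GLAux Cfsg.Agent.Lib.Helper94.Tv
  Cfsg.Agent.Lib.Helper94.QuadAbs Cfsg.Agent.Lib.Helper94.OrthSiegel
  Cfsg.Agent.Lib.Helper43.OPlRoot
open Cfsg.Agent.Lib.Helper94.SympAbs (bil_zero_left bil_zero_right bil_neg_left bil_neg_right
  bil_sub_left bil_sub_right)

variable {F : Type*} [Field F] {ι : Type} [Fintype ι] [DecidableEq ι] {Q : (ι → F) → F}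

/-- totally singular pairs -/
def TS (Q : (ι → F) → F) (u v : ι → F) : Prop :=
  Q u = 0 ∧ Q v = 0 ∧ QuadraticMap.polar Q u v = 0

/-- independent pairs -/
def Ind (u v : ι → F) : Prop := ∀ s t : F, s • u + t • v = 0 → s = 0 ∧ t = 0

/-- two pairs are orthogonal -/
def Perp (Q : (ι → F) → F) (u v u' v' : ι → F) : Prop :=
  QuadraticMap.polar Q u u' = 0 ∧ QuadraticMap.polar Q u v' = 0 ∧
    QuadraticMap.polar Q v u' = 0 ∧ QuadraticMap.polar Q v v' = 0

/-- the root operator -/
def Nop (Q : (ι → F) → F) (u v x : ι → F) : ι → F :=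
  QuadraticMap.polar Q u x • v - QuadraticMap.polar Q v x • u

theorem Perp.symm {u v u' v' : ι → F} (h : Perp Q u v u' v') : Perp Q u' v' u v :=
  ⟨by rw [B_comm]; exact h.1, by rw [B_comm]; exact h.2.2.1, by rw [B_comm]; exact h.2.1,
    by rw [B_comm]; exact h.2.2.2⟩

theorem Ind.ne_zero_left {u v : ι → F} (h : Ind u v) : u ≠ 0 := by
  rintro rfl
  exact one_ne_zero (h 1 0 (by simp)).1

theorem Ind.ne_zero_right {u v : ι → F} (h : Ind u v) : v ≠ 0 := by
  rintro rfl
  exact one_ne_zero (h 0 1 (by simp)).2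

theorem Ind.smul_right {u v : ι → F} (h : Ind u v) {c : F} (hc : c ≠ 0) : Ind u (c • v) := by
  intro s t hst
  rw [smul_smul] at hst
  obtain ⟨h1, h2⟩ := h _ _ hst
  refine ⟨h1, ?_⟩
  rcases mul_eq_zero.1 h2 with h3 | h3
  · exact h3
  · exact absurd h3 hc

theorem Nop_add (hQ : Cfsg.Geo.IsNondegenerateQuadraticForm Q) (u v x y : ι → F) :
    Nop Q u v (x + y) = Nop Q u v x + Nop Q u v y := by
  unfold Nop
  rw [hQ.polar_bilinear.add_right, hQ.polar_bilinear.add_right]
  module

theorem Nop_smul (hQ : Cfsg.Geo.IsNondegenerateQuadraticForm Q) (u v : ι → F) (c : F)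
    (x : ι → F) : Nop Q u v (c • x) = c • Nop Q u v x := by
  unfold Nop
  rw [hQ.polar_bilinear.smul_right, hQ.polar_bilinear.smul_right]
  module

theorem Nop_zero (hQ : Cfsg.Geo.IsNondegenerateQuadraticForm Q) (u v : ι → F) :
    Nop Q u v 0 = 0 := by
  have h := Nop_smul hQ u v 0 0
  rwa [zero_smul, zero_smul] at h

theorem Nop_smul_right (hQ : Cfsg.Geo.IsNondegenerateQuadraticForm Q) (u v : ι → F) (c : F)
    (x : ι → F) : Nop Q u (c • v) x = c • Nop Q u v x := by
  unfold Nop
  rw [hQ.polar_bilinear.smul_left]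
  module

theorem Nop_mem (u v x : ι → F) : Nop Q u v x ∈ Submodule.span F ({u, v} : Set (ι → F)) := by
  unfold Nop
  exact Submodule.mem_span_pair.2 ⟨-QuadraticMap.polar Q v x, QuadraticMap.polar Q u x, by module⟩

theorem Nop_span (hQ : Cfsg.Geo.IsNondegenerateQuadraticForm Q) (u v : ι → F) (α β γ δ : F)
    (x : ι → F) :
    Nop Q (α • u + β • v) (γ • u + δ • v) x = (α * δ - β * γ) • Nop Q u v x := by
  have hbl := hQ.polar_bilinear
  unfold Nop
  rw [hbl.add_left, hbl.add_left, hbl.smul_left, hbl.smul_left, hbl.smul_left, hbl.smul_left]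
  module

theorem Nop_perp_self (hQ : Cfsg.Geo.IsNondegenerateQuadraticForm Q) (u v z : ι → F) :
    QuadraticMap.polar Q z (Nop Q u v z) = 0 := by
  have hbl := hQ.polar_bilinear
  unfold Nop
  rw [bil_sub_right hbl, hbl.smul_right, hbl.smul_right, B_comm Q z v, B_comm Q z u]
  ring

theorem Nop_Nop_perp (hQ : Cfsg.Geo.IsNondegenerateQuadraticForm Q) {u v u' v' : ι → F}
    (hp : Perp Q u v u' v') (x : ι → F) : Nop Q u v (Nop Q u' v' x) = 0 := by
  have hbl := hQ.polar_bilinear
  unfold Nop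
  rw [bil_sub_right hbl, bil_sub_right hbl, hbl.smul_right, hbl.smul_right, hbl.smul_right,
    hbl.smul_right, hp.1, hp.2.1, hp.2.2.1, hp.2.2.2]
  simp

theorem TS.smul_right (hQ : Cfsg.Geo.IsNondegenerateQuadraticForm Q) {u v : ι → F}
    (h : TS Q u v) (c : F) : TS Q u (c • v) :=
  ⟨h.1, by rw [hQ.smul, h.2.1, mul_zero], by rw [hQ.polar_bilinear.smul_right, h.2.2, mul_zero]⟩

theorem sg_eq (hQ : Cfsg.Geo.IsNondegenerateQuadraticForm Q) {u v : ι → F} (h : TS Q u v)
    (x : ι → F) :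
    ((sg hQ u v : Matrix.GeneralLinearGroup ι F) : Matrix ι ι F) *ᵥ x = x + Nop Q u v x := by
  rw [sg_mulVec hQ u v h.1 h.2.2, h.2.1, zero_mul, zero_smul, sub_zero]
  unfold Nop
  module

theorem Q_span (hQ : Cfsg.Geo.IsNondegenerateQuadraticForm Q) {u v : ι → F} (h : TS Q u v)
    {x : ι → F} (hx : x ∈ Submodule.span F ({u, v} : Set (ι → F))) : Q x = 0 := by
  have hbl := hQ.polar_bilinear
  obtain ⟨a, b, rfl⟩ := Submodule.mem_span_pair.1 hx
  rw [Q_add Q, hQ.smul, hQ.smul, h.1, h.2.1, hbl.smul_left, hbl.smul_right, h.2.2]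
  ring

theorem B_span (hQ : Cfsg.Geo.IsNondegenerateQuadraticForm Q) {u v : ι → F} (h : TS Q u v)
    {x y : ι → F} (hx : x ∈ Submodule.span F ({u, v} : Set (ι → F)))
    (hy : y ∈ Submodule.span F ({u, v} : Set (ι → F))) : QuadraticMap.polar Q x y = 0 := by
  have hbl := hQ.polar_bilinear
  obtain ⟨a, b, rfl⟩ := Submodule.mem_span_pair.1 hx
  obtain ⟨c, d, rfl⟩ := Submodule.mem_span_pair.1 hy
  simp only [hbl.add_left, hbl.add_right, hbl.smul_left, hbl.smul_right]
  rw [polar_self_sing hQ u h.1, polar_self_sing hQ v h.2.1, B_comm Q v u, h.2.2]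
  ring

/-- the Siegel element of two vectors of a totally singular line -/
theorem sg_span (hQ : Cfsg.Geo.IsNondegenerateQuadraticForm Q) {u v : ι → F} (h : TS Q u v)
    (α β γ δ : F) :
    sg hQ (α • u + β • v) (γ • u + δ • v) = sg hQ u ((α * δ - β * γ) • v) := by
  have hx : (α • u + β • v) ∈ Submodule.span F ({u, v} : Set (ι → F)) :=
    Submodule.mem_span_pair.2 ⟨α, β, rfl⟩
  have hy : (γ • u + δ • v) ∈ Submodule.span F ({u, v} : Set (ι → F)) :=
    Submodule.mem_span_pair.2 ⟨γ, δ, rfl⟩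
  have h1 : TS Q (α • u + β • v) (γ • u + δ • v) :=
    ⟨Q_span hQ h hx, Q_span hQ h hy, B_span hQ h hx hy⟩
  have h2 : TS Q u ((α * δ - β * γ) • v) := h.smul_right hQ _
  apply gl_ext
  intro z
  rw [sg_eq hQ h1, sg_eq hQ h2, Nop_span hQ, Nop_smul_right hQ]

theorem finrank_span {u v : ι → F} (h : Ind u v) :
    Module.finrank F (Submodule.span F ({u, v} : Set (ι → F))) = 2 := by
  have h1 : LinearIndependent F ![u, v] := LinearIndependent.pair_iff.2 h
  have h2 := finrank_span_eq_card h1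
  rw [Fintype.card_fin, Matrix.range_cons_cons_empty] at h2
  exact h2

theorem span_pair_le {u v : ι → F} {L : Submodule F (ι → F)} (hu : u ∈ L) (hv : v ∈ L) :
    Submodule.span F ({u, v} : Set (ι → F)) ≤ L := by
  rw [Submodule.span_le]
  intro z hz
  rcases hz with rfl | hz
  · exact hu
  · rw [Set.mem_singleton_iff] at hz
    rw [hz]
    exact hv

theorem span_eq_of_mem {u v x y : ι → F} (hi : Ind x y)
    (hx : x ∈ Submodule.span F ({u, v} : Set (ι → F)))
    (hy : y ∈ Submodule.span F ({u, v} : Set (ι → F))) :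
    Submodule.span F ({x, y} : Set (ι → F)) = Submodule.span F ({u, v} : Set (ι → F)) :=
  Submodule.eq_of_le_of_finrank_le (span_pair_le hx hy)
    (by rw [finrank_span hi]; exact finrank_span_pair_le (F := F) u v)

/-- **coplanarity**: if two root operators commute and their "product" is a root operator,
the lines meet and are orthogonal -/
theorem coplanar (hQ : Cfsg.Geo.IsNondegenerateQuadraticForm Q) {u v u' v' u'' v'' : ι → F}
    (h1 : TS Q u v) (i1 : Ind u v) (h2 : TS Q u' v') (i2 : Ind u' v') (h3 : TS Q u'' v'')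
    (hcomm : ∀ x, Nop Q u v (Nop Q u' v' x) = Nop Q u' v' (Nop Q u v x))
    (hsum : ∀ x, Nop Q u v x + Nop Q u' v' x + Nop Q u v (Nop Q u' v' x) = Nop Q u'' v'' x) :
    (∃ p : ι → F, p ≠ 0 ∧ p ∈ Submodule.span F ({u, v} : Set (ι → F)) ∧
        p ∈ Submodule.span F ({u', v'} : Set (ι → F))) ∧
      ∀ y ∈ Submodule.span F ({u, v} : Set (ι → F)),
        ∀ y' ∈ Submodule.span F ({u', v'} : Set (ι → F)), QuadraticMap.polar Q y y' = 0 := by
  have hbl := hQ.polar_bilinear
  have hA : ∃ p : ι → F, p ≠ 0 ∧ p ∈ Submodule.span F ({u, v} : Set (ι → F)) ∧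
        p ∈ Submodule.span F ({u', v'} : Set (ι → F)) := by
    by_contra hno
    have hno' : ∀ p : ι → F, p ∈ Submodule.span F ({u, v} : Set (ι → F)) →
        p ∈ Submodule.span F ({u', v'} : Set (ι → F)) → p = 0 := by
      intro p hp hp'
      by_contra hp0
      exact hno ⟨p, hp0, hp, hp'⟩
    have hv : v ∈ Submodule.span F ({u'', v''} : Set (ι → F)) := by
      have hu : u ∉ Submodule.span F ({v, u', v'} : Set (ι → F)) := by
        intro hmem
        obtain ⟨a, b, c, habc⟩ := Submodule.mem_span_triple.1 hmem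
        have e1 : (1 : F) • u + (-a) • v = 0 := by
          apply hno'
          · exact Submodule.mem_span_pair.2 ⟨1, -a, rfl⟩
          · refine Submodule.mem_span_pair.2 ⟨b, c, ?_⟩
            rw [← habc]
            module
        exact one_ne_zero (i1 _ _ e1).1
      obtain ⟨r, hr, hr0⟩ := exists_perp_ne hQ _ u hu
      have r1 : QuadraticMap.polar Q v r = 0 := hr v (Submodule.subset_span (by simp))
      have r2 : QuadraticMap.polar Q u' r = 0 := hr u' (Submodule.subset_span (by simp))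
      have r3 : QuadraticMap.polar Q v' r = 0 := hr v' (Submodule.subset_span (by simp))
      have e2 : Nop Q u' v' r = 0 := by
        unfold Nop
        rw [r2, r3, zero_smul, zero_smul, sub_zero]
      have e3 : Nop Q u v r = QuadraticMap.polar Q u r • v := by
        unfold Nop
        rw [r1, zero_smul, sub_zero]
      have e4 := hsum r
      rw [e2, Nop_zero hQ, e3, add_zero, add_zero] at e4
      have e5 : QuadraticMap.polar Q u r • v ∈ Submodule.span F ({u'', v''} : Set (ι → F)) := by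
        rw [e4]
        exact Nop_mem _ _ _
      exact (Submodule.smul_mem_iff _ hr0).1 e5
    have hu : u ∈ Submodule.span F ({u'', v''} : Set (ι → F)) := by
      have hv' : v ∉ Submodule.span F ({u, u', v'} : Set (ι → F)) := by
        intro hmem
        obtain ⟨a, b, c, habc⟩ := Submodule.mem_span_triple.1 hmem
        have e1 : (-a) • u + (1 : F) • v = 0 := by
          apply hno'
          · exact Submodule.mem_span_pair.2 ⟨-a, 1, rfl⟩
          · refine Submodule.mem_span_pair.2 ⟨b, c, ?_⟩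
            rw [← habc]
            module
        exact one_ne_zero (i1 _ _ e1).2
      obtain ⟨r, hr, hr0⟩ := exists_perp_ne hQ _ v hv'
      have r1 : QuadraticMap.polar Q u r = 0 := hr u (Submodule.subset_span (by simp))
      have r2 : QuadraticMap.polar Q u' r = 0 := hr u' (Submodule.subset_span (by simp))
      have r3 : QuadraticMap.polar Q v' r = 0 := hr v' (Submodule.subset_span (by simp))
      have e2 : Nop Q u' v' r = 0 := by
        unfold Nop
        rw [r2, r3, zero_smul, zero_smul, sub_zero]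
      have e3 : Nop Q u v r = -(QuadraticMap.polar Q v r • u) := by
        unfold Nop
        rw [r1, zero_smul, zero_sub]
      have e4 := hsum r
      rw [e2, Nop_zero hQ, e3, add_zero, add_zero] at e4
      have e5 : -(QuadraticMap.polar Q v r • u) ∈
          Submodule.span F ({u'', v''} : Set (ι → F)) := by
        rw [e4]
        exact Nop_mem _ _ _
      exact (Submodule.smul_mem_iff _ hr0).1 (neg_mem_iff.1 e5)
    have hu' : u' ∈ Submodule.span F ({u'', v''} : Set (ι → F)) := by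
      have hv' : v' ∉ Submodule.span F ({u, v, u'} : Set (ι → F)) := by
        intro hmem
        obtain ⟨a, b, c, habc⟩ := Submodule.mem_span_triple.1 hmem
        have e1 : (-c) • u' + (1 : F) • v' = 0 := by
          apply hno'
          · refine Submodule.mem_span_pair.2 ⟨a, b, ?_⟩
            rw [← habc]
            module
          · exact Submodule.mem_span_pair.2 ⟨-c, 1, rfl⟩
        exact one_ne_zero (i2 _ _ e1).2
      obtain ⟨r, hr, hr0⟩ := exists_perp_ne hQ _ v' hv'
      have r1 : QuadraticMap.polar Q u r = 0 := hr u (Submodule.subset_span (by simp))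
      have r2 : QuadraticMap.polar Q v r = 0 := hr v (Submodule.subset_span (by simp))
      have r3 : QuadraticMap.polar Q u' r = 0 := hr u' (Submodule.subset_span (by simp))
      have e2 : Nop Q u v r = 0 := by
        unfold Nop
        rw [r1, r2, zero_smul, zero_smul, sub_zero]
      have e3 : Nop Q u' v' r = -(QuadraticMap.polar Q v' r • u') := by
        unfold Nop
        rw [r3, zero_smul, zero_sub]
      have e4 := hsum r
      rw [hcomm r, e2, Nop_zero hQ, zero_add, add_zero, e3] at e4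
      have e5 : -(QuadraticMap.polar Q v' r • u') ∈
          Submodule.span F ({u'', v''} : Set (ι → F)) := by
        rw [e4]
        exact Nop_mem _ _ _
      exact (Submodule.smul_mem_iff _ hr0).1 (neg_mem_iff.1 e5)
    have hv' : v' ∈ Submodule.span F ({u'', v''} : Set (ι → F)) := by
      have hu'' : u' ∉ Submodule.span F ({u, v, v'} : Set (ι → F)) := by
        intro hmem
        obtain ⟨a, b, c, habc⟩ := Submodule.mem_span_triple.1 hmem
        have e1 : (1 : F) • u' + (-c) • v' = 0 := by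
          apply hno'
          · refine Submodule.mem_span_pair.2 ⟨a, b, ?_⟩
            rw [← habc]
            module
          · exact Submodule.mem_span_pair.2 ⟨1, -c, rfl⟩
        exact one_ne_zero (i2 _ _ e1).1
      obtain ⟨r, hr, hr0⟩ := exists_perp_ne hQ _ u' hu''
      have r1 : QuadraticMap.polar Q u r = 0 := hr u (Submodule.subset_span (by simp))
      have r2 : QuadraticMap.polar Q v r = 0 := hr v (Submodule.subset_span (by simp))
      have r3 : QuadraticMap.polar Q v' r = 0 := hr v' (Submodule.subset_span (by simp))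
      have e2 : Nop Q u v r = 0 := by
        unfold Nop
        rw [r1, r2, zero_smul, zero_smul, sub_zero]
      have e3 : Nop Q u' v' r = QuadraticMap.polar Q u' r • v' := by
        unfold Nop
        rw [r3, zero_smul, sub_zero]
      have e4 := hsum r
      rw [hcomm r, e2, Nop_zero hQ, zero_add, add_zero, e3] at e4
      have e5 : QuadraticMap.polar Q u' r • v' ∈
          Submodule.span F ({u'', v''} : Set (ι → F)) := by
        rw [e4]
        exact Nop_mem _ _ _
      exact (Submodule.smul_mem_iff _ hr0).1 e5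
    have hL : Submodule.span F ({u, v} : Set (ι → F)) =
        Submodule.span F ({u'', v''} : Set (ι → F)) :=
      Submodule.eq_of_le_of_finrank_le (span_pair_le hu hv)
        (by rw [finrank_span i1]; exact finrank_span_pair_le (F := F) u'' v'')
    have hL' : Submodule.span F ({u', v'} : Set (ι → F)) =
        Submodule.span F ({u'', v''} : Set (ι → F)) :=
      Submodule.eq_of_le_of_finrank_le (span_pair_le hu' hv')
        (by rw [finrank_span i2]; exact finrank_span_pair_le (F := F) u'' v'')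
    have hu0 : u = 0 := hno' u (Submodule.subset_span (by simp))
      (by rw [hL', ← hL]; exact Submodule.subset_span (by simp))
    exact i1.ne_zero_left hu0
  refine ⟨hA, ?_⟩
  obtain ⟨p, hp0, hp, hp'⟩ := hA
  intro y hy y' hy'
  have hclub : ∀ x, QuadraticMap.polar Q (Nop Q u v x) (Nop Q u' v' x) = 0 := by
    intro x
    have e1 : Q (Nop Q u'' v'' x) = 0 := Q_span hQ h3 (Nop_mem _ _ _)
    rw [← hsum x] at e1
    have eN : Q (Nop Q u v x) = 0 := Q_span hQ h1 (Nop_mem _ _ _)
    have eN' : Q (Nop Q u' v' x) = 0 := Q_span hQ h2 (Nop_mem _ _ _)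
    have eNN : Q (Nop Q u v (Nop Q u' v' x)) = 0 := Q_span hQ h1 (Nop_mem _ _ _)
    have b1 : QuadraticMap.polar Q (Nop Q u v x) (Nop Q u v (Nop Q u' v' x)) = 0 :=
      B_span hQ h1 (Nop_mem _ _ _) (Nop_mem _ _ _)
    have b2 : QuadraticMap.polar Q (Nop Q u' v' x) (Nop Q u v (Nop Q u' v' x)) = 0 :=
      Nop_perp_self hQ u v _
    rw [Q_add Q, Q_add Q, eN, eN', eNN, hbl.add_left, b1, b2] at e1
    linear_combination e1
  obtain ⟨α, β, hpe⟩ := Submodule.mem_span_pair.1 hp
  obtain ⟨α', β', hpe'⟩ := Submodule.mem_span_pair.1 hp'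
  obtain ⟨γ, δ, hye⟩ := Submodule.mem_span_pair.1 hy
  obtain ⟨γ', δ', hye'⟩ := Submodule.mem_span_pair.1 hy'
  obtain ⟨x, hx⟩ := (hQ.nondegenerate p hp0).2
  have e1 : Nop Q p y x = (α * δ - β * γ) • Nop Q u v x := by
    rw [← hpe, ← hye, Nop_span hQ]
  have e2 : Nop Q p y' x = (α' * δ' - β' * γ') • Nop Q u' v' x := by
    rw [← hpe', ← hye', Nop_span hQ]
  have e3 : QuadraticMap.polar Q (Nop Q p y x) (Nop Q p y' x) = 0 := by
    rw [e1, e2, hbl.smul_left, hbl.smul_right, hclub x, mul_zero, mul_zero]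
  have hpy : QuadraticMap.polar Q y p = 0 := B_span hQ h1 hy hp
  have hpy' : QuadraticMap.polar Q p y' = 0 := B_span hQ h2 hp' hy'
  have hpp : QuadraticMap.polar Q p p = 0 := polar_self_sing hQ p (Q_span hQ h1 hp)
  unfold Nop at e3
  simp only [bil_sub_left hbl, bil_sub_right hbl, hbl.smul_left, hbl.smul_right] at e3
  have e4 : QuadraticMap.polar Q p x * QuadraticMap.polar Q p x * QuadraticMap.polar Q y y' = 0 := by
    linear_combination e3 + (QuadraticMap.polar Q p x * QuadraticMap.polar Q y' x) * hpy +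
      (QuadraticMap.polar Q y x * QuadraticMap.polar Q p x) * hpy' -
      (QuadraticMap.polar Q y x * QuadraticMap.polar Q y' x) * hpp
  rcases mul_eq_zero.1 e4 with h | h
  · exact absurd (mul_self_eq_zero.1 h) hx
  · exact h

theorem two_of_ne {L L' : Submodule F (ι → F)} (h2 : Module.finrank F L = 2)
    (h2' : Module.finrank F L' = 2) (hne : L ≠ L') (hmeet : L ⊓ L' ≠ ⊥) :
    Module.finrank F ↥(L ⊓ L') = 1 ∧ Module.finrank F ↥(L ⊔ L') = 3 := by
  have h1 : Module.finrank F ↥(L ⊓ L') ≠ 0 := fun h => hmeet (Submodule.finrank_eq_zero.1 h)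
  have h3 : Module.finrank F ↥(L ⊓ L') < 2 := by
    by_contra hge
    push Not at hge
    have e1 : L ⊓ L' = L := Submodule.eq_of_le_of_finrank_le inf_le_left (by rw [h2]; exact hge)
    have e2 : L ⊓ L' = L' :=
      Submodule.eq_of_le_of_finrank_le inf_le_right (by rw [h2']; exact hge)
    exact hne (e1.symm.trans e2)
  have h4 := Submodule.finrank_sup_add_finrank_inf_eq L L'
  omega

theorem sup_eq_of_disjoint {L X Y : Submodule F (ι → F)} (h2 : Module.finrank F L = 2)
    (hX : X ≤ L) (hY : Y ≤ L) (hX0 : X ≠ ⊥) (hY0 : Y ≠ ⊥) (hXY : X ⊓ Y = ⊥) : X ⊔ Y = L := by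
  have h1 : Module.finrank F X ≠ 0 := fun h => hX0 (Submodule.finrank_eq_zero.1 h)
  have h1' : Module.finrank F Y ≠ 0 := fun h => hY0 (Submodule.finrank_eq_zero.1 h)
  have h4 := Submodule.finrank_sup_add_finrank_inf_eq X Y
  rw [hXY, finrank_bot] at h4
  exact Submodule.eq_of_le_of_finrank_le (sup_le hX hY) (by rw [h2]; omega)

theorem inf_bot_or_le {P L : Submodule F (ι → F)} (h1 : Module.finrank F P = 1) :
    P ⊓ L = ⊥ ∨ P ≤ L := by
  by_cases h : P ⊓ L = ⊥
  · exact Or.inl h
  · right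
    have h0 : Module.finrank F ↥(P ⊓ L) ≠ 0 := fun h' => h (Submodule.finrank_eq_zero.1 h')
    have e : P ⊓ L = P := Submodule.eq_of_le_of_finrank_le inf_le_left (by rw [h1]; omega)
    rw [← e]
    exact inf_le_right

/-- four pairwise meeting lines: the third passes through the meet of the first two, or the
third and fourth lie in the plane of the first two -/
theorem conc_lattice {L1 L2 L3 L4 : Submodule F (ι → F)}
    (d1 : Module.finrank F L1 = 2) (d2 : Module.finrank F L2 = 2) (d3 : Module.finrank F L3 = 2)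
    (d4 : Module.finrank F L4 = 2) (n12 : L1 ≠ L2)
    (m12 : L1 ⊓ L2 ≠ ⊥) (m13 : L1 ⊓ L3 ≠ ⊥) (m14 : L1 ⊓ L4 ≠ ⊥) (m23 : L2 ⊓ L3 ≠ ⊥)
    (m24 : L2 ⊓ L4 ≠ ⊥) (m34 : L3 ⊓ L4 ≠ ⊥) :
    L1 ⊓ L2 ≤ L3 ∨ (L3 ≤ L1 ⊔ L2 ∧ L4 ≤ L1 ⊔ L2) := by
  obtain ⟨hP1, -⟩ := two_of_ne d1 d2 n12 m12
  by_cases h3 : L1 ⊓ L2 ≤ L3
  · exact Or.inl h3
  right
  have hP3 : (L1 ⊓ L2) ⊓ L3 = ⊥ := (inf_bot_or_le hP1).resolve_right h3
  have key : ∀ L : Submodule F (ι → F), Module.finrank F L = 2 → L1 ⊓ L ≠ ⊥ → L2 ⊓ L ≠ ⊥ →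
      (L1 ⊓ L2) ⊓ L = ⊥ → L ≤ L1 ⊔ L2 := by
    intro L dL mL1 mL2 hPL
    have e := sup_eq_of_disjoint dL (inf_le_right : L1 ⊓ L ≤ L) (inf_le_right : L2 ⊓ L ≤ L)
      mL1 mL2 (by rw [← inf_inf_distrib_right, hPL])
    rw [← e]
    exact sup_le (le_trans inf_le_left le_sup_left) (le_trans inf_le_left le_sup_right)
  have hL3 : L3 ≤ L1 ⊔ L2 := key L3 d3 m13 m23 hP3
  refine ⟨hL3, ?_⟩
  rcases inf_bot_or_le (L := L4) hP1 with h4 | h4
  · exact key L4 d4 m14 m24 h4
  · have hPC : (L1 ⊓ L2) ⊓ (L3 ⊓ L4) = ⊥ := by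
      rw [← inf_assoc, hP3, bot_inf_eq]
    have e := sup_eq_of_disjoint d4 h4 (inf_le_right : L3 ⊓ L4 ≤ L4) m12 m34 hPC
    rw [← e]
    exact sup_le (le_trans inf_le_left le_sup_left) (le_trans inf_le_left hL3)

/-- four root operators of lines in a plane are linearly dependent -/
theorem dep4 (hQ : Cfsg.Geo.IsNondegenerateQuadraticForm Q) {π : Submodule F (ι → F)}
    (hπ : Module.finrank F π = 3) (u v : Fin 4 → ι → F) (hu : ∀ j, u j ∈ π)
    (hv : ∀ j, v j ∈ π) :
    ∃ c : Fin 4 → F, (∃ j, c j ≠ 0) ∧ ∀ x, ∑ j, c j • Nop Q (u j) (v j) x = 0 := by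
  have hbl := hQ.polar_bilinear
  obtain ⟨b⟩ : Nonempty (Module.Basis (Fin 3) F π) := ⟨Module.finBasisOfFinrankEq F π hπ⟩
  have hrep : ∀ x ∈ π, ∃ a : Fin 3 → F,
      x = a 0 • (b 0 : ι → F) + a 1 • (b 1 : ι → F) + a 2 • (b 2 : ι → F) := by
    intro x hx
    refine ⟨fun k => b.repr ⟨x, hx⟩ k, ?_⟩
    have h := congrArg Subtype.val (b.sum_repr ⟨x, hx⟩)
    rw [Fin.sum_univ_three] at h
    simp only [Submodule.coe_add, Submodule.coe_smul] at h
    exact h.symm
  choose a ha using fun j => hrep (u j) (hu j)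
  choose d hd using fun j => hrep (v j) (hv j)
  obtain ⟨mm, hmm⟩ : ∃ mm : Fin 4 → Fin 3 → F, ∀ j,
      mm j 0 = a j 0 * d j 1 - a j 1 * d j 0 ∧ mm j 1 = a j 0 * d j 2 - a j 2 * d j 0 ∧
        mm j 2 = a j 1 * d j 2 - a j 2 * d j 1 :=
    ⟨fun j => ![a j 0 * d j 1 - a j 1 * d j 0, a j 0 * d j 2 - a j 2 * d j 0,
      a j 1 * d j 2 - a j 2 * d j 1], fun j => ⟨rfl, rfl, rfl⟩⟩
  have hdep : ¬ LinearIndependent F mm := by
    intro hli
    have := hli.fintype_card_le_finrank
    rw [Fintype.card_fin, Module.finrank_fin_fun] at this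
    omega
  obtain ⟨c, hc, hc0⟩ := Fintype.not_linearIndependent_iff.1 hdep
  refine ⟨c, hc0, fun x => ?_⟩
  have hN : ∀ j, Nop Q (u j) (v j) x =
      mm j 0 • Nop Q (b 0 : ι → F) (b 1 : ι → F) x + mm j 1 • Nop Q (b 0 : ι → F) (b 2 : ι → F) x +
        mm j 2 • Nop Q (b 1 : ι → F) (b 2 : ι → F) x := by
    intro j
    rw [(hmm j).1, (hmm j).2.1, (hmm j).2.2]
    have e1 := ha j
    have e2 := hd j
    generalize u j = uj at e1
    generalize v j = vj at e2
    subst e1
    subst e2
    unfold Nop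
    simp only [hbl.add_left, hbl.smul_left]
    module
  have h0 := congrFun hc 0
  have h1 := congrFun hc 1
  have h2 := congrFun hc 2
  simp only [Finset.sum_apply, Pi.smul_apply, smul_eq_mul, Pi.zero_apply, Fin.sum_univ_four]
    at h0 h1 h2
  rw [Fin.sum_univ_four, hN 0, hN 1, hN 2, hN 3]
  linear_combination (norm := module) h0 • Nop Q (b 0 : ι → F) (b 1 : ι → F) x +
    h1 • Nop Q (b 0 : ι → F) (b 2 : ι → F) x + h2 • Nop Q (b 1 : ι → F) (b 2 : ι → F) x

theorem sg_apply_perp (hQ : Cfsg.Geo.IsNondegenerateQuadraticForm Q) {u v : ι → F}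
    (h : TS Q u v) (c : F) (x z : ι → F) (hz : Nop Q u v z = 0) :
    ((sg hQ u (c • v) : Matrix.GeneralLinearGroup ι F) : Matrix ι ι F) *ᵥ (x + z) =
      x + z + c • Nop Q u v x := by
  rw [sg_eq hQ (h.smul_right hQ c), Nop_smul_right hQ, Nop_add hQ, hz, add_zero]

/-- a product of four pairwise orthogonal root elements with vanishing operator sum -/
theorem prod4 (hQ : Cfsg.Geo.IsNondegenerateQuadraticForm Q) (u v : Fin 4 → ι → F)
    (hTS : ∀ j, TS Q (u j) (v j))
    (hperp : ∀ i j, i ≠ j → Perp Q (u i) (v i) (u j) (v j)) (c : Fin 4 → F)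
    (hc : ∀ x, ∑ j, c j • Nop Q (u j) (v j) x = 0) :
    sg hQ (u 0) (c 0 • v 0) * sg hQ (u 1) (c 1 • v 1) * sg hQ (u 2) (c 2 • v 2) *
      sg hQ (u 3) (c 3 • v 3) = 1 := by
  apply gl_ext
  intro x
  rw [Units.val_mul, Units.val_mul, Units.val_mul, ← Matrix.mulVec_mulVec,
    ← Matrix.mulVec_mulVec, ← Matrix.mulVec_mulVec, Units.val_one, Matrix.one_mulVec]
  have hz : ∀ i j, i ≠ j → ∀ y, Nop Q (u i) (v i) (Nop Q (u j) (v j) y) = 0 :=
    fun i j hij y => Nop_Nop_perp hQ (hperp i j hij) y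
  have s3 : ((sg hQ (u 3) (c 3 • v 3) : Matrix.GeneralLinearGroup ι F) : Matrix ι ι F) *ᵥ x =
      x + c 3 • Nop Q (u 3) (v 3) x := by
    rw [sg_eq hQ ((hTS 3).smul_right hQ _), Nop_smul_right hQ]
  have s2 := sg_apply_perp hQ (hTS 2) (c 2) x (c 3 • Nop Q (u 3) (v 3) x)
    (by rw [Nop_smul hQ, hz 2 3 (by decide), smul_zero])
  have s1 := sg_apply_perp hQ (hTS 1) (c 1) x
    (c 3 • Nop Q (u 3) (v 3) x + c 2 • Nop Q (u 2) (v 2) x)
    (by rw [Nop_add hQ, Nop_smul hQ, Nop_smul hQ, hz 1 3 (by decide), hz 1 2 (by decide),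
      smul_zero, smul_zero, add_zero])
  have s0 := sg_apply_perp hQ (hTS 0) (c 0) x
    (c 3 • Nop Q (u 3) (v 3) x + c 2 • Nop Q (u 2) (v 2) x + c 1 • Nop Q (u 1) (v 1) x)
    (by rw [Nop_add hQ, Nop_add hQ, Nop_smul hQ, Nop_smul hQ, Nop_smul hQ, hz 0 3 (by decide),
      hz 0 2 (by decide), hz 0 1 (by decide), smul_zero, smul_zero, smul_zero, add_zero,
      add_zero])
  rw [s3, s2, add_assoc x, s1, add_assoc x, s0]
  have h := hc x
  rw [Fin.sum_univ_four] at h
  linear_combination (norm := module) h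

/-- a root element of a line through `p` is a Siegel element at `p` -/
theorem line_through (hQ : Cfsg.Geo.IsNondegenerateQuadraticForm Q) {u v p : ι → F}
    (h : TS Q u v) (hp : p ∈ Submodule.span F ({u, v} : Set (ι → F))) (hp0 : p ≠ 0) (c : F) :
    ∃ w, w ∈ Submodule.span F ({u, v} : Set (ι → F)) ∧ sg hQ u (c • v) = sg hQ p w := by
  obtain ⟨α, β, rfl⟩ := Submodule.mem_span_pair.1 hp
  by_cases hα : α = 0
  · have hβ : β ≠ 0 := by
      rintro rfl
      apply hp0
      rw [hα]
      simp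
    refine ⟨(-(c / β)) • u + (0 : F) • v, Submodule.mem_span_pair.2 ⟨_, _, rfl⟩, ?_⟩
    rw [sg_span hQ h]
    have : α * 0 - β * (-(c / β)) = c := by
      rw [hα]
      field_simp
      ring
    rw [this]
  · refine ⟨(0 : F) • u + (c / α) • v, Submodule.mem_span_pair.2 ⟨_, _, rfl⟩, ?_⟩
    rw [sg_span hQ h]
    have : α * (c / α) - β * 0 = c := by
      field_simp
      ring
    rw [this]

/-- root elements of orthogonal lines commute -/
theorem sg_comm_perp (hQ : Cfsg.Geo.IsNondegenerateQuadraticForm Q) {u v u' v' : ι → F}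
    (h : TS Q u v) (h' : TS Q u' v') (hp : Perp Q u v u' v') :
    sg hQ u v * sg hQ u' v' = sg hQ u' v' * sg hQ u v := by
  apply gl_ext
  intro x
  rw [Units.val_mul, Units.val_mul, ← Matrix.mulVec_mulVec, ← Matrix.mulVec_mulVec]
  simp only [sg_eq hQ h, sg_eq hQ h', Nop_add hQ, Nop_Nop_perp hQ hp, Nop_Nop_perp hQ hp.symm]
  abel

theorem sg_eq_one_imp (hQ : Cfsg.Geo.IsNondegenerateQuadraticForm Q) {u v : ι → F}
    (h : TS Q u v) (hi : Ind u v) {c : F} (h1 : sg hQ u (c • v) = 1) : c = 0 := by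
  obtain ⟨x, hx⟩ := (hQ.nondegenerate u hi.ne_zero_left).2
  have h2 := congrArg (fun g : Matrix.GeneralLinearGroup ι F => (g : Matrix ι ι F) *ᵥ x) h1
  simp only [Units.val_one, Matrix.one_mulVec] at h2
  rw [sg_eq hQ (h.smul_right hQ c), Nop_smul_right hQ] at h2
  unfold Nop at h2
  have h3 : (-(c * QuadraticMap.polar Q v x)) • u + (c * QuadraticMap.polar Q u x) • v = 0 := by
    linear_combination (norm := module) h2
  rcases mul_eq_zero.1 (hi _ _ h3).2 with h4 | h4
  · exact h4
  · exact absurd h4 hx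

theorem span_le_of_sg_eq (hQ : Cfsg.Geo.IsNondegenerateQuadraticForm Q) {u v u' v' : ι → F}
    (h : TS Q u v) (hi : Ind u v) (h' : TS Q u' v') (heq : sg hQ u v = sg hQ u' v') :
    Submodule.span F ({u, v} : Set (ι → F)) ≤ Submodule.span F ({u', v'} : Set (ι → F)) := by
  have hN : ∀ x, Nop Q u v x = Nop Q u' v' x := by
    intro x
    have h2 := congrArg (fun g : Matrix.GeneralLinearGroup ι F => (g : Matrix ι ι F) *ᵥ x) heq
    simp only [sg_eq hQ h, sg_eq hQ h'] at h2
    exact add_left_cancel h2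
  apply span_pair_le
  · have hv : v ∉ Submodule.span F ({u} : Set (ι → F)) := by
      intro hmem
      obtain ⟨a, ha⟩ := Submodule.mem_span_singleton.1 hmem
      have e1 : a • u + (-1 : F) • v = 0 := by
        rw [ha]
        module
      have := (hi _ _ e1).2
      simp at this
    obtain ⟨r, hr, hr0⟩ := exists_perp_ne hQ _ v hv
    have r1 : QuadraticMap.polar Q u r = 0 := hr u (Submodule.subset_span (by simp))
    have e3 : Nop Q u v r = -(QuadraticMap.polar Q v r • u) := by
      unfold Nop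
      rw [r1, zero_smul, zero_sub]
    have e5 : -(QuadraticMap.polar Q v r • u) ∈
        Submodule.span F ({u', v'} : Set (ι → F)) := by
      rw [← e3, hN]
      exact Nop_mem _ _ _
    exact (Submodule.smul_mem_iff _ hr0).1 (neg_mem_iff.1 e5)
  · have hu : u ∉ Submodule.span F ({v} : Set (ι → F)) := by
      intro hmem
      obtain ⟨a, ha⟩ := Submodule.mem_span_singleton.1 hmem
      have e1 : (-1 : F) • u + a • v = 0 := by
        rw [ha]
        module
      have := (hi _ _ e1).1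
      simp at this
    obtain ⟨r, hr, hr0⟩ := exists_perp_ne hQ _ u hu
    have r1 : QuadraticMap.polar Q v r = 0 := hr v (Submodule.subset_span (by simp))
    have e3 : Nop Q u v r = QuadraticMap.polar Q u r • v := by
      unfold Nop
      rw [r1, zero_smul, sub_zero]
    have e5 : QuadraticMap.polar Q u r • v ∈ Submodule.span F ({u', v'} : Set (ι → F)) := by
      rw [← e3, hN]
      exact Nop_mem _ _ _
    exact (Submodule.smul_mem_iff _ hr0).1 e5

end Cfsg.Agent.Lib.Helper43.OPlGeo
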