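import Mathlib
import Cfsg.Agent.Lib.Helper43.OPlRoot

set_option autoImplicit false

namespace Cfsg.Agent.Lib.Helper43.OPlAut

open Matrix
open Cfsg.Agent.Lib.Helper94.Basic Cfsg.Agent.Lib.Helper94.GLAux Cfsg.Agent.Lib.Helper94.Tv
  Cfsg.Agent.Lib.Helper94.QuadAbs Cfsg.Agent.Lib.Helper94.OrthSiegel
  Cfsg.Agent.Lib.Helper43.OPlBase Cfsg.Agent.Lib.Helper43.OPlRoot
  Cfsg.Agent.Lib.Helper45.OmegaAut

universe u

variable {F : Type u} [Field F] {m : ℕ}

/-! ### diagonal similitudes -/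

/-- the diagonal entries -/
def dv (c : Fin m → Fˣ) (μ : Fˣ) : Fin m ⊕ Fin m → Fˣ :=
  Sum.elim c (fun i => μ * (c i)⁻¹)

/-- diagonal elements of `GL` -/
def dgl (c : Fin m → Fˣ) (μ : Fˣ) : GL (Fin m ⊕ Fin m) F :=
  ⟨Matrix.diagonal (fun k => (dv c μ k : F)), Matrix.diagonal (fun k => ((dv c μ k)⁻¹ : Fˣ)), by
    rw [Matrix.diagonal_mul_diagonal]
    simp, by
    rw [Matrix.diagonal_mul_diagonal]
    simp⟩

theorem dgl_mulVec (c : Fin m → Fˣ) (μ : Fˣ) (x : Fin m ⊕ Fin m → F) (k : Fin m ⊕ Fin m) :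
    (((dgl c μ : GL (Fin m ⊕ Fin m) F) : Matrix (Fin m ⊕ Fin m) (Fin m ⊕ Fin m) F) *ᵥ x) k =
      (dv c μ k : F) * x k := Matrix.mulVec_diagonal _ _ _

theorem dgl_Q (c : Fin m → Fˣ) (μ : Fˣ) (x : Fin m ⊕ Fin m → F) :
    Cfsg.quadFormPlus m F
      (((dgl c μ : GL (Fin m ⊕ Fin m) F) : Matrix (Fin m ⊕ Fin m) (Fin m ⊕ Fin m) F) *ᵥ x) =
      (μ : F) * Cfsg.quadFormPlus m F x := by
  unfold Cfsg.quadFormPlus
  rw [Finset.mul_sum]
  apply Finset.sum_congr rfl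
  intro i _
  rw [dgl_mulVec, dgl_mulVec]
  simp only [dv, Sum.elim_inl, Sum.elim_inr, Units.val_mul, Units.val_inv_eq_inv_val]
  have : (c i : F) ≠ 0 := Units.ne_zero _
  field_simp

/-- diagonal similitudes -/
def dg (c : Fin m → Fˣ) (μ : Fˣ) :
    ↥(Cfsg.Geo.quadSimilarityGroup (F := F) (Cfsg.quadFormPlus m F)) :=
  ⟨dgl c μ, ⟨μ, dgl_Q c μ⟩⟩

theorem dgl_δ (c : Fin m → Fˣ) (μ : Fˣ) (k : Fin m ⊕ Fin m) :
    ((dgl c μ : GL (Fin m ⊕ Fin m) F) : Matrix (Fin m ⊕ Fin m) (Fin m ⊕ Fin m) F) *ᵥ δ k =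
      (dv c μ k : F) • δ k := by
  funext l
  rw [dgl_mulVec, Pi.smul_apply, smul_eq_mul]
  by_cases h : l = k
  · rw [h]
  · rw [δ_ne h, mul_zero, mul_zero]

/-! ### field automorphisms -/

theorem Q_map (σ : F ≃+* F) (v : Fin m ⊕ Fin m → F) :
    Cfsg.quadFormPlus m F (fun k => σ (v k)) = σ (Cfsg.quadFormPlus m F v) := by
  unfold Cfsg.quadFormPlus
  rw [map_sum]
  apply Finset.sum_congr rfl
  intro i _
  rw [map_mul]

theorem polar_map (σ : F ≃+* F) (u v : Fin m ⊕ Fin m → F) :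
    QuadraticMap.polar (Cfsg.quadFormPlus m F) (fun k => σ (u k)) (fun k => σ (v k)) =
      σ (QuadraticMap.polar (Cfsg.quadFormPlus m F) u v) := by
  rw [polar_eq, polar_eq, map_sum]
  apply Finset.sum_congr rfl
  intro i _
  rw [map_add, map_mul, map_mul]

theorem map_mulVec (σ : F ≃+* F) (g : GL (Fin m ⊕ Fin m) F) (x : Fin m ⊕ Fin m → F) :
    ((Matrix.GeneralLinearGroup.map (σ : F →+* F) g : GL (Fin m ⊕ Fin m) F) :
        Matrix (Fin m ⊕ Fin m) (Fin m ⊕ Fin m) F) *ᵥ (fun k => σ (x k)) =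
      fun k => σ (((g : Matrix (Fin m ⊕ Fin m) (Fin m ⊕ Fin m) F) *ᵥ x) k) := by
  funext k
  exact (RingHom.map_mulVec (σ : F →+* F) _ x k).symm

theorem map_mem (σ : F ≃+* F) {g : GL (Fin m ⊕ Fin m) F}
    (hg : g ∈ Cfsg.isometryGroup F (Cfsg.quadFormPlus m F)) :
    Matrix.GeneralLinearGroup.map (σ : F →+* F) g ∈
      Cfsg.isometryGroup F (Cfsg.quadFormPlus m F) := by
  rw [mem_isometryGroup_iff] at hg ⊢
  intro v
  have hv : v = fun k => σ (σ.symm (v k)) := by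
    funext k
    simp
  rw [hv, map_mulVec, Q_map, Q_map, hg]

theorem map_map_symm (σ : F ≃+* F) (g : GL (Fin m ⊕ Fin m) F) :
    Matrix.GeneralLinearGroup.map (σ.symm : F →+* F)
      (Matrix.GeneralLinearGroup.map (σ : F →+* F) g) = g := by
  apply Units.ext
  ext i j
  simp [Matrix.GeneralLinearGroup.map]

theorem map_symm_map (σ : F ≃+* F) (g : GL (Fin m ⊕ Fin m) F) :
    Matrix.GeneralLinearGroup.map (σ : F →+* F)
      (Matrix.GeneralLinearGroup.map (σ.symm : F →+* F) g) = g := by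
  apply Units.ext
  ext i j
  simp [Matrix.GeneralLinearGroup.map]

/-- field automorphisms acting on the isometry group -/
def isoAut (σ : F ≃+* F) : MulAut ↥(Cfsg.isometryGroup F (Cfsg.quadFormPlus m F)) where
  toFun g := ⟨Matrix.GeneralLinearGroup.map (σ : F →+* F) g, map_mem σ g.2⟩
  invFun g := ⟨Matrix.GeneralLinearGroup.map (σ.symm : F →+* F) g, map_mem σ.symm g.2⟩
  left_inv g := Subtype.ext (map_map_symm σ (g : GL (Fin m ⊕ Fin m) F))
  right_inv g := Subtype.ext (map_symm_map σ (g : GL (Fin m ⊕ Fin m) F))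
  map_mul' g h := Subtype.ext (map_mul _ _ _)

/-- field automorphisms acting on `Ω` -/
def omAut (σ : F ≃+* F) : MulAut ↥(Cfsg.Omega F (Cfsg.quadFormPlus m F)) :=
  (@MulAut.characteristic _ _ (Cfsg.Omega F (Cfsg.quadFormPlus m F)) (comm_char _)) (isoAut σ)

theorem omAut_coe (σ : F ≃+* F) (s : ↥(Cfsg.Omega F (Cfsg.quadFormPlus m F))) :
    (((omAut σ s : ↥(Cfsg.Omega F (Cfsg.quadFormPlus m F))) :
      ↥(Cfsg.isometryGroup F (Cfsg.quadFormPlus m F))) : GL (Fin m ⊕ Fin m) F) =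
      Matrix.GeneralLinearGroup.map (σ : F →+* F)
        ((s : ↥(Cfsg.isometryGroup F (Cfsg.quadFormPlus m F))) : GL (Fin m ⊕ Fin m) F) := rfl

/-- field automorphisms acting on `PΩ` -/
def cσ (σ : F ≃+* F) : MulAut (Cfsg.POmega F (Cfsg.quadFormPlus m F)) :=
  quotAut _ (omAut σ)

theorem cσ_mk (σ : F ≃+* F) (s : ↥(Cfsg.Omega F (Cfsg.quadFormPlus m F))) :
    cσ σ (QuotientGroup.mk s) = QuotientGroup.mk (omAut σ s) := rfl

/-- the image of a Siegel element under a field automorphism -/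
theorem sg_map (σ : F ≃+* F) (a w : Fin m ⊕ Fin m → F) :
    Matrix.GeneralLinearGroup.map (σ : F →+* F) (sg (hQ m F) a w) =
      sg (hQ m F) (fun k => σ (a k)) (fun k => σ (w k)) := by
  by_cases h : Cfsg.quadFormPlus m F a = 0 ∧ QuadraticMap.polar (Cfsg.quadFormPlus m F) a w = 0
  · have h1 : Cfsg.quadFormPlus m F (fun k => σ (a k)) = 0 := by rw [Q_map, h.1, map_zero]
    have h2 : QuadraticMap.polar (Cfsg.quadFormPlus m F) (fun k => σ (a k))
        (fun k => σ (w k)) = 0 := by rw [polar_map, h.2, map_zero]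
    apply gl_ext
    intro x
    have hx : x = fun k => σ (σ.symm (x k)) := by
      funext k
      simp
    rw [hx, map_mulVec, sg_mulVec (hQ m F) _ _ h.1 h.2, sg_mulVec (hQ m F) _ _ h1 h2, polar_map,
      polar_map, Q_map]
    funext k
    simp only [Pi.add_apply, Pi.sub_apply, Pi.smul_apply, smul_eq_mul, map_add, map_sub, map_mul]
  · have h' : ¬ (Cfsg.quadFormPlus m F (fun k => σ (a k)) = 0 ∧
        QuadraticMap.polar (Cfsg.quadFormPlus m F) (fun k => σ (a k)) (fun k => σ (w k)) = 0) := by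
      rw [Q_map, polar_map]
      intro h'
      apply h
      exact ⟨by simpa using h'.1, by simpa using h'.2⟩
    rw [sg_not _ _ _ h, sg_not _ _ _ h', map_one]

theorem map_δ (σ : F ≃+* F) (k : Fin m ⊕ Fin m) :
    (fun l => σ ((δ k : Fin m ⊕ Fin m → F) l)) = δ k := by
  funext l
  by_cases h : l = k
  · rw [h, δ_self, map_one]
  · rw [δ_ne h, map_zero]

theorem map_smul_δ (σ : F ≃+* F) (t : F) (k : Fin m ⊕ Fin m) :
    (fun l => σ ((t • (δ k : Fin m ⊕ Fin m → F)) l)) = σ t • δ k := by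
  funext l
  rw [Pi.smul_apply, Pi.smul_apply, smul_eq_mul, smul_eq_mul, map_mul]
  by_cases h : l = k
  · rw [h, δ_self, map_one]
  · rw [δ_ne h, map_zero]

/-! ### membership in `gammaPOmega` -/

theorem Phi_mem (g : ↥(Cfsg.Geo.quadSimilarityGroup (F := F) (Cfsg.quadFormPlus m F))) :
    Phi (Cfsg.quadFormPlus m F) g ∈ Cfsg.gammaPOmega F (Cfsg.quadFormPlus m F) := by
  apply Subgroup.subset_closure
  obtain ⟨c, hc⟩ := g.2
  refine ⟨g, RingEquiv.refl F, ⟨c, fun v => hc v⟩, ?_⟩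
  exact (induced_iff (Cfsg.quadFormPlus m F) g g.2 _).2 rfl

theorem cσ_mem (σ : F ≃+* F) :
    (cσ σ : MulAut (Cfsg.POmega F (Cfsg.quadFormPlus m F))) ∈
      Cfsg.gammaPOmega F (Cfsg.quadFormPlus m F) := by
  apply Subgroup.subset_closure
  refine ⟨1, σ, ⟨1, fun v => ?_⟩, ?_⟩
  · rw [Units.val_one, Matrix.one_mulVec, Units.val_one, one_mul, Q_map]
  · intro s s' hs
    rw [cσ_mk]
    congr 1
    apply Subtype.ext
    apply Subtype.ext
    apply Units.ext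
    rw [hs, omAut_coe]
    simp [Matrix.GeneralLinearGroup.map]

section Proj

variable [Fintype F]

theorem Phi_dg_X (hm : 3 ≤ m) (c : Fin m → Fˣ) (μ : Fˣ) {a b : Fin m ⊕ Fin m}
    (hab' : b ≠ a.swap) (t : F) :
    Phi (Cfsg.quadFormPlus m F) (dg c μ) (X hm a b t) =
      X hm a b ((dv c μ a : F) * (dv c μ b : F) * (μ : F)⁻¹ * t) := by
  unfold X rt
  rw [Phi_mk]
  congr 1
  apply omega_ext
  rw [cjΩ_coe, T_coe, T_coe]
  show dgl c μ * sg (hQ m F) (δ a) (t • δ b) * (dgl c μ)⁻¹ = _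
  rw [sg_conj_sim (hQ m F) _ (μ : F) (Units.ne_zero μ) (dgl_Q c μ) _ _ (Q_δ a) (frame_perp hab' t),
    Matrix.mulVec_smul, dgl_δ, dgl_δ, sg_smul_left, smul_smul, smul_smul, smul_smul]
  congr 2
  ring

theorem cσ_X (hm : 3 ≤ m) (σ : F ≃+* F) (a b : Fin m ⊕ Fin m) (t : F) :
    cσ σ (X hm a b t) = X hm a b (σ t) := by
  unfold X rt
  rw [cσ_mk]
  congr 1
  apply omega_ext
  rw [omAut_coe, T_coe, T_coe, sg_map, map_δ, map_smul_δ]

end Proj

end Cfsg.Agent.Lib.Helper43.OPlAut
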