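import Mathlib
import Cfsg.Agent.Lib.Helper43.OPlAut
import Cfsg.Agent.S0296

set_option autoImplicit false

namespace Cfsg.Agent.Lib.Helper43.OPlRigid

open Matrix
open Cfsg.Agent.Lib.Helper94.Basic Cfsg.Agent.Lib.Helper94.GLAux Cfsg.Agent.Lib.Helper94.Tv
  Cfsg.Agent.Lib.Helper94.QuadAbs Cfsg.Agent.Lib.Helper94.OrthSiegel
  Cfsg.Agent.Lib.Helper43.OPlBase Cfsg.Agent.Lib.Helper43.OPlRoot

universe u

variable {F : Type u} [Field F] [Fintype F] {m : ℕ}

theorem rt_add (hm : 3 ≤ m) (a w w' : Fin m ⊕ Fin m → F) (ha : Cfsg.quadFormPlus m F a = 0)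
    (hw : QuadraticMap.polar (Cfsg.quadFormPlus m F) a w = 0)
    (hw' : QuadraticMap.polar (Cfsg.quadFormPlus m F) a w' = 0) :
    rt hm a (w + w') = rt hm a w * rt hm a w' := by
  unfold rt
  rw [← QuotientGroup.mk_mul]
  congr 1
  apply omega_ext
  show sg (hQ m F) a (w + w') = sg (hQ m F) a w * sg (hQ m F) a w'
  rw [sg_mul (hQ m F) a w w' ha hw hw']

theorem rt_eq_one (hm : 3 ≤ m) {a w : Fin m ⊕ Fin m → F} (h : sg (hQ m F) a w = 1) :
    rt hm a w = 1 := by
  unfold rt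
  have : T hm a w = 1 := by
    apply omega_ext
    rw [T_coe, h]
    rfl
  rw [this, QuotientGroup.mk_one]

theorem rt_conj (hm : 3 ≤ m) (g : ↥(Cfsg.Omega F (Cfsg.quadFormPlus m F)))
    (a w : Fin m ⊕ Fin m → F) :
    (QuotientGroup.mk g : Cfsg.POmega F (Cfsg.quadFormPlus m F)) * rt hm a w *
        (QuotientGroup.mk g)⁻¹ =
      rt hm ((((g : ↥(Cfsg.isometryGroup F (Cfsg.quadFormPlus m F))) : GL (Fin m ⊕ Fin m) F) :
          Matrix (Fin m ⊕ Fin m) (Fin m ⊕ Fin m) F) *ᵥ a)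
        ((((g : ↥(Cfsg.isometryGroup F (Cfsg.quadFormPlus m F))) : GL (Fin m ⊕ Fin m) F) :
          Matrix (Fin m ⊕ Fin m) (Fin m ⊕ Fin m) F) *ᵥ w) := by
  unfold rt
  rw [← QuotientGroup.mk_inv, ← QuotientGroup.mk_mul, ← QuotientGroup.mk_mul]
  congr 1
  apply omega_ext
  rw [T_coe]
  exact sg_conj (hQ m F) _ ((mem_isometryGroup_iff _ _).1 g.1.2) a w

/-- an automorphism fixing all frame root elements fixes all Siegel elements at frame vectors -/
theorem fix_frame (hm : 3 ≤ m) (γ : MulAut (Cfsg.POmega F (Cfsg.quadFormPlus m F)))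
    (h : ∀ a b : Fin m ⊕ Fin m, b ≠ a → b ≠ a.swap → ∀ t : F, γ (X hm a b t) = X hm a b t)
    (a : Fin m ⊕ Fin m) (w : Fin m ⊕ Fin m → F) : γ (rt hm (δ a) w) = rt hm (δ a) w := by
  classical
  by_cases hw : QuadraticMap.polar (Cfsg.quadFormPlus m F) (δ a) w = 0
  · -- single terms
    have h1 : ∀ (k : Fin m ⊕ Fin m) (c : F), k ≠ a.swap →
        γ (rt hm (δ a) (c • δ k)) = rt hm (δ a) (c • δ k) := by
      intro k c hk
      by_cases hka : k = a
      · rw [hka, rt_eq_one hm (sg_self (hQ m F) _ c), map_one]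
      · exact h a k hka hk c
    have h2 : ∀ S : Finset (Fin m ⊕ Fin m), (∀ k ∈ S, k ≠ a.swap) →
        γ (rt hm (δ a) (∑ k ∈ S, w k • (δ k : Fin m ⊕ Fin m → F))) =
          rt hm (δ a) (∑ k ∈ S, w k • (δ k : Fin m ⊕ Fin m → F)) := by
      intro S
      induction S using Finset.induction_on with
      | empty =>
        intro _
        rw [Finset.sum_empty, rt_eq_one hm (sg_zero_right (hQ m F) _), map_one]
      | insert k S hk ih =>
        intro hS
        have hk' : k ≠ a.swap := hS k (Finset.mem_insert_self k S)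
        have hS' : ∀ l ∈ S, l ≠ a.swap := fun l hl => hS l (Finset.mem_insert_of_mem hl)
        have e1 : QuadraticMap.polar (Cfsg.quadFormPlus m F) (δ a) (w k • δ k) = 0 :=
          frame_perp hk' _
        have e2 : QuadraticMap.polar (Cfsg.quadFormPlus m F) (δ a)
            (∑ l ∈ S, w l • (δ l : Fin m ⊕ Fin m → F)) = 0 := by
          rw [polar_δ, Finset.sum_apply]
          apply Finset.sum_eq_zero
          intro l hl
          rw [Pi.smul_apply, δ_ne (Ne.symm (hS' l hl)), smul_zero]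
        rw [Finset.sum_insert hk, rt_add hm _ _ _ (Q_δ a) e1 e2, map_mul, h1 k _ hk', ih hS']
    have h3 : w = ∑ k ∈ Finset.univ.erase a.swap, w k • (δ k : Fin m ⊕ Fin m → F) := by
      have h4 := eq_sum_δ w
      rw [← Finset.add_sum_erase Finset.univ _ (Finset.mem_univ a.swap)] at h4
      rw [polar_δ] at hw
      rw [hw, zero_smul, zero_add] at h4
      exact h4
    rw [h3]
    exact h2 _ (fun k hk => Finset.ne_of_mem_erase hk)
  · rw [rt_eq_one hm (sg_not (hQ m F) _ _ (fun h' => hw h'.2)), map_one]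

/-- the subgroup of `GL` of lifts of fixed points -/
def fixGL (γ : MulAut (Cfsg.POmega F (Cfsg.quadFormPlus m F))) :
    Subgroup (GL (Fin m ⊕ Fin m) F) :=
  ((MonoidHom.eqLocus γ.toMonoidHom (MonoidHom.id _)).comap
    (QuotientGroup.mk' (Subgroup.center ↥(Cfsg.Omega F (Cfsg.quadFormPlus m F))))).map
    ((Cfsg.isometryGroup F (Cfsg.quadFormPlus m F)).subtype.comp
      (Cfsg.Omega F (Cfsg.quadFormPlus m F)).subtype)

theorem mem_fixGL (γ : MulAut (Cfsg.POmega F (Cfsg.quadFormPlus m F)))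
    (g : GL (Fin m ⊕ Fin m) F) :
    g ∈ fixGL γ ↔ ∃ s : ↥(Cfsg.Omega F (Cfsg.quadFormPlus m F)),
      γ (QuotientGroup.mk s) = QuotientGroup.mk s ∧
      ((s : ↥(Cfsg.isometryGroup F (Cfsg.quadFormPlus m F))) : GL (Fin m ⊕ Fin m) F) = g := by
  unfold fixGL
  rw [Subgroup.mem_map]
  constructor
  · rintro ⟨s, hs, rfl⟩
    exact ⟨s, hs, rfl⟩
  · rintro ⟨s, hs, rfl⟩
    exact ⟨s, hs, rfl⟩

theorem sg_mem_fixGL (hm : 3 ≤ m) (γ : MulAut (Cfsg.POmega F (Cfsg.quadFormPlus m F)))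
    (a w : Fin m ⊕ Fin m → F) :
    sg (hQ m F) a w ∈ fixGL γ ↔ γ (rt hm a w) = rt hm a w := by
  rw [mem_fixGL]
  constructor
  · rintro ⟨s, hs, hs'⟩
    have : s = T hm a w := omega_ext hs'
    rw [this] at hs
    exact hs
  · intro h
    exact ⟨T hm a w, h, rfl⟩

theorem fixGL_isom (γ : MulAut (Cfsg.POmega F (Cfsg.quadFormPlus m F)))
    (g : GL (Fin m ⊕ Fin m) F) (hg : g ∈ fixGL γ) (v : Fin m ⊕ Fin m → F) :
    Cfsg.quadFormPlus m F ((g : Matrix (Fin m ⊕ Fin m) (Fin m ⊕ Fin m) F) *ᵥ v) =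
      Cfsg.quadFormPlus m F v := by
  obtain ⟨s, -, rfl⟩ := (mem_fixGL γ g).1 hg
  exact (mem_isometryGroup_iff _ _).1 s.1.2 v

/-- an automorphism fixing all frame root elements fixes all Siegel elements -/
theorem fix_all (hm : 3 ≤ m) (γ : MulAut (Cfsg.POmega F (Cfsg.quadFormPlus m F)))
    (h : ∀ a b : Fin m ⊕ Fin m, b ≠ a → b ≠ a.swap → ∀ t : F, γ (X hm a b t) = X hm a b t)
    (a w : Fin m ⊕ Fin m → F) : γ (rt hm a w) = rt hm a w := by
  rw [← sg_mem_fixGL]
  have hfr : ∀ k : Fin m ⊕ Fin m, (δ k : Fin m ⊕ Fin m → F) ∈ sgSet (hQ m F) (fixGL γ) := by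
    intro k
    refine ⟨Q_δ k, fun w => ?_⟩
    rw [sg_mem_fixGL hm]
    exact fix_frame hm γ h k w
  by_cases ha : Cfsg.quadFormPlus m F a = 0
  · by_cases ha0 : a = 0
    · rw [ha0, sg_zero_left]
      exact Subgroup.one_mem _
    · obtain ⟨k, hk⟩ := Function.ne_iff.1 ha0
      have hk : a k ≠ 0 := hk
      have h1 : a ∈ sgSet (hQ m F) (fixGL γ) := by
        apply sgSet_trans (hQ m F) (fixGL γ) (fixGL_isom γ) (hfr k.swap) (hfr k) _ ha
        · rw [polar_δ, Sum.swap_swap]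
          exact hk
        · rw [polar_δ, Sum.swap_swap, δ_self]
          exact one_ne_zero
      exact h1.2 w
  · rw [sg_not (hQ m F) _ _ (fun h' => ha h'.1)]
    exact Subgroup.one_mem _

/-- rigidity: an automorphism fixing all frame root elements is trivial -/
theorem rigid (hm : 4 ≤ m) (γ : MulAut (Cfsg.POmega F (Cfsg.quadFormPlus m F)))
    (h : ∀ a b : Fin m ⊕ Fin m, b ≠ a → b ≠ a.swap → ∀ t : F,
      γ (X (by omega : 3 ≤ m) a b t) = X (by omega : 3 ≤ m) a b t) : γ = 1 := by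
  have hm3 : 3 ≤ m := by omega
  have hfix := fix_all hm3 γ h
  have hsimple : IsSimpleGroup (Cfsg.POmega F (Cfsg.quadFormPlus m F)) :=
    Cfsg.Agent.S0296.result m hm
  obtain ⟨S, hS⟩ : ∃ S : Set (Cfsg.POmega F (Cfsg.quadFormPlus m F)),
      S = {x | ∃ a w : Fin m ⊕ Fin m → F, x = rt hm3 a w} := ⟨_, rfl⟩
  have hnorm : (Subgroup.closure S).Normal := by
    apply Cfsg.Agent.Lib.Helper44.Siegel.closure_normal_of_conj
    intro s hs g
    rw [hS] at hs ⊢
    obtain ⟨a, w, rfl⟩ := hs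
    induction g using QuotientGroup.induction_on with
    | H g => exact ⟨_, _, rt_conj hm3 g a w⟩
  have hle : Subgroup.closure S ≤ MonoidHom.eqLocus γ.toMonoidHom (MonoidHom.id _) := by
    rw [Subgroup.closure_le]
    intro x hx
    rw [hS] at hx
    obtain ⟨a, w, rfl⟩ := hx
    exact hfix a w
  have hne : Subgroup.closure S ≠ ⊥ := by
    intro hbot
    obtain ⟨d, hd1, hd2, -, -⟩ := exists_other hm3 (Sum.inl ⟨0, by omega⟩ : Fin m ⊕ Fin m)
      (Sum.inl ⟨0, by omega⟩)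
    have h1 : X hm3 (Sum.inl ⟨0, by omega⟩ : Fin m ⊕ Fin m) d (1 : F) ∈ Subgroup.closure S := by
      apply Subgroup.subset_closure
      rw [hS]
      exact ⟨_, _, rfl⟩
    rw [hbot, Subgroup.mem_bot] at h1
    exact one_ne_zero (X_eq_one hm3 hd1 hd2 h1)
  have htop : Subgroup.closure S = ⊤ := (hnorm.eq_bot_or_eq_top).resolve_left hne
  apply MulEquiv.ext
  intro x
  have hx : x ∈ MonoidHom.eqLocus γ.toMonoidHom (MonoidHom.id _) := by
    apply hle
    rw [htop]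
    exact Subgroup.mem_top x
  exact hx

end Cfsg.Agent.Lib.Helper43.OPlRigid
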