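import Mathlib
import Cfsg.Agent.Lib.Helper43.OPlRigid

set_option autoImplicit false

namespace Cfsg.Agent.Lib.Helper43.OPlCent

open Matrix
open Cfsg.Agent.Lib.Helper94.Basic Cfsg.Agent.Lib.Helper94.GLAux Cfsg.Agent.Lib.Helper94.Tv
  Cfsg.Agent.Lib.Helper94.QuadAbs Cfsg.Agent.Lib.Helper94.OrthSiegel
  Cfsg.Agent.Lib.Helper43.OPlBase Cfsg.Agent.Lib.Helper43.OPlRoot

universe u

variable {F : Type u} [Field F] {m : ℕ}

theorem sw1 {x y : Fin m ⊕ Fin m} (h : x ≠ y.swap) : x.swap ≠ y := by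
  intro h'
  apply h
  rw [← h', Sum.swap_swap]

theorem sw2 {x y : Fin m ⊕ Fin m} (h : x ≠ y) : x.swap ≠ y.swap := fun h' => h (swap_inj h')

/-- the entries of a frame root element -/
theorem frame_entry {a d : Fin m ⊕ Fin m} (hd' : d ≠ a.swap) (t : F) (l k : Fin m ⊕ Fin m) :
    ((sg (hQ m F) (δ a) (t • δ d) : GL (Fin m ⊕ Fin m) F) :
        Matrix (Fin m ⊕ Fin m) (Fin m ⊕ Fin m) F) l k =
      (δ k : Fin m ⊕ Fin m → F) l + t * (δ k : Fin m ⊕ Fin m → F) a.swap * (δ d : _ → F) l -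
        t * (δ k : Fin m ⊕ Fin m → F) d.swap * (δ a : _ → F) l := by
  have h := congrFun (frame_mulVec hd' t (δ k : Fin m ⊕ Fin m → F)) l
  rw [mulVec_δ] at h
  rw [h]
  simp only [Pi.add_apply, Pi.sub_apply, Pi.smul_apply, smul_eq_mul]

/-- the entry form of commutation with a frame root element -/
theorem comm_entry {a d : Fin m ⊕ Fin m} (hd' : d ≠ a.swap)
    (M : Matrix (Fin m ⊕ Fin m) (Fin m ⊕ Fin m) F)
    (h : M * ((sg (hQ m F) (δ a) ((1 : F) • δ d) : GL (Fin m ⊕ Fin m) F) :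
        Matrix (Fin m ⊕ Fin m) (Fin m ⊕ Fin m) F) =
      ((sg (hQ m F) (δ a) ((1 : F) • δ d) : GL (Fin m ⊕ Fin m) F) :
        Matrix (Fin m ⊕ Fin m) (Fin m ⊕ Fin m) F) * M) (k l : Fin m ⊕ Fin m) :
    (δ k : Fin m ⊕ Fin m → F) a.swap * M l d - (δ k : Fin m ⊕ Fin m → F) d.swap * M l a =
      M a.swap k * (δ d : Fin m ⊕ Fin m → F) l - M d.swap k * (δ a : Fin m ⊕ Fin m → F) l := by
  have h1 : (M *ᵥ (((sg (hQ m F) (δ a) ((1 : F) • δ d) : GL (Fin m ⊕ Fin m) F) :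
        Matrix (Fin m ⊕ Fin m) (Fin m ⊕ Fin m) F) *ᵥ (δ k : Fin m ⊕ Fin m → F))) l =
      (((sg (hQ m F) (δ a) ((1 : F) • δ d) : GL (Fin m ⊕ Fin m) F) :
        Matrix (Fin m ⊕ Fin m) (Fin m ⊕ Fin m) F) *ᵥ (M *ᵥ (δ k : Fin m ⊕ Fin m → F))) l := by
    rw [Matrix.mulVec_mulVec, Matrix.mulVec_mulVec, h]
  rw [frame_mulVec hd', frame_mulVec hd'] at h1
  simp only [Matrix.mulVec_add, Matrix.mulVec_sub,
    Matrix.mulVec_smul, Pi.add_apply, Pi.sub_apply, Pi.smul_apply, mulVec_δ, smul_eq_mul,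
    one_mul] at h1
  linear_combination h1

/-- **the centraliser computation** -/
theorem cent_mat (hm : 3 ≤ m) {a b : Fin m ⊕ Fin m} (hab : b ≠ a) (hab' : b ≠ a.swap)
    (M : Matrix (Fin m ⊕ Fin m) (Fin m ⊕ Fin m) F)
    (hA : ∀ d : Fin m ⊕ Fin m, d ≠ a → d ≠ a.swap →
      M * ((sg (hQ m F) (δ a) ((1 : F) • δ d) : GL (Fin m ⊕ Fin m) F) :
        Matrix (Fin m ⊕ Fin m) (Fin m ⊕ Fin m) F) =
      ((sg (hQ m F) (δ a) ((1 : F) • δ d) : GL (Fin m ⊕ Fin m) F) :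
        Matrix (Fin m ⊕ Fin m) (Fin m ⊕ Fin m) F) * M)
    (hB : ∀ c : Fin m ⊕ Fin m, c ≠ a → c ≠ a.swap → c ≠ b → c ≠ b.swap →
      M * ((sg (hQ m F) (δ b) ((1 : F) • δ c) : GL (Fin m ⊕ Fin m) F) :
        Matrix (Fin m ⊕ Fin m) (Fin m ⊕ Fin m) F) =
      ((sg (hQ m F) (δ b) ((1 : F) • δ c) : GL (Fin m ⊕ Fin m) F) :
        Matrix (Fin m ⊕ Fin m) (Fin m ⊕ Fin m) F) * M)
    (hiso : ∀ v, Cfsg.quadFormPlus m F (M *ᵥ v) = Cfsg.quadFormPlus m F v) :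
    ∃ κ u : F, κ * κ = 1 ∧
      M = κ • ((sg (hQ m F) (δ a) (u • δ b) : GL (Fin m ⊕ Fin m) F) :
        Matrix (Fin m ⊕ Fin m) (Fin m ⊕ Fin m) F) := by
  have hbl := (hQ m F).polar_bilinear
  obtain ⟨c₀, hc₀a, hc₀a', hc₀b, hc₀b'⟩ := exists_other hm a b
  obtain ⟨κ, hκ⟩ : ∃ κ : F, κ = M a.swap a.swap := ⟨_, rfl⟩
  have haa' : a.swap ≠ a := swap_ne a
  have hbb' : b.swap ≠ b := swap_ne b
  have hb'a : b.swap ≠ a := sw1 hab'
  have hb'a' : b.swap ≠ a.swap := sw2 hab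
  have hab2 : a ≠ b := Ne.symm hab
  have ha'b : a.swap ≠ b := Ne.symm hab'
  have hab3 : a ≠ b.swap := Ne.symm hb'a
  have ha'b' : a.swap ≠ b.swap := Ne.symm hb'a'
  -- (A1)
  have A1 : ∀ d : Fin m ⊕ Fin m, d ≠ a → d ≠ a.swap → ∀ l,
      M l d = κ * (δ d : Fin m ⊕ Fin m → F) l - M d.swap a.swap * (δ a : Fin m ⊕ Fin m → F) l := by
    intro d hd hd' l
    have h := comm_entry hd' M (hA d hd hd') a.swap l
    rw [δ_self, δ_ne (l := d.swap) (k := a.swap) (sw2 hd), one_mul, zero_mul, sub_zero] at h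
    rw [h, hκ]
  -- (A2)
  have A2 : ∀ l, M l a = κ * (δ a : Fin m ⊕ Fin m → F) l := by
    intro l
    have h := comm_entry hab' M (hA b hab hab') b.swap l
    rw [δ_self, δ_ne (l := a.swap) (k := b.swap) ha'b', zero_mul, one_mul, zero_sub] at h
    have h1 := A1 b.swap hb'a hb'a' a.swap
    have h2 := A1 b.swap hb'a hb'a' b.swap
    rw [δ_ne (l := a.swap) (k := b.swap) ha'b', δ_ne (l := a.swap) (k := a) haa', mul_zero,
      mul_zero, sub_zero] at h1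
    rw [δ_self, δ_ne (l := b.swap) (k := a) hb'a, mul_one, mul_zero, sub_zero] at h2
    rw [h1, h2, zero_mul, zero_sub] at h
    linear_combination -h
  -- (C1)
  have C1 : ∀ c : Fin m ⊕ Fin m, c ≠ a → c ≠ a.swap → c ≠ b → c ≠ b.swap →
      M c.swap a.swap = 0 := by
    intro c hca hca' hcb hcb'
    have h := comm_entry hcb' M (hB c hca hca' hcb hcb') b.swap a
    rw [δ_self, δ_ne (l := c.swap) (k := b.swap) (sw2 hcb), one_mul, zero_mul, sub_zero,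
      δ_ne (l := a) (k := c) (Ne.symm hca), δ_ne (l := a) (k := b) hab2, mul_zero, mul_zero,
      sub_zero] at h
    have h1 := A1 c hca hca' a
    rw [δ_ne (l := a) (k := c) (Ne.symm hca), δ_self, mul_zero, mul_one, zero_sub] at h1
    rw [h] at h1
    linear_combination h1
  -- (C2)
  have C2 : ∀ c : Fin m ⊕ Fin m, c ≠ a → c ≠ a.swap → c ≠ b → c ≠ b.swap → ∀ l,
      M l c = κ * (δ c : Fin m ⊕ Fin m → F) l := by
    intro c hca hca' hcb hcb' l
    rw [A1 c hca hca' l, C1 c hca hca' hcb hcb', zero_mul, sub_zero]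
  -- (B2)
  have B2 : ∀ l, M l b = κ * (δ b : Fin m ⊕ Fin m → F) l := by
    intro l
    have hc1 : c₀.swap ≠ a := sw1 hc₀a'
    have hc2 : c₀.swap ≠ a.swap := sw2 hc₀a
    have hc3 : c₀.swap ≠ b := sw1 hc₀b'
    have hc4 : c₀.swap ≠ b.swap := sw2 hc₀b
    have h := comm_entry hc₀b' M (hB c₀ hc₀a hc₀a' hc₀b hc₀b') c₀.swap l
    rw [δ_self, δ_ne (l := b.swap) (k := c₀.swap) (Ne.symm hc4), zero_mul, one_mul, zero_sub,
      C2 c₀.swap hc1 hc2 hc3 hc4 b.swap, C2 c₀.swap hc1 hc2 hc3 hc4 c₀.swap, δ_self,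
      δ_ne (l := b.swap) (k := c₀.swap) (Ne.symm hc4), mul_zero, mul_one, zero_mul, zero_sub] at h
    linear_combination -h
  -- (C3)
  have C3 : M b.swap a.swap = 0 := by
    have h1 := A1 b hab hab' a
    rw [B2 a, δ_ne (l := a) (k := b) hab2, δ_self, mul_zero, mul_one, zero_sub] at h1
    linear_combination h1
  obtain ⟨α, hα⟩ : ∃ α : F, α = M a a.swap := ⟨_, rfl⟩
  obtain ⟨β, hβ⟩ : ∃ β : F, β = M b a.swap := ⟨_, rfl⟩
  -- the column of `a'`
  have D1 : ∀ l, M l a.swap = κ * (δ a.swap : Fin m ⊕ Fin m → F) l +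
      α * (δ a : Fin m ⊕ Fin m → F) l + β * (δ b : Fin m ⊕ Fin m → F) l := by
    intro l
    by_cases h1 : l = a.swap
    · rw [h1, δ_self, δ_ne (l := a.swap) (k := a) haa', δ_ne (l := a.swap) (k := b) ha'b, hκ]
      ring
    by_cases h2 : l = a
    · rw [h2, δ_self, δ_ne (l := a) (k := a.swap) (Ne.symm haa'), δ_ne (l := a) (k := b) hab2, hα]
      ring
    by_cases h3 : l = b
    · rw [h3, δ_self, δ_ne (l := b) (k := a.swap) hab', δ_ne (l := b) (k := a) hab, hβ]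
      ring
    by_cases h4 : l = b.swap
    · rw [h4, C3, δ_ne (l := b.swap) (k := a.swap) hb'a', δ_ne (l := b.swap) (k := a) hb'a,
        δ_ne (l := b.swap) (k := b) hbb']
      ring
    · have h5 := C1 l.swap (sw1 h1) (sw2 h2) (sw1 h4) (sw2 h3)
      rw [Sum.swap_swap] at h5
      rw [h5, δ_ne h1, δ_ne h2, δ_ne h3]
      ring
  -- the column of `b'`
  have D2 : ∀ l, M l b.swap = κ * (δ b.swap : Fin m ⊕ Fin m → F) l -
      β * (δ a : Fin m ⊕ Fin m → F) l := by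
    intro l
    rw [A1 b.swap hb'a hb'a' l, Sum.swap_swap, hβ]
  -- isometry conditions
  have hcol : M *ᵥ (δ a.swap : Fin m ⊕ Fin m → F) =
      κ • (δ a.swap : Fin m ⊕ Fin m → F) + α • (δ a : Fin m ⊕ Fin m → F) +
        β • (δ b : Fin m ⊕ Fin m → F) := by
    funext l
    rw [mulVec_δ, D1 l]
    simp only [Pi.add_apply, Pi.smul_apply, smul_eq_mul]
  have hcola : M *ᵥ (δ a : Fin m ⊕ Fin m → F) = κ • (δ a : Fin m ⊕ Fin m → F) := by
    funext l
    rw [mulVec_δ, A2 l]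
    simp only [Pi.smul_apply, smul_eq_mul]
  have hpol : ∀ x y, QuadraticMap.polar (Cfsg.quadFormPlus m F) (M *ᵥ x) (M *ᵥ y) =
      QuadraticMap.polar (Cfsg.quadFormPlus m F) x y := by
    intro x y
    unfold QuadraticMap.polar
    rw [← Matrix.mulVec_add, hiso, hiso, hiso]
  have hκκ : κ * κ = 1 := by
    have h1 := hpol (δ a) (δ a.swap)
    rw [polar_δ, δ_self, hcola, hbl.smul_left, polar_δ, mulVec_δ, ← hκ] at h1
    exact h1
  have hκ0 : κ ≠ 0 := by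
    intro h0
    rw [h0, mul_zero] at hκκ
    exact zero_ne_one hκκ
  have hα0 : α = 0 := by
    have h1 := hiso (δ a.swap)
    have q1 : Cfsg.quadFormPlus m F (κ • (δ a.swap : Fin m ⊕ Fin m → F)) = 0 := Q_smul_δ κ _
    have q2 : Cfsg.quadFormPlus m F (α • (δ a : Fin m ⊕ Fin m → F)) = 0 := Q_smul_δ α _
    have q3 : Cfsg.quadFormPlus m F (β • (δ b : Fin m ⊕ Fin m → F)) = 0 := Q_smul_δ β _
    have p1 : QuadraticMap.polar (Cfsg.quadFormPlus m F) (κ • (δ a.swap : Fin m ⊕ Fin m → F))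
        (α • (δ a : Fin m ⊕ Fin m → F)) = κ * α := by
      rw [hbl.smul_left, hbl.smul_right, polar_δ, Sum.swap_swap, δ_self]
      ring
    have p2 : QuadraticMap.polar (Cfsg.quadFormPlus m F)
        (κ • (δ a.swap : Fin m ⊕ Fin m → F) + α • (δ a : Fin m ⊕ Fin m → F))
        (β • (δ b : Fin m ⊕ Fin m → F)) = 0 := by
      rw [hbl.add_left, hbl.smul_left, hbl.smul_left, hbl.smul_right, hbl.smul_right, polar_δ,
        polar_δ, Sum.swap_swap, δ_ne (l := a) (k := b) hab2, δ_ne (l := a.swap) (k := b) ha'b]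
      ring
    rw [Q_δ, hcol, Q_add (Cfsg.quadFormPlus m F), Q_add (Cfsg.quadFormPlus m F), q1, q2, q3, p1,
      p2] at h1
    have h2 : κ * α = 0 := by linear_combination h1
    exact (mul_eq_zero.1 h2).resolve_left hκ0
  refine ⟨κ, κ * β, hκκ, ?_⟩
  ext l k
  rw [Matrix.smul_apply, smul_eq_mul, frame_entry hab']
  by_cases h1 : k = a
  · rw [h1, A2 l, δ_ne (l := a.swap) (k := a) haa', δ_ne (l := b.swap) (k := a) hb'a]
    ring
  by_cases h2 : k = a.swap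
  · rw [h2, D1 l, hα0, δ_self, δ_ne (l := b.swap) (k := a.swap) hb'a']
    linear_combination (-β * (δ b : Fin m ⊕ Fin m → F) l) * hκκ
  by_cases h3 : k = b
  · rw [h3, B2 l, δ_ne (l := a.swap) (k := b) ha'b, δ_ne (l := b.swap) (k := b) hbb']
    ring
  by_cases h4 : k = b.swap
  · rw [h4, D2 l, δ_self, δ_ne (l := a.swap) (k := b.swap) ha'b']
    linear_combination (β * (δ a : Fin m ⊕ Fin m → F) l) * hκκ
  · rw [C2 k h1 h2 h3 h4 l, δ_ne (l := a.swap) (k := k) (Ne.symm h2),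
      δ_ne (l := b.swap) (k := k) (Ne.symm h4)]
    ring

end Cfsg.Agent.Lib.Helper43.OPlCent
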