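import Mathlib
import Cfsg.Agent.Lib.Helper43.OPlCent
import Cfsg.Agent.Lib.Helper43.PSLnRoot
import Cfsg.Agent.Lib.Helper45.OmegaCenter

set_option autoImplicit false

namespace Cfsg.Agent.Lib.Helper43.OPlSyl

open Matrix
open Cfsg.Agent.Lib.Helper94.Basic Cfsg.Agent.Lib.Helper94.GLAux Cfsg.Agent.Lib.Helper94.Tv
  Cfsg.Agent.Lib.Helper94.QuadAbs Cfsg.Agent.Lib.Helper94.OrthSiegel
  Cfsg.Agent.Lib.Helper43.OPlBase Cfsg.Agent.Lib.Helper43.OPlRoot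
  Cfsg.Agent.Lib.Helper43.OPlRigid Cfsg.Agent.Lib.Helper43.OPlCent
open Cfsg.Agent.Lib.Helper43.PSLnRoot (zc zc_smul)

open scoped Pointwise

universe u

section General

variable {F : Type*} [Field F] {ι : Type} [Fintype ι] [DecidableEq ι] {Q : (ι → F) → F}

theorem sg_pow (hQ : Cfsg.Geo.IsNondegenerateQuadraticForm Q) (a w : ι → F) (ha : Q a = 0)
    (haw : QuadraticMap.polar Q a w = 0) (n : ℕ) :
    sg hQ a w ^ n = sg hQ a ((n : F) • w) := by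
  have hbl := hQ.polar_bilinear
  induction n with
  | zero => rw [pow_zero, Nat.cast_zero, zero_smul, sg_zero_right]
  | succ n ih =>
    rw [pow_succ, ih, sg_mul hQ a _ _ ha (by rw [hbl.smul_right, haw, mul_zero]) haw,
      Nat.cast_succ, add_smul, one_smul]

theorem sg_pow_char (hQ : Cfsg.Geo.IsNondegenerateQuadraticForm Q) (p : ℕ) [CharP F p]
    (a w : ι → F) : sg hQ a w ^ p = 1 := by
  by_cases h : Q a = 0 ∧ QuadraticMap.polar Q a w = 0
  · rw [sg_pow hQ a w h.1 h.2, CharP.cast_eq_zero, zero_smul, sg_zero_right]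
  · rw [sg_not hQ a w h, one_pow]

end General

variable {F : Type u} [Field F] [Fintype F] {m : ℕ}

instance : Finite (Cfsg.POmega F (Cfsg.quadFormPlus m F)) := by
  unfold Cfsg.POmega
  infer_instance

/-- central elements of `Ω` are scalar matrices -/
theorem center_scalar (hm : 3 ≤ m) (z : ↥(Cfsg.Omega F (Cfsg.quadFormPlus m F)))
    (hz : z ∈ Subgroup.center ↥(Cfsg.Omega F (Cfsg.quadFormPlus m F))) :
    ∃ κ : F, (((z : ↥(Cfsg.isometryGroup F (Cfsg.quadFormPlus m F))) : GL (Fin m ⊕ Fin m) F) :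
      Matrix (Fin m ⊕ Fin m) (Fin m ⊕ Fin m) F) =
        κ • (1 : Matrix (Fin m ⊕ Fin m) (Fin m ⊕ Fin m) F) := by
  have hcz := Cfsg.Agent.Lib.Helper45.OmegaCenter.center_centralizes (Cfsg.quadFormPlus m F) z hz
  have hc5 : 5 ≤ Fintype.card (Fin m ⊕ Fin m) := card_ge hm
  by_cases h2 : (2 : F) = 0
  · haveI : CharP F 2 := CharTwo.of_one_ne_zero_of_two_eq_zero one_ne_zero h2
    have h1 := Cfsg.Agent.Lib.Helper45.OmegaCenter.centralizer_two
      (Cfsg.Agent.Lib.Helper44.NegPairs.plusQ m F) (Cfsg.Agent.Lib.Helper44.NegPairs.sep_plusQ m)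
      (Or.inr (Or.inl (by rw [Module.finrank_fintype_fun_eq_card]; exact hc5)))
      (by omega) (z : ↥(Cfsg.isometryGroup F (Cfsg.quadFormPlus m F))) hcz
    refine ⟨1, ?_⟩
    rw [h1, one_smul]
    rfl
  · rcases Cfsg.Agent.Lib.Helper45.OmegaCenter.centralizer_odd h2
      (Cfsg.Agent.Lib.Helper44.NegPairs.plusQ m F) (Cfsg.Agent.Lib.Helper44.NegPairs.sep_plusQ m)
      (by omega) (z : ↥(Cfsg.isometryGroup F (Cfsg.quadFormPlus m F))) hcz with h | h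
    · exact ⟨1, by rw [one_smul]; exact h⟩
    · exact ⟨-1, by rw [neg_one_smul]; exact h⟩

theorem char_pow_one (p : ℕ) [Fact p.Prime] [CharP F p] {κ : F} (h : κ ^ p = 1) : κ = 1 := by
  have h1 : (κ - 1) ^ p = 0 := by rw [sub_pow_char, h, one_pow, sub_self]
  exact sub_eq_zero.1 ((pow_eq_zero_iff (Nat.Prime.ne_zero (Fact.out))).1 h1)

/-- a central element of `p`-power order is trivial -/
theorem central_pow (hm : 3 ≤ m) (p : ℕ) [Fact p.Prime] [CharP F p]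
    {z : ↥(Cfsg.Omega F (Cfsg.quadFormPlus m F))}
    (hz : z ∈ Subgroup.center ↥(Cfsg.Omega F (Cfsg.quadFormPlus m F))) (hp : z ^ p = 1) :
    z = 1 := by
  obtain ⟨κ, hκ⟩ := center_scalar hm z hz
  have h1 : ((((z ^ p : ↥(Cfsg.Omega F (Cfsg.quadFormPlus m F))) :
      ↥(Cfsg.isometryGroup F (Cfsg.quadFormPlus m F))) : GL (Fin m ⊕ Fin m) F) :
      Matrix (Fin m ⊕ Fin m) (Fin m ⊕ Fin m) F) =
        (κ ^ p) • (1 : Matrix (Fin m ⊕ Fin m) (Fin m ⊕ Fin m) F) := by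
    rw [SubmonoidClass.coe_pow, SubmonoidClass.coe_pow, Units.val_pow_eq_pow_val, hκ, smul_pow,
      one_pow]
  have h5 : ((((1 : ↥(Cfsg.Omega F (Cfsg.quadFormPlus m F))) :
      ↥(Cfsg.isometryGroup F (Cfsg.quadFormPlus m F))) : GL (Fin m ⊕ Fin m) F) :
      Matrix (Fin m ⊕ Fin m) (Fin m ⊕ Fin m) F) = 1 := rfl
  rw [hp, h5] at h1
  have h2 : κ ^ p = 1 := by
    have h3 := congrFun (congrFun h1 (Sum.inl ⟨0, by omega⟩)) (Sum.inl ⟨0, by omega⟩)
    rw [Matrix.smul_apply, Matrix.one_apply_eq, smul_eq_mul, mul_one] at h3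
    exact h3.symm
  have h4 := char_pow_one p h2
  apply omega_ext
  apply Units.ext
  rw [hκ, h4, one_smul]
  rfl

/-- commutation in `PΩ` with a `p`-element lifts -/
theorem comm_lift (hm : 3 ≤ m) (p : ℕ) [Fact p.Prime] [CharP F p]
    {x s : ↥(Cfsg.Omega F (Cfsg.quadFormPlus m F))} (hx : x ^ p = 1)
    (h : (QuotientGroup.mk s : Cfsg.POmega F (Cfsg.quadFormPlus m F)) * QuotientGroup.mk x =
      QuotientGroup.mk x * QuotientGroup.mk s) : s * x = x * s := by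
  have hζ : s * x * s⁻¹ * x⁻¹ ∈ Subgroup.center ↥(Cfsg.Omega F (Cfsg.quadFormPlus m F)) := by
    have h1 : (QuotientGroup.mk (s * x * s⁻¹ * x⁻¹) :
        Cfsg.POmega F (Cfsg.quadFormPlus m F)) = 1 := by
      rw [QuotientGroup.mk_mul, QuotientGroup.mk_mul, QuotientGroup.mk_mul, QuotientGroup.mk_inv,
        QuotientGroup.mk_inv, h]
      group
    exact (QuotientGroup.eq_one_iff _).1 h1
  have hc : Commute x (s * x * s⁻¹ * x⁻¹) := Subgroup.mem_center_iff.1 hζ x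
  have h2 : s * x * s⁻¹ * x⁻¹ * x = s * x * s⁻¹ := by group
  have h3 := hc.symm.mul_pow p
  rw [h2, conj_pow, hx, mul_one, mul_one, mul_inv_cancel] at h3
  have h4 := central_pow hm p hζ h3.symm
  have h5 : s * x * s⁻¹ = x := mul_inv_eq_one.1 h4
  exact mul_inv_eq_iff_eq_mul.1 h5

/-- equality in `PΩ` of `p`-elements lifts -/
theorem eq_lift (hm : 3 ≤ m) (p : ℕ) [Fact p.Prime] [CharP F p]
    {x y : ↥(Cfsg.Omega F (Cfsg.quadFormPlus m F))} (hx : x ^ p = 1) (hy : y ^ p = 1)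
    (h : (QuotientGroup.mk x : Cfsg.POmega F (Cfsg.quadFormPlus m F)) = QuotientGroup.mk y) :
    x = y := by
  have hζ : x⁻¹ * y ∈ Subgroup.center ↥(Cfsg.Omega F (Cfsg.quadFormPlus m F)) :=
    QuotientGroup.eq.1 h
  have hc : Commute x (x⁻¹ * y) := Subgroup.mem_center_iff.1 hζ x
  have h2 : x * (x⁻¹ * y) = y := by group
  have h3 := hc.mul_pow p
  rw [h2, hy, hx, one_mul] at h3
  have h4 := central_pow hm p hζ h3.symm
  exact inv_mul_eq_one.1 h4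

theorem T_pow (hm : 3 ≤ m) (p : ℕ) [CharP F p] (a w : Fin m ⊕ Fin m → F) :
    T hm a w ^ p = 1 := by
  apply omega_ext
  rw [SubmonoidClass.coe_pow, SubmonoidClass.coe_pow, T_coe, sg_pow_char (hQ m F) p]
  rfl

theorem rt_pow (hm : 3 ≤ m) (p : ℕ) [CharP F p] (a w : Fin m ⊕ Fin m → F) :
    rt hm a w ^ p = 1 := by
  unfold rt
  rw [← QuotientGroup.mk_pow, T_pow hm p, QuotientGroup.mk_one]

/-- a scalar matrix in `Ω` is central -/
theorem central_of_scalar {z : ↥(Cfsg.Omega F (Cfsg.quadFormPlus m F))} {κ : F}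
    (h : (((z : ↥(Cfsg.isometryGroup F (Cfsg.quadFormPlus m F))) : GL (Fin m ⊕ Fin m) F) :
      Matrix (Fin m ⊕ Fin m) (Fin m ⊕ Fin m) F) =
        κ • (1 : Matrix (Fin m ⊕ Fin m) (Fin m ⊕ Fin m) F)) :
    z ∈ Subgroup.center ↥(Cfsg.Omega F (Cfsg.quadFormPlus m F)) := by
  rw [Subgroup.mem_center_iff]
  intro g
  apply omega_ext
  apply Units.ext
  show (((g : ↥(Cfsg.isometryGroup F (Cfsg.quadFormPlus m F))) : GL (Fin m ⊕ Fin m) F) :
      Matrix (Fin m ⊕ Fin m) (Fin m ⊕ Fin m) F) *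
      (((z : ↥(Cfsg.isometryGroup F (Cfsg.quadFormPlus m F))) : GL (Fin m ⊕ Fin m) F) :
      Matrix (Fin m ⊕ Fin m) (Fin m ⊕ Fin m) F) =
      (((z : ↥(Cfsg.isometryGroup F (Cfsg.quadFormPlus m F))) : GL (Fin m ⊕ Fin m) F) :
      Matrix (Fin m ⊕ Fin m) (Fin m ⊕ Fin m) F) *
      (((g : ↥(Cfsg.isometryGroup F (Cfsg.quadFormPlus m F))) : GL (Fin m ⊕ Fin m) F) :
      Matrix (Fin m ⊕ Fin m) (Fin m ⊕ Fin m) F)
  rw [h, Matrix.mul_smul, Matrix.smul_mul, mul_one, one_mul]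

/-- the root set of a pair of vectors -/
def RG (hm : 3 ≤ m) (u v : Fin m ⊕ Fin m → F) : Set (Cfsg.POmega F (Cfsg.quadFormPlus m F)) :=
  {x | ∃ t : F, x = rt hm u (t • v)}

theorem conj_RG (hm : 3 ≤ m) (g : ↥(Cfsg.Omega F (Cfsg.quadFormPlus m F)))
    (u v : Fin m ⊕ Fin m → F) :
    (MulAut.conj (QuotientGroup.mk g : Cfsg.POmega F (Cfsg.quadFormPlus m F))) '' RG hm u v =
      RG hm ((((g : ↥(Cfsg.isometryGroup F (Cfsg.quadFormPlus m F))) : GL (Fin m ⊕ Fin m) F) :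
          Matrix (Fin m ⊕ Fin m) (Fin m ⊕ Fin m) F) *ᵥ u)
        ((((g : ↥(Cfsg.isometryGroup F (Cfsg.quadFormPlus m F))) : GL (Fin m ⊕ Fin m) F) :
          Matrix (Fin m ⊕ Fin m) (Fin m ⊕ Fin m) F) *ᵥ v) := by
  ext x
  constructor
  · rintro ⟨_, ⟨t, rfl⟩, rfl⟩
    exact ⟨t, by rw [MulAut.conj_apply, rt_conj, Matrix.mulVec_smul]⟩
  · rintro ⟨t, rfl⟩
    exact ⟨rt hm u (t • v), ⟨t, rfl⟩, by rw [MulAut.conj_apply, rt_conj, Matrix.mulVec_smul]⟩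

/-- the unipotent radical at the frame point `a` -/
def Qs (hm : 3 ≤ m) (a : Fin m ⊕ Fin m) : Subgroup (Cfsg.POmega F (Cfsg.quadFormPlus m F)) where
  carrier := {x | ∃ w : Fin m ⊕ Fin m → F,
    QuadraticMap.polar (Cfsg.quadFormPlus m F) (δ a) w = 0 ∧ x = rt hm (δ a) w}
  mul_mem' := by
    rintro _ _ ⟨w, hw, rfl⟩ ⟨w', hw', rfl⟩
    exact ⟨w + w', by rw [(hQ m F).polar_bilinear.add_right, hw, hw', add_zero],
      (rt_add hm _ _ _ (Q_δ a) hw hw').symm⟩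
  one_mem' := ⟨0, by rw [polar_δ]; rfl, (rt_eq_one hm (sg_zero_right (hQ m F) _)).symm⟩
  inv_mem' := by
    rintro _ ⟨w, hw, rfl⟩
    have hw' : QuadraticMap.polar (Cfsg.quadFormPlus m F) (δ a) (-w) = 0 := by
      rw [polar_δ] at hw ⊢
      rw [Pi.neg_apply, hw, neg_zero]
    refine ⟨-w, hw', ?_⟩
    apply inv_eq_of_mul_eq_one_right
    rw [← rt_add hm _ _ _ (Q_δ a) hw hw', add_neg_cancel]
    exact rt_eq_one hm (sg_zero_right (hQ m F) _)

/-- a second family of root elements, normalising `Qs a` -/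
def As (hm : 3 ≤ m) (a b : Fin m ⊕ Fin m) : Subgroup (Cfsg.POmega F (Cfsg.quadFormPlus m F)) where
  carrier := {x | ∃ y : Fin m ⊕ Fin m → F, y a.swap = 0 ∧ y b.swap = 0 ∧ x = rt hm (δ b) y}
  mul_mem' := by
    rintro _ _ ⟨w, hw, hwb, rfl⟩ ⟨w', hw', hwb', rfl⟩
    refine ⟨w + w', by rw [Pi.add_apply, hw, hw', add_zero],
      by rw [Pi.add_apply, hwb, hwb', add_zero], ?_⟩
    exact (rt_add hm _ _ _ (Q_δ b) (by rw [polar_δ]; exact hwb) (by rw [polar_δ]; exact hwb')).symm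
  one_mem' := ⟨0, rfl, rfl, (rt_eq_one hm (sg_zero_right (hQ m F) _)).symm⟩
  inv_mem' := by
    rintro _ ⟨w, hw, hwb, rfl⟩
    refine ⟨-w, by rw [Pi.neg_apply, hw, neg_zero], by rw [Pi.neg_apply, hwb, neg_zero], ?_⟩
    apply inv_eq_of_mul_eq_one_right
    rw [← rt_add hm _ _ _ (Q_δ b) (by rw [polar_δ]; exact hwb)
      (by rw [polar_δ, Pi.neg_apply, hwb, neg_zero]), add_neg_cancel]
    exact rt_eq_one hm (sg_zero_right (hQ m F) _)

theorem Qs_pgroup (hm : 3 ≤ m) (p : ℕ) [Fact p.Prime] [CharP F p] (a : Fin m ⊕ Fin m) :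
    IsPGroup p (Qs (F := F) hm a) := by
  rintro ⟨x, w, hw, rfl⟩
  refine ⟨1, ?_⟩
  apply Subtype.ext
  rw [SubmonoidClass.coe_pow, pow_one]
  exact rt_pow hm p _ _

theorem As_pgroup (hm : 3 ≤ m) (p : ℕ) [Fact p.Prime] [CharP F p] (a b : Fin m ⊕ Fin m) :
    IsPGroup p (As (F := F) hm a b) := by
  rintro ⟨x, w, hw, hwb, rfl⟩
  refine ⟨1, ?_⟩
  apply Subtype.ext
  rw [SubmonoidClass.coe_pow, pow_one]
  exact rt_pow hm p _ _

theorem As_le_normalizer (hm : 3 ≤ m) {a b : Fin m ⊕ Fin m} (hab' : b ≠ a.swap) :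
    As (F := F) hm a b ≤ Subgroup.normalizer (Qs (F := F) hm a) := by
  have key : ∀ g ∈ As (F := F) hm a b, ∀ h ∈ Qs (F := F) hm a,
      g * h * g⁻¹ ∈ Qs (F := F) hm a := by
    rintro _ ⟨y, hya, hyb, rfl⟩ _ ⟨w, hw, rfl⟩
    have hby : QuadraticMap.polar (Cfsg.quadFormPlus m F) (δ b) y = 0 := by
      rw [polar_δ]; exact hyb
    have h1 : rt hm (δ b) y * rt hm (δ a) w * (rt hm (δ b) y)⁻¹ =
        rt hm (((sg (hQ m F) (δ b) y : GL (Fin m ⊕ Fin m) F) :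
            Matrix (Fin m ⊕ Fin m) (Fin m ⊕ Fin m) F) *ᵥ (δ a : Fin m ⊕ Fin m → F))
          (((sg (hQ m F) (δ b) y : GL (Fin m ⊕ Fin m) F) :
            Matrix (Fin m ⊕ Fin m) (Fin m ⊕ Fin m) F) *ᵥ w) :=
      rt_conj hm (T hm (δ b) y) (δ a) w
    have hGa : ((sg (hQ m F) (δ b) y : GL (Fin m ⊕ Fin m) F) :
        Matrix (Fin m ⊕ Fin m) (Fin m ⊕ Fin m) F) *ᵥ (δ a : Fin m ⊕ Fin m → F) = δ a := by
      rw [sg_mulVec (hQ m F) _ _ (Q_δ b) hby, polar_δ, polar_δ', δ_ne (sw1 hab'), hya]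
      simp
    rw [h1, hGa]
    refine ⟨_, ?_, rfl⟩
    rw [polar_δ, sg_mulVec (hQ m F) _ _ (Q_δ b) hby]
    rw [polar_δ] at hw
    simp only [Pi.add_apply, Pi.sub_apply, Pi.smul_apply, smul_eq_mul, hya,
      δ_ne (Ne.symm hab' : a.swap ≠ b), mul_zero, sub_zero, add_zero, hw]
  intro g hg
  rw [Subgroup.mem_normalizer_iff]
  intro h
  constructor
  · exact key g hg h
  · intro h1
    have h2 := key g⁻¹ (inv_mem hg) _ h1
    have h3 : g⁻¹ * (g * h * g⁻¹) * g⁻¹⁻¹ = h := by group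
    rwa [h3] at h2

/-- the centraliser of the two families is the frame root group -/
theorem cent_root (hm : 3 ≤ m) (p : ℕ) [Fact p.Prime] [CharP F p] {a b : Fin m ⊕ Fin m}
    (hab : b ≠ a) (hab' : b ≠ a.swap) {x : Cfsg.POmega F (Cfsg.quadFormPlus m F)}
    (hA : ∀ y ∈ Qs (F := F) hm a, x * y = y * x)
    (hB : ∀ y ∈ As (F := F) hm a b, x * y = y * x) : ∃ t : F, x = X hm a b t := by
  obtain ⟨g, rfl⟩ := QuotientGroup.mk_surjective x
  have h1 : ∀ d : Fin m ⊕ Fin m, d ≠ a → d ≠ a.swap →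
      (((g : ↥(Cfsg.isometryGroup F (Cfsg.quadFormPlus m F))) : GL (Fin m ⊕ Fin m) F) :
        Matrix (Fin m ⊕ Fin m) (Fin m ⊕ Fin m) F) *
        ((sg (hQ m F) (δ a) ((1 : F) • δ d) : GL (Fin m ⊕ Fin m) F) :
          Matrix (Fin m ⊕ Fin m) (Fin m ⊕ Fin m) F) =
      ((sg (hQ m F) (δ a) ((1 : F) • δ d) : GL (Fin m ⊕ Fin m) F) :
          Matrix (Fin m ⊕ Fin m) (Fin m ⊕ Fin m) F) *
        (((g : ↥(Cfsg.isometryGroup F (Cfsg.quadFormPlus m F))) : GL (Fin m ⊕ Fin m) F) :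
        Matrix (Fin m ⊕ Fin m) (Fin m ⊕ Fin m) F) := by
    intro d hd hd'
    have h := comm_lift hm p (T_pow hm p (δ a) ((1 : F) • δ d))
      (hA _ ⟨_, frame_perp hd' 1, rfl⟩)
    exact congrArg (fun s : ↥(Cfsg.Omega F (Cfsg.quadFormPlus m F)) =>
      ((((s : ↥(Cfsg.isometryGroup F (Cfsg.quadFormPlus m F))) : GL (Fin m ⊕ Fin m) F)) :
        Matrix (Fin m ⊕ Fin m) (Fin m ⊕ Fin m) F)) h
  have h2 : ∀ c : Fin m ⊕ Fin m, c ≠ a → c ≠ a.swap → c ≠ b → c ≠ b.swap →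
      (((g : ↥(Cfsg.isometryGroup F (Cfsg.quadFormPlus m F))) : GL (Fin m ⊕ Fin m) F) :
        Matrix (Fin m ⊕ Fin m) (Fin m ⊕ Fin m) F) *
        ((sg (hQ m F) (δ b) ((1 : F) • δ c) : GL (Fin m ⊕ Fin m) F) :
          Matrix (Fin m ⊕ Fin m) (Fin m ⊕ Fin m) F) =
      ((sg (hQ m F) (δ b) ((1 : F) • δ c) : GL (Fin m ⊕ Fin m) F) :
          Matrix (Fin m ⊕ Fin m) (Fin m ⊕ Fin m) F) *
        (((g : ↥(Cfsg.isometryGroup F (Cfsg.quadFormPlus m F))) : GL (Fin m ⊕ Fin m) F) :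
        Matrix (Fin m ⊕ Fin m) (Fin m ⊕ Fin m) F) := by
    intro c hc hc' hcb hcb'
    have h := comm_lift hm p (T_pow hm p (δ b) ((1 : F) • δ c))
      (hB _ ⟨_, by rw [Pi.smul_apply, δ_ne (Ne.symm hc'), smul_zero],
        by rw [Pi.smul_apply, δ_ne (Ne.symm hcb'), smul_zero], rfl⟩)
    exact congrArg (fun s : ↥(Cfsg.Omega F (Cfsg.quadFormPlus m F)) =>
      ((((s : ↥(Cfsg.isometryGroup F (Cfsg.quadFormPlus m F))) : GL (Fin m ⊕ Fin m) F)) :
        Matrix (Fin m ⊕ Fin m) (Fin m ⊕ Fin m) F)) h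
  obtain ⟨κ, u, -, hM⟩ := cent_mat hm hab hab' _ h1 h2
    (fun v => (mem_isometryGroup_iff _ _).1 g.1.2 v)
  refine ⟨u, ?_⟩
  unfold X rt
  symm
  rw [QuotientGroup.eq]
  apply central_of_scalar (κ := κ)
  show (((sg (hQ m F) (δ a) (u • δ b))⁻¹ : GL (Fin m ⊕ Fin m) F) :
      Matrix (Fin m ⊕ Fin m) (Fin m ⊕ Fin m) F) *
      (((g : ↥(Cfsg.isometryGroup F (Cfsg.quadFormPlus m F))) : GL (Fin m ⊕ Fin m) F) :
        Matrix (Fin m ⊕ Fin m) (Fin m ⊕ Fin m) F) = κ • 1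
  rw [hM, Matrix.mul_smul, Units.inv_mul]

/-- the centre of a Sylow `p`-subgroup containing the two families is the frame root group -/
theorem zc_sylow (hm : 3 ≤ m) (p : ℕ) [Fact p.Prime] [CharP F p] {a b : Fin m ⊕ Fin m}
    (hab : b ≠ a) (hab' : b ≠ a.swap) (P : Sylow p (Cfsg.POmega F (Cfsg.quadFormPlus m F)))
    (hA : Qs (F := F) hm a ≤ (P : Subgroup (Cfsg.POmega F (Cfsg.quadFormPlus m F))))
    (hB : As (F := F) hm a b ≤ (P : Subgroup (Cfsg.POmega F (Cfsg.quadFormPlus m F)))) :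
    zc (P : Subgroup (Cfsg.POmega F (Cfsg.quadFormPlus m F))) = RG hm (δ a) (δ b) := by
  apply Set.Subset.antisymm
  · rintro x ⟨-, hx⟩
    exact cent_root hm p hab hab' (fun y hy => hx y (hA hy)) (fun y hy => hx y (hB hy))
  · have hX1 : X hm a b (1 : F) ≠ 1 := fun h => one_ne_zero (X_eq_one hm hab hab' h)
    have hXP : ∀ t : F, X hm a b t ∈ (P : Subgroup (Cfsg.POmega F (Cfsg.quadFormPlus m F))) :=
      fun t => hA ⟨_, frame_perp hab' t, rfl⟩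
    have hPne : Nontrivial (P : Subgroup (Cfsg.POmega F (Cfsg.quadFormPlus m F))) :=
      ⟨⟨⟨X hm a b 1, hXP 1⟩, 1, fun h => hX1 (congrArg Subtype.val h)⟩⟩
    have hcn : Nontrivial (Subgroup.center
        (P : Subgroup (Cfsg.POmega F (Cfsg.quadFormPlus m F)))) :=
      IsPGroup.center_nontrivial P.2
    obtain ⟨⟨⟨z, hzP⟩, hz⟩, hz1⟩ := exists_ne (1 : Subgroup.center
        (P : Subgroup (Cfsg.POmega F (Cfsg.quadFormPlus m F))))
    have hzc : ∀ y ∈ (P : Subgroup (Cfsg.POmega F (Cfsg.quadFormPlus m F))), z * y = y * z := by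
      intro y hy
      have := (Subgroup.mem_center_iff.1 hz) ⟨y, hy⟩
      exact (congrArg Subtype.val this).symm
    obtain ⟨u, rfl⟩ := cent_root hm p hab hab' (fun y hy => hzc y (hA hy))
      (fun y hy => hzc y (hB hy))
    have hu0 : u ≠ 0 := by
      rintro rfl
      apply hz1
      apply Subtype.ext
      apply Subtype.ext
      exact X_zero hm a b
    rintro x ⟨t, rfl⟩
    refine ⟨hXP t, ?_⟩
    intro y hy
    obtain ⟨g, rfl⟩ := QuotientGroup.mk_surjective y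
    have h1 := comm_lift hm p (T_pow hm p (δ a) (u • δ b)) (hzc _ hy).symm
    have hg : (((g : ↥(Cfsg.isometryGroup F (Cfsg.quadFormPlus m F))) : GL (Fin m ⊕ Fin m) F) :
        Matrix (Fin m ⊕ Fin m) (Fin m ⊕ Fin m) F) *
        ((sg (hQ m F) (δ a) (u • δ b) : GL (Fin m ⊕ Fin m) F) :
          Matrix (Fin m ⊕ Fin m) (Fin m ⊕ Fin m) F) =
      ((sg (hQ m F) (δ a) (u • δ b) : GL (Fin m ⊕ Fin m) F) :
          Matrix (Fin m ⊕ Fin m) (Fin m ⊕ Fin m) F) *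
        (((g : ↥(Cfsg.isometryGroup F (Cfsg.quadFormPlus m F))) : GL (Fin m ⊕ Fin m) F) :
        Matrix (Fin m ⊕ Fin m) (Fin m ⊕ Fin m) F) :=
      congrArg (fun s : ↥(Cfsg.Omega F (Cfsg.quadFormPlus m F)) =>
        ((((s : ↥(Cfsg.isometryGroup F (Cfsg.quadFormPlus m F))) : GL (Fin m ⊕ Fin m) F)) :
          Matrix (Fin m ⊕ Fin m) (Fin m ⊕ Fin m) F)) h1
    have hS : ((sg (hQ m F) (δ a) (t • δ b) : GL (Fin m ⊕ Fin m) F) :
          Matrix (Fin m ⊕ Fin m) (Fin m ⊕ Fin m) F) =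
        1 + (t * u⁻¹) • (((sg (hQ m F) (δ a) (u • δ b) : GL (Fin m ⊕ Fin m) F) :
          Matrix (Fin m ⊕ Fin m) (Fin m ⊕ Fin m) F) - 1) := by
      ext l k
      rw [frame_entry hab', Matrix.add_apply, Matrix.smul_apply, Matrix.sub_apply,
        frame_entry hab', Matrix.one_apply, δ_apply, smul_eq_mul]
      field_simp
      ring
    have hcomm : (((g : ↥(Cfsg.isometryGroup F (Cfsg.quadFormPlus m F))) :
          GL (Fin m ⊕ Fin m) F) : Matrix (Fin m ⊕ Fin m) (Fin m ⊕ Fin m) F) *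
        ((sg (hQ m F) (δ a) (t • δ b) : GL (Fin m ⊕ Fin m) F) :
          Matrix (Fin m ⊕ Fin m) (Fin m ⊕ Fin m) F) =
      ((sg (hQ m F) (δ a) (t • δ b) : GL (Fin m ⊕ Fin m) F) :
          Matrix (Fin m ⊕ Fin m) (Fin m ⊕ Fin m) F) *
        (((g : ↥(Cfsg.isometryGroup F (Cfsg.quadFormPlus m F))) : GL (Fin m ⊕ Fin m) F) :
        Matrix (Fin m ⊕ Fin m) (Fin m ⊕ Fin m) F) := by
      rw [hS, Matrix.mul_add, Matrix.add_mul, Matrix.mul_smul, Matrix.smul_mul, Matrix.mul_sub,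
        Matrix.sub_mul, hg, mul_one, one_mul]
    show X hm a b t * QuotientGroup.mk g = QuotientGroup.mk g * X hm a b t
    unfold X rt
    rw [← QuotientGroup.mk_mul, ← QuotientGroup.mk_mul]
    congr 1
    apply omega_ext
    apply Units.ext
    exact hcomm.symm

/-- every automorphism maps a frame root group to a conjugate of it -/
theorem perm (hm : 3 ≤ m) (p : ℕ) [Fact p.Prime] [CharP F p] {a b : Fin m ⊕ Fin m}
    (hab : b ≠ a) (hab' : b ≠ a.swap) (α : MulAut (Cfsg.POmega F (Cfsg.quadFormPlus m F))) :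
    ∃ g : ↥(Cfsg.Omega F (Cfsg.quadFormPlus m F)),
      α '' RG hm (δ a) (δ b) =
        RG hm ((((g : ↥(Cfsg.isometryGroup F (Cfsg.quadFormPlus m F))) : GL (Fin m ⊕ Fin m) F) :
            Matrix (Fin m ⊕ Fin m) (Fin m ⊕ Fin m) F) *ᵥ (δ a : Fin m ⊕ Fin m → F))
          ((((g : ↥(Cfsg.isometryGroup F (Cfsg.quadFormPlus m F))) : GL (Fin m ⊕ Fin m) F) :
            Matrix (Fin m ⊕ Fin m) (Fin m ⊕ Fin m) F) *ᵥ (δ b : Fin m ⊕ Fin m → F)) := by
  classical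
  have hsup : IsPGroup p (As (F := F) hm a b ⊔ Qs (F := F) hm a :
      Subgroup (Cfsg.POmega F (Cfsg.quadFormPlus m F))) :=
    IsPGroup.to_sup_of_normal_right' (As_pgroup hm p a b) (Qs_pgroup hm p a)
      (As_le_normalizer hm hab')
  obtain ⟨P, hP⟩ := hsup.exists_le_sylow
  have hA : Qs (F := F) hm a ≤ (P : Subgroup (Cfsg.POmega F (Cfsg.quadFormPlus m F))) :=
    le_trans le_sup_right hP
  have hB : As (F := F) hm a b ≤ (P : Subgroup (Cfsg.POmega F (Cfsg.quadFormPlus m F))) :=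
    le_trans le_sup_left hP
  have h1 := zc_sylow hm p hab hab' P hA hB
  have h2 : α '' RG hm (δ a) (δ b) =
      zc ((α • P : Sylow p (Cfsg.POmega F (Cfsg.quadFormPlus m F))) :
        Subgroup (Cfsg.POmega F (Cfsg.quadFormPlus m F))) := by
    rw [← h1, Sylow.pointwise_smul_def, zc_smul]
  obtain ⟨y, hy⟩ := MulAction.exists_smul_eq (Cfsg.POmega F (Cfsg.quadFormPlus m F)) P (α • P)
  obtain ⟨g, rfl⟩ := QuotientGroup.mk_surjective y
  refine ⟨g, ?_⟩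
  rw [h2, ← hy, Sylow.coe_subgroup_smul, zc_smul, h1, conj_RG]

end Cfsg.Agent.Lib.Helper43.OPlSyl
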