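import Mathlib
import Cfsg.Agent.Lib.Helper43.OPlSyl
import Cfsg.Agent.Lib.Helper43.OPlGeo

set_option autoImplicit false

namespace Cfsg.Agent.Lib.Helper43.OPlLine

open Matrix
open Cfsg.Agent.Lib.Helper94.Basic Cfsg.Agent.Lib.Helper94.GLAux Cfsg.Agent.Lib.Helper94.Tv
  Cfsg.Agent.Lib.Helper94.QuadAbs Cfsg.Agent.Lib.Helper94.OrthSiegel
  Cfsg.Agent.Lib.Helper43.OPlBase Cfsg.Agent.Lib.Helper43.OPlRoot
  Cfsg.Agent.Lib.Helper43.OPlRigid Cfsg.Agent.Lib.Helper43.OPlCent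
  Cfsg.Agent.Lib.Helper43.OPlSyl Cfsg.Agent.Lib.Helper43.OPlGeo

universe u

section General

variable {F : Type*} [Field F] {ι : Type} [Fintype ι] [DecidableEq ι] {Q : (ι → F) → F}

theorem TS_isom (g : Matrix.GeneralLinearGroup ι F)
    (hg : ∀ v, Q ((g : Matrix ι ι F) *ᵥ v) = Q v) {u v : ι → F} (h : TS Q u v) :
    TS Q ((g : Matrix ι ι F) *ᵥ u) ((g : Matrix ι ι F) *ᵥ v) :=
  ⟨by rw [hg]; exact h.1, by rw [hg]; exact h.2.1, by rw [polar_of_isom g hg]; exact h.2.2⟩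

theorem Ind_gl (g : Matrix.GeneralLinearGroup ι F) {u v : ι → F} (h : Ind u v) :
    Ind ((g : Matrix ι ι F) *ᵥ u) ((g : Matrix ι ι F) *ᵥ v) := by
  intro s t hst
  apply h
  have h1 : (g : Matrix ι ι F) *ᵥ (s • u + t • v) = 0 := by
    rw [Matrix.mulVec_add, Matrix.mulVec_smul, Matrix.mulVec_smul]
    exact hst
  have h2 := congrArg (fun x => ((g⁻¹ : Matrix.GeneralLinearGroup ι F) : Matrix ι ι F) *ᵥ x) h1
  simp only [gl_inv_mulVec, Matrix.mulVec_zero] at h2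
  exact h2

theorem fin4_sym {κ : Type*} (R : κ → κ → Prop) (hs : ∀ x y, R x y → R y x) (b : Fin 4 → κ)
    (h01 : R (b 0) (b 1)) (h02 : R (b 0) (b 2)) (h03 : R (b 0) (b 3)) (h12 : R (b 1) (b 2))
    (h13 : R (b 1) (b 3)) (h23 : R (b 2) (b 3)) : ∀ i j, i ≠ j → R (b i) (b j) := by
  intro i j hij
  fin_cases i <;> fin_cases j <;>
    first
    | exact absurd rfl hij
    | exact h01
    | exact h02
    | exact h03
    | exact h12
    | exact h13
    | exact h23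
    | exact hs _ _ h01
    | exact hs _ _ h02
    | exact hs _ _ h03
    | exact hs _ _ h12
    | exact hs _ _ h13
    | exact hs _ _ h23

end General

variable {F : Type u} [Field F] [Fintype F] {m : ℕ}

/-- distinct and non-opposite frame indices -/
def NO (a b : Fin m ⊕ Fin m) : Prop := b ≠ a ∧ b ≠ a.swap

theorem NO.symm {a b : Fin m ⊕ Fin m} (h : NO a b) : NO b a :=
  ⟨Ne.symm h.1, fun h' => h.2 (by rw [h', Sum.swap_swap])⟩

theorem ne_of_idx {k : Fin m} {x : Fin m ⊕ Fin m} (h : k ≠ Sum.elim id id x) :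
    NO x (Sum.inl k) := by
  rcases x with x | x
  · exact ⟨fun h' => h (Sum.inl_injective h'), by simp⟩
  · exact ⟨by simp, fun h' => h (Sum.inl_injective h')⟩

theorem exists_other4 (hm : 5 ≤ m) (a b c d : Fin m ⊕ Fin m) :
    ∃ e : Fin m ⊕ Fin m, NO a e ∧ NO b e ∧ NO c e ∧ NO d e := by
  have hcard : ({Sum.elim id id a, Sum.elim id id b, Sum.elim id id c, Sum.elim id id d} :
      Finset (Fin m)).card < (Finset.univ : Finset (Fin m)).card := by
    rw [Finset.card_univ, Fintype.card_fin]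
    exact lt_of_le_of_lt Finset.card_le_four (by omega)
  obtain ⟨k, -, hk⟩ := Finset.exists_mem_notMem_of_card_lt_card hcard
  simp only [Finset.mem_insert, Finset.mem_singleton, not_or] at hk
  exact ⟨Sum.inl k, ne_of_idx hk.1, ne_of_idx hk.2.1, ne_of_idx hk.2.2.1, ne_of_idx hk.2.2.2⟩

theorem TS_frame {a b : Fin m ⊕ Fin m} (hab' : b ≠ a.swap) :
    TS (Cfsg.quadFormPlus m F) (δ a) (δ b) :=
  ⟨Q_δ a, Q_δ b, by rw [polar_δ, δ_ne (Ne.symm hab')]⟩

theorem Ind_frame {a b : Fin m ⊕ Fin m} (hab : b ≠ a) :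
    Ind (δ a : Fin m ⊕ Fin m → F) (δ b) := by
  intro s t hst
  have h1 := congrFun hst a
  have h2 := congrFun hst b
  simp only [Pi.add_apply, Pi.smul_apply, smul_eq_mul, Pi.zero_apply, δ_self, δ_ne hab,
    δ_ne (Ne.symm hab), mul_one, mul_zero, add_zero, zero_add] at h1 h2
  exact ⟨h1, h2⟩

theorem rt_congr (hm : 3 ≤ m) {u v u' v' : Fin m ⊕ Fin m → F}
    (h : sg (hQ m F) u v = sg (hQ m F) u' v') : rt hm u v = rt hm u' v' := by
  unfold rt
  congr 1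
  apply omega_ext
  exact h

theorem rt_inj (hm : 3 ≤ m) (p : ℕ) [Fact p.Prime] [CharP F p] {u v u' v' : Fin m ⊕ Fin m → F}
    (h : rt hm u v = rt hm u' v') : sg (hQ m F) u v = sg (hQ m F) u' v' := by
  have h1 := eq_lift hm p (T_pow hm p u v) (T_pow hm p u' v') h
  exact congrArg (fun s : ↥(Cfsg.Omega F (Cfsg.quadFormPlus m F)) =>
    ((s : ↥(Cfsg.isometryGroup F (Cfsg.quadFormPlus m F))) : GL (Fin m ⊕ Fin m) F)) h1

theorem rt_eq_one_lift (hm : 3 ≤ m) (p : ℕ) [Fact p.Prime] [CharP F p]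
    {u v : Fin m ⊕ Fin m → F} (h : rt hm u v = 1) : sg (hQ m F) u v = 1 := by
  have h1 : T hm u v = 1 := eq_lift hm p (T_pow hm p u v) (one_pow p)
    (by rw [QuotientGroup.mk_one]; exact h)
  exact congrArg (fun s : ↥(Cfsg.Omega F (Cfsg.quadFormPlus m F)) =>
    ((s : ↥(Cfsg.isometryGroup F (Cfsg.quadFormPlus m F))) : GL (Fin m ⊕ Fin m) F)) h1

theorem rt_comm_lift (hm : 3 ≤ m) (p : ℕ) [Fact p.Prime] [CharP F p]
    {u v u' v' : Fin m ⊕ Fin m → F}
    (h : rt hm u v * rt hm u' v' = rt hm u' v' * rt hm u v) :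
    sg (hQ m F) u v * sg (hQ m F) u' v' = sg (hQ m F) u' v' * sg (hQ m F) u v := by
  have h1 := comm_lift hm p (T_pow hm p u' v') (s := T hm u v) h
  exact congrArg (fun s : ↥(Cfsg.Omega F (Cfsg.quadFormPlus m F)) =>
    ((s : ↥(Cfsg.isometryGroup F (Cfsg.quadFormPlus m F))) : GL (Fin m ⊕ Fin m) F)) h1

theorem rt_mul_lift (hm : 3 ≤ m) (p : ℕ) [Fact p.Prime] [CharP F p]
    {u v u' v' u'' v'' : Fin m ⊕ Fin m → F}
    (hc : rt hm u v * rt hm u' v' = rt hm u' v' * rt hm u v)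
    (hp : rt hm u v * rt hm u' v' = rt hm u'' v'') :
    sg (hQ m F) u v * sg (hQ m F) u' v' = sg (hQ m F) u'' v'' := by
  have h1 : T hm u v * T hm u' v' = T hm u' v' * T hm u v :=
    comm_lift hm p (T_pow hm p u' v') (s := T hm u v) hc
  have h2 : (T hm u v * T hm u' v') ^ p = 1 := by
    rw [(show Commute (T hm u v) (T hm u' v') from h1).mul_pow, T_pow hm p, T_pow hm p, one_mul]
  have h3 := eq_lift hm p h2 (T_pow hm p u'' v'') (by rw [QuotientGroup.mk_mul]; exact hp)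
  exact congrArg (fun s : ↥(Cfsg.Omega F (Cfsg.quadFormPlus m F)) =>
    ((s : ↥(Cfsg.isometryGroup F (Cfsg.quadFormPlus m F))) : GL (Fin m ⊕ Fin m) F)) h3

theorem rt_comm_of_sg (hm : 3 ≤ m) {u v u' v' : Fin m ⊕ Fin m → F}
    (h : sg (hQ m F) u v * sg (hQ m F) u' v' = sg (hQ m F) u' v' * sg (hQ m F) u v) :
    rt hm u v * rt hm u' v' = rt hm u' v' * rt hm u v := by
  unfold rt
  rw [← QuotientGroup.mk_mul, ← QuotientGroup.mk_mul]
  congr 1
  apply omega_ext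
  exact h

/-- coplanarity, group version -/
theorem coplanar_grp (hm : 3 ≤ m) (p : ℕ) [Fact p.Prime] [CharP F p]
    {u v u' v' u'' v'' : Fin m ⊕ Fin m → F}
    (h1 : TS (Cfsg.quadFormPlus m F) u v) (i1 : Ind u v)
    (h2 : TS (Cfsg.quadFormPlus m F) u' v') (i2 : Ind u' v')
    (h3 : TS (Cfsg.quadFormPlus m F) u'' v'')
    (hc : rt hm u v * rt hm u' v' = rt hm u' v' * rt hm u v)
    (hp : rt hm u v * rt hm u' v' = rt hm u'' v'') :
    (∃ q : Fin m ⊕ Fin m → F, q ≠ 0 ∧ q ∈ Submodule.span F ({u, v} : Set (Fin m ⊕ Fin m → F)) ∧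
        q ∈ Submodule.span F ({u', v'} : Set (Fin m ⊕ Fin m → F))) ∧
      ∀ y ∈ Submodule.span F ({u, v} : Set (Fin m ⊕ Fin m → F)),
        ∀ y' ∈ Submodule.span F ({u', v'} : Set (Fin m ⊕ Fin m → F)),
          QuadraticMap.polar (Cfsg.quadFormPlus m F) y y' = 0 := by
  have e1 := rt_comm_lift hm p hc
  have e2 := rt_mul_lift hm p hc hp
  apply coplanar (hQ m F) h1 i1 h2 i2 h3
  · intro x
    have e3 := congrArg (fun g : GL (Fin m ⊕ Fin m) F =>
      (g : Matrix (Fin m ⊕ Fin m) (Fin m ⊕ Fin m) F) *ᵥ x) e1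
    simp only [Units.val_mul, ← Matrix.mulVec_mulVec, sg_eq (hQ m F) h1, sg_eq (hQ m F) h2,
      Nop_add (hQ m F)] at e3
    linear_combination (norm := module) e3
  · intro x
    have e3 := congrArg (fun g : GL (Fin m ⊕ Fin m) F =>
      (g : Matrix (Fin m ⊕ Fin m) (Fin m ⊕ Fin m) F) *ᵥ x) e2
    simp only [Units.val_mul, ← Matrix.mulVec_mulVec, sg_eq (hQ m F) h1, sg_eq (hQ m F) h2,
      sg_eq (hQ m F) h3, Nop_add (hQ m F)] at e3
    linear_combination (norm := module) e3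

theorem RG_of_span (hm : 3 ≤ m) {u v x y : Fin m ⊕ Fin m → F}
    (h : TS (Cfsg.quadFormPlus m F) u v)
    (hx : x ∈ Submodule.span F ({u, v} : Set (Fin m ⊕ Fin m → F)))
    (hy : y ∈ Submodule.span F ({u, v} : Set (Fin m ⊕ Fin m → F))) :
    RG hm x y ⊆ RG hm u v := by
  rintro _ ⟨t, rfl⟩
  obtain ⟨a1, b1, rfl⟩ := Submodule.mem_span_pair.1 hx
  obtain ⟨c1, d1, rfl⟩ := Submodule.mem_span_pair.1 hy
  refine ⟨a1 * (t * d1) - b1 * (t * c1), ?_⟩
  apply rt_congr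
  rw [smul_add, smul_smul, smul_smul, sg_span (hQ m F) h]

theorem RG_eq_of_span (hm : 3 ≤ m) {u v x y : Fin m ⊕ Fin m → F}
    (h : TS (Cfsg.quadFormPlus m F) u v) (h' : TS (Cfsg.quadFormPlus m F) x y) (hi : Ind x y)
    (hx : x ∈ Submodule.span F ({u, v} : Set (Fin m ⊕ Fin m → F)))
    (hy : y ∈ Submodule.span F ({u, v} : Set (Fin m ⊕ Fin m → F))) :
    RG hm x y = RG hm u v := by
  apply Set.Subset.antisymm (RG_of_span hm h hx hy)
  have e := span_eq_of_mem hi hx hy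
  apply RG_of_span hm h'
  · rw [e]
    exact Submodule.subset_span (by simp)
  · rw [e]
    exact Submodule.subset_span (by simp)

theorem span_eq_of_RG (hm : 3 ≤ m) (p : ℕ) [Fact p.Prime] [CharP F p]
    {u v u' v' : Fin m ⊕ Fin m → F} (h : TS (Cfsg.quadFormPlus m F) u v) (hi : Ind u v)
    (h' : TS (Cfsg.quadFormPlus m F) u' v') (he : RG hm u v = RG hm u' v') :
    Submodule.span F ({u, v} : Set (Fin m ⊕ Fin m → F)) =
      Submodule.span F ({u', v'} : Set (Fin m ⊕ Fin m → F)) := by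
  have h1 : rt hm u ((1 : F) • v) ∈ RG hm u' v' := by
    rw [← he]
    exact ⟨1, rfl⟩
  obtain ⟨t, ht⟩ := h1
  rw [one_smul] at ht
  have h2 := rt_inj hm p ht
  have h3 := span_le_of_sg_eq (hQ m F) h hi (h'.smul_right (hQ m F) t) h2
  have h4 : Submodule.span F ({u', t • v'} : Set (Fin m ⊕ Fin m → F)) ≤
      Submodule.span F ({u', v'} : Set (Fin m ⊕ Fin m → F)) :=
    span_pair_le (Submodule.subset_span (by simp))
      (Submodule.smul_mem _ _ (Submodule.subset_span (by simp)))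
  exact Submodule.eq_of_le_of_finrank_le (le_trans h3 h4)
    (by rw [finrank_span hi]; exact finrank_span_pair_le (F := F) u' v')

theorem exists_pair (hm : 3 ≤ m) (p : ℕ) [Fact p.Prime] [CharP F p]
    (α : MulAut (Cfsg.POmega F (Cfsg.quadFormPlus m F))) {a b : Fin m ⊕ Fin m} (h : NO a b) :
    ∃ L : Submodule F (Fin m ⊕ Fin m → F), ∃ u v : Fin m ⊕ Fin m → F,
      TS (Cfsg.quadFormPlus m F) u v ∧ Ind u v ∧ α '' RG hm (δ a) (δ b) = RG hm u v ∧
        L = Submodule.span F ({u, v} : Set (Fin m ⊕ Fin m → F)) := by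
  obtain ⟨g, hg⟩ := perm hm p h.1 h.2 α
  exact ⟨_, _, _, TS_isom _ (fun v => (mem_isometryGroup_iff _ _).1 g.1.2 v) (TS_frame h.2),
    Ind_gl _ (Ind_frame h.1), hg, rfl⟩

/-- the line of the image of a frame root group -/
noncomputable def Ln (hm : 3 ≤ m) (p : ℕ) [Fact p.Prime] [CharP F p]
    (α : MulAut (Cfsg.POmega F (Cfsg.quadFormPlus m F))) (a b : Fin m ⊕ Fin m) :
    Submodule F (Fin m ⊕ Fin m → F) :=
  open Classical in
  if h : NO a b then Classical.choose (exists_pair hm p α h) else ⊥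

theorem Ln_spec (hm : 3 ≤ m) (p : ℕ) [Fact p.Prime] [CharP F p]
    (α : MulAut (Cfsg.POmega F (Cfsg.quadFormPlus m F))) {a b : Fin m ⊕ Fin m} (h : NO a b) :
    ∃ u v : Fin m ⊕ Fin m → F,
      TS (Cfsg.quadFormPlus m F) u v ∧ Ind u v ∧ α '' RG hm (δ a) (δ b) = RG hm u v ∧
        Ln hm p α a b = Submodule.span F ({u, v} : Set (Fin m ⊕ Fin m → F)) := by
  unfold Ln
  rw [dif_pos h]
  exact Classical.choose_spec (exists_pair hm p α h)

theorem Ln_finrank (hm : 3 ≤ m) (p : ℕ) [Fact p.Prime] [CharP F p]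
    (α : MulAut (Cfsg.POmega F (Cfsg.quadFormPlus m F))) {a b : Fin m ⊕ Fin m} (h : NO a b) :
    Module.finrank F (Ln hm p α a b) = 2 := by
  obtain ⟨u, v, -, i1, -, l1⟩ := Ln_spec hm p α h
  rw [l1]
  exact finrank_span i1

theorem Ln_unique (hm : 3 ≤ m) (p : ℕ) [Fact p.Prime] [CharP F p]
    (α : MulAut (Cfsg.POmega F (Cfsg.quadFormPlus m F))) {a b : Fin m ⊕ Fin m} (h : NO a b)
    {x y : Fin m ⊕ Fin m → F} (hx : TS (Cfsg.quadFormPlus m F) x y)
    (he : α '' RG hm (δ a) (δ b) = RG hm x y) :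
    Ln hm p α a b = Submodule.span F ({x, y} : Set (Fin m ⊕ Fin m → F)) := by
  obtain ⟨u, v, h1, i1, e1, e2⟩ := Ln_spec hm p α h
  rw [e2]
  exact span_eq_of_RG hm p h1 i1 hx (by rw [← e1, he])

theorem RG_symm (hm : 3 ≤ m) {a b : Fin m ⊕ Fin m} (h : NO a b) :
    RG (F := F) hm (δ a) (δ b) = RG hm (δ b) (δ a) :=
  RG_eq_of_span hm (TS_frame h.symm.2) (TS_frame h.2) (Ind_frame h.1)
    (Submodule.subset_span (by simp)) (Submodule.subset_span (by simp))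

theorem Ln_symm (hm : 3 ≤ m) (p : ℕ) [Fact p.Prime] [CharP F p]
    (α : MulAut (Cfsg.POmega F (Cfsg.quadFormPlus m F))) {a b : Fin m ⊕ Fin m} (h : NO a b) :
    Ln hm p α a b = Ln hm p α b a := by
  obtain ⟨u, v, h1, i1, e1, e2⟩ := Ln_spec hm p α h.symm
  rw [e2]
  exact Ln_unique hm p α h h1 (by rw [RG_symm hm h]; exact e1)

theorem conj_frame (hm : 3 ≤ m) {a b c : Fin m ⊕ Fin m} (hab : NO a b) (hac : NO a c)
    (hbc : NO b c) (s lam : F) :
    rt hm (δ b.swap) (lam • δ c) * X hm a b s * (rt hm (δ b.swap) (lam • δ c))⁻¹ =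
      X hm a b s * X hm a c (s * lam) := by
  have h1 : rt hm (δ b.swap) (lam • δ c) * rt hm (δ a) (s • δ b) *
      (rt hm (δ b.swap) (lam • δ c))⁻¹ =
      rt hm (((sg (hQ m F) (δ b.swap) (lam • δ c) : GL (Fin m ⊕ Fin m) F) :
          Matrix (Fin m ⊕ Fin m) (Fin m ⊕ Fin m) F) *ᵥ (δ a : Fin m ⊕ Fin m → F))
        (((sg (hQ m F) (δ b.swap) (lam • δ c) : GL (Fin m ⊕ Fin m) F) :
          Matrix (Fin m ⊕ Fin m) (Fin m ⊕ Fin m) F) *ᵥ (s • (δ b : Fin m ⊕ Fin m → F))) :=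
    rt_conj hm (T hm (δ b.swap) (lam • δ c)) (δ a) (s • δ b)
  have hc' : c ≠ b.swap.swap := by
    rw [Sum.swap_swap]
    exact hbc.1
  have e1 : ((sg (hQ m F) (δ b.swap) (lam • δ c) : GL (Fin m ⊕ Fin m) F) :
      Matrix (Fin m ⊕ Fin m) (Fin m ⊕ Fin m) F) *ᵥ (δ a : Fin m ⊕ Fin m → F) = δ a := by
    rw [frame_mulVec hc', Sum.swap_swap, δ_ne hab.1, δ_ne (sw1 hac.2)]
    simp
  have e2 : ((sg (hQ m F) (δ b.swap) (lam • δ c) : GL (Fin m ⊕ Fin m) F) :
      Matrix (Fin m ⊕ Fin m) (Fin m ⊕ Fin m) F) *ᵥ (s • (δ b : Fin m ⊕ Fin m → F)) =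
        s • δ b + (s * lam) • δ c := by
    rw [Matrix.mulVec_smul, frame_mulVec hc', Sum.swap_swap, δ_self, δ_ne (sw1 hbc.2)]
    module
  unfold X
  rw [h1, e1, e2, rt_add hm _ _ _ (Q_δ a) (frame_perp hab.2 s) (frame_perp hac.2 _)]

/-- products of two coplanar frame root elements map to root elements -/
theorem root_prod (hm : 3 ≤ m) (p : ℕ) [Fact p.Prime] [CharP F p]
    (α : MulAut (Cfsg.POmega F (Cfsg.quadFormPlus m F))) {a b c : Fin m ⊕ Fin m}
    (hab : NO a b) (hac : NO a c) (hbc : NO b c) (s t : F) :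
    ∃ u'' v'' : Fin m ⊕ Fin m → F, TS (Cfsg.quadFormPlus m F) u'' v'' ∧
      α (X hm a b s * X hm a c t) = rt hm u'' v'' := by
  by_cases hs : s = 0
  · obtain ⟨u, v, h1, -, e1, -⟩ := Ln_spec hm p α hac
    have h2 : α (X hm a c t) ∈ RG hm u v := by
      rw [← e1]
      exact ⟨_, ⟨t, rfl⟩, rfl⟩
    obtain ⟨τ, hτ⟩ := h2
    exact ⟨u, τ • v, h1.smul_right (hQ m F) τ, by rw [hs, X_zero, one_mul]; exact hτ⟩
  · obtain ⟨u, v, h1, -, e1, -⟩ := Ln_spec hm p α hab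
    have h2 : α (X hm a b s) ∈ RG hm u v := by
      rw [← e1]
      exact ⟨_, ⟨s, rfl⟩, rfl⟩
    obtain ⟨τ, hτ⟩ := h2
    obtain ⟨k, hk⟩ := QuotientGroup.mk_surjective (α (rt hm (δ b.swap) ((t / s) • δ c)))
    have h3 := conj_frame hm hab hac hbc s (t / s)
    have h4 : s * (t / s) = t := by
      field_simp
    rw [h4] at h3
    refine ⟨(((k : ↥(Cfsg.isometryGroup F (Cfsg.quadFormPlus m F))) : GL (Fin m ⊕ Fin m) F) :
        Matrix (Fin m ⊕ Fin m) (Fin m ⊕ Fin m) F) *ᵥ u,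
      (((k : ↥(Cfsg.isometryGroup F (Cfsg.quadFormPlus m F))) : GL (Fin m ⊕ Fin m) F) :
        Matrix (Fin m ⊕ Fin m) (Fin m ⊕ Fin m) F) *ᵥ (τ • v),
      TS_isom _ (fun v => (mem_isometryGroup_iff _ _).1 k.1.2 v) (h1.smul_right (hQ m F) τ), ?_⟩
    rw [← h3, map_mul, map_mul, map_inv, hτ, ← hk, rt_conj]

theorem frame_indep (hm : 3 ≤ m) (p : ℕ) [Fact p.Prime] [CharP F p] {a : Fin m ⊕ Fin m}
    {w : Fin m ⊕ Fin m → F} (hw : w a.swap = 0) (h : rt hm (δ a) w = 1) {k : Fin m ⊕ Fin m}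
    (hk : k ≠ a) : w k = 0 := by
  by_cases hk' : k = a.swap
  · rw [hk']
    exact hw
  have h1 := rt_eq_one_lift hm p h
  have h2 := congrArg (fun g : GL (Fin m ⊕ Fin m) F =>
    ((g : Matrix (Fin m ⊕ Fin m) (Fin m ⊕ Fin m) F) *ᵥ (δ k.swap : Fin m ⊕ Fin m → F)) a) h1
  simp only [Units.val_one, Matrix.one_mulVec] at h2
  have hak : a ≠ k.swap := fun h' => hk' (by rw [h', Sum.swap_swap])
  rw [sg_mulVec (hQ m F) _ _ (Q_δ a) (by rw [polar_δ]; exact hw), polar_δ, polar_δ',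
    Sum.swap_swap, δ_ne (sw2 (Ne.symm hk))] at h2
  simp only [Pi.add_apply, Pi.sub_apply, Pi.smul_apply, smul_eq_mul, δ_self, δ_ne hak, mul_one,
    mul_zero, zero_mul, zero_add, sub_zero] at h2
  linear_combination -h2

/-- two coplanar frame root groups have coplanar distinct images -/
theorem Ln_coplanar (hm : 3 ≤ m) (p : ℕ) [Fact p.Prime] [CharP F p]
    (α : MulAut (Cfsg.POmega F (Cfsg.quadFormPlus m F))) {a b c : Fin m ⊕ Fin m}
    (hab : NO a b) (hac : NO a c) (hbc : NO b c) :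
    Ln hm p α a b ⊓ Ln hm p α a c ≠ ⊥ ∧
      (∀ y ∈ Ln hm p α a b, ∀ y' ∈ Ln hm p α a c,
        QuadraticMap.polar (Cfsg.quadFormPlus m F) y y' = 0) ∧
      Ln hm p α a b ≠ Ln hm p α a c := by
  obtain ⟨u, v, h1, i1, e1, l1⟩ := Ln_spec hm p α hab
  obtain ⟨u', v', h2, i2, e2, l2⟩ := Ln_spec hm p α hac
  have hs : rt hm u ((1 : F) • v) ∈ α '' RG hm (δ a) (δ b) := by
    rw [e1]
    exact ⟨1, rfl⟩
  obtain ⟨_, ⟨s, rfl⟩, hs⟩ := hs
  have ht : rt hm u' ((1 : F) • v') ∈ α '' RG hm (δ a) (δ c) := by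
    rw [e2]
    exact ⟨1, rfl⟩
  obtain ⟨_, ⟨t, rfl⟩, ht⟩ := ht
  rw [one_smul] at hs ht
  obtain ⟨u'', v'', h3, e3⟩ := root_prod hm p α hab hac hbc s t
  have hcomm : X hm a b s * X hm a c t = X hm a c t * X hm a b s := by
    unfold X
    rw [← rt_add hm _ _ _ (Q_δ a) (frame_perp hab.2 s) (frame_perp hac.2 t),
      ← rt_add hm _ _ _ (Q_δ a) (frame_perp hac.2 t) (frame_perp hab.2 s), add_comm]
  have hc : rt hm u v * rt hm u' v' = rt hm u' v' * rt hm u v := by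
    rw [← hs, ← ht, ← map_mul, ← map_mul]
    exact congrArg α hcomm
  have hp : rt hm u v * rt hm u' v' = rt hm u'' v'' := by
    rw [← hs, ← ht, ← map_mul]
    exact e3
  obtain ⟨⟨q, hq0, hq, hq'⟩, hperp⟩ := coplanar_grp hm p h1 i1 h2 i2 h3 hc hp
  rw [l1, l2]
  refine ⟨?_, hperp, ?_⟩
  · intro hbot
    have hmem : q ∈ Submodule.span F ({u, v} : Set (Fin m ⊕ Fin m → F)) ⊓
        Submodule.span F ({u', v'} : Set (Fin m ⊕ Fin m → F)) := Submodule.mem_inf.2 ⟨hq, hq'⟩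
    rw [hbot] at hmem
    exact hq0 ((Submodule.mem_bot F).1 hmem)
  · intro heq
    have h4 : RG hm u' v' = RG hm u v :=
      RG_eq_of_span hm h1 h2 i2 (by rw [heq]; exact Submodule.subset_span (by simp))
        (by rw [heq]; exact Submodule.subset_span (by simp))
    have h5 : α '' RG hm (δ a) (δ b) = α '' RG hm (δ a) (δ c) := by rw [e1, e2, h4]
    have h6 : RG (F := F) hm (δ a) (δ b) = RG hm (δ a) (δ c) :=
      (Set.image_injective.2 α.injective) h5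
    have h7 : X hm a b (1 : F) ∈ RG hm (δ a) (δ c) := by
      rw [← h6]
      exact ⟨1, rfl⟩
    obtain ⟨τ, hτ⟩ := h7
    have h8 : rt (F := F) hm (δ a) ((1 : F) • δ b + (-τ) • δ c) = 1 := by
      rw [rt_add hm _ _ _ (Q_δ a) (frame_perp hab.2 1) (frame_perp hac.2 (-τ))]
      show X (F := F) hm a b 1 * X (F := F) hm a c (-τ) = 1
      rw [X_neg hm hac.2, hτ]
      exact mul_inv_cancel _
    have h9 := frame_indep hm p (w := (1 : F) • δ b + (-τ) • δ c)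
      (by simp [δ_ne (Ne.symm hab.2), δ_ne (Ne.symm hac.2)]) h8 (k := b) hab.1
    simp [δ_self, δ_ne (Ne.symm hbc.1)] at h9

/-- the images of four concurrent pairwise coplanar frame lines do not lie in a plane -/
theorem Ln_indep (hm : 3 ≤ m) (p : ℕ) [Fact p.Prime] [CharP F p]
    (α : MulAut (Cfsg.POmega F (Cfsg.quadFormPlus m F))) (a : Fin m ⊕ Fin m)
    (b : Fin 4 → Fin m ⊕ Fin m) (hb : ∀ j, NO a (b j)) (hbb : ∀ i j, i ≠ j → NO (b i) (b j))
    (π : Submodule F (Fin m ⊕ Fin m → F)) (hπ : Module.finrank F π = 3)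
    (hle : ∀ j, Ln hm p α a (b j) ≤ π) : False := by
  choose u v hTS hInd hRG hL using fun j => Ln_spec hm p α (hb j)
  have hu : ∀ j, u j ∈ π := fun j => hle j (by rw [hL j]; exact Submodule.subset_span (by simp))
  have hv : ∀ j, v j ∈ π := fun j => hle j (by rw [hL j]; exact Submodule.subset_span (by simp))
  obtain ⟨c, ⟨j0, hj0⟩, hc⟩ := dep4 (hQ m F) hπ u v hu hv
  have hperp : ∀ i j, i ≠ j → Perp (Cfsg.quadFormPlus m F) (u i) (v i) (u j) (v j) := by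
    intro i j hij
    have h := (Ln_coplanar hm p α (hb i) (hb j) (hbb i j hij)).2.1
    have mui : u i ∈ Ln hm p α a (b i) := by rw [hL i]; exact Submodule.subset_span (by simp)
    have mvi : v i ∈ Ln hm p α a (b i) := by rw [hL i]; exact Submodule.subset_span (by simp)
    have muj : u j ∈ Ln hm p α a (b j) := by rw [hL j]; exact Submodule.subset_span (by simp)
    have mvj : v j ∈ Ln hm p α a (b j) := by rw [hL j]; exact Submodule.subset_span (by simp)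
    exact ⟨h _ mui _ muj, h _ mui _ mvj, h _ mvi _ muj, h _ mvi _ mvj⟩
  have hprod := prod4 (hQ m F) u v hTS hperp c hc
  have hex : ∀ j, ∃ t : F, α (X hm a (b j) t) = rt hm (u j) (c j • v j) := by
    intro j
    have h1 : rt hm (u j) (c j • v j) ∈ α '' RG hm (δ a) (δ (b j)) := by
      rw [hRG j]
      exact ⟨c j, rfl⟩
    obtain ⟨_, ⟨t, rfl⟩, ht⟩ := h1
    exact ⟨t, ht⟩
  choose t ht using hex
  have h1 : rt hm (u 0) (c 0 • v 0) * rt hm (u 1) (c 1 • v 1) * rt hm (u 2) (c 2 • v 2) *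
      rt hm (u 3) (c 3 • v 3) = 1 := by
    unfold rt
    rw [← QuotientGroup.mk_mul, ← QuotientGroup.mk_mul, ← QuotientGroup.mk_mul]
    have h0 : T hm (u 0) (c 0 • v 0) * T hm (u 1) (c 1 • v 1) * T hm (u 2) (c 2 • v 2) *
        T hm (u 3) (c 3 • v 3) = 1 := by
      apply omega_ext
      exact hprod
    rw [h0, QuotientGroup.mk_one]
  rw [← ht 0, ← ht 1, ← ht 2, ← ht 3, ← map_mul, ← map_mul, ← map_mul] at h1
  have h2 : X hm a (b 0) (t 0) * X hm a (b 1) (t 1) * X hm a (b 2) (t 2) * X hm a (b 3) (t 3) = 1 :=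
    (map_eq_one_iff α α.injective).1 h1
  have hz : ∀ i, (δ (b i) : Fin m ⊕ Fin m → F) a.swap = 0 := fun i => δ_ne (Ne.symm (hb i).2)
  have hq : ∀ w : Fin m ⊕ Fin m → F, w a.swap = 0 →
      QuadraticMap.polar (Cfsg.quadFormPlus m F) (δ a) w = 0 := by
    intro w hw
    rw [polar_δ]
    exact hw
  unfold X at h2
  rw [← rt_add hm _ _ _ (Q_δ a) (hq _ (by simp [hz])) (hq _ (by simp [hz])),
    ← rt_add hm _ _ _ (Q_δ a) (hq _ (by simp [hz])) (hq _ (by simp [hz])),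
    ← rt_add hm _ _ _ (Q_δ a) (hq _ (by simp [hz])) (hq _ (by simp [hz])),
    ← Fin.sum_univ_four (fun i => t i • (δ (b i) : Fin m ⊕ Fin m → F))] at h2
  have hw : (∑ i, t i • (δ (b i) : Fin m ⊕ Fin m → F)) a.swap = 0 := by
    rw [Finset.sum_apply]
    apply Finset.sum_eq_zero
    intro i _
    rw [Pi.smul_apply, hz i, smul_zero]
  have ht0 : ∀ j, t j = 0 := by
    intro j
    have h3 := frame_indep hm p hw h2 (k := b j) (hb j).1
    rw [Finset.sum_apply, Finset.sum_eq_single j] at h3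
    · rw [Pi.smul_apply, δ_self, smul_eq_mul, mul_one] at h3
      exact h3
    · intro i _ hij
      rw [Pi.smul_apply, δ_ne (hbb i j hij).1, smul_zero]
    · intro hj
      exact absurd (Finset.mem_univ j) hj
  have h4 : rt hm (u j0) (c j0 • v j0) = 1 := by
    rw [← ht j0, ht0 j0, X_zero, map_one]
  exact hj0 (sg_eq_one_imp (hQ m F) (hTS j0) (hInd j0) (rt_eq_one_lift hm p h4))

/-- concurrency -/
theorem Ln_conc (hm5 : 5 ≤ m) (p : ℕ) [Fact p.Prime] [CharP F p]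
    (α : MulAut (Cfsg.POmega F (Cfsg.quadFormPlus m F))) {a b1 b2 b3 : Fin m ⊕ Fin m}
    (h1 : NO a b1) (h2 : NO a b2) (h3 : NO a b3) (h12 : NO b1 b2) (h13 : NO b1 b3)
    (h23 : NO b2 b3) :
    Ln (by omega : 3 ≤ m) p α a b1 ⊓ Ln (by omega : 3 ≤ m) p α a b2 ≤
      Ln (by omega : 3 ≤ m) p α a b3 := by
  have hm : 3 ≤ m := by omega
  obtain ⟨b4, h4, h14, h24, h34⟩ := exists_other4 hm5 a b1 b2 b3
  have c12 := Ln_coplanar hm p α h1 h2 h12
  have c13 := Ln_coplanar hm p α h1 h3 h13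
  have c14 := Ln_coplanar hm p α h1 h4 h14
  have c23 := Ln_coplanar hm p α h2 h3 h23
  have c24 := Ln_coplanar hm p α h2 h4 h24
  have c34 := Ln_coplanar hm p α h3 h4 h34
  have d1 := Ln_finrank hm p α h1
  have d2 := Ln_finrank hm p α h2
  have d3 := Ln_finrank hm p α h3
  have d4 := Ln_finrank hm p α h4
  rcases conc_lattice d1 d2 d3 d4 c12.2.2 c12.1 c13.1 c14.1 c23.1 c24.1 c34.1 with h | ⟨hl3, hl4⟩
  · exact h
  · exfalso
    have hπ := (two_of_ne d1 d2 c12.2.2 c12.1).2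
    apply Ln_indep hm p α a ![b1, b2, b3, b4] ?_ ?_ _ hπ ?_
    · intro j
      fin_cases j
      · exact h1
      · exact h2
      · exact h3
      · exact h4
    · exact fin4_sym NO (fun x y h => h.symm) _ h12 h13 h14 h23 h24 h34
    · intro j
      fin_cases j
      · exact le_sup_left
      · exact le_sup_right
      · exact hl3
      · exact hl4

/-- the points of the image frame -/
theorem exists_pts (hm5 : 5 ≤ m) (p : ℕ) [Fact p.Prime] [CharP F p]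
    (α : MulAut (Cfsg.POmega F (Cfsg.quadFormPlus m F))) :
    ∃ P : Fin m ⊕ Fin m → Fin m ⊕ Fin m → F, ∀ a, P a ≠ 0 ∧
      ∀ b, NO a b → P a ∈ Ln (by omega : 3 ≤ m) p α a b := by
  have hm : 3 ≤ m := by omega
  have key : ∀ a : Fin m ⊕ Fin m, ∃ q : Fin m ⊕ Fin m → F, q ≠ 0 ∧
      ∀ b, NO a b → q ∈ Ln hm p α a b := by
    intro a
    obtain ⟨b0, hb0, hb0', -, -⟩ := exists_other hm a a
    obtain ⟨c0, hc0, hc0', hcb, hcb'⟩ := exists_other hm a b0
    have hab0 : NO a b0 := ⟨hb0, hb0'⟩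
    have hac0 : NO a c0 := ⟨hc0, hc0'⟩
    have hbc0 : NO b0 c0 := ⟨hcb, hcb'⟩
    obtain ⟨q, hq, hq0⟩ := (Submodule.ne_bot_iff _).1 (Ln_coplanar hm p α hab0 hac0 hbc0).1
    refine ⟨q, hq0, ?_⟩
    intro e hae
    obtain ⟨d, hd, hdb, hdc, hde⟩ := exists_other4 hm5 a b0 c0 e
    have hqd : q ∈ Ln hm p α a d := Ln_conc hm5 p α hab0 hac0 hd hbc0 hdb hdc hq
    by_cases heb : e = b0
    · rw [heb]
      exact (Submodule.mem_inf.1 hq).1
    by_cases heb' : e = b0.swap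
    · have hce : NO c0 e :=
        ⟨fun h => hcb' (by rw [← h, heb']), fun h => hcb (swap_inj (by rw [← h, heb']))⟩
      exact Ln_conc hm5 p α hac0 hd hae hdc hce hde.symm
        (Submodule.mem_inf.2 ⟨(Submodule.mem_inf.1 hq).2, hqd⟩)
    · have hbe : NO b0 e := ⟨heb, heb'⟩
      exact Ln_conc hm5 p α hab0 hd hae hdb hbe hde.symm
        (Submodule.mem_inf.2 ⟨(Submodule.mem_inf.1 hq).1, hqd⟩)
  choose P hP using key
  exact ⟨P, hP⟩

end Cfsg.Agent.Lib.Helper43.OPlLine
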