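import Mathlib
import Cfsg.Agent.Lib.Helper43.OPlLine

set_option autoImplicit false

namespace Cfsg.Agent.Lib.Helper43.OOdGen

open Matrix
open Cfsg.Agent.Lib.Helper94.Basic Cfsg.Agent.Lib.Helper94.GLAux Cfsg.Agent.Lib.Helper94.Tv
  Cfsg.Agent.Lib.Helper94.QuadAbs Cfsg.Agent.Lib.Helper94.OrthSiegel
  Cfsg.Agent.Lib.Helper43.OPlGeo
open Cfsg.Agent.Lib.Helper43.OPlRoot (sg_add_left sg_inv sg_swap sg_self sg_conj_sim)
open Cfsg.Agent.Lib.Helper43.OPlLine (TS_isom Ind_gl)
open Cfsg.Agent.Lib.Helper94.SympAbs (bil_zero_left bil_zero_right bil_neg_left bil_neg_right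
  bil_sub_left bil_sub_right)

variable {F : Type*} [Field F] {ι : Type} [Fintype ι] [DecidableEq ι] {Q : (ι → F) → F}

/-- a trivial Siegel element has its second vector on the line of the first -/
theorem sg_eq_one_span (hQ : Cfsg.Geo.IsNondegenerateQuadraticForm Q) {a z : ι → F}
    (ha : Q a = 0) (ha0 : a ≠ 0) (haz : QuadraticMap.polar Q a z = 0) (h : sg hQ a z = 1) :
    ∃ c : F, z = c • a := by
  obtain ⟨x, hx⟩ := (hQ.nondegenerate a ha0).2
  have h1 := congrArg (fun g : Matrix.GeneralLinearGroup ι F => (g : Matrix ι ι F) *ᵥ x) h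
  simp only [Units.val_one, Matrix.one_mulVec] at h1
  rw [sg_mulVec hQ _ _ ha haz] at h1
  refine ⟨(QuadraticMap.polar Q z x + Q z * QuadraticMap.polar Q a x) /
    QuadraticMap.polar Q a x, ?_⟩
  have h2 : QuadraticMap.polar Q a x • z =
      (QuadraticMap.polar Q z x + Q z * QuadraticMap.polar Q a x) • a := by
    linear_combination (norm := module) h1
  rw [div_eq_inv_mul, ← smul_smul, ← h2, smul_smul, inv_mul_cancel₀ hx, one_smul]

/-- an isometry commuting with two root elements through a point fixes the point -/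
theorem fix_point (hQ : Cfsg.Geo.IsNondegenerateQuadraticForm Q)
    (g : Matrix.GeneralLinearGroup ι F) (hg : ∀ v, Q ((g : Matrix ι ι F) *ᵥ v) = Q v)
    {a c1 c2 : ι → F} (h1 : TS Q a c1) (h2 : TS Q a c2)
    (hind : ∀ r s t : F, r • a + s • c1 + t • c2 = 0 → r = 0 ∧ s = 0 ∧ t = 0)
    (hc1 : g * sg hQ a c1 = sg hQ a c1 * g) (hc2 : g * sg hQ a c2 = sg hQ a c2 * g) :
    ∃ κ : F, (g : Matrix ι ι F) *ᵥ a = κ • a := by
  have i1 : Ind a c1 := fun s t hst => by
    have := hind s t 0 (by rw [zero_smul, add_zero]; exact hst)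
    exact ⟨this.1, this.2.1⟩
  have i2 : Ind a c2 := fun s t hst => by
    have := hind s 0 t (by rw [zero_smul, add_zero]; exact hst)
    exact ⟨this.1, this.2.2⟩
  have e1 : sg hQ ((g : Matrix ι ι F) *ᵥ a) ((g : Matrix ι ι F) *ᵥ c1) = sg hQ a c1 := by
    rw [← sg_conj hQ g hg, hc1, mul_inv_cancel_right]
  have e2 : sg hQ ((g : Matrix ι ι F) *ᵥ a) ((g : Matrix ι ι F) *ᵥ c2) = sg hQ a c2 := by
    rw [← sg_conj hQ g hg, hc2, mul_inv_cancel_right]
  have l1 := span_le_of_sg_eq hQ (TS_isom g hg h1) (Ind_gl g i1) h1 e1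
  have l2 := span_le_of_sg_eq hQ (TS_isom g hg h2) (Ind_gl g i2) h2 e2
  have m1 : (g : Matrix ι ι F) *ᵥ a ∈ Submodule.span F ({a, c1} : Set (ι → F)) :=
    l1 (Submodule.subset_span (by simp))
  have m2 : (g : Matrix ι ι F) *ᵥ a ∈ Submodule.span F ({a, c2} : Set (ι → F)) :=
    l2 (Submodule.subset_span (by simp))
  obtain ⟨α1, β1, hα1⟩ := Submodule.mem_span_pair.1 m1
  obtain ⟨α2, β2, hα2⟩ := Submodule.mem_span_pair.1 m2
  have h3 := hind (α1 - α2) β1 (-β2) (by linear_combination (norm := module) hα1 - hα2)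
  refine ⟨α1, ?_⟩
  rw [← hα1, h3.2.1, zero_smul, add_zero]

/-- an isometry fixing a singular point and commuting with a Siegel element there -/
theorem comm_shift (hQ : Cfsg.Geo.IsNondegenerateQuadraticForm Q)
    (g : Matrix.GeneralLinearGroup ι F) (hg : ∀ v, Q ((g : Matrix ι ι F) *ᵥ v) = Q v)
    {a w : ι → F} {κ : F} (ha : Q a = 0) (ha0 : a ≠ 0)
    (hga : (g : Matrix ι ι F) *ᵥ a = κ • a) (haw : QuadraticMap.polar Q a w = 0)
    (hc : g * sg hQ a w = sg hQ a w * g) :
    ∃ f : F, κ • ((g : Matrix ι ι F) *ᵥ w) = w + f • a := by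
  have hbl := hQ.polar_bilinear
  have e1 : sg hQ a (κ • ((g : Matrix ι ι F) *ᵥ w)) = sg hQ a w := by
    rw [← sg_smul_left, ← hga, ← sg_conj hQ g hg, hc, mul_inv_cancel_right]
  have p1 : QuadraticMap.polar Q a (κ • ((g : Matrix ι ι F) *ᵥ w)) = 0 := by
    rw [hbl.smul_right, ← hbl.smul_left, ← hga, polar_of_isom g hg, haw]
  have p2 : QuadraticMap.polar Q a (-w) = 0 := by rw [bil_neg_right hbl, haw, neg_zero]
  have e2 : sg hQ a (κ • ((g : Matrix ι ι F) *ᵥ w) + -w) = 1 := by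
    rw [← sg_mul hQ a _ _ ha p1 p2, e1, ← sg_inv hQ, mul_inv_cancel]
  obtain ⟨c, hc⟩ := sg_eq_one_span hQ ha ha0 (by rw [hbl.add_right, p1, p2, add_zero]) e2
  exact ⟨c, by linear_combination (norm := module) hc⟩

/-- orthogonality of pairs extends to the spans -/
theorem perp_span (hQ : Cfsg.Geo.IsNondegenerateQuadraticForm Q) {u v u' v' : ι → F}
    (h : Perp Q u v u' v') :
    ∀ y ∈ Submodule.span F ({u, v} : Set (ι → F)),
      ∀ y' ∈ Submodule.span F ({u', v'} : Set (ι → F)), QuadraticMap.polar Q y y' = 0 := by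
  have hbl := hQ.polar_bilinear
  intro y hy y' hy'
  obtain ⟨a, b, rfl⟩ := Submodule.mem_span_pair.1 hy
  obtain ⟨c, d, rfl⟩ := Submodule.mem_span_pair.1 hy'
  simp only [hbl.add_left, hbl.add_right, hbl.smul_left, hbl.smul_right, h.1, h.2.1, h.2.2.1,
    h.2.2.2]
  ring

/-- commuting root operators: the lines meet or are orthogonal -/
theorem comm_meet_or_perp (hQ : Cfsg.Geo.IsNondegenerateQuadraticForm Q) {u v u' v' : ι → F}
    (i1 : Ind u v) (i2 : Ind u' v')
    (hcomm : ∀ x, Nop Q u v (Nop Q u' v' x) = Nop Q u' v' (Nop Q u v x)) :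
    (∃ p : ι → F, p ≠ 0 ∧ p ∈ Submodule.span F ({u, v} : Set (ι → F)) ∧
        p ∈ Submodule.span F ({u', v'} : Set (ι → F))) ∨ Perp Q u v u' v' := by
  have hbl := hQ.polar_bilinear
  by_cases hA : ∃ p : ι → F, p ≠ 0 ∧ p ∈ Submodule.span F ({u, v} : Set (ι → F)) ∧
        p ∈ Submodule.span F ({u', v'} : Set (ι → F))
  · exact Or.inl hA
  right
  have hno' : ∀ p : ι → F, p ∈ Submodule.span F ({u, v} : Set (ι → F)) →
      p ∈ Submodule.span F ({u', v'} : Set (ι → F)) → p = 0 := by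
    intro p hp hp'
    by_contra hp0
    exact hA ⟨p, hp0, hp, hp'⟩
  have hu : u ∉ Submodule.span F ({v, u', v'} : Set (ι → F)) := by
    intro hmem
    obtain ⟨a, b, c, habc⟩ := Submodule.mem_span_triple.1 hmem
    have e1 : (1 : F) • u + (-a) • v = 0 := by
      apply hno'
      · exact Submodule.mem_span_pair.2 ⟨1, -a, rfl⟩
      · refine Submodule.mem_span_pair.2 ⟨b, c, ?_⟩
        rw [← habc]
        module
    exact one_ne_zero (i1 _ _ e1).1
  have hv : v ∉ Submodule.span F ({u, u', v'} : Set (ι → F)) := by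
    intro hmem
    obtain ⟨a, b, c, habc⟩ := Submodule.mem_span_triple.1 hmem
    have e1 : (-a) • u + (1 : F) • v = 0 := by
      apply hno'
      · exact Submodule.mem_span_pair.2 ⟨-a, 1, rfl⟩
      · refine Submodule.mem_span_pair.2 ⟨b, c, ?_⟩
        rw [← habc]
        module
    exact one_ne_zero (i1 _ _ e1).2
  -- the vector v
  obtain ⟨r, hr, hr0⟩ := exists_perp_ne hQ _ u hu
  have r1 : QuadraticMap.polar Q v r = 0 := hr v (Submodule.subset_span (by simp))
  have r2 : QuadraticMap.polar Q u' r = 0 := hr u' (Submodule.subset_span (by simp))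
  have r3 : QuadraticMap.polar Q v' r = 0 := hr v' (Submodule.subset_span (by simp))
  have e2 : Nop Q u' v' r = 0 := by
    unfold Nop
    rw [r2, r3, zero_smul, zero_smul, sub_zero]
  have e3 : Nop Q u v r = QuadraticMap.polar Q u r • v := by
    unfold Nop
    rw [r1, zero_smul, sub_zero]
  have e4 := hcomm r
  rw [e2, Nop_zero hQ, e3, Nop_smul hQ] at e4
  have e5 : Nop Q u' v' v = 0 := by
    rcases smul_eq_zero.1 e4.symm with h | h
    · exact absurd h hr0
    · exact h
  unfold Nop at e5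
  have e6 := i2 (-(QuadraticMap.polar Q v' v)) (QuadraticMap.polar Q u' v)
    (by linear_combination (norm := module) e5)
  -- the vector u
  obtain ⟨r', hr', hr0'⟩ := exists_perp_ne hQ _ v hv
  have s1 : QuadraticMap.polar Q u r' = 0 := hr' u (Submodule.subset_span (by simp))
  have s2 : QuadraticMap.polar Q u' r' = 0 := hr' u' (Submodule.subset_span (by simp))
  have s3 : QuadraticMap.polar Q v' r' = 0 := hr' v' (Submodule.subset_span (by simp))
  have f2 : Nop Q u' v' r' = 0 := by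
    unfold Nop
    rw [s2, s3, zero_smul, zero_smul, sub_zero]
  have f3 : Nop Q u v r' = (-(QuadraticMap.polar Q v r')) • u := by
    unfold Nop
    rw [s1, zero_smul, zero_sub, neg_smul]
  have f4 := hcomm r'
  rw [f2, Nop_zero hQ, f3, Nop_smul hQ] at f4
  have f5 : Nop Q u' v' u = 0 := by
    rcases smul_eq_zero.1 f4.symm with h | h
    · exact absurd (neg_eq_zero.1 h) hr0'
    · exact h
  unfold Nop at f5
  have f6 := i2 (-(QuadraticMap.polar Q v' u)) (QuadraticMap.polar Q u' u)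
    (by linear_combination (norm := module) f5)
  refine ⟨?_, ?_, ?_, ?_⟩
  · rw [B_comm]; exact f6.2
  · rw [B_comm]; exact neg_eq_zero.1 f6.1
  · rw [B_comm]; exact e6.2
  · rw [B_comm]; exact neg_eq_zero.1 e6.1

/-- a line meeting all four sides of a skew quadrilateral is a diagonal -/
theorem diag_line {e1 e2 e3 e4 : ι → F}
    (hind : ∀ c1 c2 c3 c4 : F, c1 • e1 + c2 • e2 + c3 • e3 + c4 • e4 = 0 →
      c1 = 0 ∧ c2 = 0 ∧ c3 = 0 ∧ c4 = 0)
    {N : Submodule F (ι → F)} (hN : Module.finrank F N = 2)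
    {n1 n2 n3 n4 : ι → F} (h1 : n1 ≠ 0) (h2 : n2 ≠ 0) (h3 : n3 ≠ 0) (h4 : n4 ≠ 0)
    (m1 : n1 ∈ N) (m2 : n2 ∈ N) (m3 : n3 ∈ N) (m4 : n4 ∈ N)
    (l1 : n1 ∈ Submodule.span F ({e4, e1} : Set (ι → F)))
    (l2 : n2 ∈ Submodule.span F ({e1, e2} : Set (ι → F)))
    (l3 : n3 ∈ Submodule.span F ({e2, e3} : Set (ι → F)))
    (l4 : n4 ∈ Submodule.span F ({e3, e4} : Set (ι → F))) :
    N = Submodule.span F ({e1, e3} : Set (ι → F)) ∨
      N = Submodule.span F ({e2, e4} : Set (ι → F)) := by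
  obtain ⟨a4, a1, rfl⟩ := Submodule.mem_span_pair.1 l1
  obtain ⟨b2, b3, rfl⟩ := Submodule.mem_span_pair.1 l3
  have i13 : Ind (a4 • e4 + a1 • e1) (b2 • e2 + b3 • e3) := by
    intro s t hst
    have h5 := hind (s * a1) (t * b2) (t * b3) (s * a4) (by linear_combination (norm := module) hst)
    constructor
    · by_contra hs
      apply h1
      have e1' : a1 = 0 := (mul_eq_zero.1 h5.1).resolve_left hs
      have e4' : a4 = 0 := (mul_eq_zero.1 h5.2.2.2).resolve_left hs
      rw [e1', e4', zero_smul, zero_smul, add_zero]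
    · by_contra ht
      apply h3
      have e2' : b2 = 0 := (mul_eq_zero.1 h5.2.1).resolve_left ht
      have e3' : b3 = 0 := (mul_eq_zero.1 h5.2.2.1).resolve_left ht
      rw [e2', e3', zero_smul, zero_smul, add_zero]
  have hNs : Submodule.span F ({a4 • e4 + a1 • e1, b2 • e2 + b3 • e3} : Set (ι → F)) = N :=
    Submodule.eq_of_le_of_finrank_le (span_pair_le m1 m3) (by rw [finrank_span i13, hN])
  have m2' := m2
  rw [← hNs] at m2'
  obtain ⟨c, d, hcd⟩ := Submodule.mem_span_pair.1 m2'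
  obtain ⟨x, y, hxy⟩ := Submodule.mem_span_pair.1 l2
  have k2 := hind (c * a1 - x) (d * b2 - y) (d * b3) (c * a4)
    (by linear_combination (norm := module) hcd - hxy)
  have m4' := m4
  rw [← hNs] at m4'
  obtain ⟨c', d', hcd'⟩ := Submodule.mem_span_pair.1 m4'
  obtain ⟨z, w, hzw⟩ := Submodule.mem_span_pair.1 l4
  have k4 := hind (c' * a1) (d' * b2) (d' * b3 - z) (c' * a4 - w)
    (by linear_combination (norm := module) hcd' - hzw)
  by_cases ha4 : a4 = 0
  · left
    have ha1 : a1 ≠ 0 := by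
      intro h
      apply h1
      rw [ha4, h, zero_smul, zero_smul, add_zero]
    have hc' : c' = 0 := (mul_eq_zero.1 k4.1).resolve_right ha1
    have hd' : d' ≠ 0 := by
      intro h
      apply h4
      rw [← hcd', hc', h, zero_smul, zero_smul, add_zero]
    have hb2 : b2 = 0 := (mul_eq_zero.1 k4.2.1).resolve_left hd'
    rw [← hNs]
    apply span_eq_of_mem i13
    · exact Submodule.mem_span_pair.2 ⟨a1, 0, by rw [ha4]; module⟩
    · exact Submodule.mem_span_pair.2 ⟨0, b3, by rw [hb2]; module⟩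
  · right
    have hc : c = 0 := (mul_eq_zero.1 k2.2.2.2).resolve_right ha4
    have hd : d ≠ 0 := by
      intro h
      apply h2
      rw [← hcd, hc, h, zero_smul, zero_smul, add_zero]
    have hb3 : b3 = 0 := (mul_eq_zero.1 k2.2.2.1).resolve_left hd
    have hb2 : b2 ≠ 0 := by
      intro h
      apply h3
      rw [hb3, h, zero_smul, zero_smul, add_zero]
    have hd' : d' = 0 := (mul_eq_zero.1 k4.2.1).resolve_right hb2
    have hc' : c' ≠ 0 := by
      intro h
      apply h4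
      rw [← hcd', hd', h, zero_smul, zero_smul, add_zero]
    have ha1 : a1 = 0 := (mul_eq_zero.1 k4.1).resolve_left hc'
    rw [← hNs]
    apply span_eq_of_mem i13
    · exact Submodule.mem_span_pair.2 ⟨0, a4, by rw [ha1]; module⟩
    · exact Submodule.mem_span_pair.2 ⟨b2, 0, by rw [hb3]; module⟩

end Cfsg.Agent.Lib.Helper43.OOdGen
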