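import Mathlib
import Cfsg.Agent.Lib.Helper43.PSLnAll

set_option autoImplicit false

namespace Cfsg.Agent.Lib.Helper43.PSLnOut

open Matrix Cfsg.Agent.Lib.Helper43.PSLnBasic Cfsg.Agent.Lib.Helper43.PSLnAuts
  Cfsg.Agent.Lib.Helper43.PSLnAll Cfsg.Agent.Lib.Helper43.PSLnClass

variable {F : Type*} [Field F] {n : ℕ}

theorem charP_of_card [Fintype F] {p f : ℕ} [Fact p.Prime] (hf : 1 ≤ f)
    (hF : Fintype.card F = p ^ f) : CharP F p := by
  obtain ⟨p', hp'⟩ := CharP.exists F
  haveI := hp'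
  obtain ⟨m, hm1, hm2⟩ := FiniteField.card F p'
  have h1 : p ∣ p' ^ (m : ℕ) := by
    rw [← hm2, hF]
    exact dvd_pow_self p (by omega)
  have h2 : p = p' :=
    (Nat.prime_dvd_prime_iff_eq (Fact.out) hm1).1 (Nat.Prime.dvd_of_dvd_pow Fact.out h1)
  rw [h2]
  exact hp'

theorem ringAut_cyclic_card [Fintype F] {p f : ℕ} [Fact p.Prime]
    (hf : 1 ≤ f) (hF : Fintype.card F = p ^ f) :
    IsCyclic (RingAut F) ∧ Nat.card (RingAut F) = f := by
  haveI : CharP F p := charP_of_card hf hF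
  letI : Algebra (ZMod p) F := ZMod.algebra F p
  let e : RingAut F ≃* (F ≃ₐ[ZMod p] F) :=
    { toFun := fun σ => AlgEquiv.ofRingEquiv (f := σ) (fun x =>
        RingHom.congr_fun (Subsingleton.elim ((σ : F →+* F).comp (algebraMap (ZMod p) F))
          (algebraMap (ZMod p) F)) x)
      invFun := fun τ => τ.toRingEquiv
      left_inv := fun σ => by
        ext x
        rfl
      right_inv := fun τ => by
        ext x
        rfl
      map_mul' := fun σ τ => by
        ext x
        rfl }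
  have hcyc : IsCyclic (F ≃ₐ[ZMod p] F) := inferInstance
  have hcard : Nat.card (F ≃ₐ[ZMod p] F) = f := by
    have h1 := FiniteField.bijective_frobeniusAlgEquivOfAlgebraic_pow (ZMod p) F
    have h2 := Nat.card_eq_of_bijective _ h1
    rw [Nat.card_eq_fintype_card, Fintype.card_fin] at h2
    have h3 : Module.finrank (ZMod p) F = f := by
      have h4 := Module.card_eq_pow_finrank (K := ZMod p) (V := F)
      rw [ZMod.card, hF] at h4
      exact (Nat.pow_right_injective (Fact.out : p.Prime).two_le h4).symm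
    rw [← h2, h3]
  exact ⟨isCyclic_of_surjective e.symm e.symm.surjective, by rw [Nat.card_congr e.toEquiv, hcard]⟩

/-- `Aut(PSL₂) / PGL₂ ≅ Aut(F)` -/
theorem exists_kappa2 [Fintype F] {p f : ℕ} [Fact p.Prime] (hf : 1 ≤ f)
    (hF : Fintype.card F = p ^ f) [(cGL (F := F) (n := 2)).range.Normal] :
    ∃ e : RingAut F ≃*
        MulAut (Matrix.ProjectiveSpecialLinearGroup (Fin 2) F) ⧸ (cGL (F := F) (n := 2)).range,
      ∀ σ : RingAut F, e σ = QuotientGroup.mk (cσ σ) := by
  obtain ⟨κ, hκ⟩ : ∃ κ : RingAut F →*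
      MulAut (Matrix.ProjectiveSpecialLinearGroup (Fin 2) F) ⧸ (cGL (F := F) (n := 2)).range,
      κ = (QuotientGroup.mk' _).comp cσ := ⟨_, rfl⟩
  have happ : ∀ σ, κ σ = QuotientGroup.mk (cσ σ) := by
    intro σ
    rw [hκ]
    rfl
  have hinj : Function.Injective κ := by
    rw [injective_iff_map_eq_one]
    intro σ h
    rw [happ] at h
    obtain ⟨g, hg⟩ := (QuotientGroup.eq_one_iff _).1 h
    exact (cGL_eq_cσ (le_refl 2) g σ hg).1
  have hsurj : Function.Surjective κ := by
    intro y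
    obtain ⟨α, rfl⟩ := QuotientGroup.mk_surjective y
    obtain ⟨g, σ, h⟩ := classification2 hf hF α
    refine ⟨σ, ?_⟩
    have hg1 : (QuotientGroup.mk (cGL g) :
        MulAut (Matrix.ProjectiveSpecialLinearGroup (Fin 2) F) ⧸
          (cGL (F := F) (n := 2)).range) = 1 :=
      (QuotientGroup.eq_one_iff (N := (cGL (F := F) (n := 2)).range) (cGL g)).2 ⟨g, rfl⟩
    rw [happ, h, QuotientGroup.mk_mul, hg1, one_mul]
  exact ⟨MulEquiv.ofBijective κ ⟨hinj, hsurj⟩, happ⟩

theorem card_zpowers_cτ (hn : 3 ≤ n) :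
    Nat.card (Subgroup.zpowers
      (cτ : MulAut (Matrix.ProjectiveSpecialLinearGroup (Fin n) F))) = 2 := by
  haveI : Fact (Nat.Prime 2) := ⟨Nat.prime_two⟩
  rw [Nat.card_zpowers]
  exact orderOf_eq_prime cτ_sq (cτ_ne_one hn)

theorem card_range_cGL [Finite F] (hn : 2 ≤ n) :
    Nat.card (cGL (F := F) (n := n)).range = Nat.card (Matrix.ProjGenLinGroup (Fin n) F) := by
  rw [← Subgroup.index_ker, ker_cGL hn]
  rfl

theorem card_aut_three [Fintype F] {p f : ℕ} [Fact p.Prime] (hf : 1 ≤ f)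
    (hF : Fintype.card F = p ^ f) (hn : 3 ≤ n) :
    Nat.card (MulAut (Matrix.ProjectiveSpecialLinearGroup (Fin n) F)) =
      2 * f * Nat.card (Matrix.ProjGenLinGroup (Fin n) F) := by
  haveI hnorm : (cGL (F := F) (n := n)).range.Normal := normal_range_cGL hf hF hn
  obtain ⟨e, -⟩ := exists_kappa hf hF hn
  have h1 := Subgroup.card_mul_index (cGL (F := F) (n := n)).range
  have h2 : (cGL (F := F) (n := n)).range.index = f * 2 := by
    show Nat.card (MulAut (Matrix.ProjectiveSpecialLinearGroup (Fin n) F) ⧸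
      (cGL (F := F) (n := n)).range) = f * 2
    rw [← Nat.card_congr e.toEquiv, Nat.card_prod, (ringAut_cyclic_card hf hF).2,
      card_zpowers_cτ hn]
  rw [← h1, h2, card_range_cGL (by omega)]
  ring

theorem card_aut_two [Fintype F] {p f : ℕ} [Fact p.Prime] (hf : 1 ≤ f)
    (hF : Fintype.card F = p ^ f) :
    Nat.card (MulAut (Matrix.ProjectiveSpecialLinearGroup (Fin 2) F)) =
      f * Nat.card (Matrix.ProjGenLinGroup (Fin 2) F) := by
  haveI hnorm : (cGL (F := F) (n := 2)).range.Normal := normal_range_cGL2 hf hF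
  obtain ⟨e, -⟩ := exists_kappa2 hf hF
  have h1 := Subgroup.card_mul_index (cGL (F := F) (n := 2)).range
  have h2 : (cGL (F := F) (n := 2)).range.index = f := by
    show Nat.card (MulAut (Matrix.ProjectiveSpecialLinearGroup (Fin 2) F) ⧸
      (cGL (F := F) (n := 2)).range) = f
    rw [← Nat.card_congr e.toEquiv, (ringAut_cyclic_card hf hF).2]
  rw [← h1, h2, card_range_cGL (le_refl 2)]
  ring

end Cfsg.Agent.Lib.Helper43.PSLnOut
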