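import Mathlib
import Cfsg.Agent.Lib.Helper44.SMStmt
import Cfsg.Agent.Lib.Helper44.OConj

set_option autoImplicit false

/-! Piece S2721/COMM: for an isometry `s` of odd order prime to the characteristic and any
similarity `g₀` there is a similarity `δ` commuting with `s` with the multiplier of `g₀`. -/

namespace Cfsg.Agent.Lib.Helper43.SMCOMM

open Matrix
open Cfsg.Agent.Lib.Helper44.QSpace Cfsg.Agent.Lib.Helper44.OGroup Cfsg.Agent.Lib.Helper44.OMat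
open Cfsg.Agent.Lib.Helper45.OmegaAut Cfsg.Agent.Lib.Helper45.OmegaAutPsi
open Cfsg.Agent.Lib.Helper45.OmegaAutMain Cfsg.Agent.Lib.Helper45.OmegaInndiag

universe u

theorem main : Cfsg.Agent.Lib.Helper44.SMStmt.Comm.{u} := by
  intro F _ _ ι _ _ Q hS v₀ hv₀ s g₀ hs r hodd hr hsr
  classical
  -- the conjugate isometry
  have hb : (g₀ : GL ι F) * (s : GL ι F) * (g₀ : GL ι F)⁻¹ ∈ Cfsg.isometryGroup F ⇑Q :=
    conj_mem_iso (⇑Q) g₀.2 hs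
  obtain ⟨A, hA⟩ : ∃ A : ↥(Cfsg.isometryGroup F ⇑Q), A = ⟨(s : GL ι F), hs⟩ := ⟨_, rfl⟩
  obtain ⟨B, hB⟩ : ∃ B : ↥(Cfsg.isometryGroup F ⇑Q),
      B = ⟨(g₀ : GL ι F) * (s : GL ι F) * (g₀ : GL ι F)⁻¹, hb⟩ := ⟨_, rfl⟩
  have hAv : (A : GL ι F) = (s : GL ι F) := by rw [hA]
  have hBv : (B : GL ι F) = (g₀ : GL ι F) * (s : GL ι F) * (g₀ : GL ι F)⁻¹ := by rw [hB]
  have hcu' : (g₀ : GL ι F) * (A : GL ι F) = (B : GL ι F) * (g₀ : GL ι F) := by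
    rw [hAv, hBv]; group
  have hx : glEquiv (g₀ : GL ι F) * (isoEquiv Q A : (ι → F) ≃ₗ[F] (ι → F))
      = (isoEquiv Q B : (ι → F) ≃ₗ[F] (ι → F)) * glEquiv (g₀ : GL ι F) := by
    have h1 := congrArg glEquiv hcu'
    rw [map_mul, map_mul] at h1
    exact h1
  have hAr : A ^ r = 1 := by
    apply Subtype.ext
    rw [Subgroup.coe_pow, hAv, Subgroup.coe_one]
    have h1 := congrArg Subtype.val hsr
    rw [Subgroup.coe_pow, Subgroup.coe_one] at h1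
    exact h1
  have haN : (isoEquiv Q A : (ι → F) ≃ₗ[F] (ι → F)) ^ r = 1 := by
    have h1 : (isoEquiv Q A) ^ r = 1 := by rw [← map_pow, hAr, map_one]
    exact congrArg Subtype.val h1
  obtain ⟨g, hg, hga⟩ := Cfsg.Agent.Lib.Helper44.OConj.conj_core hS (isoEquiv Q A).2
    (isoEquiv Q B).2 r hr hodd haN hx
  have h3 : (⟨g, hg⟩ : ↥(O Q)) * isoEquiv Q A = isoEquiv Q B * ⟨g, hg⟩ := Subtype.ext hga
  have h4 : (isoEquiv Q).symm ⟨g, hg⟩ * A = B * (isoEquiv Q).symm ⟨g, hg⟩ := by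
    apply (isoEquiv Q).injective
    rw [map_mul, map_mul, MulEquiv.apply_symm_apply]
    exact h3
  obtain ⟨h, hh⟩ : ∃ h : ↥(Cfsg.isometryGroup F ⇑Q), h = (isoEquiv Q).symm ⟨g, hg⟩ := ⟨_, rfl⟩
  rw [← hh] at h4
  have h5 : (h : GL ι F) * (s : GL ι F)
      = (g₀ : GL ι F) * (s : GL ι F) * (g₀ : GL ι F)⁻¹ * (h : GL ι F) := by
    have h6 := congrArg Subtype.val h4
    rw [Subgroup.coe_mul, Subgroup.coe_mul, hAv, hBv] at h6
    exact h6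
  -- `h` as a similarity
  obtain ⟨h', hh'⟩ : ∃ h' : ↥(Cfsg.Geo.quadSimilarityGroup (F := F) ⇑Q),
      h' = ⟨(h : GL ι F), iso_le_GO (⇑Q) h.2⟩ := ⟨_, rfl⟩
  have hh'v : (h' : GL ι F) = (h : GL ι F) := by rw [hh']
  have hmu : mu Q h' = 1 := mu_iso Q hv₀ h' (by rw [hh'v]; exact h.2)
  refine ⟨h'⁻¹ * g₀, ?_, ?_⟩
  · apply Subtype.ext
    rw [Subgroup.coe_mul, Subgroup.coe_mul, Subgroup.coe_mul, Subgroup.coe_mul, Subgroup.coe_inv,
      hh'v]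
    have h7 : (s : GL ι F) = (h : GL ι F)⁻¹ * ((g₀ : GL ι F) * (s : GL ι F) * (g₀ : GL ι F)⁻¹)
        * (h : GL ι F) := by
      rw [mul_assoc, ← h5]
      group
    nth_rewrite 2 [h7]
    group
  · have h8 : muHom Q hv₀ (h'⁻¹ * g₀) = (muHom Q hv₀ h')⁻¹ * muHom Q hv₀ g₀ := by
      rw [map_mul, map_inv]
    rw [muHom_apply, muHom_apply, muHom_apply, hmu, inv_one, one_mul] at h8
    exact h8

end Cfsg.Agent.Lib.Helper43.SMCOMM
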