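import Mathlib
import Cfsg.Agent.Lib.Helper43.SPStmt

set_option autoImplicit false

/-! Assembly of the abstract SPIN statement from the fixed-vector case and the irreducible case. -/

namespace Cfsg.Agent.Lib.Helper43.SPAbs

open Module QuadraticMap
open Cfsg.Agent.Lib.Helper44.QSpace Cfsg.Agent.Lib.Helper44.OGroup
open Cfsg.Agent.Lib.Helper44.Parity Cfsg.Agent.Lib.Helper44.Spinor
open Cfsg.Agent.Lib.Helper44.OConj
open Cfsg.Agent.Lib.Helper43.SPStmt

universe u

theorem refl_comm_of_fixed {F : Type u} [Field F] {V : Type u} [AddCommGroup V] [Module F V]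
    {Q : QuadraticForm F V} {s : V ≃ₗ[F] V} (hs : s ∈ O Q) {v : V} (hv : s v = v) :
    reflE Q v * s = s * reflE Q v := by
  have h1 := conj_reflE hs v
  rw [hv] at h1
  calc reflE Q v * s = (s * reflE Q v * s⁻¹) * s := by rw [h1]
    _ = s * reflE Q v := by group

theorem main (hFP : FixPair.{u}) (hMS : MinSub.{u}) (hG : Glue.{u}) : SpinAbs.{u} := by
  intro F _ _ V _ _ _ Q h2 hS hev hpos s r hs hodd hr hsr
  by_cases hfix : ∃ v : V, v ≠ 0 ∧ s v = v
  · obtain ⟨u, w, hu, hw, hQu, hQw, hns⟩ := hFP F V Q h2 hS s r hs hodd hr hsr hev hfix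
    refine ⟨[u, w], ?_, ⟨1, rfl⟩, ?_, ?_⟩
    · intro v hv
      rw [List.mem_cons, List.mem_singleton] at hv
      rcases hv with rfl | rfl
      · exact hQu
      · exact hQw
    · rw [List.map_cons, List.map_cons, List.map_nil, List.prod_cons, List.prod_cons,
        List.prod_nil, mul_one]
      exact hns
    · rw [List.map_cons, List.map_cons, List.map_nil, List.prod_cons, List.prod_cons,
        List.prod_nil, mul_one]
      rw [mul_assoc, refl_comm_of_fixed hs hw, ← mul_assoc, refl_comm_of_fixed hs hu, mul_assoc]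
  · have hnf : ∀ v : V, s v = v → v = 0 := by
      intro v hv
      by_contra h
      exact hfix ⟨v, h, hv⟩
    have hne : ∃ v : V, v ≠ 0 := by
      have : Nontrivial V := Module.nontrivial_of_finrank_pos (R := F) hpos
      exact exists_ne 0
    obtain ⟨w, hw, hSw, hmin⟩ := hMS F V Q h2 hS s r hs hr hsr hne
    exact hG F V Q h2 hS s r hs hodd hr hsr hnf w hw hSw hmin

end Cfsg.Agent.Lib.Helper43.SPAbs
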