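import Mathlib
import Cfsg.Agent.Lib.Helper43.SPStmt

set_option autoImplicit false

/-! Piece S2720/COUNT: in the irreducible case the number of vectors of value `1` is an odd
multiple of the order of the torus. -/

namespace Cfsg.Agent.Lib.Helper43.SPCOUNT

open Module QuadraticMap
open Cfsg.Agent.Lib.Helper44.QSpace Cfsg.Agent.Lib.Helper44.OGroup
open Cfsg.Agent.Lib.Helper44.Parity Cfsg.Agent.Lib.Helper44.Spinor
open Cfsg.Agent.Lib.Helper44.OConj
open Cfsg.Agent.Lib.Helper43.SPStmt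

universe u

variable {F : Type u} [Field F] {U : Type u} [AddCommGroup U] [Module F U]

/-- The functional `y ↦ 2⁻¹ * polar (y w₀) w₀`. -/
noncomputable def tau (Q : QuadraticForm F U) (w₀ : U) : Module.End F U →ₗ[F] F :=
  (2⁻¹ : F) • (((polarBilin Q).flip w₀).comp (LinearMap.applyₗ w₀))

theorem tau_apply (Q : QuadraticForm F U) (w₀ : U) (y : Module.End F U) :
    tau Q w₀ y = 2⁻¹ * polar Q (y w₀) w₀ := rfl

theorem q_eq_tau [FiniteDimensional F U] (h2 : (2 : F) ≠ 0) {Q : QuadraticForm F U}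
    (hβ : (polarBilin Q).Nondegenerate) (w₀ : U) (a : Module.End F U) :
    Q (a w₀) = tau Q w₀ (st hβ a * a) := by
  rw [tau_apply, Module.End.mul_apply, st_spec, polar_self', ← mul_assoc, inv_mul_cancel₀ h2,
    one_mul]

/-- The counting core, for a commutative `st`-stable subring `R` of endomorphisms. -/
theorem core [Fintype F] [FiniteDimensional F U] (h2 : (2 : F) ≠ 0) {Q : QuadraticForm F U}
    (hβ : (polarBilin Q).Nondegenerate) (R : Subring (Module.End F U))
    (hRcomm : ∀ x ∈ R, ∀ y ∈ R, x * y = y * x) (hRst : ∀ x ∈ R, st hβ x ∈ R)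
    (hRalg : ∀ c : F, algebraMap F (Module.End F U) c ∈ R)
    (hdich : ∀ b ∈ R, st hβ b = b → b = 0 ∨ IsUnit b)
    (hnorm : ∀ y ∈ R, IsUnit y → st hβ y = y → ∃ c ∈ R, st hβ c * c = y)
    (hinv : ∀ b ∈ R, IsUnit b → ∃ b' ∈ R, b * b' = 1)
    (w₀ : U) (hw₀ : Q w₀ ≠ 0) (hgen : ∀ x : U, ∃ a ∈ R, a w₀ = x) :
    ∃ M : ℕ, Odd M ∧ Nat.card {x : U // Q x = 1}
      = Nat.card {t : Module.End F U // t ∈ R ∧ st hβ t * t = 1} * M := by
  classical
  haveI : Finite U := Module.finite_of_finite F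
  haveI : Finite (Module.End F U) := DFunLike.finite _
  -- injectivity of `a ↦ a w₀` on `R`
  have hinj : ∀ a ∈ R, ∀ a' ∈ R, a w₀ = a' w₀ → a = a' := by
    intro a ha a' ha' h
    apply LinearMap.ext
    intro x
    obtain ⟨b, hb, rfl⟩ := hgen x
    have h3 : a (b w₀) = (b * a) w₀ := by
      rw [← Module.End.mul_apply, hRcomm a ha b hb]
    have h4 : a' (b w₀) = (b * a') w₀ := by
      rw [← Module.End.mul_apply, hRcomm a' ha' b hb]
    rw [h3, h4, Module.End.mul_apply, Module.End.mul_apply, h]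
  have hτ1 : tau Q w₀ 1 = Q w₀ := by
    have h3 := q_eq_tau h2 hβ w₀ (1 : Module.End F U)
    rw [st_one, mul_one, Module.End.one_apply] at h3
    exact h3.symm
  -- the set `Y`
  obtain ⟨Y, hY⟩ : ∃ Y : Set (Module.End F U),
      Y = {y | y ∈ R ∧ st hβ y = y ∧ tau Q w₀ y = 1} := ⟨_, rfl⟩
  have hYmem : ∀ y, y ∈ Y ↔ y ∈ R ∧ st hβ y = y ∧ tau Q w₀ y = 1 := by
    intro y; rw [hY]; rfl
  have hYunit : ∀ y ∈ Y, IsUnit y := by
    intro y hy
    obtain ⟨hyR, hys, hyτ⟩ := (hYmem y).mp hy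
    rcases hdich y hyR hys with h | h
    · rw [h, map_zero] at hyτ
      exact absurd hyτ zero_ne_one
    · exact h
  have hex : ∀ y : Y, ∃ c ∈ R, st hβ c * c = (y : Module.End F U) := by
    intro y
    obtain ⟨hyR, hys, hyτ⟩ := (hYmem y.1).mp y.2
    exact hnorm y.1 hyR (hYunit y.1 y.2) hys
  obtain ⟨cY, hcY⟩ : ∃ cY : Y → Module.End F U,
      ∀ y : Y, cY y ∈ R ∧ st hβ (cY y) * cY y = (y : Module.End F U) :=
    ⟨fun y => Classical.choose (hex y), fun y => Classical.choose_spec (hex y)⟩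
  have hcu : ∀ y : Y, IsUnit (cY y) := by
    intro y
    have h3 : IsUnit (st hβ (cY y) * cY y) := by rw [(hcY y).2]; exact hYunit y.1 y.2
    rw [LinearMap.isUnit_iff_ker_eq_bot, LinearMap.ker_eq_bot'] at h3 ⊢
    intro x hx
    apply h3
    rw [Module.End.mul_apply, hx, map_zero]
  -- norm of a product
  have hnm : ∀ c ∈ R, ∀ t ∈ R, st hβ t * t = 1 → st hβ (c * t) * (c * t) = st hβ c * c := by
    intro c hc t ht htt
    have h3 : st hβ (c * t) * (c * t) = st hβ t * (st hβ c * c) * t := by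
      rw [st_mul]
      simp only [mul_assoc]
    rw [h3, hRcomm (st hβ t) (hRst t ht) (st hβ c * c) (mul_mem (hRst c hc) hc), mul_assoc, htt,
      mul_one]
  -- the bijection
  obtain ⟨Ψ, hΨ⟩ : ∃ Ψ : Y × {t : Module.End F U // t ∈ R ∧ st hβ t * t = 1} → {x : U // Q x = 1},
      ∀ p, ((Ψ p : {x : U // Q x = 1}) : U) = (cY p.1 * p.2.1) w₀ := by
    refine ⟨fun p => ⟨(cY p.1 * p.2.1) w₀, ?_⟩, fun p => rfl⟩
    rw [q_eq_tau h2 hβ, hnm _ (hcY p.1).1 _ p.2.2.1 p.2.2.2, (hcY p.1).2]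
    exact ((hYmem p.1.1).mp p.1.2).2.2
  have hΨinj : Function.Injective Ψ := by
    rintro ⟨y, t⟩ ⟨y', t'⟩ h
    have h3 : (cY y * t.1) w₀ = (cY y' * t'.1) w₀ := by
      have h4 := congrArg Subtype.val h
      rw [hΨ, hΨ] at h4
      exact h4
    have h5 : cY y * t.1 = cY y' * t'.1 :=
      hinj _ (mul_mem (hcY y).1 t.2.1) _ (mul_mem (hcY y').1 t'.2.1) h3
    have h6 : (y : Module.End F U) = (y' : Module.End F U) := by
      rw [← (hcY y).2, ← (hcY y').2, ← hnm _ (hcY y).1 _ t.2.1 t.2.2,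
        ← hnm _ (hcY y').1 _ t'.2.1 t'.2.2, h5]
    have h7 : y = y' := Subtype.ext h6
    subst h7
    have h8 : t.1 = t'.1 := (hcu y).mul_left_cancel h5
    rw [Subtype.ext h8]
  have hΨsurj : Function.Surjective Ψ := by
    intro x
    obtain ⟨a, ha, hax⟩ := hgen x.1
    have hy1 : tau Q w₀ (st hβ a * a) = 1 := by
      rw [← q_eq_tau h2 hβ, hax]
      exact x.2
    have hyY : st hβ a * a ∈ Y := by
      rw [hYmem]
      refine ⟨mul_mem (hRst a ha) ha, ?_, hy1⟩
      rw [st_mul, st_st]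
    obtain ⟨y, hy⟩ : ∃ y : Y, (y : Module.End F U) = st hβ a * a := ⟨⟨_, hyY⟩, rfl⟩
    obtain ⟨c', hc'R, hc'⟩ := hinv (cY y) (hcY y).1 (hcu y)
    have hc'2 : c' * cY y = 1 := by rw [hRcomm c' hc'R (cY y) (hcY y).1]; exact hc'
    obtain ⟨t, ht⟩ : ∃ t : Module.End F U, t = c' * a := ⟨_, rfl⟩
    have htR : t ∈ R := by rw [ht]; exact mul_mem hc'R ha
    have hct : cY y * t = a := by rw [ht, ← mul_assoc, hc', one_mul]
    have htt : st hβ t * t = 1 := by
      have h3 : st hβ (cY y * t) * (cY y * t) = st hβ t * t * (st hβ (cY y) * cY y) := by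
        rw [st_mul]
        calc st hβ t * st hβ (cY y) * (cY y * t)
            = st hβ t * ((st hβ (cY y) * cY y) * t) := by simp only [mul_assoc]
          _ = st hβ t * (t * (st hβ (cY y) * cY y)) := by
              rw [hRcomm (st hβ (cY y) * cY y) (mul_mem (hRst _ (hcY y).1) (hcY y).1) t htR]
          _ = st hβ t * t * (st hβ (cY y) * cY y) := by rw [mul_assoc]
      rw [hct, (hcY y).2, hy] at h3
      have hu : IsUnit (st hβ a * a) := hYunit _ hyY
      have h4 : (st hβ t * t) * (st hβ a * a) = 1 * (st hβ a * a) := by rw [one_mul]; exact h3.symm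
      exact hu.mul_right_cancel h4
    refine ⟨(y, ⟨t, htR, htt⟩), ?_⟩
    apply Subtype.ext
    rw [hΨ]
    show (cY y * t) w₀ = x.1
    rw [hct, hax]
  have hcard : Nat.card {x : U // Q x = 1}
      = Nat.card Y * Nat.card {t : Module.End F U // t ∈ R ∧ st hβ t * t = 1} := by
    rw [← Nat.card_prod]
    exact (Nat.card_congr (Equiv.ofBijective Ψ ⟨hΨinj, hΨsurj⟩)).symm
  refine ⟨Nat.card Y, ?_, by rw [hcard, mul_comm]⟩
  -- `Y` is a coset of a subspace
  obtain ⟨R₀, hR₀⟩ : ∃ R₀ : Submodule F (Module.End F U),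
      ∀ y, y ∈ R₀ ↔ y ∈ R ∧ st hβ y = y := by
    refine ⟨{ carrier := {y | y ∈ R ∧ st hβ y = y}
              add_mem' := ?_
              zero_mem' := ?_
              smul_mem' := ?_ }, fun y => Iff.rfl⟩
    · rintro a b ⟨ha, ha'⟩ ⟨hb, hb'⟩
      exact ⟨add_mem ha hb, by rw [st_add, ha', hb']⟩
    · refine ⟨zero_mem R, ?_⟩
      have h3 := st_algebraMap hβ (0 : F)
      rw [map_zero] at h3
      exact h3
    · rintro c a ⟨ha, ha'⟩
      refine ⟨?_, ?_⟩
      · rw [Algebra.smul_def]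
        exact mul_mem (hRalg c) ha
      · show st hβ (c • a) = c • a
        rw [Algebra.smul_def, st_mul, st_algebraMap, ha']
        exact (Algebra.commutes c a).symm
  obtain ⟨τ₀, hτ₀⟩ : ∃ τ₀ : ↥R₀ →ₗ[F] F, ∀ y : ↥R₀, τ₀ y = tau Q w₀ (y : Module.End F U) :=
    ⟨(tau Q w₀).domRestrict R₀, fun y => rfl⟩
  obtain ⟨y₁, hy₁⟩ : ∃ y₁ : ↥R₀, τ₀ y₁ = 1 := by
    have h1R : (1 : Module.End F U) ∈ R₀ := (hR₀ 1).mpr ⟨one_mem R, st_one hβ⟩
    refine ⟨(Q w₀)⁻¹ • ⟨1, h1R⟩, ?_⟩
    rw [map_smul, hτ₀, hτ1, smul_eq_mul, inv_mul_cancel₀ hw₀]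
  have e : Y ≃ ↥(LinearMap.ker τ₀) :=
    { toFun := fun y => ⟨⟨y.1, (hR₀ y.1).mpr ⟨((hYmem y.1).mp y.2).1, ((hYmem y.1).mp y.2).2.1⟩⟩
          - y₁, by
        rw [LinearMap.mem_ker, map_sub, hτ₀, hy₁, ((hYmem y.1).mp y.2).2.2, sub_self]⟩
      invFun := fun k => ⟨((k.1 + y₁ : ↥R₀) : Module.End F U), by
        rw [hYmem]
        have h3 := (hR₀ _).mp (k.1 + y₁).2
        refine ⟨h3.1, h3.2, ?_⟩
        rw [← hτ₀, map_add, hy₁, LinearMap.mem_ker.mp k.2, zero_add]⟩
      left_inv := fun y => by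
        apply Subtype.ext
        show ((⟨y.1, _⟩ - y₁ + y₁ : ↥R₀) : Module.End F U) = y.1
        rw [sub_add_cancel]
      right_inv := fun k => by
        apply Subtype.ext
        apply Subtype.ext
        show ((⟨((k.1 + y₁ : ↥R₀) : Module.End F U), _⟩ - y₁ : ↥R₀) : Module.End F U)
          = ((k.1 : ↥R₀) : Module.End F U)
        rw [Submodule.coe_sub]
        show ((k.1 + y₁ : ↥R₀) : Module.End F U) - (y₁ : Module.End F U) = _
        rw [Submodule.coe_add, add_sub_cancel_right] }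
  rw [Nat.card_congr e, Module.natCard_eq_pow_finrank (K := F)]
  apply Odd.pow
  rw [Nat.card_eq_fintype_card, Nat.odd_iff]
  exact FiniteField.odd_card_of_char_ne_two
    (Cfsg.Agent.Lib.Helper44.FinSq.ringChar_ne_two_of_two_ne_zero h2)

theorem main : RingP.{u} → CountP.{u} := by
  intro hR F _ _ U _ _ _ Q h2 hS s r hI
  classical
  obtain ⟨hstA, hcomm, hstar, hdich, hunit⟩ := hR F U Q h2 hS s r hI
  obtain ⟨hsO, hodd, hr, hsr, hnf, ⟨w₀, hw₀⟩, hmin⟩ := hI
  have hβ : (polarBilin Q).Nondegenerate := nondegenerate_of_sep hS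
  haveI : Finite U := Module.finite_of_finite F
  haveI : Finite (Module.End F U) := DFunLike.finite _
  obtain ⟨A, hA⟩ : ∃ A : Module.End F U, A = (s : U →ₗ[F] U) := ⟨_, rfl⟩
  obtain ⟨A', hA'⟩ : ∃ A' : Module.End F U, A' = (s.symm : U →ₗ[F] U) := ⟨_, rfl⟩
  rw [← hA, ← hA'] at hstA hcomm hstar hdich hunit
  rw [← hA, ← hA']
  have hAmem : A ∈ Subring.closure (S0 A A') := Subring.subset_closure (Or.inl (Or.inl rfl))
  have hA'mem : A' ∈ Subring.closure (S0 A A') := Subring.subset_closure (Or.inl (Or.inr rfl))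
  have hRcomm : ∀ x ∈ Subring.closure (S0 A A'), ∀ y ∈ Subring.closure (S0 A A'),
      x * y = y * x := by
    letI : CommRing ↥(Subring.closure (S0 A A')) := Subring.closureCommRingOfComm hcomm
    intro x hx y hy
    exact congrArg Subtype.val (mul_comm (⟨x, hx⟩ : ↥(Subring.closure (S0 A A'))) ⟨y, hy⟩)
  have h_zero : st hβ (0 : Module.End F U) = 0 := by
    have h3 := st_algebraMap hβ (0 : F)
    rw [map_zero] at h3
    exact h3
  have h_neg : ∀ x, st hβ (-x) = -st hβ x := by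
    intro x
    have h := st_add hβ x (-x)
    rw [add_neg_cancel, h_zero] at h
    exact (neg_eq_of_add_eq_zero_right h.symm).symm
  have hRst : ∀ x ∈ Subring.closure (S0 A A'), st hβ x ∈ Subring.closure (S0 A A') := by
    intro x hx
    induction hx using Subring.closure_induction with
    | mem x hx => exact Subring.subset_closure (hstar x hx)
    | zero => rw [h_zero]; exact zero_mem _
    | one => rw [st_one]; exact one_mem _
    | add x y _ _ hx hy => rw [st_add]; exact add_mem hx hy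
    | neg x _ hx => rw [h_neg]; exact neg_mem hx
    | mul x y _ _ hx hy => rw [st_mul]; exact mul_mem hy hx
  have hRalg : ∀ c : F, algebraMap F (Module.End F U) c ∈ Subring.closure (S0 A A') :=
    fun c => Subring.subset_closure (Or.inr ⟨c, rfl⟩)
  have hinv : ∀ b ∈ Subring.closure (S0 A A'), IsUnit b →
      ∃ b' ∈ Subring.closure (S0 A A'), b * b' = 1 := by
    intro b hb hbu
    have hinj : Function.Injective (fun x : ↥(Subring.closure (S0 A A')) =>
        (⟨b * x.1, mul_mem hb x.2⟩ : ↥(Subring.closure (S0 A A')))) := by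
      intro x x' h
      have h3 : b * x.1 = b * x'.1 := congrArg Subtype.val h
      exact Subtype.ext (hbu.mul_left_cancel h3)
    obtain ⟨w, hw⟩ := (Finite.injective_iff_surjective.mp hinj) 1
    exact ⟨w.1, w.2, congrArg Subtype.val hw⟩
  have hnorm : ∀ y ∈ Subring.closure (S0 A A'), IsUnit y → st hβ y = y →
      ∃ c ∈ Subring.closure (S0 A A'), st hβ c * c = y := by
    intro y hy hyu hys
    obtain ⟨y₀, hy₀R, hy₀⟩ := hinv (A - A') (sub_mem hAmem hA'mem) hunit
    obtain ⟨c, hc, hcc⟩ := Cfsg.Agent.Lib.Helper40.StarCore.star_core (st hβ) (st_add hβ)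
      (st_mul hβ) (st_one hβ) (st_st hβ) (S0 A A') hcomm hstar 1 A y₀ y (one_mem _) (mul_one 1)
      (st_one hβ) hAmem hy₀R (by rw [hstA]; exact hy₀) hy hyu hys
    rw [mul_one, mul_one] at hcc
    exact ⟨c, hc, hcc⟩
  have hgen : ∀ x : U, ∃ a ∈ Subring.closure (S0 A A'), a w₀ = x := by
    have hcyc := hmin w₀ hw₀
    obtain ⟨T, hT⟩ : ∃ T : Submodule F U,
        ∀ x, x ∈ T ↔ ∃ a ∈ Subring.closure (S0 A A'), a w₀ = x := by
      refine ⟨{ carrier := {x | ∃ a ∈ Subring.closure (S0 A A'), a w₀ = x}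
                add_mem' := ?_
                zero_mem' := ?_
                smul_mem' := ?_ }, fun x => Iff.rfl⟩
      · rintro x y ⟨a, ha, rfl⟩ ⟨b, hb, rfl⟩
        exact ⟨a + b, add_mem ha hb, LinearMap.add_apply a b w₀⟩
      · exact ⟨0, zero_mem _, LinearMap.zero_apply w₀⟩
      · rintro c x ⟨a, ha, rfl⟩
        refine ⟨algebraMap F (Module.End F U) c * a, mul_mem (hRalg c) ha, ?_⟩
        rw [Module.End.mul_apply, Module.algebraMap_end_apply]
    have hle : cyc s w₀ ≤ T := by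
      unfold cyc
      rw [Submodule.span_le]
      rintro _ ⟨i, rfl⟩
      rw [SetLike.mem_coe, hT]
      refine ⟨A ^ i, pow_mem hAmem i, ?_⟩
      show (A ^ i) w₀ = (s ^ i) w₀
      rw [hA, ← pow_apply_equiv]
    intro x
    have h3 : x ∈ T := hle (by rw [hcyc]; exact Submodule.mem_top)
    exact (hT x).mp h3
  exact core h2 hβ (Subring.closure (S0 A A')) hRcomm hRst hRalg hdich hnorm hinv w₀ hw₀ hgen

end Cfsg.Agent.Lib.Helper43.SPCOUNT
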