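import Mathlib
import Cfsg.Agent.Lib.Helper43.SPStmt
import Cfsg.Agent.Lib.Helper45.PlusInndiag
import Cfsg.Agent.Lib.Helper45.OmegaAutSim
import Cfsg.Agent.Lib.Helper45.OmegaAutD8

set_option autoImplicit false

/-! Generic class fusion of semisimple elements of odd order (no hypothesis on the structure of
`D0 / Inn`), and S2720 from the pieces. -/

namespace Cfsg.Agent.Lib.Helper43.SPFin

open Matrix
open Cfsg.Agent.Lib.Helper44.QSpace Cfsg.Agent.Lib.Helper44.OGroup Cfsg.Agent.Lib.Helper44.OMat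
open Cfsg.Agent.Lib.Helper45.OmegaAut Cfsg.Agent.Lib.Helper45.OmegaAutPsi
open Cfsg.Agent.Lib.Helper45.OmegaAutMain Cfsg.Agent.Lib.Helper45.OmegaInndiag
open Cfsg.Agent.Lib.Helper45.OmegaAutD8 Cfsg.Agent.Lib.Helper45.OmegaAutIdx
open Cfsg.Agent.Lib.Helper44.SMStmt Cfsg.Agent.Lib.Helper43.SPStmt

universe u

theorem conj_mul_inv {G : Type*} [Group G] {d x : G} (hdx : d * x = x * d) (h : G) :
    (h * d⁻¹) * x * (h * d⁻¹)⁻¹ = h * x * h⁻¹ := by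
  have h1 : d⁻¹ * x * d = x := by rw [mul_assoc, ← hdx, ← mul_assoc, inv_mul_cancel, one_mul]
  calc (h * d⁻¹) * x * (h * d⁻¹)⁻¹ = h * (d⁻¹ * x * d) * h⁻¹ := by group
    _ = h * x * h⁻¹ := by rw [h1]

/-- The generic statement: class fusion of a semisimple element of odd order. -/
theorem generic (hLift : Lift.{u}) (hComm : Comm.{u}) (hFix : FixRefl.{u}) (hNoFix : NoFixDet.{u})
    (hCos : PgoCoset.{u}) (hPo : PoMem.{u}) (hPso : PsoLe.{u})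
    (hSpin : SpinMat.{u}) (hPsoCos : PsoCos.{u}) (hInnCos : InnCos.{u})
    {F : Type u} [Field F] [Fintype F] {ι : Type} [Fintype ι] [DecidableEq ι]
    (Q : QuadraticForm F (ι → F)) (h2 : (2 : F) ≠ 0) (hS : Sep Q) {k : ℕ}
    (hk : Fintype.card ι = 2 * k) (hn : 5 ≤ Fintype.card ι) {v₀ : ι → F} (hv₀ : Q v₀ ≠ 0)
    (hg₀ : ∃ g : ↥(Cfsg.Geo.quadSimilarityGroup (F := F) ⇑Q), ¬ IsSquare (mu Q g))
    (x : MulAut (Cfsg.POmega F ⇑Q)) (hx : x ∈ Cfsg.pgoAut F ⇑Q) {r : ℕ} (hro : Odd r)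
    (hrF : (r : F) ≠ 0) (hxr : x ^ r = 1) :
    (∀ y : MulAut (Cfsg.POmega F ⇑Q),
      (Cfsg.IsConjUnder (Cfsg.Inn (Cfsg.POmega F ⇑Q)) x y ↔ Cfsg.IsConjUnder (D0 Q hv₀ k) x y) ∧
      (Cfsg.IsConjUnder (Cfsg.psoAut F ⇑Q) x y ↔ Cfsg.IsConjUnder (D0 Q hv₀ k) x y)) ∧
    (∀ y : MulAut (Cfsg.POmega F ⇑Q),
      Cfsg.IsConjUnder (Cfsg.poAut F ⇑Q) x y ↔ Cfsg.IsConjUnder (Cfsg.pgoAut F ⇑Q) x y) := by
  obtain ⟨s, hsiso, hsr, hsx⟩ := hLift F ι Q h2 hS hn x hx r hro hxr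
  obtain ⟨g₀, hg₀⟩ := hg₀
  obtain ⟨δ₁, hδ₁s, hδ₁μ⟩ := hComm F ι Q hS v₀ hv₀ s g₀ hsiso r hro hrF hsr
  obtain ⟨δ, hδs, hδμ, hδdl⟩ : ∃ δ : ↥(Cfsg.Geo.quadSimilarityGroup (F := F) ⇑Q),
      δ * s = s * δ ∧ ¬ IsSquare (mu Q δ) ∧ dl Q hv₀ k δ = 1 := by
    by_cases hfix : ∃ v : ι → F, v ≠ 0 ∧ ((s : GL ι F) : Matrix ι ι F) *ᵥ v = v
    · obtain ⟨u, hu, hur⟩ := hFix F ι Q h2 hS s hsiso r hrF hsr hfix
      rcases dl_pm Q hv₀ hS hk δ₁ with h | h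
      · exact ⟨δ₁, hδ₁s, by rw [hδ₁μ]; exact hg₀, h⟩
      · refine ⟨δ₁ * rfl' Q u, ?_, ?_, ?_⟩
        · rw [mul_assoc, hur, ← mul_assoc, hδ₁s, mul_assoc]
        · have hmu : mu Q (δ₁ * rfl' Q u) = mu Q δ₁ := by
            have h3 := map_mul (muHom Q hv₀) δ₁ (rfl' Q u)
            rw [muHom_apply, muHom_apply, muHom_apply, mu_iso Q hv₀ _ (rfl'_mem_iso Q u),
              mul_one] at h3
            exact h3
          rw [hmu, hδ₁μ]; exact hg₀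
        · rw [map_mul, h, dl_rfl' Q hv₀ k hu, neg_mul_neg, one_mul]
    · refine ⟨δ₁, hδ₁s, by rw [hδ₁μ]; exact hg₀, ?_⟩
      apply hNoFix F ι Q h2 hS k hk v₀ hv₀ s δ₁ hsiso r hro hsr ?_ hδ₁s
      intro v hv
      by_contra hv0
      exact hfix ⟨v, hv0, hv⟩
  -- the commuting element of `SO ∖ Ω`
  obtain ⟨s', hs'⟩ : ∃ s' : ↥(Cfsg.isometryGroup F ⇑Q), s' = ⟨(s : GL ι F), hsiso⟩ := ⟨_, rfl⟩
  have hs'v : (s' : GL ι F) = (s : GL ι F) := by rw [hs']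
  have hs'r : s' ^ r = 1 := by
    apply Subtype.ext
    rw [Subgroup.coe_pow, hs'v, Subgroup.coe_one]
    have h1 := congrArg Subtype.val hsr
    rw [Subgroup.coe_pow, Subgroup.coe_one] at h1
    exact h1
  obtain ⟨σ, hσΩ, hσs⟩ := hSpin F ι Q h2 hS k hk (by omega) s' r hro hrF hs'r
  obtain ⟨d, hd⟩ : ∃ d : MulAut (Cfsg.POmega F ⇑Q), d = Phi ⇑Q δ := ⟨_, rfl⟩
  obtain ⟨e, he⟩ : ∃ e : MulAut (Cfsg.POmega F ⇑Q), e = fSO Q σ := ⟨_, rfl⟩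
  have hdx : d * x = x * d := by rw [hd, ← hsx, ← map_mul, ← map_mul, hδs]
  have hex : e * x = x * e := by
    have h1 : inclSO Q σ * s = s * inclSO Q σ := by
      apply Subtype.ext
      rw [Subgroup.coe_mul, Subgroup.coe_mul, inclSO_coe, ← hs'v]
      have h3 := congrArg Subtype.val hσs
      rw [Subgroup.coe_mul, Subgroup.coe_mul] at h3
      exact h3
    have h4 : fSO Q σ = Phi ⇑Q (inclSO Q σ) := rfl
    rw [he, h4, ← hsx, ← map_mul, ← map_mul, h1]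
  have key1 : ∀ h ∈ D0 Q hv₀ k, ∃ t ∈ Cfsg.Inn (Cfsg.POmega F ⇑Q),
      t * x * t⁻¹ = h * x * h⁻¹ := by
    intro h hh
    rcases hPsoCos F ι Q h2 hS k hk hn v₀ hv₀ δ hδμ hδdl h hh with h1 | h1
    · rcases hInnCos F ι Q h2 hS (by omega) σ hσΩ h h1 with h3 | h3
      · exact ⟨h, h3, rfl⟩
      · rw [← he] at h3
        exact ⟨h * e⁻¹, h3, conj_mul_inv hex h⟩
    · rw [← hd] at h1
      rcases hInnCos F ι Q h2 hS (by omega) σ hσΩ (h * d⁻¹) h1 with h3 | h3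
      · exact ⟨h * d⁻¹, h3, conj_mul_inv hdx h⟩
      · rw [← he] at h3
        exact ⟨h * d⁻¹ * e⁻¹, h3, (conj_mul_inv hex (h * d⁻¹)).trans (conj_mul_inv hdx h)⟩
  have key2 : ∀ h ∈ Cfsg.pgoAut F ⇑Q, ∃ t ∈ Cfsg.poAut F ⇑Q,
      t * x * t⁻¹ = h * x * h⁻¹ := by
    intro h hh
    rcases hCos F ι Q h2 v₀ hv₀ δ hδμ h hh with h1 | h1
    · exact ⟨h, h1, rfl⟩
    · rw [← hd] at h1
      exact ⟨h * d⁻¹, h1, conj_mul_inv hdx h⟩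
  refine ⟨fun y => ⟨⟨?_, ?_⟩, ⟨?_, ?_⟩⟩, fun y => ⟨?_, ?_⟩⟩
  · rintro ⟨h, hh, rfl⟩
    exact ⟨h, inn_le_D0 Q hv₀ k hh, rfl⟩
  · rintro ⟨h, hh, rfl⟩
    obtain ⟨t, ht, hte⟩ := key1 h hh
    exact ⟨t, ht, hte.symm⟩
  · rintro ⟨h, hh, rfl⟩
    exact ⟨h, hPso F ι Q h2 hS k hk v₀ hv₀ hh, rfl⟩
  · rintro ⟨h, hh, rfl⟩
    obtain ⟨t, ht, hte⟩ := key1 h hh
    exact ⟨t, inn_le_pso Q ht, hte.symm⟩
  · rintro ⟨h, hh, rfl⟩
    exact ⟨h, (hPo F ι Q).2 hh, rfl⟩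
  · rintro ⟨h, hh, rfl⟩
    obtain ⟨t, ht, hte⟩ := key2 h hh
    exact ⟨t, ht, hte.symm⟩

/-- S2720 from the pieces. -/
theorem final_of (hLift : Lift.{u}) (hComm : Comm.{u}) (hFix : FixRefl.{u}) (hNoFix : NoFixDet.{u})
    (hCos : PgoCoset.{u}) (hPo : PoMem.{u}) (hPso : PsoLe.{u})
    (hSpin : SpinMat.{u}) (hPsoCos : PsoCos.{u}) (hInnCos : InnCos.{u})
    {F : Type u} [Field F] [Fintype F] {p : ℕ} [Fact p.Prime] [CharP F p] (hp : p ≠ 2) {m : ℕ}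
    (hm : 4 ≤ m) (x : MulAut (Cfsg.POmega F (Cfsg.quadFormPlus m F)))
    (hx : x ∈ Cfsg.pgoAut F (Cfsg.quadFormPlus m F)) {r : ℕ} (hr : r.Prime) (hro : Odd r)
    (hrp : r ≠ p) (hxr : orderOf x = r) :
    (∀ y : MulAut (Cfsg.POmega F (Cfsg.quadFormPlus m F)), (Cfsg.IsConjUnder (Cfsg.Inn (Cfsg.POmega F (Cfsg.quadFormPlus m F))) x y ↔ Cfsg.IsConjUnder (Cfsg.inndiagPOmegaPlus m F) x y) ∧ (Cfsg.IsConjUnder (Cfsg.psoAut F (Cfsg.quadFormPlus m F)) x y ↔ Cfsg.IsConjUnder (Cfsg.inndiagPOmegaPlus m F) x y)) ∧ (∀ y : MulAut (Cfsg.POmega F (Cfsg.quadFormPlus m F)), Cfsg.IsConjUnder (Cfsg.poAut F (Cfsg.quadFormPlus m F)) x y ↔ Cfsg.IsConjUnder (Cfsg.pgoAut F (Cfsg.quadFormPlus m F)) x y) := by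
  have hpp : p.Prime := Fact.out
  have h2 : (2 : F) ≠ 0 := by
    intro h0
    have h1 : ((2 : ℕ) : F) = 0 := by exact_mod_cast h0
    have h3 := (CharP.cast_eq_zero_iff F p 2).mp h1
    exact hp ((Nat.prime_dvd_prime_iff_eq hpp Nat.prime_two).mp h3)
  have hrF : ((r : ℕ) : F) ≠ 0 := by
    intro h0
    have h3 := (CharP.cast_eq_zero_iff F p r).mp h0
    exact hrp ((Nat.prime_dvd_prime_iff_eq hpp hr).mp h3).symm
  have hcardι : Fintype.card (Fin m ⊕ Fin m) = 2 * m := by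
    simp only [Fintype.card_sum, Fintype.card_fin]; omega
  have hn : 5 ≤ Fintype.card (Fin m ⊕ Fin m) := by rw [hcardι]; omega
  have hS := Cfsg.Agent.Lib.Helper44.NegPairs.sep_plusQ (F := F) m
  have : Nontrivial (Fin m ⊕ Fin m → F) := by
    have : Nonempty (Fin m ⊕ Fin m) := ⟨Sum.inl ⟨0, by omega⟩⟩
    infer_instance
  obtain ⟨v₀, hv₀⟩ := Cfsg.Agent.Lib.Helper44.QSpace.exists_ne_zero hS
  have hδ := Cfsg.Agent.Lib.Helper45.OmegaAutSim.plus_sim (F := F) h2 m (by omega)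
  rw [Cfsg.Agent.Lib.Helper45.PlusInndiag.inndiag_plus_eq h2 (by omega : 1 ≤ m) hv₀]
  have hxr' : x ^ r = 1 := by rw [← hxr]; exact pow_orderOf_eq_one x
  exact generic hLift hComm hFix hNoFix hCos hPo hPso hSpin hPsoCos hInnCos
    (Cfsg.Agent.Lib.Helper44.NegPairs.plusQ m F) h2 hS hcardι hn hv₀ hδ x hx hro hrF hxr'

end Cfsg.Agent.Lib.Helper43.SPFin
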