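import Mathlib
import Cfsg.Agent.Lib.Helper43.SPStmt
import Cfsg.Agent.Lib.Helper97.SPMINSUB

set_option autoImplicit false

/-! S2720 (SPIN), piece GLUE: from the irreducible case on a cyclic nondegenerate submodule to
the whole space. -/

namespace Cfsg.Agent.Lib.Helper43.SPGLUE

open Module QuadraticMap
open Cfsg.Agent.Lib.Helper44.QSpace Cfsg.Agent.Lib.Helper44.OGroup
open Cfsg.Agent.Lib.Helper44.Parity Cfsg.Agent.Lib.Helper44.Spinor Cfsg.Agent.Lib.Helper44.Omega2
open Cfsg.Agent.Lib.Helper43.SPStmt Cfsg.Agent.Lib.Helper97.SPMINSUB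

universe u

variable {F : Type u} [Field F] {V : Type u} [AddCommGroup V] [Module F V]

/-- a reflection of a submodule is the restriction of the reflection of the space -/
theorem coe_reflE_res (Q : QuadraticForm F V) (W : Submodule F V) (v x : W) :
    ((reflE (res Q W) v x : W) : V) = reflE Q (v : V) (x : V) := by
  rw [reflE_apply, reflE_apply, polar_res]
  rfl

theorem coe_prod_res (Q : QuadraticForm F V) (W : Submodule F V) (vs : List W) (x : W) :
    (((vs.map (reflE (res Q W))).prod x : W) : V)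
      = ((vs.map (fun v : W => (v : V))).map (reflE Q)).prod (x : V) := by
  induction vs generalizing x with
  | nil => rfl
  | cons a t ih =>
    rw [List.map_cons, List.prod_cons, List.map_cons, List.map_cons, List.prod_cons,
      LinearEquiv.mul_apply, LinearEquiv.mul_apply, coe_reflE_res, ih]

theorem prod_orth (Q : QuadraticForm F V) (W : Submodule F V) (vs : List W) (x : V)
    (hx : ∀ y ∈ W, polar Q x y = 0) :
    ((vs.map (fun v : W => (v : V))).map (reflE Q)).prod x = x := by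
  induction vs with
  | nil => rfl
  | cons a t ih =>
    rw [List.map_cons, List.map_cons, List.prod_cons, LinearEquiv.mul_apply, ih]
    exact reflE_of_orth (hx _ a.2)

/-- orthogonal projection onto a nondegenerate submodule -/
theorem exists_proj [FiniteDimensional F V] {Q : QuadraticForm F V} (W : Submodule F V)
    (hW : Sep (res Q W)) (x : V) : ∃ y ∈ W, ∀ z ∈ W, polar Q (x - y) z = 0 := by
  have hB := nondegenerate_of_sep hW
  let φ : Module.Dual F W := (polarBilin Q x).comp W.subtype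
  refine ⟨(((LinearMap.BilinForm.toDual (polarBilin (res Q W)) hB).symm φ : W) : V),
    Submodule.coe_mem _, ?_⟩
  intro z hz
  have h1 := LinearMap.BilinForm.apply_toDual_symm_apply (B := polarBilin (res Q W)) (hB := hB)
    φ ⟨z, hz⟩
  have h2 : polar Q (((LinearMap.BilinForm.toDual (polarBilin (res Q W)) hB).symm φ : W) : V) z
      = polar Q x z := h1
  rw [polar_sub_left, h2, sub_self]

/-- the restriction of a linear equivalence to a stable submodule -/
def resE (s : V ≃ₗ[F] V) (W : Submodule F V) (h1 : ∀ x ∈ W, s x ∈ W)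
    (h2 : ∀ x ∈ W, s.symm x ∈ W) : W ≃ₗ[F] W where
  toFun x := ⟨s x, h1 x x.2⟩
  map_add' x y := Subtype.ext (by simp)
  map_smul' c x := Subtype.ext (by simp)
  invFun x := ⟨s.symm x, h2 x x.2⟩
  left_inv x := Subtype.ext (by simp)
  right_inv x := Subtype.ext (by simp)

theorem resE_apply (s : V ≃ₗ[F] V) (W : Submodule F V) (h1 : ∀ x ∈ W, s x ∈ W)
    (h2 : ∀ x ∈ W, s.symm x ∈ W) (x : W) : ((resE s W h1 h2 x : W) : V) = s (x : V) := rfl

theorem resE_pow (s : V ≃ₗ[F] V) (W : Submodule F V) (h1 : ∀ x ∈ W, s x ∈ W)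
    (h2 : ∀ x ∈ W, s.symm x ∈ W) (n : ℕ) (x : W) :
    ((((resE s W h1 h2) ^ n) x : W) : V) = (s ^ n) (x : V) := by
  induction n generalizing x with
  | zero => rfl
  | succ n ih =>
    rw [pow_succ, pow_succ, LinearEquiv.mul_apply, LinearEquiv.mul_apply, ih, resE_apply]

theorem symm_eq_pow {s : V ≃ₗ[F] V} {r : ℕ} (hr : 0 < r) (hsr : s ^ r = 1) (x : V) :
    s.symm x = (s ^ (r - 1)) x := by
  have h1 : s ((s ^ (r - 1)) x) = x := by
    have : (s ^ r) x = x := by rw [hsr]; rfl
    rw [← LinearEquiv.mul_apply, ← pow_succ']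
    have e : r - 1 + 1 = r := by omega
    rw [e]; exact this
  rw [LinearEquiv.symm_apply_eq, h1]

theorem main : Irr.{u} → Glue.{u} := by
  intro hIrr F _ _ V _ _ _ Q h2 hS s r hsO hodd hrF hsr hnofix w hw hSepW hmin
  classical
  have hr0 : 0 < r := hodd.pos
  have hst : ∀ x ∈ cyc s w, s x ∈ cyc s w := cyc_stable s w
  have hst' : ∀ x ∈ cyc s w, s.symm x ∈ cyc s w := by
    intro x hx
    rw [symm_eq_pow hr0 hsr]
    exact pow_mem_of_stable s (cyc s w) hst (r - 1) x hx
  have hwW : w ∈ cyc s w := mem_cyc_self s w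
  -- the restriction
  obtain ⟨s₁, hs₁⟩ : ∃ s₁ : ↥(cyc s w) ≃ₗ[F] ↥(cyc s w), s₁ = resE s (cyc s w) hst hst' :=
    ⟨_, rfl⟩
  have hs₁a : ∀ x : ↥(cyc s w), ((s₁ x : ↥(cyc s w)) : V) = s (x : V) := by
    intro x; rw [hs₁]; rfl
  have hs₁p : ∀ (n : ℕ) (x : ↥(cyc s w)), (((s₁ ^ n) x : ↥(cyc s w)) : V) = (s ^ n) (x : V) := by
    intro n x; rw [hs₁]; exact resE_pow s (cyc s w) hst hst' n x
  have hIH : IrrHyp (res Q (cyc s w)) s₁ r := by
    refine ⟨?_, hodd, hrF, ?_, ?_, ⟨⟨w, hwW⟩, hw⟩, ?_⟩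
    · intro x
      show Q ((s₁ x : ↥(cyc s w)) : V) = Q (x : V)
      rw [hs₁a]; exact hsO _
    · apply LinearEquiv.ext
      intro x
      apply Subtype.ext
      rw [hs₁p, hsr]; rfl
    · intro v hv
      have : s (v : V) = v := by rw [← hs₁a, hv]
      exact Subtype.ext (hnofix _ this)
    · intro w' hw'
      have hle := hmin (w' : V) w'.2 hw'
      rw [eq_top_iff]
      intro x _
      have hx : (x : V) ∈ cyc s (w' : V) := hle x.2
      have hmap : Submodule.map (cyc s w).subtype (cyc s₁ w') = cyc s (w' : V) := by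
        unfold cyc
        rw [Submodule.map_span]
        congr 1
        ext y
        constructor
        · rintro ⟨_, ⟨i, rfl⟩, rfl⟩
          exact ⟨i, (hs₁p i w').symm⟩
        · rintro ⟨i, rfl⟩
          exact ⟨_, ⟨i, rfl⟩, hs₁p i w'⟩
      rw [← hmap] at hx
      obtain ⟨y, hy, hyx⟩ := hx
      have : y = x := Subtype.ext hyx
      rw [← this]; exact hy
  obtain ⟨g₁, hcomm, hdet, hsign⟩ := hIrr F ↥(cyc s w) (res Q (cyc s w)) h2 hSepW s₁ r hIH
  -- dimension at least 2
  have hd : 2 ≤ finrank F ↥(cyc s w) := by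
    by_contra hlt
    have hle : finrank F ↥(cyc s w) ≤ 1 := by omega
    obtain ⟨v₀, hv₀⟩ := finrank_le_one_iff.mp hle
    obtain ⟨a, ha⟩ := hv₀ ⟨w, hwW⟩
    obtain ⟨b, hb⟩ := hv₀ (s₁ ⟨w, hwW⟩)
    have hw0 : w ≠ 0 := by
      rintro rfl
      exact hw (map_zero Q)
    have ha0 : a ≠ 0 := by
      rintro rfl
      rw [zero_smul] at ha
      exact hw0 (congrArg Subtype.val ha).symm
    have hv₀' : (v₀ : V) = a⁻¹ • w := by
      have h9 : a • (v₀ : V) = w := congrArg Subtype.val ha
      calc (v₀ : V) = a⁻¹ • (a • (v₀ : V)) := by rw [smul_smul, inv_mul_cancel₀ ha0, one_smul]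
        _ = a⁻¹ • w := by rw [h9]
    have hsw : s w = (b * a⁻¹) • w := by
      have h9 : b • (v₀ : V) = ((s₁ ⟨w, hwW⟩ : ↥(cyc s w)) : V) := congrArg Subtype.val hb
      rw [hs₁a] at h9
      rw [← h9, hv₀', smul_smul]
    have hq : Q (s w) = Q w := hsO w
    rw [hsw, q_smul] at hq
    have hcc : (b * a⁻¹) * (b * a⁻¹) = 1 := by
      have h3 : ((b * a⁻¹) * (b * a⁻¹) - 1) * Q w = 0 := by rw [sub_mul, hq, one_mul, sub_self]
      rcases mul_eq_zero.mp h3 with h | h
      · exact sub_eq_zero.mp h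
      · exact absurd h hw
    rcases mul_self_eq_one_iff.mp hcc with hc | hc
    · rw [hc, one_smul] at hsw
      exact hw0 (hnofix w hsw)
    · rw [hc] at hsw
      have hpow : ∀ i : ℕ, (s ^ i) w = ((-1 : F) ^ i) • w := by
        intro i
        induction i with
        | zero => simp
        | succ i ih =>
          rw [pow_succ', LinearEquiv.mul_apply, ih, map_smul, hsw, smul_smul, pow_succ]
      have h4 := hpow r
      rw [hsr, hodd.neg_one_pow] at h4
      have h5 : w = (-1 : F) • w := h4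
      have h6 : (2 : F) • w = 0 := by
        rw [two_smul]
        nth_rewrite 1 [h5]
        rw [neg_smul, one_smul, neg_add_cancel]
      rcases smul_eq_zero.mp h6 with h | h
      · exact h2 h
      · exact hw0 h
  -- reflections
  obtain ⟨vs₁, hvs₁, hg₁⟩ := cdp_of_two_ne_zero h2 hSepW g₁.1 g₁.2
  have hg₁' : g₁ = (vs₁.map (refl (res Q (cyc s w)))).prod := by
    apply Subtype.ext
    rw [coe_prod_refl]; exact hg₁
  have hdet' : detHom (res Q (cyc s w)) g₁ = 1 := hdet
  have hlen : Even vs₁.length := by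
    rw [hg₁', detHom_prod _ _ hvs₁] at hdet'
    by_contra hne
    rw [Nat.not_even_iff_odd] at hne
    rw [hne.neg_one_pow] at hdet'
    have h7 : ((-1 : Fˣ) : F) = ((1 : Fˣ) : F) := congrArg Units.val hdet'
    rw [Units.val_neg, Units.val_one] at h7
    apply h2
    have : (2 : F) = 1 - (-1) := by norm_num
    rw [this, h7, sub_self]
  have hns : ¬ IsSquare (vs₁.map (fun v => res Q (cyc s w) v)).prod := by
    intro hsq
    have hmem : (vs₁.map (refl (res Q (cyc s w)))).prod ∈ commutator (O (res Q (cyc s w))) :=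
      (mem_commutator_iff h2 hSepW hd vs₁ hvs₁).mpr ⟨hlen, hsq⟩
    rw [← hg₁'] at hmem
    have hker := Abelianization.commutator_subset_ker (signChar (res Q (cyc s w))) hmem
    rw [MonoidHom.mem_ker, hsign] at hker
    exact absurd hker (by decide)
  refine ⟨vs₁.map (fun v : ↥(cyc s w) => (v : V)), ?_, ?_, ?_, ?_⟩
  · intro v hv
    obtain ⟨v', hv', rfl⟩ := List.mem_map.mp hv
    exact hvs₁ v' hv'
  · rw [List.length_map]; exact hlen
  · rw [List.map_map]
    exact hns
  · apply LinearEquiv.ext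
    intro x
    rw [LinearEquiv.mul_apply, LinearEquiv.mul_apply]
    obtain ⟨y, hy, hz⟩ := exists_proj (cyc s w) hSepW x
    have hx : x = y + (x - y) := by abel
    have hPW : ∀ u : ↥(cyc s w),
        ((vs₁.map (fun v : ↥(cyc s w) => (v : V))).map (reflE Q)).prod (u : V)
          = ((g₁.1 u : ↥(cyc s w)) : V) := by
      intro u
      rw [hg₁, coe_prod_res]
    have hsz : ∀ u ∈ cyc s w, polar Q (s (x - y)) u = 0 := by
      intro u hu
      have h8 : polar Q (s (x - y)) (s (s.symm u)) = polar Q (x - y) (s.symm u) :=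
        polar_of_mem_O hsO _ _
      rw [LinearEquiv.apply_symm_apply] at h8
      rw [h8]
      exact hz _ (hst' u hu)
    have hc1 : ∀ u : ↥(cyc s w), g₁.1 (s₁ u) = s₁ (g₁.1 u) := by
      intro u
      have := congrArg (fun f : ↥(cyc s w) ≃ₗ[F] ↥(cyc s w) => f u) hcomm
      exact this
    rw [hx, map_add, map_add, map_add, map_add]
    congr 1
    · have e1 := hPW (s₁ ⟨y, hy⟩)
      rw [hs₁a] at e1
      have e2 := hPW ⟨y, hy⟩
      rw [e1, e2, hc1, hs₁a]
    · rw [prod_orth Q (cyc s w) vs₁ _ hsz, prod_orth Q (cyc s w) vs₁ _ hz]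

end Cfsg.Agent.Lib.Helper43.SPGLUE
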