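import Mathlib
import Cfsg.Agent.Lib.Helper43.SPStmt

set_option autoImplicit false

/-! Assembly of the irreducible case of the SPIN statement. -/

namespace Cfsg.Agent.Lib.Helper43.SPIrr

open Module QuadraticMap
open Cfsg.Agent.Lib.Helper44.QSpace Cfsg.Agent.Lib.Helper44.OGroup
open Cfsg.Agent.Lib.Helper44.Parity Cfsg.Agent.Lib.Helper44.Spinor
open Cfsg.Agent.Lib.Helper44.OConj
open Cfsg.Agent.Lib.Helper43.SPStmt

universe u

theorem main (hT : Torus.{u}) (hR : RingP.{u}) (hC : CountP.{u}) (hSg : SignP.{u})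
    (hD : DetAdj.{u}) : Irr.{u} := by
  intro F _ _ U _ _ _ Q h2 hS s r hI
  classical
  have hβ : (polarBilin Q).Nondegenerate := nondegenerate_of_sep hS
  obtain ⟨hstA, hcomm, hstar, hdich, hunit⟩ := hR F U Q h2 hS s r hI
  obtain ⟨M, hM, hcard⟩ := hC F U Q h2 hS s r hI
  obtain ⟨hsO, hodd, hr, hsr, hnf, ⟨w₀, hw₀⟩, hmin⟩ := hI
  haveI : Finite U := Module.finite_of_finite F
  haveI : Finite (Module.End F U) := DFunLike.finite _
  obtain ⟨A, hA⟩ : ∃ A : Module.End F U, A = (s : U →ₗ[F] U) := ⟨_, rfl⟩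
  obtain ⟨A', hA'⟩ : ∃ A' : Module.End F U, A' = (s.symm : U →ₗ[F] U) := ⟨_, rfl⟩
  rw [← hA, ← hA'] at hstA hcomm hstar hdich hunit hcard
  have h2E : IsUnit (2 : Module.End F U) := by
    have h3 : (2 : Module.End F U) = algebraMap F (Module.End F U) 2 := by
      rw [map_ofNat]
    rw [h3]
    exact (IsUnit.mk0 (2 : F) h2).map _
  have hw0 : w₀ ≠ 0 := by
    rintro rfl
    exact hw₀ (map_zero Q)
  have h1E : (1 : Module.End F U) ≠ 0 := by
    intro h
    have h3 := congrArg (fun φ : Module.End F U => φ w₀) h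
    exact hw0 h3
  have hAmem : A ∈ S0 A A' := Or.inl (Or.inl rfl)
  have hθ : ∃ θ ∈ Subring.closure (S0 A A'), IsUnit (θ - st hβ θ) :=
    ⟨A, Subring.subset_closure hAmem, by rw [hstA]; exact hunit⟩
  obtain ⟨g, hgR, c, hcR, hcu, hgc, hgg, a, hga, hdvd, hoddN⟩ :=
    hT (Module.End F U) (st hβ) (st_add hβ) (st_mul hβ) (st_one hβ) (st_st hβ) (S0 A A')
      hcomm hstar hdich h2E h1E hθ
  -- `g` commutes with `A`
  have hgA : g * A = A * g :=
    Cfsg.Agent.Lib.Helper40.StarCore.closure_commute (S0 A A') A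
      (fun x hx => hcomm x hx A hAmem) g hgR
  have hgg' : g * st hβ g = 1 := mul_eq_one_comm.mp hgg
  obtain ⟨gE, hgE⟩ : ∃ gE : U ≃ₗ[F] U, ∀ x, gE x = g x :=
    ⟨LinearEquiv.ofLinear g (st hβ g) hgg' hgg, fun x => rfl⟩
  have hgO : gE ∈ O Q := by
    intro x
    rw [hgE]
    have h3 : polar Q (st hβ g (g x)) x = polar Q (g x) (g x) := st_spec hβ g (g x) x
    have h4 : st hβ g (g x) = x := by
      have h5 := congrArg (fun φ : Module.End F U => φ x) hgg
      exact h5
    rw [h4, polar_self', polar_self'] at h3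
    exact (mul_left_cancel₀ h2 h3).symm
  have hpow : ∀ (n : ℕ) (x : U), (gE ^ n) x = (g ^ n) x := by
    intro n x
    rw [pow_apply_equiv]
    have h3 : (gE.toLinearMap : Module.End F U) = g := LinearMap.ext hgE
    rw [h3]
  refine ⟨⟨gE, hgO⟩, ?_, ?_, ?_⟩
  · -- commutes with `s`
    apply LinearEquiv.ext
    intro x
    show gE (s x) = s (gE x)
    rw [hgE, hgE]
    have h3 := congrArg (fun φ : Module.End F U => φ x) hgA
    rw [hA] at h3
    exact h3
  · -- determinant
    apply Units.ext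
    rw [LinearEquiv.coe_det, Units.val_one]
    have h3 : (gE : U →ₗ[F] U) = g := LinearMap.ext hgE
    rw [h3]
    have h4 := congrArg LinearMap.det hgc
    rw [map_mul, hD F U Q hβ c] at h4
    have h5 : LinearMap.det c ≠ 0 := (hcu.map LinearMap.det).ne_zero
    have h6 : (LinearMap.det g - 1) * LinearMap.det c = 0 := by linear_combination h4
    rcases mul_eq_zero.mp h6 with h | h
    · exact sub_eq_zero.mp h
    · exact absurd h h5
  · -- the sign character
    letI : Fintype {x : U // Q x = 1} := Fintype.ofFinite _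
    letI : DecidableEq {x : U // Q x = 1} := Classical.decEq _
    have hsign : signChar Q ⟨gE, hgO⟩ = Equiv.Perm.sign (permHom Q 1 ⟨gE, hgO⟩) := rfl
    rw [hsign]
    have hg2 : g ^ (2 ^ (a + 1)) = 1 := by
      rw [pow_succ, pow_mul, hga, neg_sq, one_pow]
    apply hSg {x : U // Q x = 1} (permHom Q 1 ⟨gE, hgO⟩) a
    · rw [← map_pow]
      have h3 : (⟨gE, hgO⟩ : ↥(O Q)) ^ (2 ^ (a + 1)) = 1 := by
        apply Subtype.ext
        rw [Subgroup.coe_pow, Subgroup.coe_one]
        apply LinearEquiv.ext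
        intro x
        rw [hpow, hg2]
        rfl
      rw [h3, map_one]
    · intro x hx
      rw [← map_pow] at hx
      have h3 := congrArg Subtype.val hx
      rw [permHom_apply, Subgroup.coe_pow] at h3
      have h4 : ((gE ^ (2 ^ a)) (x : U)) = -(x : U) := by
        rw [hpow, hga]
        rfl
      rw [h4] at h3
      have h5 : (2 : F) • (x : U) = 0 := by
        rw [two_smul]
        nth_rewrite 1 [← h3]
        exact neg_add_cancel _
      rcases smul_eq_zero.mp h5 with h | h
      · exact h2 h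
      · have h6 := x.2
        rw [h, map_zero] at h6
        exact zero_ne_one h6
    · rw [Fintype.card_eq_nat_card, hcard]
      exact Dvd.dvd.mul_right hdvd M
    · rw [Fintype.card_eq_nat_card, hcard]
      obtain ⟨t, ht⟩ := hdvd
      rw [ht, Nat.mul_div_cancel_left _ (by positivity)] at hoddN
      rw [ht, mul_assoc, Nat.mul_div_cancel_left _ (by positivity)]
      exact hoddN.mul hM

end Cfsg.Agent.Lib.Helper43.SPIrr
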