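import Mathlib
import Cfsg.Agent.Lib.Helper43.SPStmt

set_option autoImplicit false

/-! Piece S2720/RING: the ring `F[s, s⁻¹]` in the irreducible case. -/

namespace Cfsg.Agent.Lib.Helper43.SPRING

open Module QuadraticMap
open Cfsg.Agent.Lib.Helper44.QSpace Cfsg.Agent.Lib.Helper44.OGroup
open Cfsg.Agent.Lib.Helper44.Parity Cfsg.Agent.Lib.Helper44.Spinor
open Cfsg.Agent.Lib.Helper44.OConj
open Cfsg.Agent.Lib.Helper43.SPStmt

universe u

variable {F : Type u} [Field F] {U : Type u} [AddCommGroup U] [Module F U]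

/-- Basic facts on `A = s`, `A' = s⁻¹` as endomorphisms. -/
theorem basic [FiniteDimensional F U] {Q : QuadraticForm F U} (hS : Sep Q) {s : U ≃ₗ[F] U}
    {r : ℕ} (hsO : s ∈ O Q) (hodd : Odd r) (hsr : s ^ r = 1) :
    ((s : U →ₗ[F] U) : Module.End F U) * (s.symm : U →ₗ[F] U) = 1 ∧
    ((s.symm : U →ₗ[F] U) : Module.End F U) * (s : U →ₗ[F] U) = 1 ∧
    ((s : U →ₗ[F] U) : Module.End F U) ^ r = 1 ∧
    ((s.symm : U →ₗ[F] U) : Module.End F U) = ((s : U →ₗ[F] U) : Module.End F U) ^ (r - 1) ∧
    st (nondegenerate_of_sep hS) (s : U →ₗ[F] U) = (s.symm : U →ₗ[F] U) := by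
  have h1 : ((s : U →ₗ[F] U) : Module.End F U) * (s.symm : U →ₗ[F] U) = 1 := by
    apply LinearMap.ext
    intro x
    show s (s.symm x) = x
    exact s.apply_symm_apply x
  have h2 : ((s.symm : U →ₗ[F] U) : Module.End F U) * (s : U →ₗ[F] U) = 1 := by
    apply LinearMap.ext
    intro x
    show s.symm (s x) = x
    exact s.symm_apply_apply x
  have h3 : ((s : U →ₗ[F] U) : Module.End F U) ^ r = 1 := by
    apply LinearMap.ext
    intro v
    rw [← pow_apply_equiv, hsr]
    rfl
  refine ⟨h1, h2, h3, ?_, ?_⟩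
  · obtain ⟨k, hk⟩ := hodd
    have h4 : r = (r - 1) + 1 := by omega
    calc ((s.symm : U →ₗ[F] U) : Module.End F U)
        = (s.symm : U →ₗ[F] U) * ((s : U →ₗ[F] U) : Module.End F U) ^ r := by rw [h3, mul_one]
      _ = ((s.symm : U →ₗ[F] U) * ((s : U →ₗ[F] U) : Module.End F U))
            * ((s : U →ₗ[F] U) : Module.End F U) ^ (r - 1) := by
          nth_rewrite 1 [h4]
          rw [pow_succ', mul_assoc]
      _ = ((s : U →ₗ[F] U) : Module.End F U) ^ (r - 1) := by rw [h2, one_mul]
  · symm
    apply st_unique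
    intro u v
    have h5 := polar_O hsO (s.symm u) v
    rw [LinearEquiv.apply_symm_apply] at h5
    exact h5.symm

theorem main : RingP.{u} := by
  intro F _ _ U _ _ _ Q h2 hS s r hI
  classical
  obtain ⟨hsO, hodd, hr, hsr, hnf, ⟨w₀, hw₀⟩, hmin⟩ := hI
  have hβ : (polarBilin Q).Nondegenerate := nondegenerate_of_sep hS
  obtain ⟨hAA', hA'A, hAr, hA'pow, hstA⟩ := basic hS hsO hodd hsr
  obtain ⟨A, hA⟩ : ∃ A : Module.End F U, A = (s : U →ₗ[F] U) := ⟨_, rfl⟩
  obtain ⟨A', hA'⟩ : ∃ A' : Module.End F U, A' = (s.symm : U →ₗ[F] U) := ⟨_, rfl⟩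
  rw [← hA, ← hA'] at hAA' hA'A hstA
  rw [← hA] at hAr
  rw [← hA, ← hA'] at hA'pow
  rw [← hA, ← hA']
  have hAv : ∀ v, A v = s v := fun v => by rw [hA]; rfl
  have hstA' : st hβ A' = A := by rw [← hstA, st_st]
  -- commutativity of the generators
  have hcomm : ∀ x ∈ S0 A A', ∀ y ∈ S0 A A', x * y = y * x := by
    intro x hx y hy
    rcases hx with (hx | hx) | ⟨c, rfl⟩
    · rcases hy with (hy | hy) | ⟨d, rfl⟩
      · rw [hx, hy]
      · rw [Set.mem_singleton_iff] at hy
        rw [hx, hy, hAA', hA'A]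
      · exact (Algebra.commutes d x).symm
    · rw [Set.mem_singleton_iff] at hx
      rcases hy with (hy | hy) | ⟨d, rfl⟩
      · rw [hx, hy, hAA', hA'A]
      · rw [Set.mem_singleton_iff] at hy
        rw [hx, hy]
      · exact (Algebra.commutes d x).symm
    · exact Algebra.commutes c y
  have hstar : ∀ x ∈ S0 A A', st hβ x ∈ S0 A A' := by
    intro x hx
    rcases hx with (hx | hx) | ⟨c, rfl⟩
    · rw [hx, hstA]
      exact Or.inl (Or.inr rfl)
    · rw [Set.mem_singleton_iff] at hx
      rw [hx, hstA']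
      exact Or.inl (Or.inl rfl)
    · rw [st_algebraMap]
      exact Or.inr ⟨c, rfl⟩
  have hAmem : A ∈ S0 A A' := Or.inl (Or.inl rfl)
  have hA'mem : A' ∈ S0 A A' := Or.inl (Or.inr rfl)
  -- semisimplicity
  have hss : A.IsSemisimple := by
    apply Module.End.isSemisimple_of_squarefree_aeval_eq_zero
      (p := (Polynomial.X ^ r - 1 : Polynomial F))
    · exact (Polynomial.X_pow_sub_one_separable_iff.mpr hr).squarefree
    · rw [map_sub, map_pow, Polynomial.aeval_X, map_one, hAr, sub_self]
  have hle : Subring.closure (S0 A A') ≤ (Algebra.adjoin F {A}).toSubring := by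
    rw [Subring.closure_le]
    intro x hx
    rcases hx with (hx | hx) | ⟨c, rfl⟩
    · rw [hx]
      exact Algebra.self_mem_adjoin_singleton F A
    · rw [Set.mem_singleton_iff] at hx
      rw [hx, hA'pow]
      exact pow_mem (Algebra.self_mem_adjoin_singleton F A) _
    · exact Subalgebra.algebraMap_mem _ c
  have hred : ∀ b ∈ Subring.closure (S0 A A'), b * b = 0 → b = 0 := by
    intro b hb hbb
    have h3 : b.IsSemisimple := Module.End.IsSemisimple.of_mem_adjoin_singleton hss (hle hb)
    exact Module.End.eq_zero_of_isNilpotent_isSemisimple ⟨2, by rw [pow_two]; exact hbb⟩ h3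
  have hcommA : ∀ b ∈ Subring.closure (S0 A A'), b * A = A * b := by
    intro b hb
    exact Cfsg.Agent.Lib.Helper40.StarCore.closure_commute (S0 A A') A
      (fun x hx => hcomm x hx A hAmem) b hb
  have hdich : ∀ b ∈ Subring.closure (S0 A A'), st hβ b = b → b = 0 ∨ IsUnit b := by
    intro b hb hstb
    by_cases hb0 : b = 0
    · exact Or.inl hb0
    right
    have hbb : b * b ≠ 0 := fun h => hb0 (hred b hb h)
    -- a nonsingular vector in the range of `b`
    obtain ⟨y, hy⟩ : ∃ y, b (b y) ≠ 0 := by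
      by_contra hcon
      push_neg at hcon
      apply hbb
      apply LinearMap.ext
      intro y
      exact hcon y
    obtain ⟨x, hx⟩ : ∃ x, polar Q x (b (b y)) ≠ 0 := by
      by_contra hcon
      push_neg at hcon
      apply hy
      apply hS
      intro x
      rw [polar_comm]
      exact hcon x
    have hpol : polar Q (b x) (b y) ≠ 0 := by
      have h3 := st_spec hβ b x (b y)
      rw [hstb] at h3
      rw [h3]
      exact hx
    obtain ⟨z, hzQ, x', hz⟩ : ∃ z, Q z ≠ 0 ∧ ∃ x', z = b x' := by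
      by_contra hcon
      push_neg at hcon
      have h3 : Q (b x) = 0 := by
        by_contra h
        exact hcon (b x) h x rfl
      have h4 : Q (b y) = 0 := by
        by_contra h
        exact hcon (b y) h y rfl
      have h5 : Q (b (x + y)) = 0 := by
        by_contra h
        exact hcon (b (x + y)) h (x + y) rfl
      apply hpol
      unfold polar
      rw [← map_add, h5, h3, h4]
      ring
    have hcyc := hmin z hzQ
    have hrange : cyc s z ≤ LinearMap.range b := by
      unfold cyc
      rw [Submodule.span_le]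
      rintro _ ⟨i, rfl⟩
      refine ⟨(s ^ i) x', ?_⟩
      show b ((s ^ i) x') = (s ^ i) z
      rw [pow_apply_equiv, pow_apply_equiv, hz]
      have h3 : b * ((s : U →ₗ[F] U) : Module.End F U) ^ i
          = ((s : U →ₗ[F] U) : Module.End F U) ^ i * b := by
        rw [← hA]
        exact ((show Commute b A from hcommA b hb).pow_right i).eq
      have h4 := congrArg (fun φ : Module.End F U => φ x') h3
      exact h4
    rw [hcyc, top_le_iff] at hrange
    exact (LinearMap.isUnit_iff_range_eq_top b).mpr hrange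
  refine ⟨hstA, hcomm, hstar, hdich, ?_⟩
  -- `A - A'` is a unit
  obtain ⟨D, hD⟩ : ∃ D : Module.End F U, D = A - A' := ⟨_, rfl⟩
  rw [← hD]
  have hDmem : D ∈ Subring.closure (S0 A A') := by
    rw [hD]
    exact sub_mem (Subring.subset_closure hAmem) (Subring.subset_closure hA'mem)
  have hstD : st hβ D = -D := by
    have h3 : st hβ D + st hβ A' = st hβ A := by
      rw [← st_add, hD, sub_add_cancel]
    rw [hstA, hstA'] at h3
    have h4 : st hβ D = A' - A := eq_sub_of_add_eq h3
    rw [h4, hD, neg_sub]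
  have hDD : st hβ (D * D) = D * D := by
    rw [st_mul, hstD, neg_mul_neg]
  rcases hdich (D * D) (mul_mem hDmem hDmem) hDD with h | h
  · exfalso
    have hD0 : D = 0 := hred D hDmem h
    have hAeq : A = A' := by
      rw [hD] at hD0
      exact sub_eq_zero.mp hD0
    have hA2 : A * A = 1 := by
      nth_rewrite 2 [hAeq]
      exact hAA'
    have hA1 : A = 1 := by
      obtain ⟨k, hk⟩ := hodd
      have h5 : A ^ r = A := by
        rw [hk, pow_succ, pow_mul, pow_two, hA2, one_pow, one_mul]
      rw [← h5, hAr]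
    have h6 : s w₀ = w₀ := by
      rw [← hAv, hA1]
      rfl
    have h7 := hnf w₀ h6
    rw [h7, map_zero] at hw₀
    exact hw₀ rfl
  · rw [LinearMap.isUnit_iff_ker_eq_bot] at h ⊢
    rw [LinearMap.ker_eq_bot'] at h ⊢
    intro x hx
    apply h
    rw [Module.End.mul_apply, hx, map_zero]

end Cfsg.Agent.Lib.Helper43.SPRING
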