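import Mathlib
import Cfsg.Agent.Lib.Helper43.SPFin
import Cfsg.Agent.Lib.Helper43.SPAbs
import Cfsg.Agent.Lib.Helper43.SPIrr
import Cfsg.Agent.Lib.Helper43.SPRING
import Cfsg.Agent.Lib.Helper43.SPCOUNT
import Cfsg.Agent.Lib.Helper43.SPGLUE
import Cfsg.Agent.Lib.Helper51.SPSIGN
import Cfsg.Agent.Lib.Helper57.SPDETADJ
import Cfsg.Agent.Lib.Helper57.SPFIXND
import Cfsg.Agent.Lib.Helper2.SPFIXPAR
import Cfsg.Agent.Lib.Helper97.SPFIXPAIR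
import Cfsg.Agent.Lib.Helper97.SPMINSUB
import Cfsg.Agent.Lib.Helper21.SPSPINMAT
import Cfsg.Agent.Lib.Helper45.SPINNCOS
import Cfsg.Agent.Lib.Helper45.SPPSOCOS
import Cfsg.Agent.Lib.Helper1.SMLIFT
import Cfsg.Agent.Lib.Helper43.SMCOMM
import Cfsg.Agent.Lib.Helper1.SMFIX
import Cfsg.Agent.Lib.Helper43.SMNOFIX
import Cfsg.Agent.Lib.Helper20.SMALT
import Cfsg.Agent.Lib.Helper7.SMDARB
import Cfsg.Agent.Lib.Helper20.SMSPD
import Cfsg.Agent.Lib.Helper8.SMPO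
import Cfsg.Agent.Lib.Helper7.SMCOS
import Cfsg.Agent.Lib.Helper7.SMPSO

set_option autoImplicit false

/-! S2720 from the single remaining piece `Torus` (all other pieces of the SPIN call landed). -/

namespace Cfsg.Agent.Lib.Helper43.SPAsm

open Cfsg.Agent.Lib.Helper43.SPStmt

universe u

theorem spinAltSimDet : Cfsg.Agent.Lib.Helper44.SMStmt.AltSimDet.{u} :=
  Cfsg.Agent.Lib.Helper20.SMALT.main Cfsg.Agent.Lib.Helper7.SMDARB.main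
    Cfsg.Agent.Lib.Helper20.SMSPD.main

theorem irr_of_torus (hT : Torus.{u}) : Irr.{u} :=
  Cfsg.Agent.Lib.Helper43.SPIrr.main hT Cfsg.Agent.Lib.Helper43.SPRING.main
    (Cfsg.Agent.Lib.Helper43.SPCOUNT.main Cfsg.Agent.Lib.Helper43.SPRING.main)
    Cfsg.Agent.Lib.Helper51.SPSIGN.main Cfsg.Agent.Lib.Helper57.SPDETADJ.main

theorem spinAbs_of_torus (hT : Torus.{u}) : SpinAbs.{u} :=
  Cfsg.Agent.Lib.Helper43.SPAbs.main
    (Cfsg.Agent.Lib.Helper97.SPFIXPAIR.main Cfsg.Agent.Lib.Helper57.SPFIXND.main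
      Cfsg.Agent.Lib.Helper2.SPFIXPAR.main)
    Cfsg.Agent.Lib.Helper97.SPMINSUB.main
    (Cfsg.Agent.Lib.Helper43.SPGLUE.main (irr_of_torus hT))

theorem spinMat_of_torus (hT : Torus.{u}) : SpinMat.{u} :=
  Cfsg.Agent.Lib.Helper21.SPSPINMAT.main (spinAbs_of_torus hT)

/-- S2720, conditional on the piece `Torus` only. -/
theorem final_of_torus (hT : Torus.{u})
    {F : Type u} [Field F] [Fintype F] {p : ℕ} [Fact p.Prime] [CharP F p] (hp : p ≠ 2) {m : ℕ}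
    (hm : 4 ≤ m) (x : MulAut (Cfsg.POmega F (Cfsg.quadFormPlus m F)))
    (hx : x ∈ Cfsg.pgoAut F (Cfsg.quadFormPlus m F)) {r : ℕ} (hr : r.Prime) (hro : Odd r)
    (hrp : r ≠ p) (hxr : orderOf x = r) :
    (∀ y : MulAut (Cfsg.POmega F (Cfsg.quadFormPlus m F)), (Cfsg.IsConjUnder (Cfsg.Inn (Cfsg.POmega F (Cfsg.quadFormPlus m F))) x y ↔ Cfsg.IsConjUnder (Cfsg.inndiagPOmegaPlus m F) x y) ∧ (Cfsg.IsConjUnder (Cfsg.psoAut F (Cfsg.quadFormPlus m F)) x y ↔ Cfsg.IsConjUnder (Cfsg.inndiagPOmegaPlus m F) x y)) ∧ (∀ y : MulAut (Cfsg.POmega F (Cfsg.quadFormPlus m F)), Cfsg.IsConjUnder (Cfsg.poAut F (Cfsg.quadFormPlus m F)) x y ↔ Cfsg.IsConjUnder (Cfsg.pgoAut F (Cfsg.quadFormPlus m F)) x y) :=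
  Cfsg.Agent.Lib.Helper43.SPFin.final_of Cfsg.Agent.Lib.Helper1.SMLIFT.main
    Cfsg.Agent.Lib.Helper43.SMCOMM.main Cfsg.Agent.Lib.Helper1.SMFIX.main
    (Cfsg.Agent.Lib.Helper43.SMNOFIX.main spinAltSimDet)
    (Cfsg.Agent.Lib.Helper7.SMCOS.main Cfsg.Agent.Lib.Helper8.SMPO.main)
    Cfsg.Agent.Lib.Helper8.SMPO.main Cfsg.Agent.Lib.Helper7.SMPSO.main
    (spinMat_of_torus hT) Cfsg.Agent.Lib.Helper45.SPPSOCOS.main
    Cfsg.Agent.Lib.Helper45.SPINNCOS.main hp hm x hx hr hro hrp hxr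

end Cfsg.Agent.Lib.Helper43.SPAsm
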