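import Mathlib
import Cfsg.Agent.Lib.Helper43.SUBase

set_option autoImplicit false

namespace Cfsg.Agent.Lib.Helper43.SUAlg

open Cfsg.Agent.Lib.Helper43.SUBase

variable {F : Type*} [Field F] {q k : ℕ} (D : QD F q)

/-- validity of a pair `(a, c)` -/
def Ok' (a : Fin k → F) (c : F) : Prop := c + D.φ c + D.h a a = 0

theorem φ_symm (σ : RingAut F) (x : F) : D.φ (σ x) = σ (D.φ x) := by
  rw [D.hφ, D.hφ, map_pow]

theorem h_single_single (j : Fin k) :
    D.h (Pi.single j 1 : Fin k → F) (Pi.single j 1) = 1 := by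
  rw [D.h_single_right, Pi.single_eq_same]

theorem single_ne_zero' (j : Fin k) : (Pi.single j 1 : Fin k → F) ≠ 0 := by
  intro h
  have := congrFun h j
  rw [Pi.single_eq_same] at this
  exact one_ne_zero this

theorem map_zero_of_add {A : (Fin k → F) → (Fin k → F)} (hadd : ∀ a b, A (a + b) = A a + A b) :
    A 0 = 0 := by
  have := hadd 0 0
  rw [add_zero] at this
  exact left_eq_add.1 this

/-- a scalar-compatible additive injection is semilinear -/
theorem exists_sigma [Finite F] {A : (Fin k → F) → (Fin k → F)} (hk : 1 ≤ k)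
    (hadd : ∀ a b, A (a + b) = A a + A b) (hinj : Function.Injective A)
    (hsc : ∀ x : F, ∃ μ : F, ∀ a, A (x • a) = μ • A a) :
    ∃ σ : RingAut F, ∀ (x : F) (a : Fin k → F), A (x • a) = σ x • A a := by
  classical
  have hA0 := map_zero_of_add hadd
  obtain ⟨a₀, ha₀⟩ : ∃ a₀ : Fin k → F, a₀ ≠ 0 := ⟨_, single_ne_zero' ⟨0, hk⟩⟩
  have hAa₀ : A a₀ ≠ 0 := by
    intro h0
    rw [← hA0] at h0
    exact ha₀ (hinj h0)
  choose μ hμ using hsc
  have cancel : ∀ {s s' : F}, s • A a₀ = s' • A a₀ → s = s' := by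
    intro s s' h
    have h1 : (s - s') • A a₀ = 0 := by rw [sub_smul, h, sub_self]
    rcases smul_eq_zero.1 h1 with h2 | h2
    · exact sub_eq_zero.1 h2
    · exact absurd h2 hAa₀
  have h1 : μ 1 = 1 := by
    apply cancel
    rw [← hμ, one_smul, one_smul]
  have hmul : ∀ x y, μ (x * y) = μ x * μ y := by
    intro x y
    apply cancel
    rw [← hμ, mul_smul, hμ, hμ, smul_smul]
  have hadd' : ∀ x y, μ (x + y) = μ x + μ y := by
    intro x y
    apply cancel
    rw [← hμ, add_smul, hadd, hμ, hμ, add_smul]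
  have h0 : μ 0 = 0 := by
    have := hadd' 0 0
    rw [add_zero] at this
    exact left_eq_add.1 this
  let f : F →+* F :=
    { toFun := μ
      map_one' := h1
      map_mul' := hmul
      map_zero' := h0
      map_add' := hadd' }
  have hbij : Function.Bijective f :=
    ⟨f.injective, Finite.injective_iff_surjective.1 f.injective⟩
  exact ⟨RingEquiv.ofBijective f hbij, fun x a => hμ x a⟩

/-- the fundamental theorem of projective geometry in the form needed -/
theorem scalar_of_lines {A A' : (Fin k → F) → (Fin k → F)} (hk : 2 ≤ k)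
    (hadd : ∀ a b, A (a + b) = A a + A b) (hA' : ∀ a, A' (A a) = a)
    (hL : ∀ (a : Fin k → F) (x : F), ∃ y : F, A (x • a) = y • A a)
    (hL' : ∀ (a : Fin k → F) (x : F), ∃ y : F, A' (x • a) = y • A' a) :
    ∀ x : F, ∃ μ : F, ∀ a, A (x • a) = μ • A a := by
  classical
  intro x
  have hA0 := map_zero_of_add hadd
  have hinj : Function.Injective A := Function.LeftInverse.injective hA'
  have hne : ∀ a : Fin k → F, a ≠ 0 → A a ≠ 0 := by
    intro a ha h0
    rw [← hA0] at h0
    exact ha (hinj h0)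
  choose y hy using fun a => hL a x
  -- independent vectors have the same multiplier
  have claim : ∀ a b : Fin k → F, a ≠ 0 → (∀ s : F, b ≠ s • a) → y a = y b := by
    intro a b ha hb
    have h1 : y (a + b) • (A a + A b) = y a • A a + y b • A b := by
      rw [← hadd, ← hy, smul_add, hadd, hy, hy]
    have h2 : (y (a + b) - y a) • A a + (y (a + b) - y b) • A b = 0 := by
      linear_combination (norm := module) h1
    have h3 : y (a + b) - y b = 0 := by
      by_contra hcon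
      have h4 : A b = (-(y (a + b) - y a) / (y (a + b) - y b)) • A a := by
        have h5 : (y (a + b) - y b) • A b = (-(y (a + b) - y a)) • A a := by
          linear_combination (norm := module) h2
        rw [div_eq_inv_mul, ← smul_smul, ← h5, smul_smul, inv_mul_cancel₀ hcon, one_smul]
      obtain ⟨r, hr⟩ := hL' (A a) (-(y (a + b) - y a) / (y (a + b) - y b))
      rw [← h4, hA', hA'] at hr
      exact hb r hr
    rw [h3, zero_smul, add_zero] at h2
    rcases smul_eq_zero.1 h2 with h4 | h4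
    · rw [← sub_eq_zero.1 h4, sub_eq_zero.1 h3]
    · exact absurd h4 (hne a ha)
  set a₀ : Fin k → F := Pi.single ⟨0, by omega⟩ 1 with ha₀
  set b₀ : Fin k → F := Pi.single ⟨1, by omega⟩ 1 with hb₀
  have ha₀0 : a₀ ≠ 0 := single_ne_zero' _
  have h01 : (⟨1, by omega⟩ : Fin k) ≠ ⟨0, by omega⟩ := by
    intro h
    have := congrArg Fin.val h
    simp at this
  refine ⟨y a₀, fun a => ?_⟩
  by_cases ha : a = 0
  · rw [ha, smul_zero, hA0, smul_zero]
  · rw [hy]
    congr 1
    by_cases hpar : ∃ s : F, a = s • a₀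
    · obtain ⟨s, hs⟩ := hpar
      have hb1 : ∀ r : F, b₀ ≠ r • a := by
        intro r hr
        have := congrFun hr ⟨1, by omega⟩
        rw [hs, hb₀, ha₀, Pi.single_eq_same, Pi.smul_apply, Pi.smul_apply,
          Pi.single_eq_of_ne h01, smul_zero, smul_zero] at this
        exact one_ne_zero this
      have hb2 : ∀ r : F, b₀ ≠ r • a₀ := by
        intro r hr
        have := congrFun hr ⟨1, by omega⟩
        rw [hb₀, ha₀, Pi.single_eq_same, Pi.smul_apply,
          Pi.single_eq_of_ne h01, smul_zero] at this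
        exact one_ne_zero this
      rw [claim a b₀ ha hb1, claim a₀ b₀ ha₀0 hb2]
    · push Not at hpar
      exact (claim a₀ a ha₀0 hpar).symm

/-- the torus argument in dimension three -/
theorem scalar_of_torus {A : (Fin k → F) → (Fin k → F)}
    (hadd : ∀ a b, A (a + b) = A a + A b)
    (hT : ∀ t : F, t ≠ 0 → ∃ μ : F, ∀ a, A ((D.φ t ^ 2 / t) • a) = μ • A a)
    (hq : ∃ t : F, t ≠ 0 ∧ D.φ (D.φ t ^ 2 / t) ≠ D.φ t ^ 2 / t) :
    ∀ x : F, ∃ μ : F, ∀ a, A (x • a) = μ • A a := by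
  have hA0 := map_zero_of_add hadd
  have S0 : ∃ μ : F, ∀ a, A ((0 : F) • a) = μ • A a :=
    ⟨0, fun a => by rw [zero_smul, zero_smul, hA0]⟩
  have Sadd : ∀ x y : F, (∃ μ : F, ∀ a, A (x • a) = μ • A a) →
      (∃ μ : F, ∀ a, A (y • a) = μ • A a) → ∃ μ : F, ∀ a, A ((x + y) • a) = μ • A a := by
    rintro x y ⟨μ, hμ⟩ ⟨μ', hμ'⟩
    exact ⟨μ + μ', fun a => by rw [add_smul, hadd, hμ, hμ', add_smul]⟩
  have Smul : ∀ x y : F, (∃ μ : F, ∀ a, A (x • a) = μ • A a) →
      (∃ μ : F, ∀ a, A (y • a) = μ • A a) → ∃ μ : F, ∀ a, A ((x * y) • a) = μ • A a := by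
    rintro x y ⟨μ, hμ⟩ ⟨μ', hμ'⟩
    exact ⟨μ * μ', fun a => by rw [mul_smul, hμ, hμ', smul_smul]⟩
  have Sfix : ∀ x : F, D.φ x = x → ∃ μ : F, ∀ a, A (x • a) = μ • A a := by
    intro x hx
    by_cases hx0 : x = 0
    · rw [hx0]
      exact S0
    · have h1 := hT x hx0
      have h2 : D.φ x ^ 2 / x = x := by
        rw [hx]
        field_simp
      rwa [h2] at h1
  obtain ⟨t₀, ht₀, hs₀⟩ := hq
  have Ss₀ := hT t₀ ht₀
  obtain ⟨s₀, hs₀'⟩ : ∃ s₀ : F, s₀ = D.φ t₀ ^ 2 / t₀ := ⟨_, rfl⟩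
  rw [← hs₀'] at Ss₀ hs₀
  intro x
  have hne : s₀ - D.φ s₀ ≠ 0 := fun h => hs₀ (sub_eq_zero.1 h).symm
  have hne' : D.φ s₀ - s₀ ≠ 0 := fun h => hs₀ (sub_eq_zero.1 h)
  have h2 : D.φ ((x - D.φ x) / (s₀ - D.φ s₀)) = (x - D.φ x) / (s₀ - D.φ s₀) := by
    rw [map_div₀, map_sub, map_sub, D.inv, D.inv]
    field_simp
    ring
  have h1 : D.φ (x - (x - D.φ x) / (s₀ - D.φ s₀) * s₀)
      = x - (x - D.φ x) / (s₀ - D.φ s₀) * s₀ := by
    rw [map_sub, map_mul, h2]
    field_simp
    ring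
  have hx : x = (x - (x - D.φ x) / (s₀ - D.φ s₀) * s₀) + (x - D.φ x) / (s₀ - D.φ s₀) * s₀ := by
    ring
  rw [hx]
  exact Sadd _ _ (Sfix _ h1) (Smul _ _ (Sfix _ h2) Ss₀)

/-- semilinear maps compatible with the commutator form are similarities -/
theorem similarity {A : (Fin k → F) → (Fin k → F)} {Z : F → F} {σ : RingAut F} (hk : 1 ≤ k)
    (hsl : ∀ (x : F) (a : Fin k → F), A (x • a) = σ x • A a)
    (hZ : ∀ a b : Fin k → F, Z (D.h a b - D.h b a) = D.h (A a) (A b) - D.h (A b) (A a))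
    (hZ0 : ∀ z : F, D.φ z = -z → Z z = 0 → z = 0) :
    ∃ ν : F, ν ≠ 0 ∧ D.φ ν = ν ∧ (∀ a b, D.h (A a) (A b) = σ (ν * D.h a b)) ∧
      ∀ z : F, D.φ z = -z → Z z = σ (ν * z) := by
  classical
  obtain ⟨a₀, ha₀⟩ : ∃ a₀ : Fin k → F, D.h a₀ a₀ = 1 := ⟨_, h_single_single D ⟨0, hk⟩⟩
  -- the basic identity
  have key : ∀ (a b : Fin k → F) (x : F),
      Z (x * D.h a b - D.φ (x * D.h a b))
        = σ x * D.h (A a) (A b) - D.φ (σ x * D.h (A a) (A b)) := by
    intro a b x
    have h1 := hZ (x • a) b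
    rw [hsl, D.h_smul_left, D.h_smul_left, D.h_smul_right, D.h_smul_right] at h1
    rw [map_mul, map_mul, D.h_symm, D.h_symm]
    exact h1
  obtain ⟨N₀, hN₀⟩ : ∃ N₀ : F, N₀ = D.h (A a₀) (A a₀) := ⟨_, rfl⟩
  have hN₀fix : D.φ N₀ = N₀ := by rw [hN₀, D.h_self_fixed]
  obtain ⟨ν, hν⟩ : ∃ ν : F, ν = σ.symm N₀ := ⟨_, rfl⟩
  have hσν : σ ν = N₀ := by rw [hν, RingEquiv.apply_symm_apply]
  have hνfix : D.φ ν = ν := by
    apply σ.injective
    rw [← φ_symm, hσν, hN₀fix]
  have key₀ : ∀ x : F, Z (x - D.φ x) = σ (ν * (x - D.φ x)) := by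
    intro x
    have h1 := key a₀ a₀ x
    rw [ha₀, mul_one, ← hN₀, map_mul, hN₀fix] at h1
    rw [h1, map_mul, map_sub, hσν, φ_symm]
    ring
  have hν0 : ν ≠ 0 := by
    intro h0
    obtain ⟨x, hx⟩ := D.ne
    have h1 := key₀ x
    rw [h0, zero_mul, map_zero] at h1
    have h2 : D.φ (x - D.φ x) = -(x - D.φ x) := by
      rw [map_sub, D.inv]
      ring
    exact hx (sub_eq_zero.1 (hZ0 _ h2 h1)).symm
  refine ⟨ν, hν0, hνfix, ?_, ?_⟩
  · intro a b
    have h1 : ν * D.h a b - σ.symm (D.h (A a) (A b)) = 0 := by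
      apply D.eq_zero_of_forall_fixed
      intro x
      have h2 := key a b x
      rw [key₀] at h2
      have h3 : σ x * D.h (A a) (A b) - D.φ (σ x * D.h (A a) (A b))
          = σ (x * σ.symm (D.h (A a) (A b)) - D.φ (x * σ.symm (D.h (A a) (A b)))) := by
        rw [map_sub σ, map_mul σ, RingEquiv.apply_symm_apply, ← φ_symm D σ, map_mul σ,
          RingEquiv.apply_symm_apply]
      rw [h3] at h2
      have h4 := σ.injective h2
      have e1 : D.φ (x * (ν * D.h a b - σ.symm (D.h (A a) (A b))))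
          = ν * D.φ (x * D.h a b) - D.φ (x * σ.symm (D.h (A a) (A b))) := by
        have e2 : x * (ν * D.h a b - σ.symm (D.h (A a) (A b)))
            = ν * (x * D.h a b) - x * σ.symm (D.h (A a) (A b)) := by ring
        rw [e2, map_sub, map_mul D.φ ν, hνfix]
      rw [e1]
      linear_combination -h4
    have h2 : σ.symm (D.h (A a) (A b)) = ν * D.h a b := (sub_eq_zero.1 h1).symm
    rw [← h2, RingEquiv.apply_symm_apply]
  · intro z hz
    obtain ⟨s, hs⟩ := D.exists_tr_one
    have h1 := key₀ (z * s)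
    have h2 : z * s - D.φ (z * s) = z := by
      rw [map_mul, hz]
      linear_combination z * hs
    rwa [h2] at h1

/-- the pair with a prescribed multiple -/
theorem exists_block {a : Fin k → F} {x : F} (hx : D.φ x ≠ x) :
    ∃ c : F, Ok' D a c ∧ Ok' D (x • a) (x * c) ∧ (D.h a a ≠ 0 → c ≠ 0) := by
  have hne : x - D.φ x ≠ 0 := fun h => hx (sub_eq_zero.1 h).symm
  have hN : D.φ (D.h a a) = D.h a a := D.h_self_fixed a
  have hx0 : x ≠ 0 := by
    rintro rfl
    exact hx (map_zero _)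
  have hφx0 : D.φ x ≠ 0 := by
    intro h0
    have := congrArg D.φ h0
    rw [D.inv, map_zero] at this
    exact hx0 this
  have hx1 : 1 - x ≠ 0 := by
    intro h
    have : x = 1 := (sub_eq_zero.1 h).symm
    rw [this] at hx
    exact hx (map_one _)
  have hc : D.φ (D.φ x * D.h a a * (1 - x) / (x - D.φ x))
      = x * D.h a a * (1 - D.φ x) / (D.φ x - x) := by
    rw [map_div₀, map_mul, map_mul, map_sub, map_sub, D.inv, hN, map_one]
  have hne' : D.φ x - x ≠ 0 := fun h => hx (sub_eq_zero.1 h)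
  refine ⟨D.φ x * D.h a a * (1 - x) / (x - D.φ x), ?_, ?_, ?_⟩
  · unfold Ok'
    rw [hc]
    field_simp
    ring
  · unfold Ok'
    rw [map_mul, hc, D.h_smul_left, D.h_smul_right]
    field_simp
    ring
  · intro hN0
    exact div_ne_zero (mul_ne_zero (mul_ne_zero hφx0 hN0) hx1) hne

/-- lines through anisotropic vectors -/
theorem lines_aniso {A : (Fin k → F) → (Fin k → F)} {Cc : (Fin k → F) → F → F}
    (hadd : ∀ a b, A (a + b) = A a + A b)
    (hblock : ∀ (a : Fin k → F) (c x : F), Ok' D a c → c ≠ 0 → x ≠ 0 → Ok' D (x • a) (x * c) →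
      ∃ y : F, A (x • a) = y • A a ∧ Cc (x • a) (x * c) = y * Cc a c)
    (a : Fin k → F) (ha : D.h a a ≠ 0) (x : F) : ∃ y : F, A (x • a) = y • A a := by
  have main : ∀ x : F, D.φ x ≠ x → ∃ y : F, A (x • a) = y • A a := by
    intro x hx
    have hx0 : x ≠ 0 := by
      rintro rfl
      exact hx (map_zero _)
    obtain ⟨c, h1, h2, h3⟩ := exists_block D (a := a) hx
    obtain ⟨y, hy, -⟩ := hblock a c x h1 (h3 ha) hx0 h2
    exact ⟨y, hy⟩
  by_cases hx : D.φ x = x
  · obtain ⟨x₁, hx₁⟩ := D.ne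
    have hx₂ : D.φ (x - x₁) ≠ x - x₁ := by
      intro h
      rw [map_sub, hx] at h
      exact hx₁ (sub_right_injective h)
    obtain ⟨y₁, hy₁⟩ := main x₁ hx₁
    obtain ⟨y₂, hy₂⟩ := main (x - x₁) hx₂
    refine ⟨y₂ + y₁, ?_⟩
    have : x • a = (x - x₁) • a + x₁ • a := by module
    rw [this, hadd, hy₁, hy₂, add_smul]
  · exact main x hx

/-- the final rigidity step -/
theorem cc_eq {Cc : (Fin k → F) → F → F}
    (hok : ∀ a c, Ok' D a c → Ok' D a (Cc a c))
    (hmul : ∀ a c b d, Ok' D a c → Ok' D b d →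
      Cc (a + b) (c + d - D.h b a) = Cc a c + Cc b d - D.h b a)
    (hZ : ∀ z : F, D.φ z = -z → Cc 0 z = z)
    (hblock : ∀ (a : Fin k → F) (c x : F), Ok' D a c → c ≠ 0 → x ≠ 0 → Ok' D (x • a) (x * c) →
      ∃ y : F, x • a = y • a ∧ Cc (x • a) (x * c) = y * Cc a c) :
    ∀ a c, Ok' D a c → Cc a c = c := by
  classical
  have skew_of : ∀ (a : Fin k → F) (c c' : F), Ok' D a c → Ok' D a c' →
      D.φ (c' - c) = -(c' - c) := by
    intro a c c' h1 h2
    unfold Ok' at h1 h2
    rw [map_sub]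
    linear_combination h2 - h1
  -- adding a skew element
  have shift : ∀ (a : Fin k → F) (c z : F), Ok' D a c → D.φ z = -z → Cc a (c + z) = Cc a c + z := by
    intro a c z h1 hz
    have h2 : Ok' D (0 : Fin k → F) z := by
      unfold Ok'
      rw [D.h_zero_left, hz]
      ring
    have h3 := hmul a c 0 z h1 h2
    rw [add_zero, D.h_zero_left, sub_zero, sub_zero, hZ z hz] at h3
    exact h3
  have indep : ∀ (a : Fin k → F) (c c' : F), Ok' D a c → Ok' D a c' →
      Cc a c' - c' = Cc a c - c := by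
    intro a c c' h1 h2
    have h3 := shift a c (c' - c) h1 (skew_of a c c' h1 h2)
    rw [add_sub_cancel] at h3
    rw [h3]
    ring
  -- anisotropic vectors
  have aniso : ∀ (a : Fin k → F) (c : F), D.h a a ≠ 0 → Ok' D a c → Cc a c = c := by
    intro a c ha hc
    obtain ⟨x, hx⟩ := D.ne
    have hx0 : x ≠ 0 := by
      rintro rfl
      exact hx (map_zero _)
    have ha0 : a ≠ 0 := by
      rintro rfl
      exact ha (D.h_zero_left _)
    obtain ⟨c', h1, h2, h3⟩ := exists_block D (a := a) hx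
    obtain ⟨y, hy, hy2⟩ := hblock a c' x h1 (h3 ha) hx0 h2
    have hyx : y = x := by
      have h4 : (x - y) • a = 0 := by rw [sub_smul, hy, sub_self]
      rcases smul_eq_zero.1 h4 with h5 | h5
      · exact (sub_eq_zero.1 h5).symm
      · exact absurd h5 ha0
    rw [hyx] at hy2
    -- `δ = Cc a c' - c'` and `δ' = Cc (x a) (x c') - x c'` are skew and `δ' = x δ`
    have hd1 := skew_of a c' (Cc a c') h1 (hok a c' h1)
    have hd2 := skew_of (x • a) (x * c') (Cc (x • a) (x * c')) h2 (hok _ _ h2)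
    rw [hy2] at hd2
    have h5 : x * Cc a c' - x * c' = x * (Cc a c' - c') := by ring
    rw [h5, map_mul, hd1] at hd2
    have h6 : (x - D.φ x) * (Cc a c' - c') = 0 := by linear_combination hd2
    have h7 : Cc a c' - c' = 0 := by
      rcases mul_eq_zero.1 h6 with h8 | h8
      · exact absurd (sub_eq_zero.1 h8).symm hx
      · exact h8
    have h8 := indep a c' c h1 hc
    rw [h7] at h8
    exact sub_eq_zero.1 h8
  -- the defect as an additive map
  choose cOf hcOf using fun a : Fin k → F => D.exists_c a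
  have hcOf' : ∀ a, Ok' D a (cOf a) := hcOf
  let δ : (Fin k → F) →+ F := AddMonoidHom.mk' (fun a => Cc a (cOf a) - cOf a) (by
    intro a b
    have h1 := hmul a (cOf a) b (cOf b) (hcOf' a) (hcOf' b)
    have h2 : Ok' D (a + b) (cOf a + cOf b - D.h b a) := by
      have ha := hcOf' a
      have hb := hcOf' b
      unfold Ok' at ha hb ⊢
      simp only [D.h_add_left, D.h_add_right, map_sub, map_add, D.h_symm]
      linear_combination ha + hb
    have h3 := indep (a + b) _ _ h2 (hcOf' (a + b))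
    show Cc (a + b) (cOf (a + b)) - cOf (a + b) = (Cc a (cOf a) - cOf a) + (Cc b (cOf b) - cOf b)
    rw [h3, h1]
    ring)
  have hδ : ∀ a, δ a = Cc a (cOf a) - cOf a := fun a => rfl
  have hδ0 : ∀ a, δ a = 0 := by
    intro a
    rw [pi_eq_sum_univ' a, map_sum]
    apply Finset.sum_eq_zero
    intro j _
    by_cases hj : a j = 0
    · rw [hj, zero_smul, map_zero]
    · rw [hδ]
      have hN : D.h (a j • (Pi.single j 1 : Fin k → F)) (a j • (Pi.single j 1 : Fin k → F)) ≠ 0 := by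
        rw [D.h_smul_left, D.h_smul_right, h_single_single, mul_one]
        refine mul_ne_zero hj (fun h0 => hj ?_)
        have := congrArg D.φ h0
        rwa [D.inv, map_zero] at this
      rw [aniso _ _ hN (hcOf' _), sub_self]
  intro a c hc
  have h1 := indep a (cOf a) c (hcOf' a) hc
  rw [← hδ, hδ0] at h1
  exact sub_eq_zero.1 h1

end Cfsg.Agent.Lib.Helper43.SUAlg
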