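import Mathlib
import Cfsg.Agent.Lib.Helper43.SUBase

set_option autoImplicit false

namespace Cfsg.Agent.Lib.Helper43.SUElt

open Matrix Cfsg.Agent.Lib.Helper43.SUBase

variable {F : Type*} [Field F] {q n : ℕ} (D : QD F q)

/-- the matrix of `x ↦ x + h(x,e) d - h(x,d) e + c h(x,e) e` -/
def Em (e d : Fin n → F) (c : F) : Matrix (Fin n) (Fin n) F :=
  (1 + vecMulVec (d + c • e) (D.φ ∘ e)) * (1 - vecMulVec e (D.φ ∘ d))

theorem tv_mulVec (a b x : Fin n → F) :
    (1 + vecMulVec a (D.φ ∘ b)) *ᵥ x = x + D.h x b • a := by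
  rw [Matrix.add_mulVec, Matrix.one_mulVec, Matrix.vecMulVec_mulVec, D.dot_eq]
  simp

theorem tv_mulVec' (a b x : Fin n → F) :
    (1 - vecMulVec a (D.φ ∘ b)) *ᵥ x = x - D.h x b • a := by
  rw [Matrix.sub_mulVec, Matrix.one_mulVec, Matrix.vecMulVec_mulVec, D.dot_eq]
  simp

theorem Em_mulVec {e : Fin n → F} (he : D.h e e = 0) (d : Fin n → F) (c : F) (x : Fin n → F) :
    Em D e d c *ᵥ x = x + D.h x e • d - D.h x d • e + (c * D.h x e) • e := by
  unfold Em
  rw [← Matrix.mulVec_mulVec, tv_mulVec', tv_mulVec, D.h_sub_left, D.h_smul_left, he]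
  module

theorem Em_det {e d : Fin n → F} (he : D.h e e = 0) (hd : D.h d e = 0) (c : F) :
    (Em D e d c).det = 1 := by
  unfold Em
  rw [Matrix.det_mul]
  have h1 : (1 + vecMulVec (d + c • e) (D.φ ∘ e)).det = 1 := by
    rw [Matrix.vecMulVec_eq (ι := Unit), Matrix.det_one_add_replicateCol_mul_replicateRow,
      D.dot_eq, D.h_add_left, D.h_smul_left, he, hd]
    ring
  have h2 : (1 - vecMulVec e (D.φ ∘ d)).det = 1 := by
    have : (1 - vecMulVec e (D.φ ∘ d)) = 1 + vecMulVec (-e) (D.φ ∘ d) := by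
      rw [Matrix.neg_vecMulVec, sub_eq_add_neg]
    rw [this, Matrix.vecMulVec_eq (ι := Unit), Matrix.det_one_add_replicateCol_mul_replicateRow,
      D.dot_eq, D.h_neg_left, ← D.h_symm, hd, map_zero]
    ring
  rw [h1, h2, mul_one]

theorem Em_pres {e d : Fin n → F} {c : F} (he : D.h e e = 0) (hd : D.h d e = 0)
    (hc : c + D.φ c + D.h d d = 0) (x y : Fin n → F) :
    D.h (Em D e d c *ᵥ x) (Em D e d c *ᵥ y) = D.h x y := by
  rw [Em_mulVec D he, Em_mulVec D he]
  have e1 : D.h d y = D.φ (D.h y d) := (D.h_symm y d).symm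
  have e2 : D.h e y = D.φ (D.h y e) := (D.h_symm y e).symm
  have e3 : D.h e d = 0 := by rw [← D.h_symm, hd, map_zero]
  simp only [D.h_add_left, D.h_sub_left, D.h_smul_left, D.h_add_right, D.h_sub_right,
    D.h_smul_right, map_mul, he, hd, e3, e1, e2]
  linear_combination (D.h x e * D.φ (D.h y e)) * hc

/-- validity of the parameters -/
def Ok (e d : Fin n → F) (c : F) : Prop :=
  D.h e e = 0 ∧ D.h d e = 0 ∧ c + D.φ c + D.h d d = 0

open Classical in
/-- the element `E e d c` of `SU` (trivial for invalid parameters) -/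
noncomputable def E (e d : Fin n → F) (c : F) : ↥(Cfsg.SU n F q) :=
  if H : Ok D e d c then
    mkSU D (Em D e d c) (Em_det D H.1 H.2.1 c) (Em_pres D H.1 H.2.1 H.2.2) else 1

theorem mv_E {e d : Fin n → F} {c : F} (H : Ok D e d c) (x : Fin n → F) :
    mv (E D e d c) x = x + D.h x e • d - D.h x d • e + (c * D.h x e) • e := by
  unfold E
  rw [dif_pos H, mv_mkSU, Em_mulVec D H.1]

theorem Ok_zero {e : Fin n → F} (he : D.h e e = 0) : Ok D e 0 0 :=
  ⟨he, D.h_zero_left e, by simp [D.h_zero_left]⟩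

theorem E_zero {e : Fin n → F} (he : D.h e e = 0) : E D e 0 0 = 1 := by
  apply su_ext
  intro x
  rw [mv_E D (Ok_zero D he), mv_one]
  simp [D.h_zero_right]

theorem Ok_mul {e d d' : Fin n → F} {c c' : F} (H : Ok D e d c) (H' : Ok D e d' c') :
    Ok D e (d + d') (c + c' - D.h d' d) := by
  refine ⟨H.1, ?_, ?_⟩
  · rw [D.h_add_left, H.2.1, H'.2.1, add_zero]
  · have h1 := H.2.2
    have h2 := H'.2.2
    simp only [D.h_add_left, D.h_add_right, map_sub, map_add, D.h_symm]
    linear_combination h1 + h2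

theorem E_mul {e d d' : Fin n → F} {c c' : F} (H : Ok D e d c) (H' : Ok D e d' c') :
    E D e d c * E D e d' c' = E D e (d + d') (c + c' - D.h d' d) := by
  apply su_ext
  intro x
  rw [mv_mul, mv_E D H', mv_E D H, mv_E D (Ok_mul D H H')]
  have e3 : D.h e d = 0 := by rw [← D.h_symm, H.2.1, map_zero]
  simp only [D.h_add_left, D.h_sub_left, D.h_smul_left, D.h_add_right, H.1, H.2.1, H'.2.1, e3]
  module

theorem Ok_inv {e d : Fin n → F} {c : F} (H : Ok D e d c) : Ok D e (-d) (D.φ c) := by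
  refine ⟨H.1, ?_, ?_⟩
  · rw [D.h_neg_left, H.2.1, neg_zero]
  · have h1 := H.2.2
    rw [D.inv, D.h_neg_left, D.h_neg_right]
    linear_combination h1

theorem E_inv {e d : Fin n → F} {c : F} (H : Ok D e d c) : (E D e d c)⁻¹ = E D e (-d) (D.φ c) := by
  rw [inv_eq_iff_mul_eq_one, E_mul D H (Ok_inv D H)]
  have h1 := H.2.2
  have : c + D.φ c - D.h (-d) d = 0 := by
    rw [D.h_neg_left]
    linear_combination h1
  rw [this, add_neg_cancel, E_zero D H.1]

theorem Ok_shift {e d : Fin n → F} {c : F} (H : Ok D e d c) (s : F) :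
    Ok D e (d + s • e) (c - s + D.φ s) := by
  have e3 : D.h e d = 0 := by rw [← D.h_symm, H.2.1, map_zero]
  refine ⟨H.1, ?_, ?_⟩
  · rw [D.h_add_left, D.h_smul_left, H.2.1, H.1]
    ring
  · have h1 := H.2.2
    simp only [D.h_add_left, D.h_add_right, D.h_smul_left, D.h_smul_right, H.1, H.2.1, e3,
      map_sub, map_add, D.inv]
    linear_combination h1

theorem E_shift {e d : Fin n → F} {c : F} (H : Ok D e d c) (s : F) :
    E D e (d + s • e) (c - s + D.φ s) = E D e d c := by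
  apply su_ext
  intro x
  rw [mv_E D H, mv_E D (Ok_shift D H s)]
  simp only [D.h_add_right, D.h_smul_right]
  module

theorem Ok_conj {e d : Fin n → F} {c : F} (H : Ok D e d c) (g : ↥(Cfsg.SU n F q)) :
    Ok D (mv g e) (mv g d) c := by
  refine ⟨?_, ?_, ?_⟩
  · rw [h_mv, H.1]
  · rw [h_mv, H.2.1]
  · rw [h_mv, H.2.2]

theorem E_conj {e d : Fin n → F} {c : F} (H : Ok D e d c) (g : ↥(Cfsg.SU n F q)) :
    g * E D e d c * g⁻¹ = E D (mv g e) (mv g d) c := by
  apply su_ext
  intro x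
  rw [mv_mul, mv_mul, mv_E D H, mv_E D (Ok_conj D H g)]
  simp only [mv_add, mv_sub, mv_smul, mv_mv_inv, h_mv_right]

theorem Ok_smul {e d : Fin n → F} {c : F} (t : F) (H : Ok D e d c) :
    Ok D (t • e) d c := by
  refine ⟨?_, ?_, H.2.2⟩
  · rw [D.h_smul_left, D.h_smul_right, H.1]
    ring
  · rw [D.h_smul_right, H.2.1, mul_zero]

theorem Ok_smul' {e d : Fin n → F} {c : F} (t : F) (H : Ok D e d c) :
    Ok D e (D.φ t • d) (t * D.φ t * c) := by
  refine ⟨H.1, ?_, ?_⟩
  · rw [D.h_smul_left, H.2.1, mul_zero]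
  · have h1 := H.2.2
    simp only [D.h_smul_left, D.h_smul_right, map_mul, D.inv]
    linear_combination (t * D.φ t) * h1

theorem E_smul {e d : Fin n → F} {c : F} (t : F) (H : Ok D e d c) :
    E D (t • e) d c = E D e (D.φ t • d) (t * D.φ t * c) := by
  apply su_ext
  intro x
  rw [mv_E D (Ok_smul D t H), mv_E D (Ok_smul' D t H)]
  simp only [D.h_smul_right, D.inv]
  module

/-- `E e d c` applied to a vector `f` with `h(f,e) = 1` -/
theorem mv_E_f {e d f : Fin n → F} {c : F} (H : Ok D e d c) (hf : D.h f e = 1) :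
    mv (E D e d c) f = f + d + (c - D.h f d) • e := by
  rw [mv_E D H, hf]
  module

theorem mv_E_e {e d : Fin n → F} {c : F} (H : Ok D e d c) : mv (E D e d c) e = e := by
  have e3 : D.h e d = 0 := by rw [← D.h_symm, H.2.1, map_zero]
  rw [mv_E D H, H.1, e3]
  module

theorem mv_E_perp {e d : Fin n → F} {c : F} (H : Ok D e d c) {x : Fin n → F} (hx : D.h x e = 0) :
    mv (E D e d c) x = x - D.h x d • e := by
  rw [mv_E D H, hx]
  module

/-- transvections -/
noncomputable def T (v : Fin n → F) (c : F) : ↥(Cfsg.SU n F q) := E D v 0 c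

theorem Ok_T {v : Fin n → F} {c : F} (hv : D.h v v = 0) (hc : c + D.φ c = 0) : Ok D v 0 c :=
  ⟨hv, D.h_zero_left v, by rw [D.h_zero_left, hc, add_zero]⟩

theorem mv_T {v : Fin n → F} {c : F} (hv : D.h v v = 0) (hc : c + D.φ c = 0) (x : Fin n → F) :
    mv (T D v c) x = x + (c * D.h x v) • v := by
  unfold T
  rw [mv_E D (Ok_T D hv hc)]
  simp [D.h_zero_right]

end Cfsg.Agent.Lib.Helper43.SUElt
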