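import Mathlib
import Cfsg.Prelude.Def_LieTypeDatum
import Cfsg.Agent.Lib.Helper43.SUElt

set_option autoImplicit false

namespace Cfsg.Agent.Lib.Helper43.SUAuts

open Matrix Cfsg.Agent.Lib.Helper43.SUBase Cfsg.Agent.Lib.Helper43.SUElt

variable {F : Type*} [Field F] {q n : ℕ}

/-- automorphisms of `SU` induce automorphisms of `PSU` -/
def liftAut : MulAut (↥(Cfsg.SU n F q)) →* MulAut (Cfsg.PSU n F q) where
  toFun β := QuotientGroup.congr (Subgroup.center _) (Subgroup.center _) β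
    (Subgroup.characteristic_iff_map_eq.1 inferInstance β)
  map_one' := by
    ext y
    obtain ⟨s, rfl⟩ := pr_surjective y
    rfl
  map_mul' β γ := by
    ext y
    obtain ⟨s, rfl⟩ := pr_surjective y
    rfl

theorem liftAut_pr (β : MulAut (↥(Cfsg.SU n F q))) (s : ↥(Cfsg.SU n F q)) :
    liftAut β (pr s) = pr (β s) := rfl

/-- matrix of an element of `GU` -/
def gm (g : ↥(Cfsg.GU n F q)) : Matrix (Fin n) (Fin n) F :=
  ((g : GL (Fin n) F) : Matrix (Fin n) (Fin n) F)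

/-- matrix of an element of `SU` -/
def sm (s : ↥(Cfsg.SU n F q)) : Matrix (Fin n) (Fin n) F :=
  ((s : Matrix.SpecialLinearGroup (Fin n) F) : Matrix (Fin n) (Fin n) F)

theorem gm_mul (g g' : ↥(Cfsg.GU n F q)) : gm (g * g') = gm g * gm g' := rfl

theorem gm_one : gm (1 : ↥(Cfsg.GU n F q)) = 1 := rfl

theorem gm_inv_mul (g : ↥(Cfsg.GU n F q)) : gm g⁻¹ * gm g = 1 := by
  rw [← gm_mul, inv_mul_cancel, gm_one]

theorem gm_mul_inv (g : ↥(Cfsg.GU n F q)) : gm g * gm g⁻¹ = 1 := by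
  rw [← gm_mul, mul_inv_cancel, gm_one]

theorem sm_mul (s t : ↥(Cfsg.SU n F q)) : sm (s * t) = sm s * sm t := by
  unfold sm
  rw [Subgroup.coe_mul, Matrix.SpecialLinearGroup.coe_mul]

theorem sm_one : sm (1 : ↥(Cfsg.SU n F q)) = 1 := by
  unfold sm
  rw [Subgroup.coe_one, Matrix.SpecialLinearGroup.coe_one]

theorem sm_det (s : ↥(Cfsg.SU n F q)) : (sm s).det = 1 := s.1.2

theorem sm_ext {s t : ↥(Cfsg.SU n F q)} (H : sm s = sm t) : s = t :=
  Subtype.ext (Subtype.ext H)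

theorem mv_eq_sm (s : ↥(Cfsg.SU n F q)) (x : Fin n → F) : mv s x = sm s *ᵥ x := rfl

/-- the action of `GU` on vectors -/
def gv (g : ↥(Cfsg.GU n F q)) (x : Fin n → F) : Fin n → F := gm g *ᵥ x

theorem gv_mul (g g' : ↥(Cfsg.GU n F q)) (x : Fin n → F) : gv (g * g') x = gv g (gv g' x) := by
  unfold gv
  rw [gm_mul, Matrix.mulVec_mulVec]

theorem gv_one (x : Fin n → F) : gv (1 : ↥(Cfsg.GU n F q)) x = x := by
  unfold gv
  rw [gm_one, Matrix.one_mulVec]

theorem gv_inv_gv (g : ↥(Cfsg.GU n F q)) (x : Fin n → F) : gv g⁻¹ (gv g x) = x := by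
  rw [← gv_mul, inv_mul_cancel, gv_one]

theorem gv_gv_inv (g : ↥(Cfsg.GU n F q)) (x : Fin n → F) : gv g (gv g⁻¹ x) = x := by
  rw [← gv_mul, mul_inv_cancel, gv_one]

theorem gv_add (g : ↥(Cfsg.GU n F q)) (x y : Fin n → F) : gv g (x + y) = gv g x + gv g y :=
  Matrix.mulVec_add _ _ _

theorem gv_sub (g : ↥(Cfsg.GU n F q)) (x y : Fin n → F) : gv g (x - y) = gv g x - gv g y :=
  Matrix.mulVec_sub _ _ _

theorem gv_smul (g : ↥(Cfsg.GU n F q)) (c : F) (x : Fin n → F) : gv g (c • x) = c • gv g x :=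
  Matrix.mulVec_smul _ _ _

theorem gv_zero (g : ↥(Cfsg.GU n F q)) : gv g (0 : Fin n → F) = 0 :=
  Matrix.mulVec_zero _

theorem gv_injective (g : ↥(Cfsg.GU n F q)) : Function.Injective (gv g) := by
  intro x y hxy
  have := congrArg (gv g⁻¹) hxy
  rwa [gv_inv_gv, gv_inv_gv] at this

theorem h_gv (D : QD F q) (g : ↥(Cfsg.GU n F q)) (u v : Fin n → F) :
    D.h (gv g u) (gv g v) = D.h u v := g.2 u v

theorem h_gv_right (D : QD F q) (g : ↥(Cfsg.GU n F q)) (u v : Fin n → F) :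
    D.h u (gv g v) = D.h (gv g⁻¹ u) v := by
  rw [← h_gv D g (gv g⁻¹ u) v, gv_gv_inv]

theorem h_gv_left (D : QD F q) (g : ↥(Cfsg.GU n F q)) (u v : Fin n → F) :
    D.h (gv g u) v = D.h u (gv g⁻¹ v) := by
  rw [← h_gv D g u (gv g⁻¹ v), gv_gv_inv]

/-- conjugation of an element of `SU` by an element of `GU` -/
def cjFun (g : ↥(Cfsg.GU n F q)) (s : ↥(Cfsg.SU n F q)) : ↥(Cfsg.SU n F q) :=
  ⟨⟨gm g * sm s * gm g⁻¹, by
    rw [Matrix.det_mul, Matrix.det_mul, sm_det, mul_one, ← Matrix.det_mul, gm_mul_inv,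
      Matrix.det_one]⟩, by
    intro u v
    show Cfsg.hermForm n F q ((gm g * sm s * gm g⁻¹) *ᵥ u) ((gm g * sm s * gm g⁻¹) *ᵥ v) = _
    rw [← Matrix.mulVec_mulVec, ← Matrix.mulVec_mulVec, ← Matrix.mulVec_mulVec,
      ← Matrix.mulVec_mulVec]
    exact ((g.2 _ _).trans (s.2 _ _)).trans ((g⁻¹).2 u v)⟩

theorem sm_cjFun (g : ↥(Cfsg.GU n F q)) (s : ↥(Cfsg.SU n F q)) :
    sm (cjFun g s) = gm g * sm s * gm g⁻¹ := rfl

theorem mv_cjFun (g : ↥(Cfsg.GU n F q)) (s : ↥(Cfsg.SU n F q)) (x : Fin n → F) :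
    mv (cjFun g s) x = gv g (mv s (gv g⁻¹ x)) := by
  rw [mv_eq_sm, sm_cjFun, ← Matrix.mulVec_mulVec, ← Matrix.mulVec_mulVec]
  rfl

theorem cjFun_mul (g : ↥(Cfsg.GU n F q)) (s t : ↥(Cfsg.SU n F q)) :
    cjFun g (s * t) = cjFun g s * cjFun g t := by
  apply su_ext
  intro x
  rw [mv_mul, mv_cjFun, mv_cjFun, mv_cjFun, mv_mul, gv_inv_gv]

theorem cjFun_one_left (s : ↥(Cfsg.SU n F q)) : cjFun 1 s = s := by
  apply su_ext
  intro x
  rw [mv_cjFun, inv_one, gv_one, gv_one]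

theorem cjFun_comp (g g' : ↥(Cfsg.GU n F q)) (s : ↥(Cfsg.SU n F q)) :
    cjFun (g * g') s = cjFun g (cjFun g' s) := by
  apply su_ext
  intro x
  rw [mv_cjFun, mv_cjFun, mv_cjFun, _root_.mul_inv_rev, gv_mul, gv_mul]

/-- conjugation by an element of `GU` as an automorphism of `SU` -/
def conjGU : ↥(Cfsg.GU n F q) →* MulAut (↥(Cfsg.SU n F q)) where
  toFun g :=
    { toFun := cjFun g
      invFun := cjFun g⁻¹
      left_inv := fun s => by rw [← cjFun_comp, inv_mul_cancel, cjFun_one_left]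
      right_inv := fun s => by rw [← cjFun_comp, mul_inv_cancel, cjFun_one_left]
      map_mul' := cjFun_mul g }
  map_one' := by
    ext s : 1
    exact cjFun_one_left s
  map_mul' g g' := by
    ext s : 1
    exact cjFun_comp g g' s

theorem conjGU_apply (g : ↥(Cfsg.GU n F q)) (s : ↥(Cfsg.SU n F q)) : conjGU g s = cjFun g s := rfl

theorem herm_map (σ : RingAut F) (u v : Fin n → F) :
    Cfsg.hermForm n F q (fun k => σ (u k)) (fun k => σ (v k)) = σ (Cfsg.hermForm n F q u v) := by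
  unfold Cfsg.hermForm
  rw [map_sum]
  apply Finset.sum_congr rfl
  intro i _
  rw [map_mul, map_pow]

theorem map_mulVec' (σ : RingAut F) (M : Matrix (Fin n) (Fin n) F) (x : Fin n → F) :
    (M.map σ) *ᵥ (fun k => σ (x k)) = fun k => σ ((M *ᵥ x) k) := by
  funext k
  exact (RingHom.map_mulVec (σ : F →+* F) _ x k).symm

/-- a field automorphism applied to an element of `SU` -/
def mapFun (σ : RingAut F) (s : ↥(Cfsg.SU n F q)) : ↥(Cfsg.SU n F q) :=
  ⟨⟨(sm s).map σ, by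
    have := RingHom.map_det (σ : F →+* F) (sm s)
    rw [sm_det, map_one] at this
    exact this.symm⟩, by
    intro u v
    show Cfsg.hermForm n F q ((sm s).map σ *ᵥ u) ((sm s).map σ *ᵥ v) = _
    have hu : u = fun k => σ (σ.symm (u k)) := by funext k; simp
    have hv : v = fun k => σ (σ.symm (v k)) := by funext k; simp
    rw [hu, hv, map_mulVec', map_mulVec', herm_map, herm_map]
    congr 1
    exact s.2 _ _⟩

theorem sm_mapFun (σ : RingAut F) (s : ↥(Cfsg.SU n F q)) : sm (mapFun σ s) = (sm s).map σ := rfl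

theorem mv_mapFun (σ : RingAut F) (s : ↥(Cfsg.SU n F q)) (x : Fin n → F) :
    mv (mapFun σ s) (fun k => σ (x k)) = fun k => σ (mv s x k) := by
  rw [mv_eq_sm, sm_mapFun, map_mulVec']
  rfl

/-- field automorphisms as automorphisms of `SU` -/
def suAut : RingAut F →* MulAut (↥(Cfsg.SU n F q)) where
  toFun σ :=
    { toFun := mapFun σ
      invFun := mapFun σ.symm
      left_inv := fun s => by
        apply sm_ext
        rw [sm_mapFun, sm_mapFun]
        ext i j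
        simp
      right_inv := fun s => by
        apply sm_ext
        rw [sm_mapFun, sm_mapFun]
        ext i j
        simp
      map_mul' := fun s t => by
        apply sm_ext
        rw [sm_mapFun, sm_mul, sm_mul, sm_mapFun, sm_mapFun]
        exact Matrix.map_mul }
  map_one' := by
    ext s : 1
    apply sm_ext
    ext i j
    rfl
  map_mul' σ τ := by
    ext s : 1
    apply sm_ext
    ext i j
    rfl

theorem suAut_apply (σ : RingAut F) (s : ↥(Cfsg.SU n F q)) : suAut σ s = mapFun σ s := rfl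

/-- the automorphism of `PSU` induced by conjugation with an element of `GU` -/
def cGU : ↥(Cfsg.GU n F q) →* MulAut (Cfsg.PSU n F q) := liftAut.comp conjGU

/-- the automorphism of `PSU` induced by a field automorphism -/
def cσ : RingAut F →* MulAut (Cfsg.PSU n F q) := liftAut.comp suAut

theorem cGU_pr (g : ↥(Cfsg.GU n F q)) (s : ↥(Cfsg.SU n F q)) :
    cGU g (pr s) = pr (cjFun g s) := rfl

theorem cσ_pr (σ : RingAut F) (s : ↥(Cfsg.SU n F q)) :
    cσ σ (pr s) = pr (mapFun σ s) := rfl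

/-- an element of `SU` as an element of `GU` -/
def toGU (s : ↥(Cfsg.SU n F q)) : ↥(Cfsg.GU n F q) :=
  ⟨⟨sm s, sm s⁻¹, by rw [← sm_mul, mul_inv_cancel, sm_one],
    by rw [← sm_mul, inv_mul_cancel, sm_one]⟩, fun u v => s.2 u v⟩

theorem gm_toGU (s : ↥(Cfsg.SU n F q)) : gm (toGU s) = sm s := rfl

theorem gv_toGU (s : ↥(Cfsg.SU n F q)) (x : Fin n → F) : gv (toGU s) x = mv s x := rfl

theorem toGU_inv (s : ↥(Cfsg.SU n F q)) : (toGU s)⁻¹ = toGU s⁻¹ := by
  rw [inv_eq_iff_mul_eq_one]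
  apply Subtype.ext
  apply Units.ext
  show sm s * sm s⁻¹ = 1
  rw [← sm_mul, mul_inv_cancel, sm_one]

theorem cjFun_toGU (s r : ↥(Cfsg.SU n F q)) : cjFun (toGU s) r = s * r * s⁻¹ := by
  apply su_ext
  intro x
  rw [mv_cjFun, toGU_inv, gv_toGU, gv_toGU, mv_mul, mv_mul]

theorem cGU_toGU (s : ↥(Cfsg.SU n F q)) : cGU (toGU s) = MulAut.conj (pr s) := by
  ext y : 1
  obtain ⟨r, rfl⟩ := pr_surjective y
  rw [cGU_pr, MulAut.conj_apply, ← map_mul, ← map_inv, ← map_mul, cjFun_toGU]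

/-! ### images of the elements `E` -/

theorem Ok_gv (D : QD F q) {e d : Fin n → F} {c : F} (H : Ok D e d c) (g : ↥(Cfsg.GU n F q)) :
    Ok D (gv g e) (gv g d) c := by
  refine ⟨?_, ?_, ?_⟩
  · rw [h_gv, H.1]
  · rw [h_gv, H.2.1]
  · rw [h_gv, H.2.2]

theorem cjFun_E (D : QD F q) {e d : Fin n → F} {c : F} (H : Ok D e d c) (g : ↥(Cfsg.GU n F q)) :
    cjFun g (E D e d c) = E D (gv g e) (gv g d) c := by
  apply su_ext
  intro x
  rw [mv_cjFun, mv_E D H, mv_E D (Ok_gv D H g)]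
  simp only [gv_add, gv_sub, gv_smul, gv_gv_inv, h_gv_right]

theorem cGU_E (D : QD F q) {e d : Fin n → F} {c : F} (H : Ok D e d c) (g : ↥(Cfsg.GU n F q)) :
    cGU g (pr (E D e d c)) = pr (E D (gv g e) (gv g d) c) := by
  rw [cGU_pr, cjFun_E D H]

theorem φ_map (D : QD F q) (σ : RingAut F) (x : F) : D.φ (σ x) = σ (D.φ x) := by
  rw [D.hφ, D.hφ, map_pow]

theorem h_map (D : QD F q) (σ : RingAut F) (u v : Fin n → F) :
    D.h (fun k => σ (u k)) (fun k => σ (v k)) = σ (D.h u v) := herm_map σ u v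

theorem Ok_map (D : QD F q) {e d : Fin n → F} {c : F} (H : Ok D e d c) (σ : RingAut F) :
    Ok D (fun k => σ (e k)) (fun k => σ (d k)) (σ c) := by
  refine ⟨?_, ?_, ?_⟩
  · rw [h_map, H.1, map_zero]
  · rw [h_map, H.2.1, map_zero]
  · rw [h_map, φ_map, ← map_add, ← map_add, H.2.2, map_zero]

theorem mapFun_E (D : QD F q) {e d : Fin n → F} {c : F} (H : Ok D e d c) (σ : RingAut F) :
    mapFun σ (E D e d c) = E D (fun k => σ (e k)) (fun k => σ (d k)) (σ c) := by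
  apply su_ext
  intro x
  have hx : x = fun k => σ (σ.symm (x k)) := by
    funext k
    simp
  rw [hx, mv_mapFun, mv_E D H, mv_E D (Ok_map D H σ), h_map, h_map]
  funext k
  simp

theorem cσ_E (D : QD F q) {e d : Fin n → F} {c : F} (H : Ok D e d c) (σ : RingAut F) :
    cσ σ (pr (E D e d c)) = pr (E D (fun k => σ (e k)) (fun k => σ (d k)) (σ c)) := by
  rw [cσ_pr, mapFun_E D H]

theorem conj_E (D : QD F q) {e d : Fin n → F} {c : F} (H : Ok D e d c) (g : ↥(Cfsg.SU n F q)) :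
    MulAut.conj (pr g) (pr (E D e d c)) = pr (E D (mv g e) (mv g d) c) := by
  rw [MulAut.conj_apply, ← map_mul, ← map_inv, ← map_mul, E_conj D H]

end Cfsg.Agent.Lib.Helper43.SUAuts
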