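import Mathlib
import Cfsg.Agent.Lib.Helper43.SUAuts

set_option autoImplicit false

namespace Cfsg.Agent.Lib.Helper43.SUGeom

open Matrix Cfsg.Agent.Lib.Helper43.SUBase Cfsg.Agent.Lib.Helper43.SUElt
  Cfsg.Agent.Lib.Helper43.SUAuts

variable {F : Type*} [Field F] {q n : ℕ} (D : QD F q)

/-! ### vectors -/

theorem exists_dual {e : Fin n → F} (he : e ≠ 0) : ∃ f, D.h f e = 1 := by
  have : ∃ x, D.h x e ≠ 0 := by
    by_contra hcon
    push Not at hcon
    exact he (D.eq_zero_of_h_right hcon)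
  obtain ⟨x, hx⟩ := this
  refine ⟨(D.h x e)⁻¹ • x, ?_⟩
  rw [D.h_smul_left, inv_mul_cancel₀ hx]

theorem h_comm_one {f e : Fin n → F} (h : D.h f e = 1) : D.h e f = 1 := by
  rw [← D.h_symm, h, map_one]

theorem h_comm_zero {f e : Fin n → F} (h : D.h f e = 0) : D.h e f = 0 := by
  rw [← D.h_symm, h, map_zero]

/-- a hyperbolic partner -/
theorem exists_partner {e : Fin n → F} (he : e ≠ 0) (hee : D.h e e = 0) :
    ∃ f, D.h f f = 0 ∧ D.h f e = 1 := by
  obtain ⟨y, hy⟩ := exists_dual D he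
  obtain ⟨t, ht⟩ := D.exists_c y
  refine ⟨y + t • e, ?_, ?_⟩
  · simp only [D.h_add_left, D.h_add_right, D.h_smul_left, D.h_smul_right, hy, hee,
      h_comm_one D hy]
    linear_combination ht
  · rw [D.h_add_left, D.h_smul_left, hy, hee]
    ring

/-! ### powers -/

theorem T_mul {v : Fin n → F} {c c' : F} (hv : D.h v v = 0) (hc : c + D.φ c = 0)
    (hc' : c' + D.φ c' = 0) : T D v c * T D v c' = T D v (c + c') := by
  unfold T
  rw [E_mul D (Ok_T D hv hc) (Ok_T D hv hc'), add_zero, D.h_zero_left, sub_zero]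

theorem T_zero {v : Fin n → F} (hv : D.h v v = 0) : T D v 0 = 1 := E_zero D hv

theorem T_pow {v : Fin n → F} {c : F} (hv : D.h v v = 0) (hc : c + D.φ c = 0) (m : ℕ) :
    T D v c ^ m = T D v (m * c) := by
  induction m with
  | zero => rw [pow_zero, Nat.cast_zero, zero_mul, T_zero D hv]
  | succ m ih =>
    have hm : (m : F) * c + D.φ ((m : F) * c) = 0 := by
      rw [map_mul, map_natCast]
      linear_combination (m : F) * hc
    rw [pow_succ, ih, T_mul D hv hm hc]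
    congr 1
    push_cast
    ring

theorem E_pow {e d : Fin n → F} {c : F} (H : Ok D e d c) (m : ℕ) :
    ∃ c', Ok D e (m • d) c' ∧ E D e d c ^ m = E D e (m • d) c' := by
  induction m with
  | zero =>
    refine ⟨0, ?_, ?_⟩
    · rw [zero_smul]
      exact Ok_zero D H.1
    · rw [pow_zero, zero_smul, E_zero D H.1]
  | succ m ih =>
    obtain ⟨c', h1, h2⟩ := ih
    refine ⟨c' + c - D.h d (m • d), ?_, ?_⟩
    · rw [succ_nsmul]
      exact Ok_mul D h1 H
    · rw [pow_succ, h2, E_mul D h1 H, succ_nsmul]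

variable (p : ℕ) [Fact p.Prime] [CharP F p]

theorem eq_one_of_pow_char {c : F} {k : ℕ} (hc : c ^ (p ^ k) = 1) : c = 1 := by
  have h1 : (c - 1) ^ (p ^ k) = 0 := by
    rw [sub_pow_char_pow, hc, one_pow, sub_self]
  exact sub_eq_zero.1 ((pow_eq_zero_iff (pow_ne_zero k (Fact.out : p.Prime).ne_zero)).1 h1)

theorem T_pow_char {v : Fin n → F} {c : F} (hv : D.h v v = 0) (hc : c + D.φ c = 0) :
    T D v c ^ p = 1 := by
  rw [T_pow D hv hc, CharP.cast_eq_zero, zero_mul, T_zero D hv]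

theorem E_pow_char {e d : Fin n → F} {c : F} (H : Ok D e d c) : E D e d c ^ (p ^ 2) = 1 := by
  obtain ⟨c', h1, h2⟩ := E_pow D H p
  have h3 : (p : ℕ) • d = 0 := by
    rw [← Nat.cast_smul_eq_nsmul F, CharP.cast_eq_zero, zero_smul]
  rw [h3] at h1 h2
  have h4 : c' + D.φ c' = 0 := by
    have := h1.2.2
    rwa [D.h_zero_left, add_zero] at this
  rw [pow_two, pow_mul, h2]
  exact T_pow_char D p H.1 h4

theorem mv_pow_scalar {g g' : ↥(Cfsg.SU n F q)} {c : F} (H : ∀ x, mv g x = c • mv g' x)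
    (m : ℕ) (x : Fin n → F) : mv (g ^ m) x = c ^ m • mv (g' ^ m) x := by
  induction m generalizing x with
  | zero => rw [pow_zero, pow_zero, pow_zero, mv_one, one_smul]
  | succ m ih =>
    rw [pow_succ g, pow_succ g', mv_mul, mv_mul, H, mv_smul, ih, smul_smul, pow_succ, mul_comm]

theorem exists_ne_zero (hn : 3 ≤ n) : ∃ x : Fin n → F, x ≠ 0 := by
  refine ⟨Pi.single ⟨0, by omega⟩ 1, fun h => ?_⟩
  have := congrFun h ⟨0, by omega⟩
  simp at this

theorem pr_inj_of_pow [Fintype F] (hF : Fintype.card F = q ^ 2) (hn : 3 ≤ n)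
    {g g' : ↥(Cfsg.SU n F q)} {k : ℕ} (hg : g ^ (p ^ k) = 1) (hg' : g' ^ (p ^ k) = 1)
    (H : pr g = pr g') : g = g' := by
  obtain ⟨c, hc⟩ := exists_scalar_of_pr_eq hF hn H
  have h1 : c = 1 := by
    obtain ⟨x, hx⟩ := exists_ne_zero (F := F) hn
    have h2 := mv_pow_scalar hc (p ^ k) x
    rw [hg, hg', mv_one] at h2
    have h3 : (1 - c ^ (p ^ k)) • x = 0 := by
      rw [sub_smul, one_smul, ← h2, sub_self]
    rcases smul_eq_zero.1 h3 with h4 | h4
    · exact eq_one_of_pow_char p (sub_eq_zero.1 h4).symm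
    · exact absurd h4 hx
  apply su_ext
  intro x
  rw [hc, h1, one_smul]

/-! ### root sets -/

/-- the image in `PSU` of the transvection group attached to `v` -/
def R (v : Fin n → F) : Set (Cfsg.PSU n F q) := {x | ∃ c, c + D.φ c = 0 ∧ x = pr (T D v c)}

/-- the image in `PSU` of the group of the elements `E e d c` -/
def U (e : Fin n → F) : Set (Cfsg.PSU n F q) := {x | ∃ d c, Ok D e d c ∧ x = pr (E D e d c)}

theorem one_mem_R {v : Fin n → F} (hv : D.h v v = 0) : (1 : Cfsg.PSU n F q) ∈ R D v :=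
  ⟨0, by simp, by rw [T_zero D hv, map_one]⟩

theorem R_subset_U {e : Fin n → F} (he : D.h e e = 0) : R D e ⊆ U D e := by
  rintro x ⟨c, hc, rfl⟩
  exact ⟨0, c, Ok_T D he hc, rfl⟩

theorem conj_T {v : Fin n → F} {c : F} (hv : D.h v v = 0) (hc : c + D.φ c = 0)
    (g : ↥(Cfsg.SU n F q)) : g * T D v c * g⁻¹ = T D (mv g v) c := by
  unfold T
  rw [E_conj D (Ok_T D hv hc), mv_zero]

theorem conj_R {v : Fin n → F} (hv : D.h v v = 0) (g : ↥(Cfsg.SU n F q)) :
    (MulAut.conj (pr g)) '' R D v = R D (mv g v) := by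
  ext x
  constructor
  · rintro ⟨y, ⟨c, hc, rfl⟩, rfl⟩
    refine ⟨c, hc, ?_⟩
    rw [MulAut.conj_apply, ← map_mul, ← map_inv, ← map_mul, conj_T D hv hc]
  · rintro ⟨c, hc, rfl⟩
    refine ⟨pr (T D v c), ⟨c, hc, rfl⟩, ?_⟩
    rw [MulAut.conj_apply, ← map_mul, ← map_inv, ← map_mul, conj_T D hv hc]

theorem conj_U {e : Fin n → F} (g : ↥(Cfsg.SU n F q)) :
    (MulAut.conj (pr g)) '' U D e = U D (mv g e) := by
  ext x
  constructor
  · rintro ⟨y, ⟨d, c, H, rfl⟩, rfl⟩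
    exact ⟨mv g d, c, Ok_conj D H g, conj_E D H g⟩
  · rintro ⟨d, c, H, rfl⟩
    have H' : Ok D e (mv g⁻¹ d) c := by
      have := Ok_conj D H g⁻¹
      rwa [mv_inv_mv] at this
    refine ⟨pr (E D e (mv g⁻¹ d) c), ⟨_, c, H', rfl⟩, ?_⟩
    rw [conj_E D H', mv_mv_inv]

theorem cGU_R {v : Fin n → F} (hv : D.h v v = 0) (g : ↥(Cfsg.GU n F q)) :
    (cGU g) '' R D v = R D (gv g v) := by
  ext x
  constructor
  · rintro ⟨y, ⟨c, hc, rfl⟩, rfl⟩
    refine ⟨c, hc, ?_⟩
    unfold T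
    rw [cGU_E D (Ok_T D hv hc), gv_zero]
  · rintro ⟨c, hc, rfl⟩
    refine ⟨pr (T D v c), ⟨c, hc, rfl⟩, ?_⟩
    unfold T
    rw [cGU_E D (Ok_T D hv hc), gv_zero]

theorem cσ_R {v : Fin n → F} (hv : D.h v v = 0) (σ : RingAut F) :
    (cσ σ) '' R D v = R D (fun k => σ (v k)) := by
  have h0 : (fun k => σ ((0 : Fin n → F) k)) = 0 := by
    funext k
    simp
  ext x
  constructor
  · rintro ⟨y, ⟨c, hc, rfl⟩, rfl⟩
    refine ⟨σ c, ?_, ?_⟩
    · rw [φ_map, ← map_add, hc, map_zero]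
    · unfold T
      rw [cσ_E D (Ok_T D hv hc), h0]
  · rintro ⟨c, hc, rfl⟩
    have hc' : σ.symm c + D.φ (σ.symm c) = 0 := by
      rw [φ_map, ← map_add, hc, map_zero]
    refine ⟨pr (T D v (σ.symm c)), ⟨_, hc', rfl⟩, ?_⟩
    unfold T
    rw [cσ_E D (Ok_T D hv hc'), h0, RingEquiv.apply_symm_apply]

theorem T_smul {v : Fin n → F} {c : F} (hv : D.h v v = 0) (hc : c + D.φ c = 0) (t : F) :
    T D (t • v) c = T D v (t * D.φ t * c) := by
  unfold T
  rw [E_smul D t (Ok_T D hv hc), smul_zero]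

theorem R_smul {v : Fin n → F} (hv : D.h v v = 0) {t : F} (ht : t ≠ 0) :
    R D (t • v) = R D v := by
  have hN : D.φ (t * D.φ t) = t * D.φ t := D.nm_fixed t
  have hN0 : t * D.φ t ≠ 0 := by
    refine mul_ne_zero ht (fun h0 => ht ?_)
    have := congrArg D.φ h0
    rwa [D.inv, map_zero] at this
  ext x
  constructor
  · rintro ⟨c, hc, rfl⟩
    refine ⟨t * D.φ t * c, ?_, by rw [T_smul D hv hc]⟩
    rw [map_mul, hN]
    linear_combination (t * D.φ t) * hc
  · rintro ⟨c, hc, rfl⟩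
    have hc' : (t * D.φ t)⁻¹ * c + D.φ ((t * D.φ t)⁻¹ * c) = 0 := by
      rw [map_mul, map_inv₀, hN]
      linear_combination (t * D.φ t)⁻¹ * hc
    refine ⟨(t * D.φ t)⁻¹ * c, hc', ?_⟩
    rw [T_smul D hv hc', mul_inv_cancel_left₀ hN0]

theorem T_inj {v : Fin n → F} (hv0 : v ≠ 0) (hv : D.h v v = 0) {c c' : F} (hc : c + D.φ c = 0)
    (hc' : c' + D.φ c' = 0) (H : T D v c = T D v c') : c = c' := by
  obtain ⟨f, hf⟩ := exists_dual D hv0
  have h1 := congrArg (fun g => mv g f) H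
  simp only [mv_T D hv hc, mv_T D hv hc', hf, mul_one] at h1
  have h2 : (c - c') • v = 0 := by
    rw [sub_smul]
    exact sub_eq_zero.2 (add_left_cancel h1)
  rcases smul_eq_zero.1 h2 with h3 | h3
  · exact sub_eq_zero.1 h3
  · exact absurd h3 hv0

section Fin

variable [Fintype F] (hF : Fintype.card F = q ^ 2) (hn : 3 ≤ n)

include hF hn p in
theorem pr_T_inj {u v : Fin n → F} (hu : D.h u u = 0) (hv : D.h v v = 0) {c c' : F}
    (hc : c + D.φ c = 0) (hc' : c' + D.φ c' = 0) (H : pr (T D u c) = pr (T D v c')) :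
    T D u c = T D v c' := by
  apply pr_inj_of_pow p hF hn (k := 1) _ _ H
  · rw [pow_one, T_pow_char D p hu hc]
  · rw [pow_one, T_pow_char D p hv hc']

include hF hn p in
theorem pr_E_inj {e e' d d' : Fin n → F} {c c' : F} (H : Ok D e d c) (H' : Ok D e' d' c')
    (h : pr (E D e d c) = pr (E D e' d' c')) : E D e d c = E D e' d' c' :=
  pr_inj_of_pow p hF hn (E_pow_char D p H) (E_pow_char D p H') h

include hF hn p in
/-- an element commuting (in `PSU`) with a nontrivial transvection fixes its centre -/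
theorem fix_of_comm {v : Fin n → F} (hv0 : v ≠ 0) (hv : D.h v v = 0) {c : F} (hc : c + D.φ c = 0)
    (hc0 : c ≠ 0) {g : ↥(Cfsg.SU n F q)} (H : pr g * pr (T D v c) = pr (T D v c) * pr g) :
    ∃ t : F, t * D.φ t = 1 ∧ mv g v = t • v := by
  have h1 : pr (T D (mv g v) c) = pr (T D v c) := by
    rw [← conj_T D hv hc, map_mul, map_mul, H, map_inv, mul_inv_cancel_right]
  have hgv : D.h (mv g v) (mv g v) = 0 := by rw [h_mv, hv]
  have h2 := pr_T_inj D p hF hn hgv hv hc hc h1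
  obtain ⟨f, hf⟩ := exists_dual D hv0
  have h3 := congrArg (fun s => mv s f) h2
  simp only [mv_T D hgv hc, mv_T D hv hc, hf, mul_one] at h3
  have h4 : (c * D.h f (mv g v)) • mv g v = c • v := add_left_cancel h3
  have h5 : D.h f (mv g v) ≠ 0 := by
    intro h0
    rw [h0, mul_zero, zero_smul] at h4
    rcases smul_eq_zero.1 h4.symm with h6 | h6
    · exact hc0 h6
    · exact hv0 h6
  have h6 : mv g v = (D.h f (mv g v))⁻¹ • v := by
    have h7 : mv g v = ((c * D.h f (mv g v))⁻¹ * c) • v := by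
      rw [← smul_smul, ← h4, smul_smul, inv_mul_cancel₀ (mul_ne_zero hc0 h5), one_smul]
    have h8 : (c * D.h f (mv g v))⁻¹ * c = (D.h f (mv g v))⁻¹ := by
      field_simp
    rw [← h8]
    exact h7
  refine ⟨(D.h f (mv g v))⁻¹, ?_, h6⟩
  set t := (D.h f (mv g v))⁻¹ with ht
  rw [h6, T_smul D hv hc] at h2
  have hN : D.φ (t * D.φ t) = t * D.φ t := D.nm_fixed t
  have hc2 : t * D.φ t * c + D.φ (t * D.φ t * c) = 0 := by
    rw [map_mul, hN]
    linear_combination (t * D.φ t) * hc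
  have h7 := T_inj D hv0 hv hc2 hc h2
  have h8 : (t * D.φ t - 1) * c = 0 := by linear_combination h7
  rcases mul_eq_zero.1 h8 with h9 | h9
  · exact sub_eq_zero.1 h9
  · exact absurd h9 hc0

/-- elementwise commuting sets -/
def Comm (A B : Set (Cfsg.PSU n F q)) : Prop := ∀ a ∈ A, ∀ b ∈ B, a * b = b * a

include hF hn p in
theorem perp_of_comm {u v : Fin n → F} (hu0 : u ≠ 0) (hv0 : v ≠ 0) (hu : D.h u u = 0)
    (hv : D.h v v = 0) (H : Comm (R D u) (R D v)) : D.h u v = 0 := by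
  obtain ⟨c, hc0, hc⟩ := D.exists_skew
  have hc' : c + D.φ c = 0 := by rw [hc]; ring
  have h1 := H _ ⟨c, hc', rfl⟩ _ ⟨c, hc', rfl⟩
  obtain ⟨t, -, ht⟩ := fix_of_comm D p hF hn hv0 hv hc' hc0 h1
  rw [mv_T D hu hc'] at ht
  by_contra hne
  have hvu : D.h v u ≠ 0 := by
    intro h0
    apply hne
    rw [← D.h_symm, h0, map_zero]
  have h2 : (c * D.h v u) • u = (t - 1) • v := by
    rw [sub_smul, one_smul, ← ht]
    abel
  have h3 : u = ((c * D.h v u)⁻¹ * (t - 1)) • v := by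
    rw [← smul_smul, ← h2, smul_smul, inv_mul_cancel₀ (mul_ne_zero hc0 hvu), one_smul]
  apply hne
  rw [h3, D.h_smul_left, hv, mul_zero]

theorem comm_of_perp {u v : Fin n → F} (hu : D.h u u = 0) (hv : D.h v v = 0)
    (H : D.h u v = 0) : Comm (R D u) (R D v) := by
  rintro a ⟨c, hc, rfl⟩ b ⟨c', hc', rfl⟩
  rw [← map_mul, ← map_mul]
  congr 1
  apply su_ext
  intro x
  have H' : D.h v u = 0 := by rw [← D.h_symm, H, map_zero]
  rw [mv_mul, mv_mul, mv_T D hv hc', mv_T D hu hc, mv_T D hu hc, mv_T D hv hc']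
  simp only [D.h_add_left, D.h_smul_left, H, H']
  module

include hF hn p in
theorem parallel_of_R_eq {u v : Fin n → F} (hu0 : u ≠ 0) (hu : D.h u u = 0)
    (hv : D.h v v = 0) (H : R D u = R D v) : ∃ t : F, t ≠ 0 ∧ u = t • v := by
  obtain ⟨c, hc0, hc⟩ := D.exists_skew
  have hc' : c + D.φ c = 0 := by rw [hc]; ring
  have h1 : pr (T D u c) ∈ R D v := by
    rw [← H]
    exact ⟨c, hc', rfl⟩
  obtain ⟨c', hc'', h2⟩ := h1
  have h3 := pr_T_inj D p hF hn hu hv hc' hc'' h2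
  obtain ⟨f, hf⟩ := exists_dual D hu0
  have h4 := congrArg (fun s => mv s f) h3
  simp only [mv_T D hu hc', mv_T D hv hc'', hf, mul_one] at h4
  have h5 : c • u = (c' * D.h f v) • v := add_left_cancel h4
  have h6 : u = (c⁻¹ * (c' * D.h f v)) • v := by
    rw [← smul_smul, ← h5, smul_smul, inv_mul_cancel₀ hc0, one_smul]
  refine ⟨_, ?_, h6⟩
  intro h0
  rw [h0, zero_smul] at h6
  exact hu0 h6

end Fin

end Cfsg.Agent.Lib.Helper43.SUGeom
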