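import Mathlib
import Cfsg.Agent.Lib.Helper43.SUGeom
import Cfsg.Agent.Lib.Helper43.SUAlg

set_option autoImplicit false

namespace Cfsg.Agent.Lib.Helper43.SUFrame

open Matrix Cfsg.Agent.Lib.Helper43.SUBase Cfsg.Agent.Lib.Helper43.SUElt
  Cfsg.Agent.Lib.Helper43.SUAuts Cfsg.Agent.Lib.Helper43.SUGeom
open Cfsg.Agent.Lib.Helper43.SUAlg (Ok')

variable {F : Type*} [Field F] {q k : ℕ} (D : QD F q)

/-- embedding of `F^k` into `F^(k+2)` -/
def ι (a : Fin k → F) : Fin (k + 2) → F := Fin.append a 0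

/-- projection of `F^(k+2)` onto `F^k` -/
def πW (x : Fin (k + 2) → F) : Fin k → F := fun j => x (Fin.castAdd 2 j)

theorem πW_ι (a : Fin k → F) : πW (ι a) = a := by
  funext j
  simp [πW, ι]

theorem ι_castAdd (a : Fin k → F) (j : Fin k) : ι a (Fin.castAdd 2 j) = a j := by
  simp [ι]

theorem ι_natAdd (a : Fin k → F) (i : Fin 2) : ι a (Fin.natAdd k i) = 0 := by
  simp [ι]

theorem ι_add (a b : Fin k → F) : ι (a + b) = ι a + ι b := by
  funext i
  refine Fin.addCases (fun j => ?_) (fun j => ?_) i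
  · rw [Pi.add_apply, ι_castAdd, ι_castAdd, ι_castAdd, Pi.add_apply]
  · rw [Pi.add_apply, ι_natAdd, ι_natAdd, ι_natAdd, add_zero]

theorem ι_smul (c : F) (a : Fin k → F) : ι (c • a) = c • ι a := by
  funext i
  refine Fin.addCases (fun j => ?_) (fun j => ?_) i
  · rw [Pi.smul_apply, ι_castAdd, ι_castAdd, Pi.smul_apply]
  · rw [Pi.smul_apply, ι_natAdd, ι_natAdd, smul_zero]

theorem ι_zero : ι (0 : Fin k → F) = 0 := by
  funext i
  refine Fin.addCases (fun j => ?_) (fun j => ?_) i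
  · rw [ι_castAdd]
    rfl
  · rw [ι_natAdd]
    rfl

theorem ι_neg (a : Fin k → F) : ι (-a) = - ι a := by
  have := ι_smul (-1 : F) a
  rwa [neg_one_smul, neg_one_smul] at this

theorem ι_sub (a b : Fin k → F) : ι (a - b) = ι a - ι b := by
  rw [sub_eq_add_neg, ι_add, ι_neg, sub_eq_add_neg]

theorem ι_injective : Function.Injective (ι : (Fin k → F) → _) := by
  intro a b hab
  have := congrArg πW hab
  rwa [πW_ι, πW_ι] at this

theorem πW_add (x y : Fin (k + 2) → F) : πW (x + y) = πW x + πW y := rfl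

theorem πW_sub (x y : Fin (k + 2) → F) : πW (x - y) = πW x - πW y := rfl

theorem πW_smul (c : F) (x : Fin (k + 2) → F) : πW (c • x) = c • πW x := rfl

theorem πW_zero : πW (0 : Fin (k + 2) → F) = 0 := rfl

theorem h_split (x y : Fin (k + 2) → F) :
    D.h x y = D.h (πW x) (πW y) + ∑ i : Fin 2, x (Fin.natAdd k i) * D.φ (y (Fin.natAdd k i)) := by
  rw [D.h_eq, D.h_eq, Fin.sum_univ_add]
  rfl

theorem h_ι_right (x : Fin (k + 2) → F) (a : Fin k → F) : D.h x (ι a) = D.h (πW x) a := by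
  rw [h_split, πW_ι]
  simp [ι_natAdd]

theorem h_ι_left (a : Fin k → F) (x : Fin (k + 2) → F) : D.h (ι a) x = D.h a (πW x) := by
  rw [h_split, πW_ι]
  simp [ι_natAdd]

theorem h_ι_ι (a b : Fin k → F) : D.h (ι a) (ι b) = D.h a b := by
  rw [h_ι_left, πW_ι]

/-- a Witt frame: a hyperbolic pair supported on the last two coordinates -/
structure Frame (D : QD F q) (k : ℕ) where
  e : Fin (k + 2) → F
  f : Fin (k + 2) → F
  he : D.h e e = 0
  hf : D.h f f = 0
  hfe : D.h f e = 1
  eW : πW e = 0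
  fW : πW f = 0
  dec : ∀ x : Fin (k + 2) → F, x = D.h x f • e + D.h x e • f + ι (πW x)

theorem exists_frame (k : ℕ) : Nonempty (Frame D k) := by
  obtain ⟨η, hη⟩ := D.nm (-1) (by rw [map_neg, map_one])
  obtain ⟨s, hs⟩ := D.exists_tr_one
  have hW : ∀ v : Fin 2 → F, πW (Fin.append (0 : Fin k → F) v) = 0 := by
    intro v
    funext j
    simp [πW]
  have hN : ∀ (v : Fin 2 → F) (i : Fin 2), (Fin.append (0 : Fin k → F) v) (Fin.natAdd k i) = v i := by
    intro v i
    simp
  refine ⟨{ e := Fin.append 0 ![1, η]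
            f := Fin.append 0 ![s, -(D.φ s * η)]
            he := ?_, hf := ?_, hfe := ?_, eW := hW _, fW := hW _, dec := ?_ }⟩
  · rw [h_split, hW, D.h_zero_left, Fin.sum_univ_two, hN, hN]
    simp only [Matrix.cons_val_zero, Matrix.cons_val_one, map_one]
    linear_combination hη
  · rw [h_split, hW, D.h_zero_left, Fin.sum_univ_two, hN, hN]
    simp only [Matrix.cons_val_zero, Matrix.cons_val_one, map_neg, map_mul, D.inv]
    linear_combination (s * D.φ s) * hη
  · rw [h_split, hW, hW, D.h_zero_left, Fin.sum_univ_two, hN, hN, hN, hN]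
    simp only [Matrix.cons_val_zero, Matrix.cons_val_one, map_one]
    linear_combination hs - D.φ s * hη
  · intro x
    have e1 : D.h x (Fin.append (0 : Fin k → F) ![s, -(D.φ s * η)])
        = x (Fin.natAdd k 0) * D.φ s - x (Fin.natAdd k 1) * (s * D.φ η) := by
      rw [h_split, hW, D.h_zero_right, Fin.sum_univ_two, hN, hN]
      simp only [Matrix.cons_val_zero, Matrix.cons_val_one, map_neg, map_mul, D.inv]
      ring
    have e2 : D.h x (Fin.append (0 : Fin k → F) ![1, η])
        = x (Fin.natAdd k 0) + x (Fin.natAdd k 1) * D.φ η := by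
      rw [h_split, hW, D.h_zero_right, Fin.sum_univ_two, hN, hN]
      simp only [Matrix.cons_val_zero, Matrix.cons_val_one, map_one]
      ring
    rw [e1, e2]
    funext i
    refine Fin.addCases (fun j => ?_) (fun j => ?_) i
    · simp [ι, πW]
    · have he0 : (Fin.append (0 : Fin k → F) ![1, η]) (Fin.natAdd k 0) = 1 := by
        rw [hN]
        rfl
      have he1 : (Fin.append (0 : Fin k → F) ![1, η]) (Fin.natAdd k 1) = η := by
        rw [hN]
        rfl
      have hf0 : (Fin.append (0 : Fin k → F) ![s, -(D.φ s * η)]) (Fin.natAdd k 0) = s := by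
        rw [hN]
        rfl
      have hf1 : (Fin.append (0 : Fin k → F) ![s, -(D.φ s * η)]) (Fin.natAdd k 1)
          = -(D.φ s * η) := by
        rw [hN]
        rfl
      fin_cases j
      · simp only [Fin.zero_eta, Pi.add_apply, Pi.smul_apply, smul_eq_mul, he0, hf0, ι_natAdd,
          add_zero]
        linear_combination (-x (Fin.natAdd k 0)) * hs
      · simp only [Fin.mk_one, Pi.add_apply, Pi.smul_apply, smul_eq_mul, he1, hf1, ι_natAdd,
          add_zero]
        linear_combination (x (Fin.natAdd k 1) * (s + D.φ s)) * hη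
          - x (Fin.natAdd k 1) * hs

namespace Frame

variable {D}
variable (Fr : Frame D k)

theorem hef : D.h Fr.e Fr.f = 1 := h_comm_one D Fr.hfe

theorem h_ι_e (a : Fin k → F) : D.h (ι a) Fr.e = 0 := by
  rw [h_ι_left, Fr.eW, D.h_zero_right]

theorem h_ι_f (a : Fin k → F) : D.h (ι a) Fr.f = 0 := by
  rw [h_ι_left, Fr.fW, D.h_zero_right]

theorem h_e_ι (a : Fin k → F) : D.h Fr.e (ι a) = 0 := by
  rw [h_ι_right, Fr.eW, D.h_zero_left]

theorem h_f_ι (a : Fin k → F) : D.h Fr.f (ι a) = 0 := by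
  rw [h_ι_right, Fr.fW, D.h_zero_left]

theorem e_ne : Fr.e ≠ 0 := by
  intro h
  have := Fr.hfe
  rw [h, D.h_zero_right] at this
  exact zero_ne_one this

theorem f_ne : Fr.f ≠ 0 := by
  intro h
  have := Fr.hfe
  rw [h, D.h_zero_left] at this
  exact zero_ne_one this

/-- a vector perpendicular to `e` and `f` lies in the image of `ι` -/
theorem eq_ι_of_perp {x : Fin (k + 2) → F} (h1 : D.h x Fr.e = 0) (h2 : D.h x Fr.f = 0) :
    x = ι (πW x) := by
  have := Fr.dec x
  rw [h1, h2, zero_smul, zero_smul, zero_add, zero_add] at this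
  exact this

/-- extensionality through the frame -/
theorem ext_of {g g' : ↥(Cfsg.SU (k + 2) F q)} (he : mv g Fr.e = mv g' Fr.e)
    (hf : mv g Fr.f = mv g' Fr.f) (hι : ∀ a : Fin k → F, mv g (ι a) = mv g' (ι a)) : g = g' := by
  apply su_ext
  intro x
  rw [Fr.dec x, mv_add, mv_add, mv_smul, mv_smul, mv_add, mv_add, mv_smul, mv_smul, he, hf, hι]

/-- the standard parametrisation of the unipotent radical -/
noncomputable def u (a : Fin k → F) (c : F) : ↥(Cfsg.SU (k + 2) F q) := E D Fr.e (ι a) c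

theorem Ok_u {a : Fin k → F} {c : F} (H : Ok' D a c) : Ok D Fr.e (ι a) c :=
  ⟨Fr.he, Fr.h_ι_e a, by rw [h_ι_ι]; exact H⟩

theorem mv_u_f {a : Fin k → F} {c : F} (H : Ok' D a c) :
    mv (Fr.u a c) Fr.f = Fr.f + ι a + c • Fr.e := by
  unfold u
  rw [mv_E_f D (Fr.Ok_u H) Fr.hfe, Fr.h_f_ι, sub_zero]

theorem mv_u_e {a : Fin k → F} {c : F} (H : Ok' D a c) : mv (Fr.u a c) Fr.e = Fr.e :=
  mv_E_e D (Fr.Ok_u H)

theorem mv_u_ι {a : Fin k → F} {c : F} (H : Ok' D a c) (b : Fin k → F) :
    mv (Fr.u a c) (ι b) = ι b - D.h b a • Fr.e := by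
  unfold u
  rw [mv_E_perp D (Fr.Ok_u H) (Fr.h_ι_e b), h_ι_ι]

theorem Ok'_mul {a b : Fin k → F} {c d : F} (H : Ok' D a c) (H' : Ok' D b d) :
    Ok' D (a + b) (c + d - D.h b a) := by
  unfold Ok' at H H' ⊢
  simp only [D.h_add_left, D.h_add_right, map_sub, map_add, D.h_symm]
  linear_combination H + H'

theorem u_mul {a b : Fin k → F} {c d : F} (H : Ok' D a c) (H' : Ok' D b d) :
    Fr.u a c * Fr.u b d = Fr.u (a + b) (c + d - D.h b a) := by
  unfold u
  rw [E_mul D (Fr.Ok_u H) (Fr.Ok_u H'), ι_add, h_ι_ι]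

theorem Ok'_zero : Ok' D (0 : Fin k → F) 0 := by
  unfold Ok'
  rw [D.h_zero_left, map_zero]
  ring

theorem u_zero : Fr.u 0 0 = 1 := by
  unfold u
  rw [ι_zero, E_zero D Fr.he]

theorem Ok'_skew {z : F} (hz : D.φ z = -z) : Ok' D (0 : Fin k → F) z := by
  unfold Ok'
  rw [D.h_zero_left, hz]
  ring

theorem skew_of_Ok' {z : F} (H : Ok' D (0 : Fin k → F) z) : D.φ z = -z := by
  unfold Ok' at H
  rw [D.h_zero_left] at H
  linear_combination H

theorem u_zero_eq (z : F) : Fr.u 0 z = T D Fr.e z := by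
  unfold u T
  rw [ι_zero]

/-- every element of `U e` is of the form `u a c` -/
theorem mem_U_iff (x : Cfsg.PSU (k + 2) F q) :
    x ∈ U D Fr.e ↔ ∃ a c, Ok' D a c ∧ x = pr (Fr.u a c) := by
  constructor
  · rintro ⟨d, c, H, rfl⟩
    have hd := Fr.dec d
    rw [H.2.1, zero_smul, add_zero] at hd
    have H' : Ok' D (πW d) (c + D.h d Fr.f - D.φ (D.h d Fr.f)) := by
      have h1 := H.2.2
      have h2 : D.h d d = D.h (πW d) (πW d) := by
        conv_lhs => rw [hd]
        simp only [D.h_add_left, D.h_add_right, D.h_smul_left, D.h_smul_right, Fr.he,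
          Fr.h_ι_e, Fr.h_e_ι, h_ι_ι]
        ring
      unfold Ok'
      rw [map_sub, map_add, D.inv, ← h2]
      linear_combination h1
    refine ⟨πW d, _, H', ?_⟩
    have h3 := E_shift D (Fr.Ok_u H') (D.h d Fr.f)
    have h4 : c + D.h d Fr.f - D.φ (D.h d Fr.f) - D.h d Fr.f + D.φ (D.h d Fr.f) = c := by ring
    rw [h4] at h3
    have h5 : ι (πW d) + D.h d Fr.f • Fr.e = d := (add_comm _ _).trans hd.symm
    rw [h5] at h3
    unfold u
    rw [h3]
  · rintro ⟨a, c, H, rfl⟩
    exact ⟨ι a, c, Fr.Ok_u H, rfl⟩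

end Frame

/-! ### transitivity -/

variable {n : ℕ}

theorem exists_map_of_not_perp {u v : Fin n → F} (hu : D.h u u = 0) (hv : D.h v v = 0)
    (huv : D.h v u ≠ 0) : ∃ g : ↥(Cfsg.SU n F q), ∃ t : F, t ≠ 0 ∧ mv g u = t • v := by
  obtain ⟨z, hz0, hz⟩ := D.exists_skew
  have huv' : D.h u v = D.φ (D.h v u) := (D.h_symm v u).symm
  have hφa : D.φ (D.h v u) ≠ 0 := by
    intro h0
    have := congrArg D.φ h0
    rw [D.inv, map_zero] at this
    exact huv this
  have hw : D.h (u + (z / D.h v u) • v) (u + (z / D.h v u) • v) = 0 := by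
    simp only [D.h_add_left, D.h_add_right, D.h_smul_left, D.h_smul_right, hu, hv, huv',
      map_div₀, hz]
    field_simp
    ring
  have hc : z⁻¹ + D.φ z⁻¹ = 0 := by
    rw [map_inv₀, hz]
    field_simp
    ring
  refine ⟨T D (u + (z / D.h v u) • v) z⁻¹, -(z / D.h v u), ?_, ?_⟩
  · exact neg_ne_zero.2 (div_ne_zero hz0 huv)
  · rw [mv_T D hw hc]
    have h1 : z⁻¹ * D.h u (u + (z / D.h v u) • v) = -1 := by
      rw [D.h_add_right, D.h_smul_right, hu, huv', map_div₀, hz]
      field_simp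
      ring
    rw [h1]
    module

theorem exists_map {u v : Fin n → F} (hu0 : u ≠ 0) (hv0 : v ≠ 0) (hu : D.h u u = 0)
    (hv : D.h v v = 0) : ∃ g : ↥(Cfsg.SU n F q), ∃ t : F, t ≠ 0 ∧ mv g u = t • v := by
  by_cases huv : D.h v u = 0
  · -- find an isotropic vector not perpendicular to both
    have huv' : D.h u v = 0 := h_comm_zero D huv
    obtain ⟨f, hff, hfu⟩ := exists_partner D hu0 hu
    have key : ∃ y : Fin n → F, D.h y y = 0 ∧ D.h y u ≠ 0 ∧ D.h v y ≠ 0 := by
      by_cases hfv : D.h v f = 0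
      · have hfv' : D.h f v = 0 := h_comm_zero D hfv
        have hd : ∃ d : Fin n → F, D.h d u = 0 ∧ D.h d v ≠ 0 := by
          by_contra hcon
          push Not at hcon
          apply hv0
          apply D.eq_zero_of_h_right
          intro x
          have h1 := hcon (x - D.h x u • f)
            (by rw [D.h_sub_left, D.h_smul_left, hfu, mul_one, sub_self])
          rw [D.h_sub_left, D.h_smul_left, hfv', mul_zero, sub_zero] at h1
          exact h1
        obtain ⟨d, hdu, hdv⟩ := hd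
        obtain ⟨c, hc⟩ := D.exists_c d
        have H : Ok D u d c := ⟨hu, hdu, hc⟩
        refine ⟨mv (E D u d c) f, by rw [h_mv, hff], ?_, ?_⟩
        · have h1 := h_mv D (E D u d c) f u
          rw [mv_E_e D H] at h1
          rw [h1, hfu]
          exact one_ne_zero
        · rw [mv_E_f D H hfu]
          simp only [D.h_add_right, D.h_smul_right, hfv, huv, mul_zero, add_zero, zero_add]
          intro h0
          apply hdv
          rw [← D.h_symm, h0, map_zero]
      · exact ⟨f, hff, by rw [hfu]; exact one_ne_zero, hfv⟩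
    obtain ⟨y, hyy, hyu, hvy⟩ := key
    obtain ⟨g₁, t₁, ht₁, h1⟩ := exists_map_of_not_perp D hu hyy hyu
    obtain ⟨g₂, t₂, ht₂, h2⟩ := exists_map_of_not_perp D hyy hv hvy
    refine ⟨g₂ * g₁, t₁ * t₂, mul_ne_zero ht₁ ht₂, ?_⟩
    rw [mv_mul, h1, mv_smul, h2, smul_smul]
  · exact exists_map_of_not_perp D hu hv huv

/-- the unipotent radical is transitive on the opposite points -/
theorem exists_E_map {e y y' : Fin n → F} (he : D.h e e = 0) (hy : D.h y y = 0)
    (hy' : D.h y' y' = 0) (hye : D.h y e = 1) (hy'e : D.h y' e = 1) :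
    ∃ d c, Ok D e d c ∧ mv (E D e d c) y = y' := by
  have H : Ok D e (y' - y) (D.h y y') := by
    refine ⟨he, ?_, ?_⟩
    · rw [D.h_sub_left, hye, hy'e, sub_self]
    · simp only [D.h_sub_left, D.h_sub_right, hy, hy', D.h_symm]
      ring
  refine ⟨_, _, H, ?_⟩
  rw [mv_E_f D H hye, D.h_sub_right, hy]
  module

end Cfsg.Agent.Lib.Helper43.SUFrame
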