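import Mathlib
import Cfsg.Prelude.Def_LieTypeDatum
import Cfsg.Agent.Lib.Helper43.SpBasic

set_option autoImplicit false

namespace Cfsg.Agent.Lib.Helper43.SpAuts

open Matrix Cfsg.Agent.Lib.Helper13.SympMat Cfsg.Agent.Lib.Helper43.SpBasic

variable {F : Type*} [Field F] {m : ℕ}

/-- automorphisms of `Sp` induce automorphisms of `PSp` -/
def liftAut : MulAut (Matrix.symplecticGroup (Fin m) F) →* MulAut (Cfsg.PSp m F) where
  toFun β := QuotientGroup.congr (Subgroup.center _) (Subgroup.center _) β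
    (Subgroup.characteristic_iff_map_eq.1 inferInstance β)
  map_one' := by
    ext y
    obtain ⟨s, rfl⟩ := pr_surjective y
    rfl
  map_mul' β γ := by
    ext y
    obtain ⟨s, rfl⟩ := pr_surjective y
    rfl

theorem liftAut_pr (β : MulAut (Matrix.symplecticGroup (Fin m) F))
    (s : Matrix.symplecticGroup (Fin m) F) : liftAut β (pr s) = pr (β s) := rfl

theorem mem_GSp_iff (g : GL (Fin m ⊕ Fin m) F) :
    g ∈ Cfsg.GSp m F ↔ ∃ c : Fˣ, ∀ u v,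
      form m F ((g : Matrix (Fin m ⊕ Fin m) (Fin m ⊕ Fin m) F) *ᵥ u)
        ((g : Matrix (Fin m ⊕ Fin m) (Fin m ⊕ Fin m) F) *ᵥ v) = (c : F) * form m F u v := by
  constructor
  · rintro ⟨c, hc⟩
    refine ⟨c, fun u v => ?_⟩
    rw [form_apply, form_apply]
    exact hc u v
  · rintro ⟨c, hc⟩
    refine ⟨c, fun u v => ?_⟩
    rw [← form_apply, ← form_apply]
    exact hc u v

theorem inv_mulVec_mulVec_gl (g : GL (Fin m ⊕ Fin m) F) (x : Fin m ⊕ Fin m → F) :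
    ((g⁻¹ : GL (Fin m ⊕ Fin m) F) : Matrix (Fin m ⊕ Fin m) (Fin m ⊕ Fin m) F) *ᵥ
      ((g : Matrix (Fin m ⊕ Fin m) (Fin m ⊕ Fin m) F) *ᵥ x) = x := by
  rw [Matrix.mulVec_mulVec, ← Units.val_mul, inv_mul_cancel, Units.val_one, Matrix.one_mulVec]

theorem mulVec_inv_mulVec_gl (g : GL (Fin m ⊕ Fin m) F) (x : Fin m ⊕ Fin m → F) :
    (g : Matrix (Fin m ⊕ Fin m) (Fin m ⊕ Fin m) F) *ᵥ
      (((g⁻¹ : GL (Fin m ⊕ Fin m) F) : Matrix (Fin m ⊕ Fin m) (Fin m ⊕ Fin m) F) *ᵥ x) = x := by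
  rw [Matrix.mulVec_mulVec, ← Units.val_mul, mul_inv_cancel, Units.val_one, Matrix.one_mulVec]

theorem form_inv {g : GL (Fin m ⊕ Fin m) F} {c : F} (hc0 : c ≠ 0)
    (hc : ∀ u v, form m F ((g : Matrix (Fin m ⊕ Fin m) (Fin m ⊕ Fin m) F) *ᵥ u)
        ((g : Matrix (Fin m ⊕ Fin m) (Fin m ⊕ Fin m) F) *ᵥ v) = c * form m F u v)
    (u v : Fin m ⊕ Fin m → F) :
    form m F (((g⁻¹ : GL (Fin m ⊕ Fin m) F) : Matrix (Fin m ⊕ Fin m) (Fin m ⊕ Fin m) F) *ᵥ u)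
        (((g⁻¹ : GL (Fin m ⊕ Fin m) F) : Matrix (Fin m ⊕ Fin m) (Fin m ⊕ Fin m) F) *ᵥ v) =
      c⁻¹ * form m F u v := by
  have h := hc (((g⁻¹ : GL (Fin m ⊕ Fin m) F) : Matrix (Fin m ⊕ Fin m) (Fin m ⊕ Fin m) F) *ᵥ u)
    (((g⁻¹ : GL (Fin m ⊕ Fin m) F) : Matrix (Fin m ⊕ Fin m) (Fin m ⊕ Fin m) F) *ᵥ v)
  rw [mulVec_inv_mulVec_gl, mulVec_inv_mulVec_gl] at h
  rw [h, ← mul_assoc, inv_mul_cancel₀ hc0, one_mul]

theorem conj_mem {g : GL (Fin m ⊕ Fin m) F} (hg : g ∈ Cfsg.GSp m F)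
    (s : Matrix.symplecticGroup (Fin m) F) :
    (g : Matrix (Fin m ⊕ Fin m) (Fin m ⊕ Fin m) F) * s *
      ((g⁻¹ : GL (Fin m ⊕ Fin m) F) : Matrix (Fin m ⊕ Fin m) (Fin m ⊕ Fin m) F) ∈
      Matrix.symplecticGroup (Fin m) F := by
  obtain ⟨c, hc⟩ := (mem_GSp_iff g).1 hg
  rw [mem_symp_iff]
  intro u v
  rw [← Matrix.mulVec_mulVec, ← Matrix.mulVec_mulVec, ← Matrix.mulVec_mulVec,
    ← Matrix.mulVec_mulVec, hc, form_mulVec s, form_inv c.ne_zero hc, ← mul_assoc,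
    mul_inv_cancel₀ c.ne_zero, one_mul]

/-- conjugation by an element of `GSp` as an automorphism of `Sp` -/
def conjGSp : ↥(Cfsg.GSp m F) →* MulAut (Matrix.symplecticGroup (Fin m) F) where
  toFun g :=
    { toFun := fun s => ⟨((g : GL (Fin m ⊕ Fin m) F) : Matrix (Fin m ⊕ Fin m) (Fin m ⊕ Fin m) F) *
          s * (((g : GL (Fin m ⊕ Fin m) F)⁻¹ : GL (Fin m ⊕ Fin m) F) :
            Matrix (Fin m ⊕ Fin m) (Fin m ⊕ Fin m) F), conj_mem g.2 s⟩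
      invFun := fun s => ⟨(((g : GL (Fin m ⊕ Fin m) F)⁻¹ : GL (Fin m ⊕ Fin m) F) :
            Matrix (Fin m ⊕ Fin m) (Fin m ⊕ Fin m) F) * s *
          ((g : GL (Fin m ⊕ Fin m) F) : Matrix (Fin m ⊕ Fin m) (Fin m ⊕ Fin m) F), by
        have := conj_mem (inv_mem g.2) s
        rwa [inv_inv] at this⟩
      left_inv := fun s => by
        apply Subtype.ext
        show (((g : GL (Fin m ⊕ Fin m) F)⁻¹ : GL (Fin m ⊕ Fin m) F) :
            Matrix (Fin m ⊕ Fin m) (Fin m ⊕ Fin m) F) *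
          (((g : GL (Fin m ⊕ Fin m) F) : Matrix (Fin m ⊕ Fin m) (Fin m ⊕ Fin m) F) * s *
          (((g : GL (Fin m ⊕ Fin m) F)⁻¹ : GL (Fin m ⊕ Fin m) F) :
            Matrix (Fin m ⊕ Fin m) (Fin m ⊕ Fin m) F)) *
          ((g : GL (Fin m ⊕ Fin m) F) : Matrix (Fin m ⊕ Fin m) (Fin m ⊕ Fin m) F) = s
        rw [mul_assoc ((g : GL (Fin m ⊕ Fin m) F) : Matrix (Fin m ⊕ Fin m) (Fin m ⊕ Fin m) F),
          Units.inv_mul_cancel_left, Units.inv_mul_cancel_right]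
      right_inv := fun s => by
        apply Subtype.ext
        show ((g : GL (Fin m ⊕ Fin m) F) : Matrix (Fin m ⊕ Fin m) (Fin m ⊕ Fin m) F) *
          ((((g : GL (Fin m ⊕ Fin m) F)⁻¹ : GL (Fin m ⊕ Fin m) F) :
            Matrix (Fin m ⊕ Fin m) (Fin m ⊕ Fin m) F) * s *
          ((g : GL (Fin m ⊕ Fin m) F) : Matrix (Fin m ⊕ Fin m) (Fin m ⊕ Fin m) F)) *
          (((g : GL (Fin m ⊕ Fin m) F)⁻¹ : GL (Fin m ⊕ Fin m) F) :
            Matrix (Fin m ⊕ Fin m) (Fin m ⊕ Fin m) F) = s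
        rw [mul_assoc (((g : GL (Fin m ⊕ Fin m) F)⁻¹ : GL (Fin m ⊕ Fin m) F) :
            Matrix (Fin m ⊕ Fin m) (Fin m ⊕ Fin m) F),
          Units.mul_inv_cancel_left, Units.mul_inv_cancel_right]
      map_mul' := fun s t => by
        apply Subtype.ext
        show ((g : GL (Fin m ⊕ Fin m) F) : Matrix (Fin m ⊕ Fin m) (Fin m ⊕ Fin m) F) *
            ((s : Matrix (Fin m ⊕ Fin m) (Fin m ⊕ Fin m) F) *
              (t : Matrix (Fin m ⊕ Fin m) (Fin m ⊕ Fin m) F)) *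
            (((g : GL (Fin m ⊕ Fin m) F)⁻¹ : GL (Fin m ⊕ Fin m) F) :
              Matrix (Fin m ⊕ Fin m) (Fin m ⊕ Fin m) F) =
          (((g : GL (Fin m ⊕ Fin m) F) : Matrix (Fin m ⊕ Fin m) (Fin m ⊕ Fin m) F) * s *
            (((g : GL (Fin m ⊕ Fin m) F)⁻¹ : GL (Fin m ⊕ Fin m) F) :
              Matrix (Fin m ⊕ Fin m) (Fin m ⊕ Fin m) F)) *
          (((g : GL (Fin m ⊕ Fin m) F) : Matrix (Fin m ⊕ Fin m) (Fin m ⊕ Fin m) F) * t *
            (((g : GL (Fin m ⊕ Fin m) F)⁻¹ : GL (Fin m ⊕ Fin m) F) :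
              Matrix (Fin m ⊕ Fin m) (Fin m ⊕ Fin m) F))
        calc ((g : GL (Fin m ⊕ Fin m) F) : Matrix (Fin m ⊕ Fin m) (Fin m ⊕ Fin m) F) *
            ((s : Matrix (Fin m ⊕ Fin m) (Fin m ⊕ Fin m) F) *
              (t : Matrix (Fin m ⊕ Fin m) (Fin m ⊕ Fin m) F)) *
            (((g : GL (Fin m ⊕ Fin m) F)⁻¹ : GL (Fin m ⊕ Fin m) F) :
              Matrix (Fin m ⊕ Fin m) (Fin m ⊕ Fin m) F)
            = ((g : GL (Fin m ⊕ Fin m) F) : Matrix (Fin m ⊕ Fin m) (Fin m ⊕ Fin m) F) * s *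
              ((((g : GL (Fin m ⊕ Fin m) F)⁻¹ : GL (Fin m ⊕ Fin m) F) :
                Matrix (Fin m ⊕ Fin m) (Fin m ⊕ Fin m) F) *
              (((g : GL (Fin m ⊕ Fin m) F) : Matrix (Fin m ⊕ Fin m) (Fin m ⊕ Fin m) F) * (t *
              (((g : GL (Fin m ⊕ Fin m) F)⁻¹ : GL (Fin m ⊕ Fin m) F) :
                Matrix (Fin m ⊕ Fin m) (Fin m ⊕ Fin m) F)))) := by
              rw [Units.inv_mul_cancel_left]
              simp only [mul_assoc]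
          _ = _ := by simp only [mul_assoc] }
  map_one' := by
    ext s : 1
    apply Subtype.ext
    show (((1 : ↥(Cfsg.GSp m F)) : GL (Fin m ⊕ Fin m) F) :
        Matrix (Fin m ⊕ Fin m) (Fin m ⊕ Fin m) F) * s *
      ((((1 : ↥(Cfsg.GSp m F)) : GL (Fin m ⊕ Fin m) F)⁻¹ : GL (Fin m ⊕ Fin m) F) :
        Matrix (Fin m ⊕ Fin m) (Fin m ⊕ Fin m) F) = s
    rw [Subgroup.coe_one, inv_one, Units.val_one, one_mul, mul_one]
  map_mul' g h := by
    ext s : 1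
    apply Subtype.ext
    show (((g * h : ↥(Cfsg.GSp m F)) : GL (Fin m ⊕ Fin m) F) :
        Matrix (Fin m ⊕ Fin m) (Fin m ⊕ Fin m) F) * s *
      ((((g * h : ↥(Cfsg.GSp m F)) : GL (Fin m ⊕ Fin m) F)⁻¹ : GL (Fin m ⊕ Fin m) F) :
        Matrix (Fin m ⊕ Fin m) (Fin m ⊕ Fin m) F) =
      ((g : GL (Fin m ⊕ Fin m) F) : Matrix (Fin m ⊕ Fin m) (Fin m ⊕ Fin m) F) *
        (((h : GL (Fin m ⊕ Fin m) F) : Matrix (Fin m ⊕ Fin m) (Fin m ⊕ Fin m) F) * s *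
        (((h : GL (Fin m ⊕ Fin m) F)⁻¹ : GL (Fin m ⊕ Fin m) F) :
          Matrix (Fin m ⊕ Fin m) (Fin m ⊕ Fin m) F)) *
        (((g : GL (Fin m ⊕ Fin m) F)⁻¹ : GL (Fin m ⊕ Fin m) F) :
          Matrix (Fin m ⊕ Fin m) (Fin m ⊕ Fin m) F)
    rw [Subgroup.coe_mul, _root_.mul_inv_rev, Units.val_mul, Units.val_mul]
    simp only [mul_assoc]

theorem conjGSp_coe (g : ↥(Cfsg.GSp m F)) (s : Matrix.symplecticGroup (Fin m) F) :
    ((conjGSp g s : Matrix.symplecticGroup (Fin m) F) :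
        Matrix (Fin m ⊕ Fin m) (Fin m ⊕ Fin m) F) =
      ((g : GL (Fin m ⊕ Fin m) F) : Matrix (Fin m ⊕ Fin m) (Fin m ⊕ Fin m) F) * s *
        (((g : GL (Fin m ⊕ Fin m) F)⁻¹ : GL (Fin m ⊕ Fin m) F) :
          Matrix (Fin m ⊕ Fin m) (Fin m ⊕ Fin m) F) := rfl

theorem conjGSp_mul (g : ↥(Cfsg.GSp m F)) (s : Matrix.symplecticGroup (Fin m) F) :
    ((conjGSp g s : Matrix.symplecticGroup (Fin m) F) :
        Matrix (Fin m ⊕ Fin m) (Fin m ⊕ Fin m) F) *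
      ((g : GL (Fin m ⊕ Fin m) F) : Matrix (Fin m ⊕ Fin m) (Fin m ⊕ Fin m) F) =
      ((g : GL (Fin m ⊕ Fin m) F) : Matrix (Fin m ⊕ Fin m) (Fin m ⊕ Fin m) F) * s := by
  rw [conjGSp_coe, Units.inv_mul_cancel_right]

theorem conjGSp_eq_of_mul_eq (g : ↥(Cfsg.GSp m F)) (s t : Matrix.symplecticGroup (Fin m) F)
    (h : ((g : GL (Fin m ⊕ Fin m) F) : Matrix (Fin m ⊕ Fin m) (Fin m ⊕ Fin m) F) * s =
      (t : Matrix (Fin m ⊕ Fin m) (Fin m ⊕ Fin m) F) *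
        ((g : GL (Fin m ⊕ Fin m) F) : Matrix (Fin m ⊕ Fin m) (Fin m ⊕ Fin m) F)) :
    conjGSp g s = t := by
  apply Subtype.ext
  rw [conjGSp_coe, h, Units.mul_inv_cancel_right]

/-- field automorphisms as automorphisms of `Sp` -/
def spAut : RingAut F →* MulAut (Matrix.symplecticGroup (Fin m) F) where
  toFun σ :=
    { toFun := fun s => ⟨(s : Matrix (Fin m ⊕ Fin m) (Fin m ⊕ Fin m) F).map σ,
        SymplecticGroup.map_mem s.2 σ⟩
      invFun := fun s => ⟨(s : Matrix (Fin m ⊕ Fin m) (Fin m ⊕ Fin m) F).map σ.symm,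
        SymplecticGroup.map_mem s.2 σ.symm⟩
      left_inv := fun s => by
        apply Subtype.ext
        ext i j
        simp
      right_inv := fun s => by
        apply Subtype.ext
        ext i j
        simp
      map_mul' := fun s t => by
        apply Subtype.ext
        show ((s : Matrix (Fin m ⊕ Fin m) (Fin m ⊕ Fin m) F) *
            (t : Matrix (Fin m ⊕ Fin m) (Fin m ⊕ Fin m) F)).map σ =
          (s : Matrix (Fin m ⊕ Fin m) (Fin m ⊕ Fin m) F).map σ *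
            (t : Matrix (Fin m ⊕ Fin m) (Fin m ⊕ Fin m) F).map σ
        exact Matrix.map_mul }
  map_one' := by
    ext s : 1
    apply Subtype.ext
    ext i j
    rfl
  map_mul' σ τ := by
    ext s : 1
    apply Subtype.ext
    ext i j
    rfl

theorem spAut_coe (σ : RingAut F) (s : Matrix.symplecticGroup (Fin m) F) :
    ((spAut σ s : Matrix.symplecticGroup (Fin m) F) : Matrix (Fin m ⊕ Fin m) (Fin m ⊕ Fin m) F) =
      (s : Matrix (Fin m ⊕ Fin m) (Fin m ⊕ Fin m) F).map σ := rfl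

/-- the automorphism of `PSp` induced by conjugation with an element of `GSp` -/
def cGSp : ↥(Cfsg.GSp m F) →* MulAut (Cfsg.PSp m F) := liftAut.comp conjGSp

/-- the automorphism of `PSp` induced by a field automorphism -/
def cσ : RingAut F →* MulAut (Cfsg.PSp m F) := liftAut.comp spAut

theorem cGSp_pr (g : ↥(Cfsg.GSp m F)) (s : Matrix.symplecticGroup (Fin m) F) :
    cGSp g (pr s) = pr (conjGSp g s) := rfl

theorem cσ_pr (σ : RingAut F) (s : Matrix.symplecticGroup (Fin m) F) :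
    cσ σ (pr s) = pr (spAut σ s) := rfl

theorem conjGSp_t (g : ↥(Cfsg.GSp m F)) {c : F} (hc0 : c ≠ 0)
    (hc : ∀ u v, form m F (((g : GL (Fin m ⊕ Fin m) F) :
          Matrix (Fin m ⊕ Fin m) (Fin m ⊕ Fin m) F) *ᵥ u)
        (((g : GL (Fin m ⊕ Fin m) F) : Matrix (Fin m ⊕ Fin m) (Fin m ⊕ Fin m) F) *ᵥ v) =
          c * form m F u v) (v : Fin m ⊕ Fin m → F) (a : F) :
    conjGSp g (t v a) = t (((g : GL (Fin m ⊕ Fin m) F) :
      Matrix (Fin m ⊕ Fin m) (Fin m ⊕ Fin m) F) *ᵥ v) (a / c) := by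
  apply sp_ext
  intro x
  rw [conjGSp_coe, ← Matrix.mulVec_mulVec, ← Matrix.mulVec_mulVec, t_mulVec, t_mulVec,
    Matrix.mulVec_add, Matrix.mulVec_smul, mulVec_inv_mulVec_gl]
  have h1 := hc (((((g : GL (Fin m ⊕ Fin m) F)⁻¹ : GL (Fin m ⊕ Fin m) F) :
            Matrix (Fin m ⊕ Fin m) (Fin m ⊕ Fin m) F)) *ᵥ x) v
  rw [mulVec_inv_mulVec_gl] at h1
  rw [h1]
  congr 2
  field_simp

theorem cGSp_t (g : ↥(Cfsg.GSp m F)) {c : F} (hc0 : c ≠ 0)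
    (hc : ∀ u v, form m F (((g : GL (Fin m ⊕ Fin m) F) :
          Matrix (Fin m ⊕ Fin m) (Fin m ⊕ Fin m) F) *ᵥ u)
        (((g : GL (Fin m ⊕ Fin m) F) : Matrix (Fin m ⊕ Fin m) (Fin m ⊕ Fin m) F) *ᵥ v) =
          c * form m F u v) (v : Fin m ⊕ Fin m → F) (a : F) :
    cGSp g (pr (t v a)) = pr (t (((g : GL (Fin m ⊕ Fin m) F) :
      Matrix (Fin m ⊕ Fin m) (Fin m ⊕ Fin m) F) *ᵥ v) (a / c)) := by
  rw [cGSp_pr, conjGSp_t g hc0 hc]

theorem form_map (σ : RingAut F) (u v : Fin m ⊕ Fin m → F) :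
    form m F (fun k => σ (u k)) (fun k => σ (v k)) = σ (form m F u v) := by
  rw [form_eq, form_eq, map_sum]
  apply Finset.sum_congr rfl
  intro i _
  rw [map_sub, map_mul, map_mul]

theorem spAut_mulVec (σ : RingAut F) (s : Matrix.symplecticGroup (Fin m) F)
    (x : Fin m ⊕ Fin m → F) :
    ((spAut σ s : Matrix.symplecticGroup (Fin m) F) :
        Matrix (Fin m ⊕ Fin m) (Fin m ⊕ Fin m) F) *ᵥ (fun k => σ (x k)) =
      fun k => σ (((s : Matrix (Fin m ⊕ Fin m) (Fin m ⊕ Fin m) F) *ᵥ x) k) := by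
  funext k
  rw [spAut_coe]
  exact (RingHom.map_mulVec (σ : F →+* F) _ x k).symm

theorem spAut_t (σ : RingAut F) (v : Fin m ⊕ Fin m → F) (a : F) :
    spAut σ (t v a) = t (fun k => σ (v k)) (σ a) := by
  apply sp_ext
  intro x
  have hx : x = fun k => σ (σ.symm (x k)) := by
    funext k
    simp
  rw [hx, spAut_mulVec, t_mulVec, t_mulVec, form_map]
  funext k
  simp

theorem cσ_t (σ : RingAut F) (v : Fin m ⊕ Fin m → F) (a : F) :
    cσ σ (pr (t v a)) = pr (t (fun k => σ (v k)) (σ a)) := by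
  rw [cσ_pr, spAut_t]

/-- an element of `Sp` as an element of `GSp` -/
def toGSp (s : Matrix.symplecticGroup (Fin m) F) : ↥(Cfsg.GSp m F) :=
  ⟨⟨(s : Matrix (Fin m ⊕ Fin m) (Fin m ⊕ Fin m) F),
      ((s⁻¹ : Matrix.symplecticGroup (Fin m) F) : Matrix (Fin m ⊕ Fin m) (Fin m ⊕ Fin m) F), by
      rw [← Submonoid.coe_mul, mul_inv_cancel, Submonoid.coe_one], by
      rw [← Submonoid.coe_mul, inv_mul_cancel, Submonoid.coe_one]⟩, by
    rw [mem_GSp_iff]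
    refine ⟨1, fun u v => ?_⟩
    rw [Units.val_one, one_mul]
    exact form_mulVec s u v⟩

theorem toGSp_coe (s : Matrix.symplecticGroup (Fin m) F) :
    (((toGSp s : ↥(Cfsg.GSp m F)) : GL (Fin m ⊕ Fin m) F) :
      Matrix (Fin m ⊕ Fin m) (Fin m ⊕ Fin m) F) = s := rfl

theorem cGSp_toGSp (s : Matrix.symplecticGroup (Fin m) F) :
    cGSp (toGSp s) = MulAut.conj (pr s) := by
  ext y : 1
  obtain ⟨r, rfl⟩ := pr_surjective y
  rw [cGSp_pr, MulAut.conj_apply, ← map_mul, ← map_inv, ← map_mul]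
  congr 1

end Cfsg.Agent.Lib.Helper43.SpAuts
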