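import Mathlib
import Cfsg.Agent.Lib.Helper43.SpAuts

set_option autoImplicit false

namespace Cfsg.Agent.Lib.Helper43.SpFrame

open Matrix Cfsg.Agent.Lib.Helper13.SympMat Cfsg.Agent.Lib.Helper43.SpBasic
  Cfsg.Agent.Lib.Helper43.SpAuts

variable {F : Type*} [Field F] {m : ℕ}

theorem transpose_J_mul_apply (P : Matrix (Fin m ⊕ Fin m) (Fin m ⊕ Fin m) F)
    (k l : Fin m ⊕ Fin m) :
    (Pᵀ * J (Fin m) F * P) k l = form m F (P.col k) (P.col l) := by
  rw [form_apply, Cfsg.sympForm]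
  simp only [Matrix.mul_apply, dotProduct, Matrix.mulVec, Matrix.transpose_apply, Matrix.col_apply,
    Finset.sum_mul, Finset.mul_sum]
  rw [Finset.sum_comm]
  apply Finset.sum_congr rfl
  intro a _
  apply Finset.sum_congr rfl
  intro b _
  ring

theorem form_J (k l : Fin m ⊕ Fin m) :
    form m F (Pi.single k 1) (Pi.single l 1) = J (Fin m) F k l := by
  rw [form]
  exact Matrix.toBilin'_single _ k l

/-- a symplectic basis gives an element of the symplectic group -/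
theorem exists_sp_of_basis (a b : Fin m → (Fin m ⊕ Fin m → F))
    (haa : ∀ i j, form m F (a i) (a j) = 0) (hbb : ∀ i j, form m F (b i) (b j) = 0)
    (hba : ∀ i j, form m F (b i) (a j) = if i = j then 1 else 0) :
    ∃ g : Matrix.symplecticGroup (Fin m) F,
      (∀ i, (g : Matrix (Fin m ⊕ Fin m) (Fin m ⊕ Fin m) F) *ᵥ e i = a i) ∧
      (∀ i, (g : Matrix (Fin m ⊕ Fin m) (Fin m ⊕ Fin m) F) *ᵥ f i = b i) := by
  let P : Matrix (Fin m ⊕ Fin m) (Fin m ⊕ Fin m) F :=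
    Matrix.of fun k l => Sum.elim (fun i => a i k) (fun i => b i k) l
  have hP : P ∈ Matrix.symplecticGroup (Fin m) F := by
    rw [SymplecticGroup.mem_iff']
    ext k l
    rw [transpose_J_mul_apply, ← form_J]
    rcases k with i | i <;> rcases l with j | j
    · have h1 : P.col (Sum.inl i) = a i := rfl
      have h2 : P.col (Sum.inl j) = a j := rfl
      rw [h1, h2, haa]
      have := form_e_right (F := F) (e i) j
      rw [e_apply_inr] at this
      exact this.symm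
    · have h1 : P.col (Sum.inl i) = a i := rfl
      have h2 : P.col (Sum.inr j) = b j := rfl
      rw [h1, h2, form_skew, hba]
      have := form_f_right (F := F) (e i) j
      rw [e_apply_inl] at this
      rw [show (Pi.single (Sum.inl i) (1 : F) : Fin m ⊕ Fin m → F) = e i from rfl,
        show (Pi.single (Sum.inr j) (1 : F) : Fin m ⊕ Fin m → F) = f j from rfl, this]
    · have h1 : P.col (Sum.inr i) = b i := rfl
      have h2 : P.col (Sum.inl j) = a j := rfl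
      rw [h1, h2, hba]
      have := form_e_right (F := F) (f i) j
      rw [f_apply_inr] at this
      rw [show (Pi.single (Sum.inr i) (1 : F) : Fin m ⊕ Fin m → F) = f i from rfl,
        show (Pi.single (Sum.inl j) (1 : F) : Fin m ⊕ Fin m → F) = e j from rfl, this]
      by_cases h : i = j
      · rw [if_pos h, if_pos h.symm]
      · rw [if_neg h, if_neg (Ne.symm h)]
    · have h1 : P.col (Sum.inr i) = b i := rfl
      have h2 : P.col (Sum.inr j) = b j := rfl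
      rw [h1, h2, hbb]
      have := form_f_right (F := F) (f i) j
      rw [f_apply_inl, neg_zero] at this
      exact this.symm
  refine ⟨⟨P, hP⟩, fun i => ?_, fun i => ?_⟩
  · show P *ᵥ Pi.single (Sum.inl i) 1 = a i
    rw [Matrix.mulVec_single_one]
    rfl
  · show P *ᵥ Pi.single (Sum.inr i) 1 = b i
    rw [Matrix.mulVec_single_one]
    rfl

/-- the diagonal entries of a diagonal element of `GSp` -/
def dgv (c : Fin m → Fˣ) (l : Fˣ) : Fin m ⊕ Fin m → Fˣ :=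
  Sum.elim c (fun i => l * (c i)⁻¹)

/-- diagonal elements of `GL` -/
def dgl (c : Fin m → Fˣ) (l : Fˣ) : GL (Fin m ⊕ Fin m) F :=
  ⟨Matrix.diagonal (fun k => (dgv c l k : F)), Matrix.diagonal (fun k => ((dgv c l k)⁻¹ : Fˣ)), by
    rw [Matrix.diagonal_mul_diagonal]
    simp, by
    rw [Matrix.diagonal_mul_diagonal]
    simp⟩

theorem dgl_mulVec (c : Fin m → Fˣ) (l : Fˣ) (x : Fin m ⊕ Fin m → F) (k : Fin m ⊕ Fin m) :
    (((dgl c l : GL (Fin m ⊕ Fin m) F) : Matrix (Fin m ⊕ Fin m) (Fin m ⊕ Fin m) F) *ᵥ x) k =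
      (dgv c l k : F) * x k := Matrix.mulVec_diagonal _ _ _

theorem dgl_form (c : Fin m → Fˣ) (l : Fˣ) (u v : Fin m ⊕ Fin m → F) :
    form m F (((dgl c l : GL (Fin m ⊕ Fin m) F) : Matrix (Fin m ⊕ Fin m) (Fin m ⊕ Fin m) F) *ᵥ u)
      (((dgl c l : GL (Fin m ⊕ Fin m) F) : Matrix (Fin m ⊕ Fin m) (Fin m ⊕ Fin m) F) *ᵥ v) =
      (l : F) * form m F u v := by
  rw [form_eq, form_eq, Finset.mul_sum]
  apply Finset.sum_congr rfl
  intro i _
  rw [dgl_mulVec, dgl_mulVec, dgl_mulVec, dgl_mulVec]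
  simp only [dgv, Sum.elim_inl, Sum.elim_inr, Units.val_mul]
  have := (c i).inv_mul
  have h2 : ((c i)⁻¹ : Fˣ) = ((c i : F))⁻¹ := by simp
  rw [h2]
  have h3 : (c i : F) ≠ 0 := (c i).ne_zero
  field_simp

/-- diagonal elements of `GSp` -/
def dg (c : Fin m → Fˣ) (l : Fˣ) : ↥(Cfsg.GSp m F) :=
  ⟨dgl c l, (mem_GSp_iff _).2 ⟨l, dgl_form c l⟩⟩

theorem dg_form (c : Fin m → Fˣ) (l : Fˣ) (u v : Fin m ⊕ Fin m → F) :
    form m F ((((dg c l : ↥(Cfsg.GSp m F)) : GL (Fin m ⊕ Fin m) F) :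
        Matrix (Fin m ⊕ Fin m) (Fin m ⊕ Fin m) F) *ᵥ u)
      ((((dg c l : ↥(Cfsg.GSp m F)) : GL (Fin m ⊕ Fin m) F) :
        Matrix (Fin m ⊕ Fin m) (Fin m ⊕ Fin m) F) *ᵥ v) =
      (l : F) * form m F u v := dgl_form c l u v

theorem dg_e (c : Fin m → Fˣ) (l : Fˣ) (i : Fin m) :
    (((dg c l : ↥(Cfsg.GSp m F)) : GL (Fin m ⊕ Fin m) F) :
        Matrix (Fin m ⊕ Fin m) (Fin m ⊕ Fin m) F) *ᵥ e i = (c i : F) • e i := by
  funext k
  show (((dgl c l : GL (Fin m ⊕ Fin m) F) : Matrix (Fin m ⊕ Fin m) (Fin m ⊕ Fin m) F) *ᵥ e i) k = _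
  rw [dgl_mulVec, Pi.smul_apply, smul_eq_mul]
  rcases k with j | j
  · rw [e_apply_inl]
    by_cases h : j = i
    · rw [if_pos h, h]
      rfl
    · rw [if_neg h, mul_zero, mul_zero]
  · rw [e_apply_inr, mul_zero, mul_zero]

theorem dg_f (c : Fin m → Fˣ) (l : Fˣ) (i : Fin m) :
    (((dg c l : ↥(Cfsg.GSp m F)) : GL (Fin m ⊕ Fin m) F) :
        Matrix (Fin m ⊕ Fin m) (Fin m ⊕ Fin m) F) *ᵥ f i = ((l : F) * ((c i : F))⁻¹) • f i := by
  funext k
  show (((dgl c l : GL (Fin m ⊕ Fin m) F) : Matrix (Fin m ⊕ Fin m) (Fin m ⊕ Fin m) F) *ᵥ f i) k = _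
  rw [dgl_mulVec, Pi.smul_apply, smul_eq_mul]
  rcases k with j | j
  · rw [f_apply_inl, mul_zero, mul_zero]
  · rw [f_apply_inr]
    by_cases h : j = i
    · rw [if_pos h, h]
      simp [dgv]
    · rw [if_neg h, mul_zero, mul_zero]

/-- the image of a root set under `cGSp` -/
theorem cGSp_R (g : ↥(Cfsg.GSp m F)) (v : Fin m ⊕ Fin m → F) :
    (cGSp g) '' R v = R (((g : GL (Fin m ⊕ Fin m) F) :
      Matrix (Fin m ⊕ Fin m) (Fin m ⊕ Fin m) F) *ᵥ v) := by
  obtain ⟨c, hc⟩ := (mem_GSp_iff _).1 g.2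
  ext y
  constructor
  · rintro ⟨_, ⟨a, rfl⟩, rfl⟩
    exact ⟨a / c, (cGSp_t g c.ne_zero hc v a).symm⟩
  · rintro ⟨a, rfl⟩
    refine ⟨pr (t v (a * c)), ⟨a * c, rfl⟩, ?_⟩
    rw [cGSp_t g c.ne_zero hc, mul_div_assoc, div_self c.ne_zero, mul_one]

/-- the image of a root set under `cσ` -/
theorem cσ_R (σ : RingAut F) (v : Fin m ⊕ Fin m → F) :
    (cσ σ) '' R v = R (fun k => σ (v k)) := by
  ext y
  constructor
  · rintro ⟨_, ⟨a, rfl⟩, rfl⟩
    exact ⟨σ a, (cσ_t σ v a).symm⟩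
  · rintro ⟨a, rfl⟩
    refine ⟨pr (t v (σ.symm a)), ⟨σ.symm a, rfl⟩, ?_⟩
    rw [cσ_t]
    show pr (t (fun k => σ (v k)) (σ (σ.symm a))) = pr (t (fun k => σ (v k)) a)
    rw [RingEquiv.apply_symm_apply]

theorem map_e (σ : RingAut F) (i : Fin m) : (fun k => σ ((e i : Fin m ⊕ Fin m → F) k)) = e i := by
  funext k
  rcases k with j | j
  · rw [e_apply_inl]
    by_cases h : j = i
    · rw [if_pos h, map_one]
    · rw [if_neg h, map_zero]
  · rw [e_apply_inr, map_zero]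

theorem map_f (σ : RingAut F) (i : Fin m) : (fun k => σ ((f i : Fin m ⊕ Fin m → F) k)) = f i := by
  funext k
  rcases k with j | j
  · rw [f_apply_inl, map_zero]
  · rw [f_apply_inr]
    by_cases h : j = i
    · rw [if_pos h, map_one]
    · rw [if_neg h, map_zero]

end Cfsg.Agent.Lib.Helper43.SpFrame
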