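import Mathlib
import Cfsg.Agent.Lib.Helper43.SpBasic

set_option autoImplicit false

namespace Cfsg.Agent.Lib.Helper43.SpPair

open Matrix Cfsg.Agent.Lib.Helper13.SympMat Cfsg.Agent.Lib.Helper43.SpBasic

variable {F : Type*} [Field F] {m : ℕ}

/-- an orthogonal pair `u, v` with dual vectors `x₁, x₂` -/
structure Dual (u v x₁ x₂ : Fin m ⊕ Fin m → F) : Prop where
  uv : form m F u v = 0
  h11 : form m F x₁ u = 1
  h12 : form m F x₁ v = 0
  h21 : form m F x₂ u = 0
  h22 : form m F x₂ v = 1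

/-- the elements of the abelian group attached to an orthogonal pair -/
def Y (u v : Fin m ⊕ Fin m → F) (a b c : F) : Matrix.symplecticGroup (Fin m) F :=
  t u (a - c) * t v (b - c) * t (u + v) c

theorem Y_mulVec {u v : Fin m ⊕ Fin m → F} (h : form m F u v = 0) (a b c : F)
    (x : Fin m ⊕ Fin m → F) :
    ((Y u v a b c : Matrix.symplecticGroup (Fin m) F) :
        Matrix (Fin m ⊕ Fin m) (Fin m ⊕ Fin m) F) *ᵥ x =
      x + (a * form m F x u + c * form m F x v) • u +
        (b * form m F x v + c * form m F x u) • v := by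
  have h' : form m F v u = 0 := by rw [form_skew, h, neg_zero]
  unfold Y
  rw [mul_mulVec, mul_mulVec, t_mulVec, t_mulVec, t_mulVec]
  simp only [map_add, map_smul, LinearMap.add_apply, LinearMap.smul_apply, smul_eq_mul, form_self,
    h, h', mul_zero, add_zero, zero_add]
  module

theorem Y_ext {u v : Fin m ⊕ Fin m → F} (h : form m F u v = 0) {a b c a' b' c' : F}
    (ha : a = a') (hb : b = b') (hc : c = c') : Y u v a b c = Y u v a' b' c' := by
  rw [ha, hb, hc]

theorem Y_mul {u v : Fin m ⊕ Fin m → F} (h : form m F u v = 0) (a b c a' b' c' : F) :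
    Y u v a b c * Y u v a' b' c' = Y u v (a + a') (b + b') (c + c') := by
  have h' : form m F v u = 0 := by rw [form_skew, h, neg_zero]
  apply sp_ext
  intro x
  rw [mul_mulVec, Y_mulVec h, Y_mulVec h, Y_mulVec h]
  simp only [map_add, map_smul, LinearMap.add_apply, LinearMap.smul_apply, smul_eq_mul, form_self,
    h, h', mul_zero, add_zero, zero_add]
  module

theorem Y_zero (u v : Fin m ⊕ Fin m → F) : Y u v (0 : F) 0 0 = 1 := by
  unfold Y
  rw [sub_zero, t_zero, t_zero, t_zero, mul_one, mul_one]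

theorem Y_left (u v : Fin m ⊕ Fin m → F) (a : F) : Y u v a 0 0 = t u a := by
  unfold Y
  rw [sub_zero, sub_zero, t_zero, t_zero, mul_one, mul_one]

theorem Y_right (u v : Fin m ⊕ Fin m → F) (b : F) : Y u v 0 b 0 = t v b := by
  unfold Y
  rw [sub_zero, sub_zero, t_zero, t_zero, mul_one, one_mul]

theorem Y_pow {u v : Fin m ⊕ Fin m → F} (h : form m F u v = 0) (a b c : F) (k : ℕ) :
    Y u v a b c ^ k = Y u v (k * a) (k * b) (k * c) := by
  induction k with
  | zero => simp [Y_zero]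
  | succ k ih =>
    rw [pow_succ, ih, Y_mul h]
    apply Y_ext h <;> push_cast <;> ring

theorem Y_pow_char (p : ℕ) [CharP F p] {u v : Fin m ⊕ Fin m → F} (h : form m F u v = 0)
    (a b c : F) : Y u v a b c ^ p = 1 := by
  rw [Y_pow h, CharP.cast_eq_zero, zero_mul, zero_mul, zero_mul, Y_zero]

theorem Y_swap {u v : Fin m ⊕ Fin m → F} (h : form m F u v = 0) (a b c : F) :
    Y v u b a c = Y u v a b c := by
  have h' : form m F v u = 0 := by rw [form_skew, h, neg_zero]
  apply sp_ext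
  intro x
  rw [Y_mulVec h, Y_mulVec h']
  module

theorem t_add_smul {u v : Fin m ⊕ Fin m → F} (h : form m F u v = 0) (d a : F) :
    t (u + d • v) a = Y u v a (d * d * a) (d * a) := by
  apply sp_ext
  intro x
  rw [Y_mulVec h, t_mulVec]
  simp only [map_add, map_smul, smul_eq_mul]
  module

theorem t_smul_add {u v : Fin m ⊕ Fin m → F} (h : form m F u v = 0) (d b : F) :
    t (d • u + v) b = Y u v (d * d * b) b (d * b) := by
  apply sp_ext
  intro x
  rw [Y_mulVec h, t_mulVec]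
  simp only [map_add, map_smul, smul_eq_mul]
  module

namespace Dual

variable {u v x₁ x₂ : Fin m ⊕ Fin m → F}

theorem symm (D : Dual u v x₁ x₂) : Dual v u x₂ x₁ where
  uv := by rw [form_skew, D.uv, neg_zero]
  h11 := D.h22
  h12 := D.h21
  h21 := D.h12
  h22 := D.h11

theorem indep (D : Dual u v x₁ x₂) {a b a' b' : F} (h : a • u + b • v = a' • u + b' • v) :
    a = a' ∧ b = b' := by
  constructor
  · have := congrArg (form m F x₁) h
    simpa [D.h11, D.h12] using this
  · have := congrArg (form m F x₂) h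
    simpa [D.h21, D.h22] using this

theorem u_ne (D : Dual u v x₁ x₂) : u ≠ 0 := by
  intro h
  have := D.h11
  rw [h, map_zero] at this
  exact zero_ne_one this

theorem v_ne (D : Dual u v x₁ x₂) : v ≠ 0 := D.symm.u_ne

theorem add_smul_ne (D : Dual u v x₁ x₂) (d : F) : u + d • v ≠ 0 := by
  intro h
  have := congrArg (form m F x₁) h
  simp [D.h11, D.h12] at this

theorem Y_x₁ (D : Dual u v x₁ x₂) (a b c : F) :
    ((Y u v a b c : Matrix.symplecticGroup (Fin m) F) :
        Matrix (Fin m ⊕ Fin m) (Fin m ⊕ Fin m) F) *ᵥ x₁ = x₁ + a • u + c • v := by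
  rw [Y_mulVec D.uv, D.h11, D.h12]
  simp

theorem Y_x₂ (D : Dual u v x₁ x₂) (a b c : F) :
    ((Y u v a b c : Matrix.symplecticGroup (Fin m) F) :
        Matrix (Fin m ⊕ Fin m) (Fin m ⊕ Fin m) F) *ᵥ x₂ = x₂ + c • u + b • v := by
  rw [Y_mulVec D.uv, D.h21, D.h22]
  simp

theorem Y_inj (D : Dual u v x₁ x₂) {a b c a' b' c' : F}
    (h : Y u v a b c = Y u v a' b' c') : a = a' ∧ b = b' ∧ c = c' := by
  have h1 := congrArg (fun z : Matrix.symplecticGroup (Fin m) F =>
    (z : Matrix (Fin m ⊕ Fin m) (Fin m ⊕ Fin m) F) *ᵥ x₁) h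
  have h2 := congrArg (fun z : Matrix.symplecticGroup (Fin m) F =>
    (z : Matrix (Fin m ⊕ Fin m) (Fin m ⊕ Fin m) F) *ᵥ x₂) h
  simp only [D.Y_x₁, D.Y_x₂] at h1 h2
  rw [add_assoc, add_assoc] at h1 h2
  have h3 := D.indep (add_left_cancel h1)
  have h4 := D.indep (add_left_cancel h2)
  exact ⟨h3.1, h4.2, h3.2⟩

theorem pr_Y_inj (D : Dual u v x₁ x₂) (hm : 1 ≤ m) (p : ℕ) [Fact p.Prime] [CharP F p]
    {a b c a' b' c' : F} (h : pr (Y u v a b c) = pr (Y u v a' b' c')) :
    a = a' ∧ b = b' ∧ c = c' :=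
  D.Y_inj (pr_inj_of_pow hm p (Y_pow_char p D.uv _ _ _) (Y_pow_char p D.uv _ _ _) h)

/-- elements with `c ≠ 0`, `b = 0` are not transvections -/
theorem not_t (D : Dual u v x₁ x₂) {a c : F} (hc : c ≠ 0) (w : Fin m ⊕ Fin m → F) (d : F) :
    Y u v a 0 c ≠ t w d := by
  intro h
  have h1 := congrArg (fun z : Matrix.symplecticGroup (Fin m) F =>
    (z : Matrix (Fin m ⊕ Fin m) (Fin m ⊕ Fin m) F) *ᵥ x₁) h
  have h2 := congrArg (fun z : Matrix.symplecticGroup (Fin m) F =>
    (z : Matrix (Fin m ⊕ Fin m) (Fin m ⊕ Fin m) F) *ᵥ x₂) h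
  simp only [D.Y_x₁, D.Y_x₂, t_mulVec] at h1 h2
  rw [add_assoc] at h1 h2
  have h3 := add_left_cancel h1
  have h4 := add_left_cancel h2
  rw [zero_smul, add_zero] at h4
  have hl : d * form m F x₂ w ≠ 0 := by
    intro h0
    rw [h0, zero_smul] at h4
    rcases smul_eq_zero.1 h4 with h5 | h5
    · exact hc h5
    · exact D.u_ne h5
  have hw : w = (c / (d * form m F x₂ w)) • u := by
    rw [div_eq_mul_inv, mul_comm, mul_smul, h4, smul_smul, inv_mul_cancel₀ hl, one_smul]
  have h5 := congrArg (form m F x₂) h3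
  rw [hw] at h5
  simp only [map_add, map_smul, smul_eq_mul, D.h21, D.h22, mul_zero, mul_one, zero_add] at h5
  exact hc h5

end Dual

/-- the set of images of transvections -/
def Tset (m : ℕ) (F : Type*) [Field F] : Set (Cfsg.PSp m F) :=
  {y | ∃ (w : Fin m ⊕ Fin m → F) (d : F), y = pr (t w d)}

theorem R_subset_Tset (w : Fin m ⊕ Fin m → F) : R w ⊆ Tset m F := by
  rintro _ ⟨d, rfl⟩
  exact ⟨w, d, rfl⟩

namespace Dual

variable {u v x₁ x₂ : Fin m ⊕ Fin m → F}

theorem tangent_u (D : Dual u v x₁ x₂) (hm : 1 ≤ m) (p : ℕ) [Fact p.Prime] [CharP F p]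
    (a b c : F) :
    (∀ l : F, pr (Y u v a b c) * pr (t u l) ∉ Tset m F) ↔ (b = 0 ∧ c ≠ 0) := by
  constructor
  · intro h
    have hb : b = 0 := by
      by_contra hb
      apply h (c * c / b - a)
      refine ⟨(c / b) • u + v, b, ?_⟩
      rw [← map_mul, ← Y_left u v, Y_mul D.uv, t_smul_add D.uv]
      congr 1
      apply Y_ext D.uv
      · field_simp
        ring
      · ring
      · field_simp
        ring
    refine ⟨hb, ?_⟩
    rintro rfl
    apply h (-a)
    refine ⟨0, 0, ?_⟩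
    rw [← map_mul, ← Y_left u v, Y_mul D.uv, hb, t_zero]
    simp [Y_zero]
  · rintro ⟨rfl, hc⟩ l ⟨w, d, hw⟩
    rw [← map_mul, ← Y_left u v, Y_mul D.uv] at hw
    have h1 := pr_inj_of_pow hm p (Y_pow_char p D.uv _ _ _) (t_pow_char p _ _) hw
    rw [add_zero, add_zero] at h1
    exact D.not_t hc w d h1

theorem tangent_v (D : Dual u v x₁ x₂) (hm : 1 ≤ m) (p : ℕ) [Fact p.Prime] [CharP F p]
    (a b c : F) :
    (∀ l : F, pr (Y u v a b c) * pr (t v l) ∉ Tset m F) ↔ (a = 0 ∧ c ≠ 0) := by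
  rw [← Y_swap D.uv]
  exact D.symm.tangent_u hm p b a c

end Dual

end Cfsg.Agent.Lib.Helper43.SpPair
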