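import Mathlib
import Cfsg.Agent.Lib.Helper43.SpFrame
import Cfsg.Agent.Lib.Helper43.SpPair

set_option autoImplicit false

namespace Cfsg.Agent.Lib.Helper43.SpCore1

open Matrix Cfsg.Agent.Lib.Helper13.SympMat Cfsg.Agent.Lib.Helper43.SpBasic
  Cfsg.Agent.Lib.Helper43.SpAuts Cfsg.Agent.Lib.Helper43.SpFrame Cfsg.Agent.Lib.Helper43.SpPair

variable {F : Type*} [Field F] {m : ℕ}

/-- every automorphism permutes the root sets -/
def Perm (m : ℕ) (F : Type*) [Field F] : Prop :=
  ∀ (α : MulAut (Cfsg.PSp m F)) (v : Fin m ⊕ Fin m → F), v ≠ 0 →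
    ∃ v' : Fin m ⊕ Fin m → F, v' ≠ 0 ∧ α '' R v = R v'

theorem image_conj {G : Type*} [Group G] (γ : MulAut G) (x : G) (A : Set G) :
    γ '' ((MulAut.conj x) '' A) = (MulAut.conj (γ x)) '' (γ '' A) := by
  rw [Set.image_image, Set.image_image]
  apply Set.image_congr
  intro y _
  rw [MulAut.conj_apply, MulAut.conj_apply, map_mul, map_mul, map_inv]

theorem image_mul {G : Type*} [Group G] (α β : MulAut G) (A : Set G) :
    (α * β) '' A = α '' (β '' A) := by
  rw [Set.image_image]
  rfl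

theorem inv_image_image {G : Type*} [Group G] (α : MulAut G) (A : Set G) :
    (α⁻¹ : MulAut G) '' (α '' A) = A := by
  rw [Set.image_image]
  have : (fun x => (α⁻¹ : MulAut G) (α x)) = id := by
    funext x
    exact MulAut.inv_apply_self G α x
  rw [this, Set.image_id]

theorem image_inv_image {G : Type*} [Group G] (α : MulAut G) (A : Set G) :
    α '' ((α⁻¹ : MulAut G) '' A) = A := by
  rw [Set.image_image]
  have : (fun x => α ((α⁻¹ : MulAut G) x)) = id := by
    funext x
    exact MulAut.apply_inv_self G α x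
  rw [this, Set.image_id]

theorem image_inv {G : Type*} [Group G] (α : MulAut G) {A B : Set G}
    (h : (α⁻¹ : MulAut G) '' A = B) : α '' B = A := by
  rw [← h, image_inv_image]

theorem mem_span_pair_of_perp {u v w : Fin m ⊕ Fin m → F}
    (h : ∀ x, form m F x u = 0 → form m F x v = 0 → form m F x w = 0) :
    ∃ a b : F, w = a • u + b • v := by
  let L : Fin 2 → ((Fin m ⊕ Fin m → F) →ₗ[F] F) := ![(form m F).flip u, (form m F).flip v]
  have h1 : ⨅ i, LinearMap.ker (L i) ≤ LinearMap.ker ((form m F).flip w) := by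
    intro x hx
    rw [Submodule.mem_iInf] at hx
    have h0 := hx 0
    have h1 := hx 1
    rw [LinearMap.mem_ker] at h0 h1 ⊢
    exact h x h0 h1
  have h2 := mem_span_of_iInf_ker_le_ker h1
  obtain ⟨c, hc⟩ := (Submodule.mem_span_range_iff_exists_fun F).1 h2
  refine ⟨c 0, c 1, ?_⟩
  rw [← sub_eq_zero]
  apply eq_zero_of_form
  intro x
  have h3 := LinearMap.congr_fun hc x
  rw [Fin.sum_univ_two] at h3
  simp only [LinearMap.add_apply, LinearMap.smul_apply, smul_eq_mul] at h3
  have h4 : L 0 x = form m F x u := rfl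
  have h5 : L 1 x = form m F x v := rfl
  have h6 : ((form m F).flip w) x = form m F x w := rfl
  rw [h4, h5, h6] at h3
  simp only [map_sub, map_add, map_smul, smul_eq_mul]
  rw [← h3]
  ring

theorem perp_iff (hm : 1 ≤ m) (p : ℕ) [Fact p.Prime] [CharP F p] {α : MulAut (Cfsg.PSp m F)} {u v u' v' : Fin m ⊕ Fin m → F}
    (hu : α '' R u = R u') (hv : α '' R v = R v') :
    form m F u' v' = 0 ↔ form m F u v = 0 := by
  rw [← comm_R_iff hm p, ← comm_R_iff hm p, ← hu, ← hv, comm_image]

theorem image_eq (hm : 1 ≤ m) (p : ℕ) [Fact p.Prime] [CharP F p] {α : MulAut (Cfsg.PSp m F)} {u v w : Fin m ⊕ Fin m → F} (hu : u ≠ 0)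
    (hu' : α '' R u = R w) (hv' : α '' R v = R w) : ∃ c : F, c ≠ 0 ∧ v = c • u := by
  have h1 : R u = R v := Set.image_injective.2 α.injective (hu'.trans hv'.symm)
  exact R_subset hm p hu h1.le

theorem line (hm : 1 ≤ m) (p : ℕ) [Fact p.Prime] [CharP F p] (H : Perm m F) {α : MulAut (Cfsg.PSp m F)} {u v w u' v' w' : Fin m ⊕ Fin m → F}
    (hu : α '' R u = R u') (hv : α '' R v = R v') (hw : α '' R w = R w') (a b : F)
    (hab : w = a • u + b • v) : ∃ a' b' : F, w' = a' • u' + b' • v' := by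
  apply mem_span_pair_of_perp
  intro x hxu hxv
  by_cases hx : x = 0
  · rw [hx]
    simp
  · obtain ⟨y, -, hy⟩ := H α⁻¹ x hx
    have hy' : α '' R y = R x := image_inv α hy
    rw [perp_iff hm p hy' hu] at hxu
    rw [perp_iff hm p hy' hv] at hxv
    rw [perp_iff hm p hy' hw, hab]
    simp [hxu, hxv]

/-- normalisation of a frame -/
theorem exists_frame (hm : 1 ≤ m) (p : ℕ) [Fact p.Prime] [CharP F p] (H : Perm m F) (α : MulAut (Cfsg.PSp m F)) :
    ∃ g : Matrix.symplecticGroup (Fin m) F,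
      (∀ i, ((MulAut.conj (pr g))⁻¹ * α) '' R (e i) = R (e i)) ∧
      (∀ i, ((MulAut.conj (pr g))⁻¹ * α) '' R (f i) = R (f i)) := by
  choose a ha0 ha using fun i => H α (e i) (e_ne_zero i)
  choose b hb0 hb using fun i => H α (f i) (f_ne_zero i)
  have haa : ∀ i j, form m F (a i) (a j) = 0 := by
    intro i j
    rw [perp_iff hm p (ha i) (ha j), form_e_right, e_apply_inr]
  have hbb : ∀ i j, form m F (b i) (b j) = 0 := by
    intro i j
    rw [perp_iff hm p (hb i) (hb j), form_f_right, f_apply_inl, neg_zero]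
  have hba : ∀ i j, form m F (b i) (a j) = 0 ↔ i ≠ j := by
    intro i j
    rw [perp_iff hm p (hb i) (ha j), form_e_right, f_apply_inr]
    constructor
    · intro h hij
      rw [if_pos hij.symm] at h
      exact one_ne_zero h
    · intro h
      rw [if_neg (Ne.symm h)]
  have hd : ∀ i, form m F (b i) (a i) ≠ 0 := fun i h => (hba i i).1 h rfl
  obtain ⟨g, hg1, hg2⟩ := exists_sp_of_basis a (fun i => (form m F (b i) (a i))⁻¹ • b i) haa
    (by
      intro i j
      simp only [map_smul, LinearMap.smul_apply, smul_eq_mul, hbb, mul_zero])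
    (by
      intro i j
      simp only [map_smul, LinearMap.smul_apply, smul_eq_mul]
      by_cases h : i = j
      · subst h
        rw [if_pos rfl, inv_mul_cancel₀ (hd i)]
      · rw [if_neg h, (hba i j).2 h, mul_zero])
  refine ⟨g, fun i => ?_, fun i => ?_⟩
  · have h1 : (MulAut.conj (pr g)) '' R (e i) = R (a i) := by rw [conj_R, hg1]
    rw [image_mul, ha, ← h1, inv_image_image]
  · have h1 : (MulAut.conj (pr g)) '' R (f i) = R (b i) := by
      rw [conj_R, hg2, R_smul (inv_ne_zero (hd i))]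
    rw [image_mul, hb, ← h1, inv_image_image]

/-- `α` acts on the transvection group of `u` through `φ` -/
def Acts (α : MulAut (Cfsg.PSp m F)) (u : Fin m ⊕ Fin m → F) (φ : F → F) : Prop :=
  ∀ a, α (pr (t u a)) = pr (t u (φ a))

theorem exists_acts {α : MulAut (Cfsg.PSp m F)} {u : Fin m ⊕ Fin m → F}
    (hu : α '' R u = R u) : ∃ φ : F → F, Acts α u φ := by
  have h : ∀ a : F, ∃ c : F, α (pr (t u a)) = pr (t u c) := by
    intro a
    have h1 : α (pr (t u a)) ∈ R u := by
      rw [← hu]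
      exact ⟨_, pr_t_mem_R u a, rfl⟩
    obtain ⟨c, hc⟩ := h1
    exact ⟨c, hc.symm⟩
  choose φ hφ using h
  exact ⟨φ, hφ⟩

namespace Acts

variable {α : MulAut (Cfsg.PSp m F)} {u : Fin m ⊕ Fin m → F} {φ : F → F}

theorem add (hm : 1 ≤ m) (p : ℕ) [Fact p.Prime] [CharP F p] (h : Acts α u φ) (hu : u ≠ 0) (a b : F) : φ (a + b) = φ a + φ b := by
  apply pr_t_injective hm p hu
  rw [← h, ← t_mul, map_mul, map_mul, h, h, ← map_mul, t_mul]

theorem zero (hm : 1 ≤ m) (p : ℕ) [Fact p.Prime] [CharP F p] (h : Acts α u φ) (hu : u ≠ 0) : φ 0 = 0 := by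
  have := h.add hm p hu 0 0
  rw [add_zero] at this
  exact left_eq_add.1 this

theorem neg (hm : 1 ≤ m) (p : ℕ) [Fact p.Prime] [CharP F p] (h : Acts α u φ) (hu : u ≠ 0) (a : F) : φ (-a) = - φ a := by
  have := h.add hm p hu a (-a)
  rw [add_neg_cancel, h.zero hm p hu] at this
  exact eq_neg_of_add_eq_zero_right this.symm

theorem injective (hm : 1 ≤ m) (p : ℕ) [Fact p.Prime] [CharP F p] (h : Acts α u φ) (hu : u ≠ 0) : Function.Injective φ := by
  intro a b hab
  apply pr_t_injective hm p hu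
  apply α.injective
  rw [h, h, hab]

theorem surjective (hm : 1 ≤ m) (p : ℕ) [Fact p.Prime] [CharP F p] (h : Acts α u φ) (hu : u ≠ 0)
    (hu' : α '' R u = R u) : Function.Surjective φ := by
  intro b
  have h1 : pr (t u b) ∈ α '' R u := by
    rw [hu']
    exact pr_t_mem_R u b
  obtain ⟨_, ⟨a, rfl⟩, ha⟩ := h1
  refine ⟨a, ?_⟩
  apply pr_t_injective hm p hu
  rw [← h a]
  exact ha

end Acts

end Cfsg.Agent.Lib.Helper43.SpCore1
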