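import Mathlib
import Cfsg.Agent.Lib.Helper43.SpCore1

set_option autoImplicit false

namespace Cfsg.Agent.Lib.Helper43.SpCore2

open Matrix Cfsg.Agent.Lib.Helper13.SympMat Cfsg.Agent.Lib.Helper43.SpBasic
  Cfsg.Agent.Lib.Helper43.SpAuts Cfsg.Agent.Lib.Helper43.SpFrame Cfsg.Agent.Lib.Helper43.SpPair
  Cfsg.Agent.Lib.Helper43.SpCore1

variable {F : Type*} [Field F] {m : ℕ}

theorem image_tconj {α : MulAut (Cfsg.PSp m F)} {u v v' : Fin m ⊕ Fin m → F} {φ : F → F}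
    (hφ : Acts α u φ) (hv : α '' R v = R v') (a : F) :
    α '' R (((t u a : Matrix.symplecticGroup (Fin m) F) :
        Matrix (Fin m ⊕ Fin m) (Fin m ⊕ Fin m) F) *ᵥ v) =
      R (((t u (φ a) : Matrix.symplecticGroup (Fin m) F) :
        Matrix (Fin m ⊕ Fin m) (Fin m ⊕ Fin m) F) *ᵥ v') := by
  rw [← conj_R, image_conj, hφ a, hv, conj_R]

/-- the `SL₂` relation -/
theorem sl2_rel (hm : 1 ≤ m) (p : ℕ) [Fact p.Prime] [CharP F p] {α : MulAut (Cfsg.PSp m F)}
    {u v : Fin m ⊕ Fin m → F} (huv : form m F v u = 1) {φ ψ : F → F} (hφ : Acts α u φ)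
    (hψ : Acts α v ψ) (hu : α '' R u = R u) (hv : α '' R v = R v) {a : F} (ha : a ≠ 0) :
    φ a * ψ (a⁻¹) = 1 := by
  have hvu : form m F u v = -1 := by rw [form_skew, huv]
  have hv0 : v ≠ 0 := by
    intro h
    rw [h] at huv
    simp at huv
  have h1 : α '' R (v + a • u) = R (v + φ a • u) := by
    have := image_tconj hφ hv a
    rwa [t_mulVec, t_mulVec, huv, mul_one, mul_one] at this
  have h2 : α '' R (u + a⁻¹ • v) = R (u + (- ψ (-a⁻¹)) • v) := by
    have := image_tconj hψ hu (-a⁻¹)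
    rw [t_mulVec, t_mulVec, hvu, mul_neg, mul_one, mul_neg, mul_one, neg_neg] at this
    exact this
  have h3 : R (v + a • u) = R (u + a⁻¹ • v) := by
    have : v + a • u = a • (u + a⁻¹ • v) := by
      rw [smul_add, smul_smul, mul_inv_cancel₀ ha, one_smul, add_comm]
    rw [this, R_smul ha]
  rw [h3, h2] at h1
  have hne : u + (- ψ (-a⁻¹)) • v ≠ 0 := by
    intro h
    have := congrArg (fun x => form m F v x) h
    simp [huv, form_self] at this
  obtain ⟨c, hc0, hc⟩ := R_subset hm p hne h1.le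
  have h4 := congrArg (fun x => form m F x u) hc
  have h5 := congrArg (fun x => form m F v x) hc
  simp only [map_add, map_smul, LinearMap.add_apply, LinearMap.smul_apply, smul_eq_mul, form_self,
    huv, hvu, mul_one, mul_zero, add_zero, zero_add] at h4 h5
  rw [hψ.neg hm p hv0, neg_neg] at h4
  rw [h5]
  exact h4.symm

section pair

variable {α : MulAut (Cfsg.PSp m F)} {u v x₁ x₂ : Fin m ⊕ Fin m → F}

theorem exists_mu (hm : 1 ≤ m) (p : ℕ) [Fact p.Prime] [CharP F p] (H : Perm m F)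
    (D : Dual u v x₁ x₂) (hu : α '' R u = R u) (hv : α '' R v = R v) (d : F) :
    ∃ d' : F, α '' R (u + d • v) = R (u + d' • v) := by
  obtain ⟨w, hw0, hw⟩ := H α (u + d • v) (D.add_smul_ne d)
  obtain ⟨a', b', hab⟩ := line hm p H hu hv hw 1 d (by rw [one_smul])
  have ha' : a' ≠ 0 := by
    intro h0
    rw [h0, zero_smul, zero_add] at hab
    have hb' : b' ≠ 0 := by
      rintro rfl
      rw [zero_smul] at hab
      exact hw0 hab
    rw [hab, R_smul hb'] at hw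
    obtain ⟨c, -, hc⟩ := image_eq hm p D.v_ne hv hw
    have := congrArg (fun x => form m F x₁ x) hc
    simp [D.h11, D.h12] at this
  refine ⟨b' / a', ?_⟩
  have : w = a' • (u + (b' / a') • v) := by
    rw [hab, smul_add, smul_smul, mul_div_cancel₀ _ ha']
  rw [hw, this, R_smul ha']

theorem mu_ne (hm : 1 ≤ m) (p : ℕ) [Fact p.Prime] [CharP F p]
    (D : Dual u v x₁ x₂) (hu : α '' R u = R u) {d d' : F} (hd : d ≠ 0)
    (h : α '' R (u + d • v) = R (u + d' • v)) : d' ≠ 0 := by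
  rintro rfl
  rw [zero_smul, add_zero] at h
  obtain ⟨c, -, hc⟩ := image_eq hm p D.u_ne hu h
  have := congrArg (fun x => form m F x₂ x) hc
  simp [D.h21, D.h22] at this
  exact hd this

theorem exists_Y (hm : 1 ≤ m) (p : ℕ) [Fact p.Prime] [CharP F p] (H : Perm m F)
    (D : Dual u v x₁ x₂) (hu : α '' R u = R u) (hv : α '' R v = R v) {φu φv : F → F}
    (hφu : Acts α u φu) (hφv : Acts α v φv) (a b c : F) :
    ∃ a' b' c' : F, α (pr (Y u v a b c)) = pr (Y u v a' b' c') := by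
  obtain ⟨d', hd'⟩ := exists_mu hm p H D hu hv 1
  rw [one_smul] at hd'
  have h1 : α (pr (t (u + v) c)) ∈ R (u + d' • v) := by
    rw [← hd']
    exact ⟨_, pr_t_mem_R _ c, rfl⟩
  obtain ⟨c'', hc''⟩ := h1
  refine ⟨φu (a - c) + 0 + c'', 0 + φv (b - c) + d' * d' * c'', 0 + 0 + d' * c'', ?_⟩
  unfold Y
  rw [map_mul, map_mul, map_mul, map_mul, hφu, hφv, ← hc'', ← map_mul, ← map_mul,
    t_add_smul D.uv, ← Y_left u v, ← Y_right u v, Y_mul D.uv, Y_mul D.uv]
  rfl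

theorem Tset_image (H : Perm m F) (α : MulAut (Cfsg.PSp m F)) {y : Cfsg.PSp m F}
    (hy : y ∈ Tset m F) : α y ∈ Tset m F := by
  obtain ⟨w, d, rfl⟩ := hy
  by_cases hw : w = 0
  · refine ⟨0, 0, ?_⟩
    rw [hw, t_zero_vec, map_one, map_one, t_zero, map_one]
  · obtain ⟨w', -, hw'⟩ := H α w hw
    apply R_subset_Tset w'
    rw [← hw']
    exact ⟨_, pr_t_mem_R w d, rfl⟩

theorem Tset_iff (H : Perm m F) (α : MulAut (Cfsg.PSp m F)) (y : Cfsg.PSp m F) :
    α y ∈ Tset m F ↔ y ∈ Tset m F := by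
  constructor
  · intro h
    have := Tset_image H α⁻¹ h
    rwa [MulAut.inv_apply_self] at this
  · exact Tset_image H α

theorem exists_chi (hm : 1 ≤ m) (p : ℕ) [Fact p.Prime] [CharP F p] (H : Perm m F)
    (D : Dual u v x₁ x₂) (hu : α '' R u = R u) (hv : α '' R v = R v) {φu φv : F → F}
    (hφu : Acts α u φu) (hφv : Acts α v φv) (c : F) :
    ∃ c' : F, α (pr (Y u v 0 0 c)) = pr (Y u v 0 0 c') := by
  by_cases hc : c = 0
  · exact ⟨0, by rw [hc, Y_zero, map_one, map_one]⟩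
  · obtain ⟨a', b', c', h⟩ := exists_Y hm p H D hu hv hφu hφv 0 0 c
    have h1 := (D.tangent_u hm p 0 0 c).2 ⟨rfl, hc⟩
    have h1' := (D.tangent_v hm p 0 0 c).2 ⟨rfl, hc⟩
    have h2 : ∀ l, pr (Y u v a' b' c') * pr (t u l) ∉ Tset m F := by
      intro l hl
      obtain ⟨l₀, rfl⟩ := hφu.surjective hm p D.u_ne hu l
      apply h1 l₀
      rw [← Tset_iff H α, map_mul, h, hφu l₀]
      exact hl
    have h2' : ∀ l, pr (Y u v a' b' c') * pr (t v l) ∉ Tset m F := by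
      intro l hl
      obtain ⟨l₀, rfl⟩ := hφv.surjective hm p D.v_ne hv l
      apply h1' l₀
      rw [← Tset_iff H α, map_mul, h, hφv l₀]
      exact hl
    have h3 := (D.tangent_u hm p a' b' c').1 h2
    have h3' := (D.tangent_v hm p a' b' c').1 h2'
    exact ⟨c', by rw [h, h3.1, h3'.1]⟩

theorem main_eqs (hm : 1 ≤ m) (p : ℕ) [Fact p.Prime] [CharP F p]
    (D : Dual u v x₁ x₂) {φu φv χ μ : F → F}
    (hφu : Acts α u φu) (hφv : Acts α v φv)
    (hμ : ∀ d, α '' R (u + d • v) = R (u + μ d • v))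
    (hχ : ∀ c, α (pr (Y u v 0 0 c)) = pr (Y u v 0 0 (χ c))) (d a : F) :
    χ (d * a) = μ d * φu a ∧ φv (d * d * a) = μ d * μ d * φu a := by
  have h1 : α (pr (t (u + d • v) a)) ∈ R (u + μ d • v) := by
    rw [← hμ]
    exact ⟨_, pr_t_mem_R _ a, rfl⟩
  obtain ⟨a', (ha' : pr (t (u + μ d • v) a') = _)⟩ := h1
  have h2 : t (u + d • v) a = Y u v a 0 0 * Y u v 0 (d * d * a) 0 * Y u v 0 0 (d * a) := by
    rw [t_add_smul D.uv, Y_mul D.uv, Y_mul D.uv]
    apply Y_ext D.uv <;> ring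
  rw [h2, map_mul, map_mul, map_mul, map_mul, hχ, Y_left, Y_right, hφu, hφv, ← Y_left u v,
    ← Y_right u v, ← map_mul, ← map_mul, Y_mul D.uv, Y_mul D.uv] at ha'
  have h3 : pr (t (u + μ d • v) a') = pr (Y u v a' (μ d * μ d * a') (μ d * a')) := by
    rw [t_add_smul D.uv]
  rw [h3] at ha'
  obtain ⟨e1, e2, e3⟩ := D.pr_Y_inj hm p ha'
  simp only [add_zero, zero_add] at e1 e2 e3
  rw [← e3, ← e2, e1]
  exact ⟨rfl, rfl⟩

end pair

/-- the field automorphism attached to the equations -/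
theorem field_aut_of_eqs {φu φv χ μ : F → F} (hadd : ∀ a b, φu (a + b) = φu a + φu b)
    (hinj : Function.Injective φu) (hsurj : Function.Surjective φu) (h0 : φu 0 = 0)
    (hμ1 : μ 1 ≠ 0) (E1 : ∀ d a, χ (d * a) = μ d * φu a)
    (E2 : ∀ d a, φv (d * d * a) = μ d * μ d * φu a) :
    ∃ σ : RingAut F, (∀ a, φu a = φu 1 * σ a) ∧ (∀ b, φv b = μ 1 * μ 1 * φu 1 * σ b) ∧
      (∀ d, μ d = μ 1 * σ d) := by
  have hκ : φu 1 ≠ 0 := by
    intro h
    rw [← h0] at h
    exact one_ne_zero (hinj h)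
  have hμ : ∀ d, μ d * φu 1 = μ 1 * φu d := by
    intro d
    have h1 := E1 d 1
    have h2 := E1 1 d
    rw [mul_one] at h1
    rw [one_mul] at h2
    rw [← h1, ← h2]
  have hmul : ∀ d a, φu (d * a) * φu 1 = φu d * φu a := by
    intro d a
    have h1 := E1 1 (d * a)
    have h2 := E1 d a
    rw [one_mul] at h1
    have h3 : μ 1 * (φu (d * a) * φu 1) = μ 1 * (φu d * φu a) := by
      rw [← mul_assoc, ← h1, h2, ← mul_assoc, ← hμ]
      ring
    exact mul_left_cancel₀ hμ1 h3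
  let σ₀ : F →+* F :=
    { toFun := fun a => φu a / φu 1
      map_one' := div_self hκ
      map_mul' := fun a b => by
        show φu (a * b) / φu 1 = φu a / φu 1 * (φu b / φu 1)
        rw [div_mul_div_comm, ← hmul, mul_div_mul_right _ _ hκ]
      map_zero' := by
        show φu 0 / φu 1 = 0
        rw [h0, zero_div]
      map_add' := fun a b => by
        show φu (a + b) / φu 1 = φu a / φu 1 + φu b / φu 1
        rw [hadd, add_div] }
  have hσ₀ : ∀ a, σ₀ a = φu a / φu 1 := fun a => rfl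
  have hbij : Function.Bijective σ₀ := by
    refine ⟨σ₀.injective, fun b => ?_⟩
    obtain ⟨a, ha⟩ := hsurj (b * φu 1)
    exact ⟨a, by rw [hσ₀, ha, mul_div_cancel_right₀ _ hκ]⟩
  refine ⟨RingEquiv.ofBijective σ₀ hbij, fun a => ?_, fun b => ?_, fun d => ?_⟩
  · show φu a = φu 1 * σ₀ a
    rw [hσ₀, mul_div_cancel₀ _ hκ]
  · show φv b = μ 1 * μ 1 * φu 1 * σ₀ b
    have := E2 1 b
    rw [one_mul, one_mul] at this
    rw [this, hσ₀, mul_assoc (μ 1 * μ 1), mul_div_cancel₀ _ hκ]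
  · show μ d = μ 1 * σ₀ d
    rw [hσ₀, ← mul_div_assoc, ← hμ, mul_div_cancel_right₀ _ hκ]

theorem pair_main (hm : 1 ≤ m) (p : ℕ) [Fact p.Prime] [CharP F p] (H : Perm m F)
    {α : MulAut (Cfsg.PSp m F)} {u v x₁ x₂ : Fin m ⊕ Fin m → F}
    (D : Dual u v x₁ x₂) (hu : α '' R u = R u) (hv : α '' R v = R v) {φu φv : F → F}
    (hφu : Acts α u φu) (hφv : Acts α v φv) :
    ∃ (σ : RingAut F) (c : F), c ≠ 0 ∧ (∀ a, φu a = φu 1 * σ a) ∧
      (∀ b, φv b = c * c * φu 1 * σ b) ∧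
      (∀ d, α '' R (u + d • v) = R (u + (c * σ d) • v)) := by
  choose μ hμ using exists_mu hm p H D hu hv
  choose χ hχ using exists_chi hm p H D hu hv hφu hφv
  have hE := main_eqs hm p D hφu hφv hμ hχ
  obtain ⟨σ, h1, h2, h3⟩ := field_aut_of_eqs (hφu.add hm p D.u_ne) (hφu.injective hm p D.u_ne)
    (hφu.surjective hm p D.u_ne hu) (hφu.zero hm p D.u_ne)
    (mu_ne hm p D hu one_ne_zero (hμ 1)) (fun d a => (hE d a).1) (fun d a => (hE d a).2)
  refine ⟨σ, μ 1, mu_ne hm p D hu one_ne_zero (hμ 1), h1, h2, fun d => ?_⟩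
  rw [hμ, h3]

end Cfsg.Agent.Lib.Helper43.SpCore2
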