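import Mathlib
import Cfsg.Agent.Lib.Helper43.SpCore2

set_option autoImplicit false

namespace Cfsg.Agent.Lib.Helper43.SpCore3

open Matrix Cfsg.Agent.Lib.Helper13.SympMat Cfsg.Agent.Lib.Helper43.SpBasic
  Cfsg.Agent.Lib.Helper43.SpAuts Cfsg.Agent.Lib.Helper43.SpFrame Cfsg.Agent.Lib.Helper43.SpPair
  Cfsg.Agent.Lib.Helper43.SpCore1 Cfsg.Agent.Lib.Helper43.SpCore2

variable {F : Type*} [Field F] {m : ℕ}

/-- the dual basis vectors: `form x (δ k) = x k` -/
def δ : Fin m ⊕ Fin m → (Fin m ⊕ Fin m → F)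
  | Sum.inl i => - f i
  | Sum.inr i => e i

theorem form_δ (x : Fin m ⊕ Fin m → F) (k : Fin m ⊕ Fin m) : form m F x (δ k) = x k := by
  rcases k with i | i
  · show form m F x (- f i) = _
    rw [map_neg, form_f_right, neg_neg]
  · exact form_e_right x i

/-- the plane of a coordinate -/
def pl : Fin m ⊕ Fin m → Fin m := Sum.elim id id

theorem δ_apply_of_pl_ne {k l : Fin m ⊕ Fin m} (h : pl k ≠ pl l) : (δ k : Fin m ⊕ Fin m → F) l = 0 := by
  rcases k with i | i <;> rcases l with j | j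
  · show (- f i : Fin m ⊕ Fin m → F) (Sum.inl j) = 0
    rw [Pi.neg_apply, f_apply_inl, neg_zero]
  · show (- f i : Fin m ⊕ Fin m → F) (Sum.inr j) = 0
    rw [Pi.neg_apply, f_apply_inr, if_neg (fun hh => h hh.symm), neg_zero]
  · show (e i : Fin m ⊕ Fin m → F) (Sum.inl j) = 0
    rw [e_apply_inl, if_neg (fun hh => h hh.symm)]
  · show (e i : Fin m ⊕ Fin m → F) (Sum.inr j) = 0
    rw [e_apply_inr]

theorem R_zero : R (0 : Fin m ⊕ Fin m → F) = {1} := by
  ext y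
  constructor
  · rintro ⟨c, rfl⟩
    show pr (t 0 c) = 1
    rw [t_zero_vec, map_one]
  · rintro rfl
    exact one_mem_R 0

/-- the root set of `w` is fixed by `γ` -/
def Fx (γ : MulAut (Cfsg.PSp m F)) (w : Fin m ⊕ Fin m → F) : Prop := γ '' R w = R w

theorem Fx_zero (γ : MulAut (Cfsg.PSp m F)) : Fx γ 0 := by
  unfold Fx
  rw [R_zero, Set.image_singleton, map_one]

theorem Fx_smul (γ : MulAut (Cfsg.PSp m F)) {c : F} (hc : c ≠ 0) (w : Fin m ⊕ Fin m → F) :
    Fx γ (c • w) ↔ Fx γ w := by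
  unfold Fx
  rw [R_smul hc]

theorem Fx_mulVec {γ : MulAut (Cfsg.PSp m F)} {g : Matrix.symplecticGroup (Fin m) F}
    (hg : γ (pr g) = pr g) {w : Fin m ⊕ Fin m → F} (hw : Fx γ w) :
    Fx γ ((g : Matrix (Fin m ⊕ Fin m) (Fin m ⊕ Fin m) F) *ᵥ w) := by
  unfold Fx at hw ⊢
  rw [← conj_R, image_conj, hg, hw]

theorem Fx_of_fix {γ : MulAut (Cfsg.PSp m F)} {w : Fin m ⊕ Fin m → F}
    (h : ∀ a, γ (pr (t w a)) = pr (t w a)) : Fx γ w := by
  unfold Fx
  ext y
  constructor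
  · rintro ⟨_, ⟨a, rfl⟩, rfl⟩
    exact ⟨a, (h a).symm⟩
  · rintro ⟨a, rfl⟩
    exact ⟨_, ⟨a, rfl⟩, h a⟩

theorem Fx_of_perp (hm : 1 ≤ m) (p : ℕ) [Fact p.Prime] [CharP F p] (H : Perm m F)
    {γ : MulAut (Cfsg.PSp m F)} {w : Fin m ⊕ Fin m → F} (hw : w ≠ 0)
    (W : Set (Fin m ⊕ Fin m → F)) (hW : ∀ y ∈ W, Fx γ y ∧ form m F w y = 0)
    (hspan : ∀ x' : Fin m ⊕ Fin m → F, (∀ y ∈ W, form m F x' y = 0) → ∃ c : F, x' = c • w) :
    Fx γ w := by
  obtain ⟨w', hw'0, hw'⟩ := H γ w hw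
  have h1 : ∀ y ∈ W, form m F w' y = 0 := fun y hy =>
    (perp_iff hm p hw' (hW y hy).1).2 (hW y hy).2
  obtain ⟨c, hc⟩ := hspan w' h1
  have hc0 : c ≠ 0 := by
    rintro rfl
    rw [zero_smul] at hc
    exact hw'0 hc
  show γ '' R w = R w
  rw [hw', hc, R_smul hc0]

theorem Fx_pivot (hm : 1 ≤ m) (p : ℕ) [Fact p.Prime] [CharP F p] (H : Perm m F)
    {γ : MulAut (Cfsg.PSp m F)} (x : Fin m ⊕ Fin m → F) (k₀ : Fin m ⊕ Fin m) (hk₀ : x k₀ ≠ 0)
    (h : ∀ k, k ≠ k₀ → Fx γ (x k • δ k₀ - x k₀ • δ k)) : Fx γ x := by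
  have hx : x ≠ 0 := by
    intro h0
    rw [h0] at hk₀
    exact hk₀ rfl
  apply Fx_of_perp hm p H hx {y | ∃ k, k ≠ k₀ ∧ y = x k • δ k₀ - x k₀ • δ k}
  · rintro y ⟨k, hk, rfl⟩
    refine ⟨h k hk, ?_⟩
    rw [map_sub, map_smul, map_smul, form_δ, form_δ, smul_eq_mul, smul_eq_mul]
    ring
  · intro x' hx'
    refine ⟨x' k₀ / x k₀, ?_⟩
    funext k
    rw [Pi.smul_apply, smul_eq_mul]
    by_cases hk : k = k₀
    · rw [hk, div_mul_cancel₀ _ hk₀]
    · have h1 := hx' _ ⟨k, hk, rfl⟩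
      rw [map_sub, map_smul, map_smul, form_δ, form_δ, smul_eq_mul, smul_eq_mul] at h1
      field_simp
      linear_combination -h1

/-- `γ` fixes the standard generators and the root sets of `e i₀ + d • e j` -/
structure Fixes (γ : MulAut (Cfsg.PSp m F)) (i₀ : Fin m) : Prop where
  h1 : ∀ (j : Fin m) (a : F), γ (pr (t (e j) a)) = pr (t (e j) a)
  h2 : ∀ (j : Fin m) (b : F), γ (pr (t (f j) b)) = pr (t (f j) b)
  h3 : ∀ j : Fin m, j ≠ i₀ → ∀ d : F, γ '' R (e i₀ + d • e j) = R (e i₀ + d • e j)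

/-- the Weyl element of the plane `j` -/
def W (j : Fin m) : Matrix.symplecticGroup (Fin m) F := t (e j) 1 * t (f j) 1

theorem W_e (j : Fin m) :
    ((W j : Matrix.symplecticGroup (Fin m) F) : Matrix (Fin m ⊕ Fin m) (Fin m ⊕ Fin m) F) *ᵥ e j =
      - f j := by
  unfold W
  rw [mul_mulVec, t_mulVec, t_mulVec]
  simp only [map_add, map_smul, LinearMap.add_apply, LinearMap.smul_apply, smul_eq_mul,
    form_e_right, form_f_right, e_apply_inr, e_apply_inl, f_apply_inr, if_true]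
  module

theorem W_e_ne {i j : Fin m} (h : i ≠ j) :
    ((W j : Matrix.symplecticGroup (Fin m) F) : Matrix (Fin m ⊕ Fin m) (Fin m ⊕ Fin m) F) *ᵥ e i =
      e i := by
  unfold W
  rw [mul_mulVec, t_mulVec, t_mulVec]
  simp only [map_add, map_smul, LinearMap.add_apply, LinearMap.smul_apply, smul_eq_mul,
    form_e_right, form_f_right, e_apply_inr, e_apply_inl, f_apply_inr,
    if_neg (Ne.symm h)]
  module

theorem W_f_ne {i j : Fin m} (h : i ≠ j) :
    ((W j : Matrix.symplecticGroup (Fin m) F) : Matrix (Fin m ⊕ Fin m) (Fin m ⊕ Fin m) F) *ᵥ f i =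
      f i := by
  unfold W
  rw [mul_mulVec, t_mulVec, t_mulVec]
  simp only [map_add, map_smul, LinearMap.add_apply, LinearMap.smul_apply, smul_eq_mul,
    form_e_right, form_f_right, e_apply_inl, f_apply_inr, f_apply_inl,
    if_neg (Ne.symm h)]
  module

namespace Fixes

variable {γ : MulAut (Cfsg.PSp m F)} {i₀ : Fin m}

theorem Fx_plane (hγ : Fixes γ i₀) (i : Fin m) (a b : F) : Fx γ (a • e i + b • f i) := by
  by_cases hb : b = 0
  · rw [hb, zero_smul, add_zero]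
    by_cases ha : a = 0
    · rw [ha, zero_smul]
      exact Fx_zero γ
    · exact (Fx_smul γ ha _).2 (Fx_of_fix (hγ.h1 i))
  · have h : a • e i + b • f i = b • (((t (e i) (a / b) : Matrix.symplecticGroup (Fin m) F) :
        Matrix (Fin m ⊕ Fin m) (Fin m ⊕ Fin m) F) *ᵥ f i) := by
      rw [t_mulVec, form_e_right, f_apply_inr, if_pos rfl, mul_one, smul_add, smul_smul,
        mul_div_cancel₀ _ hb, add_comm]
    rw [h, Fx_smul γ hb]
    exact Fx_mulVec (hγ.h1 i _) (Fx_of_fix (hγ.h2 i))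

theorem fix_W (hγ : Fixes γ i₀) (j : Fin m) : γ (pr (W j)) = pr (W j) := by
  unfold W
  rw [map_mul, map_mul, hγ.h1, hγ.h2]

theorem Fx_ee (hγ : Fixes γ i₀) {j : Fin m} (hj : j ≠ i₀) (a b : F) :
    Fx γ (a • e i₀ + b • e j) := by
  by_cases ha : a = 0
  · rw [ha, zero_smul, zero_add]
    have := hγ.Fx_plane j b 0
    rwa [zero_smul, add_zero] at this
  · have h : (a • e i₀ + b • e j : Fin m ⊕ Fin m → F) = a • (e i₀ + (b / a) • e j) := by
      rw [smul_add, smul_smul, mul_div_cancel₀ _ ha]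
    rw [h, Fx_smul γ ha]
    exact hγ.h3 j hj _

theorem Fx_ef (hγ : Fixes γ i₀) {j : Fin m} (hj : j ≠ i₀) (a b : F) :
    Fx γ (a • e i₀ + b • f j) := by
  have h : a • e i₀ + b • f j =
      ((W j : Matrix.symplecticGroup (Fin m) F) : Matrix (Fin m ⊕ Fin m) (Fin m ⊕ Fin m) F) *ᵥ
        (a • e i₀ + (-b) • e j) := by
    rw [Matrix.mulVec_add, Matrix.mulVec_smul, Matrix.mulVec_smul, W_e, W_e_ne (Ne.symm hj)]
    module
  rw [h]
  exact Fx_mulVec (hγ.fix_W j) (hγ.Fx_ee hj _ _)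

theorem Fx_fe (hγ : Fixes γ i₀) {j : Fin m} (hj : j ≠ i₀) (a b : F) :
    Fx γ (a • f i₀ + b • e j) := by
  have h : a • f i₀ + b • e j =
      ((W i₀ : Matrix.symplecticGroup (Fin m) F) :
          Matrix (Fin m ⊕ Fin m) (Fin m ⊕ Fin m) F) *ᵥ ((-a) • e i₀ + b • e j) := by
    rw [Matrix.mulVec_add, Matrix.mulVec_smul, Matrix.mulVec_smul, W_e, W_e_ne hj]
    module
  rw [h]
  exact Fx_mulVec (hγ.fix_W _) (hγ.Fx_ee hj _ _)

theorem Fx_ff (hγ : Fixes γ i₀) {j : Fin m} (hj : j ≠ i₀) (a b : F) :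
    Fx γ (a • f i₀ + b • f j) := by
  have h : a • f i₀ + b • f j =
      ((W i₀ : Matrix.symplecticGroup (Fin m) F) :
          Matrix (Fin m ⊕ Fin m) (Fin m ⊕ Fin m) F) *ᵥ ((-a) • e i₀ + b • f j) := by
    rw [Matrix.mulVec_add, Matrix.mulVec_smul, Matrix.mulVec_smul, W_e, W_f_ne hj]
    module
  rw [h]
  exact Fx_mulVec (hγ.fix_W _) (hγ.Fx_ef hj _ _)

theorem Fx_pair (hγ : Fixes γ i₀) (k l : Fin m ⊕ Fin m) (hk : pl k = i₀) (a b : F) :
    Fx γ (a • (δ k : Fin m ⊕ Fin m → F) + b • δ l) := by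
  rcases k with i | i <;> rcases l with j | j
  · have hi : i = i₀ := hk
    subst hi
    show Fx γ (a • (- f i) + b • (- f j))
    by_cases hj : j = i
    · subst hj
      have := hγ.Fx_plane j 0 (-a - b)
      convert this using 1
      module
    · have := hγ.Fx_ff hj (-a) (-b)
      convert this using 1
      module
  · have hi : i = i₀ := hk
    subst hi
    show Fx γ (a • (- f i) + b • e j)
    by_cases hj : j = i
    · subst hj
      have := hγ.Fx_plane j b (-a)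
      convert this using 1
      module
    · have := hγ.Fx_fe hj (-a) b
      convert this using 1
      module
  · have hi : i = i₀ := hk
    subst hi
    show Fx γ (a • e i + b • (- f j))
    by_cases hj : j = i
    · subst hj
      have := hγ.Fx_plane j a (-b)
      convert this using 1
      module
    · have := hγ.Fx_ef hj a (-b)
      convert this using 1
      module
  · have hi : i = i₀ := hk
    subst hi
    show Fx γ (a • e i + b • e j)
    by_cases hj : j = i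
    · subst hj
      have := hγ.Fx_plane j (a + b) 0
      convert this using 1
      module
    · exact hγ.Fx_ee hj a b

theorem Fx_round1 (hm : 1 ≤ m) (p : ℕ) [Fact p.Prime] [CharP F p] (H : Perm m F)
    (hγ : Fixes γ i₀) (x : Fin m ⊕ Fin m → F) (k₀ : Fin m ⊕ Fin m) (hk₀ : pl k₀ = i₀)
    (hx : x k₀ ≠ 0) : Fx γ x := by
  apply Fx_pivot hm p H x k₀ hx
  intro k _
  have := hγ.Fx_pair k₀ k hk₀ (x k) (- x k₀)
  convert this using 1
  module

theorem Fx_round2 (hm : 1 ≤ m) (p : ℕ) [Fact p.Prime] [CharP F p] (H : Perm m F)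
    (hγ : Fixes γ i₀) (x : Fin m ⊕ Fin m → F) (hx : x ≠ 0)
    (hx0 : ∀ k, pl k = i₀ → x k = 0) : Fx γ x := by
  obtain ⟨k₀, hk₀⟩ := Function.ne_iff.1 hx
  have hk₀ : x k₀ ≠ 0 := hk₀
  have hpl : pl k₀ ≠ i₀ := fun h => hk₀ (hx0 k₀ h)
  apply Fx_of_perp hm p H hx
    ({e i₀, f i₀} ∪
      {y | ∃ k, k ≠ k₀ ∧ pl k ≠ i₀ ∧ y = x k • δ k₀ - x k₀ • δ k + e i₀})
  · rintro y (hy | ⟨k, hk, hkpl, rfl⟩)
    · rcases hy with rfl | rfl
      · refine ⟨Fx_of_fix (hγ.h1 _), ?_⟩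
        rw [form_e_right]
        exact hx0 (Sum.inr _) rfl
      · refine ⟨Fx_of_fix (hγ.h2 _), ?_⟩
        rw [form_f_right, hx0 (Sum.inl _) rfl, neg_zero]
    · refine ⟨?_, ?_⟩
      · apply hγ.Fx_round1 hm p H _ (Sum.inl i₀) rfl
        have e1 : (δ k₀ : Fin m ⊕ Fin m → F) (Sum.inl i₀) = 0 := δ_apply_of_pl_ne hpl
        have e2 : (δ k : Fin m ⊕ Fin m → F) (Sum.inl i₀) = 0 := δ_apply_of_pl_ne hkpl
        rw [Pi.add_apply, Pi.sub_apply, Pi.smul_apply, Pi.smul_apply, e1, e2, e_apply_inl,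
          if_pos rfl]
        simp
      · rw [map_add, map_sub, map_smul, map_smul, form_δ, form_δ, form_e_right,
          hx0 (Sum.inr _) rfl, smul_eq_mul, smul_eq_mul]
        ring
  · intro x' hx'
    have e1 : x' (Sum.inr i₀) = 0 := by
      have := hx' (e i₀) (Or.inl (Or.inl rfl))
      rwa [form_e_right] at this
    have e2 : x' (Sum.inl i₀) = 0 := by
      have := hx' (f i₀) (Or.inl (Or.inr rfl))
      rw [form_f_right] at this
      exact neg_eq_zero.1 this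
    refine ⟨x' k₀ / x k₀, ?_⟩
    funext k
    rw [Pi.smul_apply, smul_eq_mul]
    by_cases hk : k = k₀
    · rw [hk, div_mul_cancel₀ _ hk₀]
    · by_cases hkpl : pl k = i₀
      · rw [hx0 k hkpl, mul_zero]
        rcases k with i | i
        · have : i = i₀ := hkpl
          rw [this]
          exact e2
        · have : i = i₀ := hkpl
          rw [this]
          exact e1
      · have h4 := hx' _ (Or.inr ⟨k, hk, hkpl, rfl⟩)
        rw [map_add, map_sub, map_smul, map_smul, form_δ, form_δ, form_e_right, e1, smul_eq_mul,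
          smul_eq_mul, add_zero] at h4
        field_simp
        linear_combination -h4

theorem Fx_all (hm : 1 ≤ m) (p : ℕ) [Fact p.Prime] [CharP F p] (H : Perm m F)
    (hγ : Fixes γ i₀) (x : Fin m ⊕ Fin m → F) : Fx γ x := by
  by_cases hx : x = 0
  · rw [hx]
    exact Fx_zero γ
  by_cases h : ∀ k, pl k = i₀ → x k = 0
  · exact hγ.Fx_round2 hm p H x hx h
  · push Not at h
    obtain ⟨k₀, hk₀, hxk⟩ := h
    exact hγ.Fx_round1 hm p H x k₀ hk₀ hxk

theorem eq_one (hm : 1 ≤ m) (p : ℕ) [Fact p.Prime] [CharP F p] (H : Perm m F)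
    (hγ : Fixes γ i₀) : γ = 1 := by
  ext y
  obtain ⟨g, rfl⟩ := pr_surjective y
  obtain ⟨g', hg'⟩ := pr_surjective (γ (pr g))
  rw [MulAut.one_apply, ← hg']
  have key : ∀ w : Fin m ⊕ Fin m → F, w ≠ 0 → ∃ c : F,
      (g' : Matrix (Fin m ⊕ Fin m) (Fin m ⊕ Fin m) F) *ᵥ w =
        c • ((g : Matrix (Fin m ⊕ Fin m) (Fin m ⊕ Fin m) F) *ᵥ w) := by
    intro w hw
    have e1 : R ((g' : Matrix (Fin m ⊕ Fin m) (Fin m ⊕ Fin m) F) *ᵥ w) =
        R ((g : Matrix (Fin m ⊕ Fin m) (Fin m ⊕ Fin m) F) *ᵥ w) := by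
      have e2 := hγ.Fx_all hm p H w
      have e3 := hγ.Fx_all hm p H ((g : Matrix (Fin m ⊕ Fin m) (Fin m ⊕ Fin m) F) *ᵥ w)
      unfold Fx at e2 e3
      rw [← conj_R g', hg', ← e3, ← conj_R g, image_conj, e2]
    obtain ⟨c, -, hc⟩ := R_subset hm p (mulVec_ne_zero g hw) e1.ge
    exact ⟨c, hc⟩
  have hdep : ∀ v : Fin m ⊕ Fin m → F, ¬ LinearIndependent F
      ![v, Matrix.toLin' ((g⁻¹ * g' : Matrix.symplecticGroup (Fin m) F) :
        Matrix (Fin m ⊕ Fin m) (Fin m ⊕ Fin m) F) v] := by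
    intro v
    by_cases hv : v = 0
    · simp [hv, linearIndependent_fin2]
    · rw [LinearIndependent.pair_iff' hv]
      push Not
      obtain ⟨c, hc⟩ := key v hv
      refine ⟨c, ?_⟩
      rw [Matrix.toLin'_apply, mul_mulVec, hc, Matrix.mulVec_smul, inv_mulVec_mulVec]
  obtain ⟨a, ha⟩ := LinearMap.exists_eq_smul_id_of_forall_notLinearIndependent hdep
  have hz : ((g⁻¹ * g' : Matrix.symplecticGroup (Fin m) F) :
      Matrix (Fin m ⊕ Fin m) (Fin m ⊕ Fin m) F) = a • 1 := by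
    apply Matrix.toLin'.injective
    rw [ha, map_smul, Matrix.toLin'_one]
    rfl
  have h5 : pr (g⁻¹ * g') = pr (1 : Matrix.symplecticGroup (Fin m) F) :=
    pr_eq_of_scalar a (by rw [hz, Submonoid.coe_one])
  rw [map_mul, map_inv, map_one, inv_mul_eq_one] at h5
  exact h5.symm

end Fixes

end Cfsg.Agent.Lib.Helper43.SpCore3
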