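import Mathlib
import Cfsg.Agent.Lib.Helper43.SpCore3

set_option autoImplicit false

namespace Cfsg.Agent.Lib.Helper43.SpCore4

open Matrix Cfsg.Agent.Lib.Helper13.SympMat Cfsg.Agent.Lib.Helper43.SpBasic
  Cfsg.Agent.Lib.Helper43.SpAuts Cfsg.Agent.Lib.Helper43.SpFrame Cfsg.Agent.Lib.Helper43.SpPair
  Cfsg.Agent.Lib.Helper43.SpCore1 Cfsg.Agent.Lib.Helper43.SpCore2 Cfsg.Agent.Lib.Helper43.SpCore3

variable {F : Type*} [Field F] {m : ℕ}

theorem dual_e {i j : Fin m} (h : i ≠ j) :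
    Dual (e i : Fin m ⊕ Fin m → F) (e j) (f i) (f j) where
  uv := by rw [form_e_right, e_apply_inr]
  h11 := by rw [form_e_right, f_apply_inr, if_pos rfl]
  h12 := by rw [form_e_right, f_apply_inr, if_neg (Ne.symm h)]
  h21 := by rw [form_e_right, f_apply_inr, if_neg h]
  h22 := by rw [form_e_right, f_apply_inr, if_pos rfl]

theorem exists_beta (hm : 2 ≤ m) (p : ℕ) [Fact p.Prime] [CharP F p] (H : Perm m F)
    (α : MulAut (Cfsg.PSp m F)) (he : ∀ i : Fin m, α '' R (e i) = R (e i))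
    (hf : ∀ i : Fin m, α '' R (f i) = R (f i)) :
    ∃ (h : ↥(Cfsg.GSp m F)) (σ : RingAut F), α = cGSp h * cσ σ := by
  have hm1 : 1 ≤ m := by omega
  choose φ hφ using fun i => exists_acts (he i)
  choose ψ hψ using fun i => exists_acts (hf i)
  obtain ⟨i₀, hi₀⟩ : ∃ i₀ : Fin m, i₀ = ⟨0, by omega⟩ := ⟨_, rfl⟩
  obtain ⟨j₁, hj₁⟩ : ∃ j₁ : Fin m, j₁ = ⟨1, by omega⟩ := ⟨_, rfl⟩
  have h01 : i₀ ≠ j₁ := by
    rw [hi₀, hj₁]
    intro h
    have := congrArg Fin.val h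
    simp at this
  obtain ⟨σ, c₁, -, hσ1, -, -⟩ := pair_main hm1 p H (dual_e h01) (he i₀) (he j₁) (hφ i₀) (hφ j₁)
  have hκ : φ i₀ 1 ≠ 0 := by
    intro h
    rw [← (hφ i₀).zero hm1 p (e_ne_zero i₀)] at h
    exact one_ne_zero ((hφ i₀).injective hm1 p (e_ne_zero i₀) h)
  have key : ∀ j, ∃ cj : F, cj ≠ 0 ∧ (∀ b, φ j b = cj * cj * φ i₀ 1 * σ b) ∧
      (j ≠ i₀ → ∀ d : F, α '' R (e i₀ + d • e j) = R (e i₀ + (cj * σ d) • e j)) ∧
      (j = i₀ → cj = 1) := by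
    intro j
    by_cases hj : j = i₀
    · subst hj
      exact ⟨1, one_ne_zero, fun b => by rw [hσ1 b]; ring, fun h => absurd rfl h, fun _ => rfl⟩
    · obtain ⟨σ', c, hc, h1', h2', h3'⟩ :=
        pair_main hm1 p H (dual_e (Ne.symm hj)) (he i₀) (he j) (hφ i₀) (hφ j)
      have hσ' : ∀ a, σ' a = σ a := by
        intro a
        have e1 := h1' a
        rw [hσ1 a] at e1
        exact (mul_left_cancel₀ hκ e1).symm
      exact ⟨c, hc, fun b => by rw [h2', hσ'], fun _ d => by rw [h3', hσ'], fun h => absurd h hj⟩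
  choose c hc0 hcφ hcR hci₀ using key
  have hψ' : ∀ j b, ψ j b = σ b / (c j * c j * φ i₀ 1) := by
    intro j b
    by_cases hb : b = 0
    · rw [hb, (hψ j).zero hm1 p (f_ne_zero j), map_zero, zero_div]
    · have h1 : form m F (f j) (e j) = 1 := by rw [form_e_right, f_apply_inr, if_pos rfl]
      have h2 := sl2_rel hm1 p h1 (hφ j) (hψ j) (he j) (hf j) (inv_ne_zero hb)
      rw [inv_inv, hcφ, map_inv₀] at h2
      have h3 : σ b ≠ 0 := by
        intro h0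
        rw [← map_zero σ] at h0
        exact hb (σ.injective h0)
      have h4 := hc0 j
      field_simp at h2 ⊢
      linear_combination h2
  obtain ⟨cu, hcu⟩ : ∃ cu : Fin m → Fˣ, ∀ j, (cu j : F) = c j :=
    ⟨fun j => Units.mk0 (c j) (hc0 j), fun j => rfl⟩
  obtain ⟨l, hl⟩ : ∃ l : Fˣ, (l : F) = (φ i₀ 1)⁻¹ := ⟨Units.mk0 _ (inv_ne_zero hκ), rfl⟩
  obtain ⟨h, hh⟩ : ∃ h : ↥(Cfsg.GSp m F), h = dg cu l := ⟨_, rfl⟩
  have hform := dg_form cu l
  rw [← hh] at hform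
  have hσe : ∀ (i : Fin m) (k : Fin m ⊕ Fin m), σ ((e i : Fin m ⊕ Fin m → F) k) = e i k :=
    fun i k => congrFun (map_e σ i) k
  obtain ⟨β, hβ⟩ : ∃ β : MulAut (Cfsg.PSp m F), β = cGSp h * cσ σ := ⟨_, rfl⟩
  have hβe : ∀ j a, β (pr (t (e j) a)) = α (pr (t (e j) a)) := by
    intro j a
    rw [hβ, MulAut.mul_apply, cσ_t, map_e, cGSp_t h l.ne_zero hform, hh, dg_e, t_smul, hφ j a, hcφ j,
      hcu, hl]
    congr 2
    field_simp
  have hβf : ∀ j b, β (pr (t (f j) b)) = α (pr (t (f j) b)) := by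
    intro j b
    rw [hβ, MulAut.mul_apply, cσ_t, map_f, cGSp_t h l.ne_zero hform, hh, dg_f, t_smul, hψ j b,
      hψ' j b, hcu, hl]
    congr 2
    have h4 := hc0 j
    field_simp
  have hβR : ∀ j, j ≠ i₀ → ∀ d : F,
      β '' R (e i₀ + d • e j) = α '' R (e i₀ + d • e j) := by
    intro j hj d
    rw [hβ, image_mul, cσ_R, cGSp_R, hcR j hj d]
    congr 1
    have e1 : (fun k => σ ((e i₀ + d • e j : Fin m ⊕ Fin m → F) k)) = e i₀ + σ d • e j := by
      funext k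
      simp only [Pi.add_apply, Pi.smul_apply, smul_eq_mul, map_add, map_mul, hσe]
    rw [e1, Matrix.mulVec_add, Matrix.mulVec_smul, hh, dg_e, dg_e, hcu, hcu, hci₀ i₀ rfl, one_smul,
      smul_smul, mul_comm]
  have hγ : Fixes (β⁻¹ * α) i₀ := by
    refine ⟨fun j a => ?_, fun j b => ?_, fun j hj d => ?_⟩
    · rw [MulAut.mul_apply, ← hβe, MulAut.inv_apply_self]
    · rw [MulAut.mul_apply, ← hβf, MulAut.inv_apply_self]
    · rw [image_mul, ← hβR j hj d, inv_image_image]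
  have h1 := hγ.eq_one hm1 p H
  exact ⟨h, σ, by rw [← hβ]; exact (inv_mul_eq_one.1 h1).symm⟩

/-- the core theorem: if every automorphism permutes the transvection groups, then every
automorphism is induced by a semilinear conformal symplectic map -/
theorem core (hm : 2 ≤ m) (p : ℕ) [Fact p.Prime] [CharP F p] (H : Perm m F)
    (α : MulAut (Cfsg.PSp m F)) :
    ∃ (h : ↥(Cfsg.GSp m F)) (σ : RingAut F), α = cGSp h * cσ σ := by
  obtain ⟨g, hge, hgf⟩ := exists_frame (by omega) p H α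
  obtain ⟨h, σ, hβ⟩ := exists_beta hm p H _ hge hgf
  refine ⟨toGSp g * h, σ, ?_⟩
  rw [map_mul, cGSp_toGSp, mul_assoc, ← hβ, mul_inv_cancel_left]

end Cfsg.Agent.Lib.Helper43.SpCore4
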