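import Mathlib
import Cfsg.Agent.Lib.Helper43.SpCore4

set_option autoImplicit false

namespace Cfsg.Agent.Lib.Helper43.SpRel

open Matrix Cfsg.Agent.Lib.Helper13.SympMat Cfsg.Agent.Lib.Helper43.SpBasic
  Cfsg.Agent.Lib.Helper43.SpAuts Cfsg.Agent.Lib.Helper43.SpFrame Cfsg.Agent.Lib.Helper43.SpPair
  Cfsg.Agent.Lib.Helper43.SpCore1 Cfsg.Agent.Lib.Helper43.SpCore2 Cfsg.Agent.Lib.Helper43.SpCore3
  Cfsg.Agent.Lib.Helper43.SpCore4

variable {F : Type*} [Field F] {m : ℕ}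

/-- `α` and its inverse permute the root sets -/
def PermA (α : MulAut (Cfsg.PSp m F)) : Prop :=
  (∀ v : Fin m ⊕ Fin m → F, v ≠ 0 → ∃ v' : Fin m ⊕ Fin m → F, v' ≠ 0 ∧ α '' R v = R v') ∧
  (∀ v : Fin m ⊕ Fin m → F, v ≠ 0 → ∃ v' : Fin m ⊕ Fin m → F, v' ≠ 0 ∧
    (α⁻¹ : MulAut (Cfsg.PSp m F)) '' R v = R v')

theorem PermA.inv {α : MulAut (Cfsg.PSp m F)} (H : PermA α) : PermA α⁻¹ :=
  ⟨H.2, by rw [inv_inv]; exact H.1⟩

theorem PermA.mul {α β : MulAut (Cfsg.PSp m F)} (H : PermA α) (H' : PermA β) :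
    PermA (α * β) := by
  constructor
  · intro v hv
    obtain ⟨v', hv', h1⟩ := H'.1 v hv
    obtain ⟨v'', hv'', h2⟩ := H.1 v' hv'
    exact ⟨v'', hv'', by rw [image_mul, h1, h2]⟩
  · intro v hv
    obtain ⟨v', hv', h1⟩ := H.2 v hv
    obtain ⟨v'', hv'', h2⟩ := H'.2 v' hv'
    exact ⟨v'', hv'', by rw [_root_.mul_inv_rev, image_mul, h1, h2]⟩

theorem permA_conj (g : Matrix.symplecticGroup (Fin m) F) :
    PermA (MulAut.conj (pr g) : MulAut (Cfsg.PSp m F)) := by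
  constructor
  · intro v hv
    exact ⟨_, mulVec_ne_zero g hv, conj_R g v⟩
  · intro v hv
    have h1 := conj_R g⁻¹ v
    rw [map_inv, map_inv] at h1
    exact ⟨_, mulVec_ne_zero g⁻¹ hv, h1⟩

theorem gl_mulVec_ne_zero (g : GL (Fin m ⊕ Fin m) F) {v : Fin m ⊕ Fin m → F} (hv : v ≠ 0) :
    (g : Matrix (Fin m ⊕ Fin m) (Fin m ⊕ Fin m) F) *ᵥ v ≠ 0 := by
  intro h
  apply hv
  rw [← inv_mulVec_mulVec_gl g v, h, Matrix.mulVec_zero]

theorem permA_cGSp (g : ↥(Cfsg.GSp m F)) : PermA (cGSp g) := by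
  constructor
  · intro v hv
    exact ⟨_, gl_mulVec_ne_zero _ hv, cGSp_R g v⟩
  · intro v hv
    have h1 := cGSp_R g⁻¹ v
    rw [map_inv] at h1
    exact ⟨_, gl_mulVec_ne_zero _ hv, h1⟩

theorem permA_cσ (σ : RingAut F) : PermA (cσ σ : MulAut (Cfsg.PSp m F)) := by
  have key : ∀ (τ : RingAut F) (v : Fin m ⊕ Fin m → F), v ≠ 0 → (fun k => τ (v k)) ≠ 0 := by
    intro τ v hv h
    apply hv
    funext k
    have := congrFun h k
    exact (map_eq_zero τ).1 this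
  constructor
  · intro v hv
    exact ⟨_, key σ v hv, cσ_R σ v⟩
  · intro v hv
    have h1 := cσ_R (m := m) σ⁻¹ v
    rw [map_inv] at h1
    exact ⟨_, key σ⁻¹ v hv, h1⟩


theorem line' (hm : 1 ≤ m) (p : ℕ) [Fact p.Prime] [CharP F p] {α : MulAut (Cfsg.PSp m F)} (H : PermA α) {u v w u' v' w' : Fin m ⊕ Fin m → F}
    (hu : α '' R u = R u') (hv : α '' R v = R v') (hw : α '' R w = R w') (a b : F)
    (hab : w = a • u + b • v) : ∃ a' b' : F, w' = a' • u' + b' • v' := by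
  apply mem_span_pair_of_perp
  intro x hxu hxv
  by_cases hx : x = 0
  · rw [hx]
    simp
  · obtain ⟨y, -, hy⟩ := H.2 x hx
    have hy' : α '' R y = R x := image_inv α hy
    rw [perp_iff hm p hy' hu] at hxu
    rw [perp_iff hm p hy' hv] at hxv
    rw [perp_iff hm p hy' hw, hab]
    simp [hxu, hxv]

/-- normalisation of a frame -/
theorem exists_frame' (hm : 1 ≤ m) (p : ℕ) [Fact p.Prime] [CharP F p] {α : MulAut (Cfsg.PSp m F)} (H : PermA α) :
    ∃ g : Matrix.symplecticGroup (Fin m) F,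
      (∀ i, ((MulAut.conj (pr g))⁻¹ * α) '' R (e i) = R (e i)) ∧
      (∀ i, ((MulAut.conj (pr g))⁻¹ * α) '' R (f i) = R (f i)) := by
  choose a ha0 ha using fun i => H.1 (e i) (e_ne_zero i)
  choose b hb0 hb using fun i => H.1 (f i) (f_ne_zero i)
  have haa : ∀ i j, form m F (a i) (a j) = 0 := by
    intro i j
    rw [perp_iff hm p (ha i) (ha j), form_e_right, e_apply_inr]
  have hbb : ∀ i j, form m F (b i) (b j) = 0 := by
    intro i j
    rw [perp_iff hm p (hb i) (hb j), form_f_right, f_apply_inl, neg_zero]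
  have hba : ∀ i j, form m F (b i) (a j) = 0 ↔ i ≠ j := by
    intro i j
    rw [perp_iff hm p (hb i) (ha j), form_e_right, f_apply_inr]
    constructor
    · intro h hij
      rw [if_pos hij.symm] at h
      exact one_ne_zero h
    · intro h
      rw [if_neg (Ne.symm h)]
  have hd : ∀ i, form m F (b i) (a i) ≠ 0 := fun i h => (hba i i).1 h rfl
  obtain ⟨g, hg1, hg2⟩ := exists_sp_of_basis a (fun i => (form m F (b i) (a i))⁻¹ • b i) haa
    (by
      intro i j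
      simp only [map_smul, LinearMap.smul_apply, smul_eq_mul, hbb, mul_zero])
    (by
      intro i j
      simp only [map_smul, LinearMap.smul_apply, smul_eq_mul]
      by_cases h : i = j
      · subst h
        rw [if_pos rfl, inv_mul_cancel₀ (hd i)]
      · rw [if_neg h, (hba i j).2 h, mul_zero])
  refine ⟨g, fun i => ?_, fun i => ?_⟩
  · have h1 : (MulAut.conj (pr g)) '' R (e i) = R (a i) := by rw [conj_R, hg1]
    rw [image_mul, ha, ← h1, inv_image_image]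
  · have h1 : (MulAut.conj (pr g)) '' R (f i) = R (b i) := by
      rw [conj_R, hg2, R_smul (inv_ne_zero (hd i))]
    rw [image_mul, hb, ← h1, inv_image_image]

section pair

variable {α : MulAut (Cfsg.PSp m F)} {u v x₁ x₂ : Fin m ⊕ Fin m → F}

theorem exists_mu' (hm : 1 ≤ m) (p : ℕ) [Fact p.Prime] [CharP F p] (H : PermA α)
    (D : Dual u v x₁ x₂) (hu : α '' R u = R u) (hv : α '' R v = R v) (d : F) :
    ∃ d' : F, α '' R (u + d • v) = R (u + d' • v) := by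
  obtain ⟨w, hw0, hw⟩ := H.1 (u + d • v) (D.add_smul_ne d)
  obtain ⟨a', b', hab⟩ := line' hm p H hu hv hw 1 d (by rw [one_smul])
  have ha' : a' ≠ 0 := by
    intro h0
    rw [h0, zero_smul, zero_add] at hab
    have hb' : b' ≠ 0 := by
      rintro rfl
      rw [zero_smul] at hab
      exact hw0 hab
    rw [hab, R_smul hb'] at hw
    obtain ⟨c, -, hc⟩ := image_eq hm p D.v_ne hv hw
    have := congrArg (fun x => form m F x₁ x) hc
    simp [D.h11, D.h12] at this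
  refine ⟨b' / a', ?_⟩
  have : w = a' • (u + (b' / a') • v) := by
    rw [hab, smul_add, smul_smul, mul_div_cancel₀ _ ha']
  rw [hw, this, R_smul ha']

theorem exists_Y' (hm : 1 ≤ m) (p : ℕ) [Fact p.Prime] [CharP F p] (H : PermA α)
    (D : Dual u v x₁ x₂) (hu : α '' R u = R u) (hv : α '' R v = R v) {φu φv : F → F}
    (hφu : Acts α u φu) (hφv : Acts α v φv) (a b c : F) :
    ∃ a' b' c' : F, α (pr (Y u v a b c)) = pr (Y u v a' b' c') := by
  obtain ⟨d', hd'⟩ := exists_mu' hm p H D hu hv 1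
  rw [one_smul] at hd'
  have h1 : α (pr (t (u + v) c)) ∈ R (u + d' • v) := by
    rw [← hd']
    exact ⟨_, pr_t_mem_R _ c, rfl⟩
  obtain ⟨c'', hc''⟩ := h1
  refine ⟨φu (a - c) + 0 + c'', 0 + φv (b - c) + d' * d' * c'', 0 + 0 + d' * c'', ?_⟩
  unfold Y
  rw [map_mul, map_mul, map_mul, map_mul, hφu, hφv, ← hc'', ← map_mul, ← map_mul,
    t_add_smul D.uv, ← Y_left u v, ← Y_right u v, Y_mul D.uv, Y_mul D.uv]
  rfl

theorem Tset_image' (H : PermA α) {y : Cfsg.PSp m F}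
    (hy : y ∈ Tset m F) : α y ∈ Tset m F := by
  obtain ⟨w, d, rfl⟩ := hy
  by_cases hw : w = 0
  · refine ⟨0, 0, ?_⟩
    rw [hw, t_zero_vec, map_one, map_one, t_zero, map_one]
  · obtain ⟨w', -, hw'⟩ := H.1 w hw
    apply R_subset_Tset w'
    rw [← hw']
    exact ⟨_, pr_t_mem_R w d, rfl⟩

theorem Tset_iff' (H : PermA α) (y : Cfsg.PSp m F) :
    α y ∈ Tset m F ↔ y ∈ Tset m F := by
  constructor
  · intro h
    have := Tset_image' H.inv h
    rwa [MulAut.inv_apply_self] at this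
  · exact Tset_image' H

theorem exists_chi' (hm : 1 ≤ m) (p : ℕ) [Fact p.Prime] [CharP F p] (H : PermA α)
    (D : Dual u v x₁ x₂) (hu : α '' R u = R u) (hv : α '' R v = R v) {φu φv : F → F}
    (hφu : Acts α u φu) (hφv : Acts α v φv) (c : F) :
    ∃ c' : F, α (pr (Y u v 0 0 c)) = pr (Y u v 0 0 c') := by
  by_cases hc : c = 0
  · exact ⟨0, by rw [hc, Y_zero, map_one, map_one]⟩
  · obtain ⟨a', b', c', h⟩ := exists_Y' hm p H D hu hv hφu hφv 0 0 c
    have h1 := (D.tangent_u hm p 0 0 c).2 ⟨rfl, hc⟩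
    have h1' := (D.tangent_v hm p 0 0 c).2 ⟨rfl, hc⟩
    have h2 : ∀ l, pr (Y u v a' b' c') * pr (t u l) ∉ Tset m F := by
      intro l hl
      obtain ⟨l₀, rfl⟩ := hφu.surjective hm p D.u_ne hu l
      apply h1 l₀
      rw [← Tset_iff' H, map_mul, h, hφu l₀]
      exact hl
    have h2' : ∀ l, pr (Y u v a' b' c') * pr (t v l) ∉ Tset m F := by
      intro l hl
      obtain ⟨l₀, rfl⟩ := hφv.surjective hm p D.v_ne hv l
      apply h1' l₀
      rw [← Tset_iff' H, map_mul, h, hφv l₀]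
      exact hl
    have h3 := (D.tangent_u hm p a' b' c').1 h2
    have h3' := (D.tangent_v hm p a' b' c').1 h2'
    exact ⟨c', by rw [h, h3.1, h3'.1]⟩

end pair

theorem pair_main' (hm : 1 ≤ m) (p : ℕ) [Fact p.Prime] [CharP F p] {α : MulAut (Cfsg.PSp m F)} (H : PermA α)
    {u v x₁ x₂ : Fin m ⊕ Fin m → F}
    (D : Dual u v x₁ x₂) (hu : α '' R u = R u) (hv : α '' R v = R v) {φu φv : F → F}
    (hφu : Acts α u φu) (hφv : Acts α v φv) :
    ∃ (σ : RingAut F) (c : F), c ≠ 0 ∧ (∀ a, φu a = φu 1 * σ a) ∧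
      (∀ b, φv b = c * c * φu 1 * σ b) ∧
      (∀ d, α '' R (u + d • v) = R (u + (c * σ d) • v)) := by
  choose μ hμ using exists_mu' hm p H D hu hv
  choose χ hχ using exists_chi' hm p H D hu hv hφu hφv
  have hE := main_eqs hm p D hφu hφv hμ hχ
  obtain ⟨σ, h1, h2, h3⟩ := field_aut_of_eqs (hφu.add hm p D.u_ne) (hφu.injective hm p D.u_ne)
    (hφu.surjective hm p D.u_ne hu) (hφu.zero hm p D.u_ne)
    (mu_ne hm p D hu one_ne_zero (hμ 1)) (fun d a => (hE d a).1) (fun d a => (hE d a).2)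
  refine ⟨σ, μ 1, mu_ne hm p D hu one_ne_zero (hμ 1), h1, h2, fun d => ?_⟩
  rw [hμ, h3]

theorem Fx_of_perp' (hm : 1 ≤ m) (p : ℕ) [Fact p.Prime] [CharP F p] {γ : MulAut (Cfsg.PSp m F)} (H : PermA γ)
    {w : Fin m ⊕ Fin m → F} (hw : w ≠ 0)
    (W : Set (Fin m ⊕ Fin m → F)) (hW : ∀ y ∈ W, Fx γ y ∧ form m F w y = 0)
    (hspan : ∀ x' : Fin m ⊕ Fin m → F, (∀ y ∈ W, form m F x' y = 0) → ∃ c : F, x' = c • w) :
    Fx γ w := by
  obtain ⟨w', hw'0, hw'⟩ := H.1 w hw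
  have h1 : ∀ y ∈ W, form m F w' y = 0 := fun y hy =>
    (perp_iff hm p hw' (hW y hy).1).2 (hW y hy).2
  obtain ⟨c, hc⟩ := hspan w' h1
  have hc0 : c ≠ 0 := by
    rintro rfl
    rw [zero_smul] at hc
    exact hw'0 hc
  show γ '' R w = R w
  rw [hw', hc, R_smul hc0]

theorem Fx_pivot' (hm : 1 ≤ m) (p : ℕ) [Fact p.Prime] [CharP F p] {γ : MulAut (Cfsg.PSp m F)} (H : PermA γ)
    (x : Fin m ⊕ Fin m → F) (k₀ : Fin m ⊕ Fin m) (hk₀ : x k₀ ≠ 0)
    (h : ∀ k, k ≠ k₀ → Fx γ (x k • δ k₀ - x k₀ • δ k)) : Fx γ x := by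
  have hx : x ≠ 0 := by
    intro h0
    rw [h0] at hk₀
    exact hk₀ rfl
  apply Fx_of_perp' hm p H hx {y | ∃ k, k ≠ k₀ ∧ y = x k • δ k₀ - x k₀ • δ k}
  · rintro y ⟨k, hk, rfl⟩
    refine ⟨h k hk, ?_⟩
    rw [map_sub, map_smul, map_smul, form_δ, form_δ, smul_eq_mul, smul_eq_mul]
    ring
  · intro x' hx'
    refine ⟨x' k₀ / x k₀, ?_⟩
    funext k
    rw [Pi.smul_apply, smul_eq_mul]
    by_cases hk : k = k₀
    · rw [hk, div_mul_cancel₀ _ hk₀]
    · have h1 := hx' _ ⟨k, hk, rfl⟩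
      rw [map_sub, map_smul, map_smul, form_δ, form_δ, smul_eq_mul, smul_eq_mul] at h1
      field_simp
      linear_combination -h1

section fixes

variable {γ : MulAut (Cfsg.PSp m F)} {i₀ : Fin m}

theorem Fx_round1' (hm : 1 ≤ m) (p : ℕ) [Fact p.Prime] [CharP F p] (H : PermA γ)
    (hγ : Fixes γ i₀) (x : Fin m ⊕ Fin m → F) (k₀ : Fin m ⊕ Fin m) (hk₀ : pl k₀ = i₀)
    (hx : x k₀ ≠ 0) : Fx γ x := by
  apply Fx_pivot' hm p H x k₀ hx
  intro k _
  have := hγ.Fx_pair k₀ k hk₀ (x k) (- x k₀)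
  convert this using 1
  module

theorem Fx_round2' (hm : 1 ≤ m) (p : ℕ) [Fact p.Prime] [CharP F p] (H : PermA γ)
    (hγ : Fixes γ i₀) (x : Fin m ⊕ Fin m → F) (hx : x ≠ 0)
    (hx0 : ∀ k, pl k = i₀ → x k = 0) : Fx γ x := by
  obtain ⟨k₀, hk₀⟩ := Function.ne_iff.1 hx
  have hk₀ : x k₀ ≠ 0 := hk₀
  have hpl : pl k₀ ≠ i₀ := fun h => hk₀ (hx0 k₀ h)
  apply Fx_of_perp' hm p H hx
    ({e i₀, f i₀} ∪
      {y | ∃ k, k ≠ k₀ ∧ pl k ≠ i₀ ∧ y = x k • δ k₀ - x k₀ • δ k + e i₀})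
  · rintro y (hy | ⟨k, hk, hkpl, rfl⟩)
    · rcases hy with rfl | rfl
      · refine ⟨Fx_of_fix (hγ.h1 _), ?_⟩
        rw [form_e_right]
        exact hx0 (Sum.inr _) rfl
      · refine ⟨Fx_of_fix (hγ.h2 _), ?_⟩
        rw [form_f_right, hx0 (Sum.inl _) rfl, neg_zero]
    · refine ⟨?_, ?_⟩
      · apply Fx_round1' hm p H hγ _ (Sum.inl i₀) rfl
        have e1 : (δ k₀ : Fin m ⊕ Fin m → F) (Sum.inl i₀) = 0 := δ_apply_of_pl_ne hpl
        have e2 : (δ k : Fin m ⊕ Fin m → F) (Sum.inl i₀) = 0 := δ_apply_of_pl_ne hkpl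
        rw [Pi.add_apply, Pi.sub_apply, Pi.smul_apply, Pi.smul_apply, e1, e2, e_apply_inl,
          if_pos rfl]
        simp
      · rw [map_add, map_sub, map_smul, map_smul, form_δ, form_δ, form_e_right,
          hx0 (Sum.inr _) rfl, smul_eq_mul, smul_eq_mul]
        ring
  · intro x' hx'
    have e1 : x' (Sum.inr i₀) = 0 := by
      have := hx' (e i₀) (Or.inl (Or.inl rfl))
      rwa [form_e_right] at this
    have e2 : x' (Sum.inl i₀) = 0 := by
      have := hx' (f i₀) (Or.inl (Or.inr rfl))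
      rw [form_f_right] at this
      exact neg_eq_zero.1 this
    refine ⟨x' k₀ / x k₀, ?_⟩
    funext k
    rw [Pi.smul_apply, smul_eq_mul]
    by_cases hk : k = k₀
    · rw [hk, div_mul_cancel₀ _ hk₀]
    · by_cases hkpl : pl k = i₀
      · rw [hx0 k hkpl, mul_zero]
        rcases k with i | i
        · have : i = i₀ := hkpl
          rw [this]
          exact e2
        · have : i = i₀ := hkpl
          rw [this]
          exact e1
      · have h4 := hx' _ (Or.inr ⟨k, hk, hkpl, rfl⟩)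
        rw [map_add, map_sub, map_smul, map_smul, form_δ, form_δ, form_e_right, e1, smul_eq_mul,
          smul_eq_mul, add_zero] at h4
        field_simp
        linear_combination -h4

theorem Fx_all' (hm : 1 ≤ m) (p : ℕ) [Fact p.Prime] [CharP F p] (H : PermA γ)
    (hγ : Fixes γ i₀) (x : Fin m ⊕ Fin m → F) : Fx γ x := by
  by_cases hx : x = 0
  · rw [hx]
    exact Fx_zero γ
  by_cases h : ∀ k, pl k = i₀ → x k = 0
  · exact Fx_round2' hm p H hγ x hx h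
  · push Not at h
    obtain ⟨k₀, hk₀, hxk⟩ := h
    exact Fx_round1' hm p H hγ x k₀ hk₀ hxk

theorem eq_one' (hm : 1 ≤ m) (p : ℕ) [Fact p.Prime] [CharP F p] (H : PermA γ)
    (hγ : Fixes γ i₀) : γ = 1 := by
  ext y
  obtain ⟨g, rfl⟩ := pr_surjective y
  obtain ⟨g', hg'⟩ := pr_surjective (γ (pr g))
  rw [MulAut.one_apply, ← hg']
  have key : ∀ w : Fin m ⊕ Fin m → F, w ≠ 0 → ∃ c : F,
      (g' : Matrix (Fin m ⊕ Fin m) (Fin m ⊕ Fin m) F) *ᵥ w =
        c • ((g : Matrix (Fin m ⊕ Fin m) (Fin m ⊕ Fin m) F) *ᵥ w) := by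
    intro w hw
    have e1 : R ((g' : Matrix (Fin m ⊕ Fin m) (Fin m ⊕ Fin m) F) *ᵥ w) =
        R ((g : Matrix (Fin m ⊕ Fin m) (Fin m ⊕ Fin m) F) *ᵥ w) := by
      have e2 := Fx_all' hm p H hγ w
      have e3 := Fx_all' hm p H hγ ((g : Matrix (Fin m ⊕ Fin m) (Fin m ⊕ Fin m) F) *ᵥ w)
      unfold Fx at e2 e3
      rw [← conj_R g', hg', ← e3, ← conj_R g, image_conj, e2]
    obtain ⟨c, -, hc⟩ := R_subset hm p (mulVec_ne_zero g hw) e1.ge
    exact ⟨c, hc⟩
  have hdep : ∀ v : Fin m ⊕ Fin m → F, ¬ LinearIndependent F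
      ![v, Matrix.toLin' ((g⁻¹ * g' : Matrix.symplecticGroup (Fin m) F) :
        Matrix (Fin m ⊕ Fin m) (Fin m ⊕ Fin m) F) v] := by
    intro v
    by_cases hv : v = 0
    · simp [hv, linearIndependent_fin2]
    · rw [LinearIndependent.pair_iff' hv]
      push Not
      obtain ⟨c, hc⟩ := key v hv
      refine ⟨c, ?_⟩
      rw [Matrix.toLin'_apply, mul_mulVec, hc, Matrix.mulVec_smul, inv_mulVec_mulVec]
  obtain ⟨a, ha⟩ := LinearMap.exists_eq_smul_id_of_forall_notLinearIndependent hdep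
  have hz : ((g⁻¹ * g' : Matrix.symplecticGroup (Fin m) F) :
      Matrix (Fin m ⊕ Fin m) (Fin m ⊕ Fin m) F) = a • 1 := by
    apply Matrix.toLin'.injective
    rw [ha, map_smul, Matrix.toLin'_one]
    rfl
  have h5 : pr (g⁻¹ * g') = pr (1 : Matrix.symplecticGroup (Fin m) F) :=
    pr_eq_of_scalar a (by rw [hz, Submonoid.coe_one])
  rw [map_mul, map_inv, map_one, inv_mul_eq_one] at h5
  exact h5.symm

end fixes

theorem exists_beta' (hm : 2 ≤ m) (p : ℕ) [Fact p.Prime] [CharP F p] {α : MulAut (Cfsg.PSp m F)} (H : PermA α)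
    (he : ∀ i : Fin m, α '' R (e i) = R (e i))
    (hf : ∀ i : Fin m, α '' R (f i) = R (f i)) :
    ∃ (h : ↥(Cfsg.GSp m F)) (σ : RingAut F), α = cGSp h * cσ σ := by
  have hm1 : 1 ≤ m := by omega
  choose φ hφ using fun i => exists_acts (he i)
  choose ψ hψ using fun i => exists_acts (hf i)
  obtain ⟨i₀, hi₀⟩ : ∃ i₀ : Fin m, i₀ = ⟨0, by omega⟩ := ⟨_, rfl⟩
  obtain ⟨j₁, hj₁⟩ : ∃ j₁ : Fin m, j₁ = ⟨1, by omega⟩ := ⟨_, rfl⟩
  have h01 : i₀ ≠ j₁ := by
    rw [hi₀, hj₁]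
    intro h
    have := congrArg Fin.val h
    simp at this
  obtain ⟨σ, c₁, -, hσ1, -, -⟩ := pair_main' hm1 p H (dual_e h01) (he i₀) (he j₁) (hφ i₀) (hφ j₁)
  have hκ : φ i₀ 1 ≠ 0 := by
    intro h
    rw [← (hφ i₀).zero hm1 p (e_ne_zero i₀)] at h
    exact one_ne_zero ((hφ i₀).injective hm1 p (e_ne_zero i₀) h)
  have key : ∀ j, ∃ cj : F, cj ≠ 0 ∧ (∀ b, φ j b = cj * cj * φ i₀ 1 * σ b) ∧
      (j ≠ i₀ → ∀ d : F, α '' R (e i₀ + d • e j) = R (e i₀ + (cj * σ d) • e j)) ∧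
      (j = i₀ → cj = 1) := by
    intro j
    by_cases hj : j = i₀
    · subst hj
      exact ⟨1, one_ne_zero, fun b => by rw [hσ1 b]; ring, fun h => absurd rfl h, fun _ => rfl⟩
    · obtain ⟨σ', c, hc, h1', h2', h3'⟩ :=
        pair_main' hm1 p H (dual_e (Ne.symm hj)) (he i₀) (he j) (hφ i₀) (hφ j)
      have hσ' : ∀ a, σ' a = σ a := by
        intro a
        have e1 := h1' a
        rw [hσ1 a] at e1
        exact (mul_left_cancel₀ hκ e1).symm
      exact ⟨c, hc, fun b => by rw [h2', hσ'], fun _ d => by rw [h3', hσ'], fun h => absurd h hj⟩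
  choose c hc0 hcφ hcR hci₀ using key
  have hψ' : ∀ j b, ψ j b = σ b / (c j * c j * φ i₀ 1) := by
    intro j b
    by_cases hb : b = 0
    · rw [hb, (hψ j).zero hm1 p (f_ne_zero j), map_zero, zero_div]
    · have h1 : form m F (f j) (e j) = 1 := by rw [form_e_right, f_apply_inr, if_pos rfl]
      have h2 := sl2_rel hm1 p h1 (hφ j) (hψ j) (he j) (hf j) (inv_ne_zero hb)
      rw [inv_inv, hcφ, map_inv₀] at h2
      have h3 : σ b ≠ 0 := by
        intro h0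
        rw [← map_zero σ] at h0
        exact hb (σ.injective h0)
      have h4 := hc0 j
      field_simp at h2 ⊢
      linear_combination h2
  obtain ⟨cu, hcu⟩ : ∃ cu : Fin m → Fˣ, ∀ j, (cu j : F) = c j :=
    ⟨fun j => Units.mk0 (c j) (hc0 j), fun j => rfl⟩
  obtain ⟨l, hl⟩ : ∃ l : Fˣ, (l : F) = (φ i₀ 1)⁻¹ := ⟨Units.mk0 _ (inv_ne_zero hκ), rfl⟩
  obtain ⟨h, hh⟩ : ∃ h : ↥(Cfsg.GSp m F), h = dg cu l := ⟨_, rfl⟩
  have hform := dg_form cu l
  rw [← hh] at hform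
  have hσe : ∀ (i : Fin m) (k : Fin m ⊕ Fin m), σ ((e i : Fin m ⊕ Fin m → F) k) = e i k :=
    fun i k => congrFun (map_e σ i) k
  obtain ⟨β, hβ⟩ : ∃ β : MulAut (Cfsg.PSp m F), β = cGSp h * cσ σ := ⟨_, rfl⟩
  have hβe : ∀ j a, β (pr (t (e j) a)) = α (pr (t (e j) a)) := by
    intro j a
    rw [hβ, MulAut.mul_apply, cσ_t, map_e, cGSp_t h l.ne_zero hform, hh, dg_e, t_smul, hφ j a, hcφ j,
      hcu, hl]
    congr 2
    field_simp
  have hβf : ∀ j b, β (pr (t (f j) b)) = α (pr (t (f j) b)) := by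
    intro j b
    rw [hβ, MulAut.mul_apply, cσ_t, map_f, cGSp_t h l.ne_zero hform, hh, dg_f, t_smul, hψ j b,
      hψ' j b, hcu, hl]
    congr 2
    have h4 := hc0 j
    field_simp
  have hβR : ∀ j, j ≠ i₀ → ∀ d : F,
      β '' R (e i₀ + d • e j) = α '' R (e i₀ + d • e j) := by
    intro j hj d
    rw [hβ, image_mul, cσ_R, cGSp_R, hcR j hj d]
    congr 1
    have e1 : (fun k => σ ((e i₀ + d • e j : Fin m ⊕ Fin m → F) k)) = e i₀ + σ d • e j := by
      funext k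
      simp only [Pi.add_apply, Pi.smul_apply, smul_eq_mul, map_add, map_mul, hσe]
    rw [e1, Matrix.mulVec_add, Matrix.mulVec_smul, hh, dg_e, dg_e, hcu, hcu, hci₀ i₀ rfl, one_smul,
      smul_smul, mul_comm]
  have hγ : Fixes (β⁻¹ * α) i₀ := by
    refine ⟨fun j a => ?_, fun j b => ?_, fun j hj d => ?_⟩
    · rw [MulAut.mul_apply, ← hβe, MulAut.inv_apply_self]
    · rw [MulAut.mul_apply, ← hβf, MulAut.inv_apply_self]
    · rw [image_mul, ← hβR j hj d, inv_image_image]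
  have hβP : PermA β := by
    rw [hβ]
    exact (permA_cGSp h).mul (permA_cσ σ)
  have h1 := eq_one' hm1 p (hβP.inv.mul H) hγ
  exact ⟨h, σ, by rw [← hβ]; exact (inv_mul_eq_one.1 h1).symm⟩

/-- the relative core theorem: an automorphism permuting the transvection groups (together
with its inverse) is induced by a semilinear conformal symplectic map -/
theorem core' (hm : 2 ≤ m) (p : ℕ) [Fact p.Prime] [CharP F p]
    {α : MulAut (Cfsg.PSp m F)} (H : PermA α) :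
    ∃ (h : ↥(Cfsg.GSp m F)) (σ : RingAut F), α = cGSp h * cσ σ := by
  obtain ⟨g, hge, hgf⟩ := exists_frame' (by omega) p H
  obtain ⟨h, σ, hβ⟩ := exists_beta' hm p ((permA_conj g).inv.mul H) hge hgf
  refine ⟨toGSp g * h, σ, ?_⟩
  rw [map_mul, cGSp_toGSp, mul_assoc, ← hβ, mul_inv_cancel_left]

end Cfsg.Agent.Lib.Helper43.SpRel
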