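import Mathlib
import Cfsg.Agent.Lib.Helper43.SpSylow
import Cfsg.Agent.Lib.Helper43.SpCore4

set_option autoImplicit false

namespace Cfsg.Agent.Lib.Helper43.SpRootOdd

open Matrix Cfsg.Agent.Lib.Helper13.SympMat Cfsg.Agent.Lib.Helper43.SpBasic
  Cfsg.Agent.Lib.Helper43.SpSylow Cfsg.Agent.Lib.Helper43.SpCore1

open Cfsg.Agent.Lib.Helper43.PSLnUT (IsUT isUT_one)

open Cfsg.Agent.Lib.Helper43.PSLnRoot (zc zc_smul)

variable {F : Type*} [Field F] {m : ℕ}

theorem J_mulVec_e (i : Fin m) : J (Fin m) F *ᵥ (e i : Fin m ⊕ Fin m → F) = f i := by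
  show J (Fin m) F *ᵥ Pi.single (Sum.inl i) 1 = f i
  rw [Matrix.mulVec_single_one]
  funext k
  rcases k with a | a
  · show (J (Fin m) F) (Sum.inl a) (Sum.inl i) = _
    rw [f_apply_inl]
    simp [J]
  · show (J (Fin m) F) (Sum.inr a) (Sum.inl i) = _
    rw [f_apply_inr]
    simp [J, Matrix.one_apply]

theorem t_e_coe' (i : Fin m) (c : F) :
    ((t (e i) c : Matrix.symplecticGroup (Fin m) F) : Matrix (Fin m ⊕ Fin m) (Fin m ⊕ Fin m) F) =
      1 + c • Matrix.single (Sum.inl i) (Sum.inr i) 1 := by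
  show Cfsg.sympTransvection m (e i) c = _
  rw [Cfsg.sympTransvection, J_mulVec_e, Matrix.single_eq_single_vecMulVec_single]
  rfl

theorem fromBlocks_single (i : Fin m) (c : F) :
    (fromBlocks 1 (c • Matrix.single i i 1) 0 1 : Matrix (Fin m ⊕ Fin m) (Fin m ⊕ Fin m) F) =
      1 + c • Matrix.single (Sum.inl i) (Sum.inr i) 1 := by
  ext k l
  rcases k with a | a <;> rcases l with b | b <;>
    simp [Matrix.one_apply, Matrix.single_apply]

theorem t_e_coe (i : Fin m) (c : F) :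
    ((t (e i) c : Matrix.symplecticGroup (Fin m) F) : Matrix (Fin m ⊕ Fin m) (Fin m ⊕ Fin m) F) =
      fromBlocks 1 (c • Matrix.single i i 1) 0 1 := by
  rw [t_e_coe', fromBlocks_single]

theorem t_e_mem_U [Finite F] (i : Fin m) (c : F) : t (e i) c ∈ U := by
  rw [mem_U, t_e_coe, toBlocks_fromBlocks₂₁, toBlocks_fromBlocks₁₁]
  exact ⟨rfl, isUT_one⟩

theorem mk_one_coe [Finite F] (S : Matrix (Fin m) (Fin m) F) (hS : S.IsSymm) :
    ((mk 1 S isUT_one hS : Matrix.symplecticGroup (Fin m) F) :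
      Matrix (Fin m ⊕ Fin m) (Fin m ⊕ Fin m) F) = fromBlocks 1 S 0 1 := by
  show mkMat 1 S = _
  rw [mkMat, Matrix.transpose_one, inv_one, mul_one]

theorem mk_zero_coe [Finite F] (u : Matrix (Fin m) (Fin m) F) (hu : IsUT u) :
    ((mk u 0 hu Matrix.isSymm_zero : Matrix.symplecticGroup (Fin m) F) :
      Matrix (Fin m ⊕ Fin m) (Fin m ⊕ Fin m) F) = fromBlocks u 0 0 (uᵀ)⁻¹ := by
  show mkMat u 0 = _
  rw [mkMat, zero_mul]

theorem isUT_one_add_single {i j : Fin m} (h : i < j) :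
    IsUT (1 + Matrix.single i j (1 : F)) := by
  constructor
  · intro k l hlk
    rw [Matrix.add_apply, Matrix.one_apply_ne (ne_of_gt hlk), zero_add,
      Matrix.single_apply_of_ne]
    rintro ⟨rfl, rfl⟩
    exact absurd hlk (not_lt.2 (le_of_lt h))
  · intro k
    rw [Matrix.add_apply, Matrix.one_apply_eq, Matrix.single_apply_of_ne, add_zero]
    rintro ⟨rfl, h2⟩
    exact absurd h2.symm (ne_of_lt h)

/-- the centre of `U` in odd characteristic -/
theorem center_U [Finite F] (hm : 1 ≤ m) (h2 : (2 : F) ≠ 0)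
    {A : Matrix.symplecticGroup (Fin m) F} (hA : A ∈ U)
    (hc : ∀ B ∈ (U : Subgroup (Matrix.symplecticGroup (Fin m) F)), A * B = B * A) :
    ∃ c : F, A = t (e ⟨0, hm⟩) c := by
  obtain ⟨h0, h1, h3⟩ := blocks hA
  obtain ⟨a, ha⟩ : ∃ a, a = (A : Matrix (Fin m ⊕ Fin m) (Fin m ⊕ Fin m) F).toBlocks₁₁ := ⟨_, rfl⟩
  obtain ⟨b, hb⟩ : ∃ b, b = (A : Matrix (Fin m ⊕ Fin m) (Fin m ⊕ Fin m) F).toBlocks₁₂ := ⟨_, rfl⟩
  obtain ⟨d, hd⟩ : ∃ d, d = (A : Matrix (Fin m ⊕ Fin m) (Fin m ⊕ Fin m) F).toBlocks₂₂ := ⟨_, rfl⟩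
  have haUT : IsUT a := by rw [ha]; exact hA.2
  rw [← ha, ← hb, ← hd] at h0
  rw [← ha, ← hd] at h1
  rw [← hb, ← hd] at h3
  -- step 1: `a = 1`
  have s1 : ∀ S : Matrix (Fin m) (Fin m) F, S.IsSymm → a * S = S * d := by
    intro S hS
    have e1 := congrArg (fun z : Matrix.symplecticGroup (Fin m) F =>
      (z : Matrix (Fin m ⊕ Fin m) (Fin m ⊕ Fin m) F)) (hc _ (mk_mem 1 S isUT_one hS))
    simp only [Submonoid.coe_mul] at e1
    rw [mk_one_coe, h0, fromBlocks_multiply, fromBlocks_multiply] at e1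
    have e2 := (fromBlocks_inj.1 e1).2.1
    simp only [mul_one, one_mul] at e2
    have e3 : a * S + b = S * d + b := by rw [e2]; abel
    exact add_right_cancel e3
  have ha1 : a = 1 := by
    ext k i
    by_cases hki : k = i
    · rw [hki, Matrix.one_apply_eq]
      exact haUT.2 i
    · rw [Matrix.one_apply_ne hki]
      have e1 := congrFun (congrFun (s1 (Matrix.single i i 1) (by
        rw [Matrix.IsSymm, Matrix.transpose_single])) k) i
      rw [Matrix.mul_single_apply_same, Matrix.single_mul_apply_of_ne (h := hki), mul_one] at e1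
      exact e1
  have hd1 : d = 1 := by
    rw [ha1, Matrix.transpose_one, one_mul] at h1
    exact h1
  rw [ha1, hd1] at h0
  rw [hd1, mul_one, Matrix.transpose_one, one_mul] at h3
  -- step 2: the symmetric block
  have s2 : ∀ i j : Fin m, i < j →
      Matrix.single i j (1 : F) * b + b * Matrix.single j i (1 : F) +
        Matrix.single i j (1 : F) * b * Matrix.single j i (1 : F) = 0 := by
    intro i j hij
    have hu := isUT_one_add_single (F := F) hij
    have hdet : IsUnit ((1 + Matrix.single i j (1 : F))ᵀ).det := by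
      rw [Matrix.det_transpose, hu.det]
      exact isUnit_one
    have e1 := congrArg (fun z : Matrix.symplecticGroup (Fin m) F =>
      (z : Matrix (Fin m ⊕ Fin m) (Fin m ⊕ Fin m) F)) (hc _ (mk_mem _ 0 hu Matrix.isSymm_zero))
    simp only [Submonoid.coe_mul] at e1
    rw [mk_zero_coe, h0, fromBlocks_multiply, fromBlocks_multiply] at e1
    have e2 := (fromBlocks_inj.1 e1).2.1
    simp only [mul_zero, zero_mul, zero_add, add_zero, one_mul] at e2
    have e3 : b = (1 + Matrix.single i j (1 : F)) * b * (1 + Matrix.single i j (1 : F))ᵀ := by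
      rw [← e2, Matrix.nonsing_inv_mul_cancel_right _ _ hdet]
    rw [Matrix.transpose_add, Matrix.transpose_one, Matrix.transpose_single] at e3
    have e4 : (1 + Matrix.single i j (1 : F)) * b * (1 + Matrix.single j i (1 : F)) =
        b + (Matrix.single i j (1 : F) * b + b * Matrix.single j i (1 : F) +
        Matrix.single i j (1 : F) * b * Matrix.single j i (1 : F)) := by
      simp only [Matrix.add_mul, Matrix.mul_add, Matrix.one_mul, Matrix.mul_one]
      abel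
    rw [e4] at e3
    exact (left_eq_add.1 e3)
  have z1 : ∀ j l : Fin m, j ≠ ⟨0, hm⟩ → l ≠ ⟨0, hm⟩ → b j l = 0 := by
    intro j l hj hl
    have hlt : (⟨0, hm⟩ : Fin m) < j := by
      rw [Fin.lt_def]
      have : (j : ℕ) ≠ 0 := fun h0 => hj (Fin.ext h0)
      show 0 < (j : ℕ)
      omega
    have e1 := congrFun (congrFun (s2 ⟨0, hm⟩ j hlt) ⟨0, hm⟩) l
    rw [Matrix.add_apply, Matrix.add_apply, Matrix.single_mul_apply_same,
      Matrix.mul_single_apply_of_ne (hbj := hl), Matrix.mul_single_apply_of_ne (hbj := hl),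
      Matrix.zero_apply, one_mul, add_zero, add_zero] at e1
    exact e1
  have z2 : ∀ j : Fin m, j ≠ ⟨0, hm⟩ → b ⟨0, hm⟩ j = 0 := by
    intro j hj
    have hlt : (⟨0, hm⟩ : Fin m) < j := by
      rw [Fin.lt_def]
      have : (j : ℕ) ≠ 0 := fun h0 => hj (Fin.ext h0)
      show 0 < (j : ℕ)
      omega
    have e1 := congrFun (congrFun (s2 ⟨0, hm⟩ j hlt) ⟨0, hm⟩) ⟨0, hm⟩
    rw [Matrix.add_apply, Matrix.add_apply, Matrix.single_mul_apply_same,
      Matrix.mul_single_apply_same, Matrix.mul_single_apply_same, Matrix.single_mul_apply_same,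
      Matrix.zero_apply, one_mul, mul_one, mul_one, one_mul, z1 j j hj hj, add_zero] at e1
    have e2 : b j ⟨0, hm⟩ = b ⟨0, hm⟩ j := by
      have := congrFun (congrFun h3 ⟨0, hm⟩) j
      rw [Matrix.transpose_apply] at this
      exact this
    rw [e2, ← two_mul] at e1
    rcases mul_eq_zero.1 e1 with h | h
    · exact absurd h h2
    · exact h
  have z3 : ∀ j : Fin m, j ≠ ⟨0, hm⟩ → b j ⟨0, hm⟩ = 0 := by
    intro j hj
    have := congrFun (congrFun h3 ⟨0, hm⟩) j
    rw [Matrix.transpose_apply] at this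
    rw [this]
    exact z2 j hj
  refine ⟨b ⟨0, hm⟩ ⟨0, hm⟩, ?_⟩
  apply Subtype.ext
  rw [t_e_coe, h0]
  congr 1
  ext k l
  rw [Matrix.smul_apply, Matrix.single_apply, smul_eq_mul]
  by_cases hk : k = ⟨0, hm⟩
  · by_cases hl : l = ⟨0, hm⟩
    · rw [hk, hl, if_pos ⟨rfl, rfl⟩, mul_one]
    · rw [hk, if_neg (fun h => hl h.2.symm), mul_zero]
      exact z2 l hl
  · rw [if_neg (fun h => hk h.1.symm), mul_zero]
    by_cases hl : l = ⟨0, hm⟩
    · rw [hl]
      exact z3 k hk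
    · exact z1 k l hk hl

theorem zc_PU [Finite F] (hm : 1 ≤ m) (h2 : (2 : F) ≠ 0) :
    zc (PU : Subgroup (Cfsg.PSp m F)) = R (e ⟨0, hm⟩) := by
  ext y
  constructor
  · rintro ⟨⟨A, hA, rfl⟩, hc⟩
    have h1 : ∀ B ∈ (U : Subgroup (Matrix.symplecticGroup (Fin m) F)), A * B = B * A := by
      intro B hB
      apply pr_injOn_U hm (U.mul_mem hA hB) (U.mul_mem hB hA)
      rw [map_mul, map_mul]
      exact hc _ (Subgroup.mem_map_of_mem _ hB)
    obtain ⟨c, rfl⟩ := center_U hm h2 hA h1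
    exact ⟨c, rfl⟩
  · rintro ⟨c, rfl⟩
    refine ⟨Subgroup.mem_map_of_mem _ (t_e_mem_U _ c), ?_⟩
    rintro _ ⟨B, hB, rfl⟩
    show pr (t (e ⟨0, hm⟩) c) * pr B = pr B * pr (t (e ⟨0, hm⟩) c)
    rw [← map_mul, ← map_mul, mul_t B, mulVec_e0 hm hB]

/-- if the centre of the standard Sylow subgroup is a transvection group then every
automorphism permutes the transvection groups -/
theorem perm_of_zc [Fintype F] {p f : ℕ} [Fact p.Prime] (hf : 1 ≤ f)
    (hF : Fintype.card F = p ^ f) (hm : 1 ≤ m)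
    (hz : zc (PU : Subgroup (Cfsg.PSp m F)) = R (e ⟨0, hm⟩)) : Perm m F := by
  classical
  intro α v hv
  obtain ⟨g, hg⟩ := exists_sp_map (e_ne_zero (⟨0, hm⟩ : Fin m)) hv
  have h1 : R v = zc ((((pr g) • P0 hf hF hm : Sylow p (Cfsg.PSp m F))) :
      Subgroup (Cfsg.PSp m F)) := by
    rw [Sylow.coe_subgroup_smul, zc_smul, P0_coe, hz, conj_R, hg]
  have h2 : α '' R v = zc (((α • ((pr g) • P0 hf hF hm) : Sylow p (Cfsg.PSp m F))) :
      Subgroup (Cfsg.PSp m F)) := by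
    rw [h1, Sylow.pointwise_smul_def, zc_smul]
  obtain ⟨y, hy⟩ := MulAction.exists_smul_eq (Cfsg.PSp m F) (P0 hf hF hm)
    (α • ((pr g) • P0 hf hF hm))
  obtain ⟨g', rfl⟩ := pr_surjective y
  refine ⟨(g' : Matrix (Fin m ⊕ Fin m) (Fin m ⊕ Fin m) F) *ᵥ e ⟨0, hm⟩,
    mulVec_ne_zero _ (e_ne_zero _), ?_⟩
  rw [h2, ← hy, Sylow.coe_subgroup_smul, zc_smul, P0_coe, hz, conj_R]

theorem perm_odd [Fintype F] {p f : ℕ} [Fact p.Prime] (hf : 1 ≤ f)
    (hF : Fintype.card F = p ^ f) (hm : 1 ≤ m) (h2 : (2 : F) ≠ 0) : Perm m F :=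
  perm_of_zc hf hF hm (zc_PU hm h2)

end Cfsg.Agent.Lib.Helper43.SpRootOdd
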