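import Mathlib
import Cfsg.Agent.Lib.Helper43.SpRootOdd

set_option autoImplicit false

namespace Cfsg.Agent.Lib.Helper43.SpZ

open Matrix Cfsg.Agent.Lib.Helper13.SympMat Cfsg.Agent.Lib.Helper43.SpBasic
  Cfsg.Agent.Lib.Helper43.SpPair Cfsg.Agent.Lib.Helper43.SpSylow
  Cfsg.Agent.Lib.Helper43.SpRootOdd

open Cfsg.Agent.Lib.Helper43.PSLnUT (IsUT isUT_one)

open Cfsg.Agent.Lib.Helper43.PSLnRoot (zc zc_smul)

open scoped Pointwise

variable {F : Type*} [Field F] {m : ℕ}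

/-! ### char-free facts on the elements `Y u v a b c` -/

theorem dual_map {u v x₁ x₂ : Fin m ⊕ Fin m → F} (D : Dual u v x₁ x₂)
    (g : Matrix.symplecticGroup (Fin m) F) :
    Dual ((g : Matrix (Fin m ⊕ Fin m) (Fin m ⊕ Fin m) F) *ᵥ u)
      ((g : Matrix (Fin m ⊕ Fin m) (Fin m ⊕ Fin m) F) *ᵥ v)
      ((g : Matrix (Fin m ⊕ Fin m) (Fin m ⊕ Fin m) F) *ᵥ x₁)
      ((g : Matrix (Fin m ⊕ Fin m) (Fin m ⊕ Fin m) F) *ᵥ x₂) where
  uv := by rw [form_mulVec, D.uv]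
  h11 := by rw [form_mulVec, D.h11]
  h12 := by rw [form_mulVec, D.h12]
  h21 := by rw [form_mulVec, D.h21]
  h22 := by rw [form_mulVec, D.h22]

theorem conj_Y (g : Matrix.symplecticGroup (Fin m) F) (u v : Fin m ⊕ Fin m → F) (a b c : F) :
    g * Y u v a b c * g⁻¹ = Y ((g : Matrix (Fin m ⊕ Fin m) (Fin m ⊕ Fin m) F) *ᵥ u)
      ((g : Matrix (Fin m ⊕ Fin m) (Fin m ⊕ Fin m) F) *ᵥ v) a b c := by
  unfold Y
  rw [← Matrix.mulVec_add, ← conj_t, ← conj_t, ← conj_t]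
  group

theorem Y_basis {u v : Fin m ⊕ Fin m → F} (h : form m F u v = 0) (α β γ δ a b c : F) :
    Y (α • u + β • v) (γ • u + δ • v) a b c =
      Y u v (a * α ^ 2 + b * γ ^ 2 + 2 * c * α * γ) (a * β ^ 2 + b * δ ^ 2 + 2 * c * β * δ)
        (a * α * β + b * γ * δ + c * (α * δ + β * γ)) := by
  have h' : form m F v u = 0 := by rw [form_skew, h, neg_zero]
  have h'' : form m F (α • u + β • v) (γ • u + δ • v) = 0 := by
    simp only [map_add, map_smul, LinearMap.add_apply, LinearMap.smul_apply, smul_eq_mul,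
      form_self, h, h', mul_zero, add_zero]
  apply sp_ext
  intro x
  rw [Y_mulVec h'', Y_mulVec h]
  simp only [map_add, map_smul, smul_eq_mul]
  module

theorem t_comb {u v : Fin m ⊕ Fin m → F} (h : form m F u v = 0) (α β d : F) :
    t (α • u + β • v) d = Y u v (d * α ^ 2) (d * β ^ 2) (d * α * β) := by
  apply sp_ext
  intro x
  rw [Y_mulVec h, t_mulVec]
  simp only [map_add, map_smul, smul_eq_mul]
  module

/-- the centre-type set attached to an orthogonal pair -/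
def Zc (u v : Fin m ⊕ Fin m → F) : Set (Cfsg.PSp m F) :=
  {y | ∃ a c : F, y = pr (Y u v a 0 c)}

/-- the full abelian set attached to an orthogonal pair -/
def Ac (u v : Fin m ⊕ Fin m → F) : Set (Cfsg.PSp m F) :=
  {y | ∃ a b c : F, y = pr (Y u v a b c)}

theorem conj_Zc (g : Matrix.symplecticGroup (Fin m) F) (u v : Fin m ⊕ Fin m → F) :
    (MulAut.conj (pr g)) '' Zc u v =
      Zc ((g : Matrix (Fin m ⊕ Fin m) (Fin m ⊕ Fin m) F) *ᵥ u)
        ((g : Matrix (Fin m ⊕ Fin m) (Fin m ⊕ Fin m) F) *ᵥ v) := by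
  ext y
  constructor
  · rintro ⟨_, ⟨a, c, rfl⟩, rfl⟩
    refine ⟨a, c, ?_⟩
    rw [MulAut.conj_apply, ← map_mul, ← map_inv, ← map_mul, conj_Y]
  · rintro ⟨a, c, rfl⟩
    refine ⟨pr (Y u v a 0 c), ⟨a, c, rfl⟩, ?_⟩
    rw [MulAut.conj_apply, ← map_mul, ← map_inv, ← map_mul, conj_Y]

theorem R_subset_Zc (u v : Fin m ⊕ Fin m → F) : R u ⊆ Zc u v := by
  rintro _ ⟨a, rfl⟩
  exact ⟨a, 0, by rw [Y_left]⟩

/-- if two elements of centre type agree and one has `c ≠ 0`, the pairs span the same plane -/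
theorem span_of_eq {u v x₁ x₂ u' v' x₁' x₂' : Fin m ⊕ Fin m → F} (D : Dual u v x₁ x₂)
    (D' : Dual u' v' x₁' x₂') {a c a' c' : F} (hc : c ≠ 0)
    (h : Y u v a 0 c = Y u' v' a' 0 c') :
    c' ≠ 0 ∧ ∃ α β γ δ : F, u' = α • u + β • v ∧ v' = γ • u + δ • v := by
  have hc' : c' ≠ 0 := by
    rintro rfl
    rw [Y_left] at h
    exact D.not_t hc _ _ h
  refine ⟨hc', ?_⟩
  have e1 : ((Y u v a 0 c : Matrix.symplecticGroup (Fin m) F) :
      Matrix (Fin m ⊕ Fin m) (Fin m ⊕ Fin m) F) *ᵥ x₂' =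
      ((Y u' v' a' 0 c' : Matrix.symplecticGroup (Fin m) F) :
      Matrix (Fin m ⊕ Fin m) (Fin m ⊕ Fin m) F) *ᵥ x₂' := by rw [h]
  have e2 : ((Y u v a 0 c : Matrix.symplecticGroup (Fin m) F) :
      Matrix (Fin m ⊕ Fin m) (Fin m ⊕ Fin m) F) *ᵥ x₁' =
      ((Y u' v' a' 0 c' : Matrix.symplecticGroup (Fin m) F) :
      Matrix (Fin m ⊕ Fin m) (Fin m ⊕ Fin m) F) *ᵥ x₁' := by rw [h]
  rw [D'.Y_x₂, Y_mulVec D.uv] at e1
  rw [D'.Y_x₁, Y_mulVec D.uv] at e2
  obtain ⟨P, hP⟩ : ∃ P : F, P = a * form m F x₂' u + c * form m F x₂' v := ⟨_, rfl⟩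
  obtain ⟨Q, hQ⟩ : ∃ Q : F, Q = 0 * form m F x₂' v + c * form m F x₂' u := ⟨_, rfl⟩
  obtain ⟨P', hP'⟩ : ∃ P' : F, P' = a * form m F x₁' u + c * form m F x₁' v := ⟨_, rfl⟩
  obtain ⟨Q', hQ'⟩ : ∃ Q' : F, Q' = 0 * form m F x₁' v + c * form m F x₁' u := ⟨_, rfl⟩
  rw [← hP, ← hQ, add_assoc, add_assoc, zero_smul, add_zero] at e1
  rw [← hP', ← hQ', add_assoc, add_assoc] at e2
  have e3 := add_left_cancel e1
  have e4 := add_left_cancel e2
  have hu' : u' = (c'⁻¹ * P) • u + (c'⁻¹ * Q) • v := by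
    rw [mul_smul, mul_smul, ← smul_add, e3, smul_smul, inv_mul_cancel₀ hc', one_smul]
  have hv' : v' = c'⁻¹ • (P' • u + Q' • v - a' • u') := by
    rw [e4, add_sub_cancel_left, smul_smul, inv_mul_cancel₀ hc', one_smul]
  refine ⟨c'⁻¹ * P, c'⁻¹ * Q, c'⁻¹ * (P' - a' * (c'⁻¹ * P)), c'⁻¹ * (Q' - a' * (c'⁻¹ * Q)),
    hu', ?_⟩
  rw [hv']
  nth_rewrite 1 [hu']
  module

/-- a pair spanning the same plane with a different first point generates the abelian set -/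
theorem Ac_subset_mul {u v : Fin m ⊕ Fin m → F} (h : form m F u v = 0) (α : F) {β : F}
    (hβ : β ≠ 0) (v' : Fin m ⊕ Fin m → F) :
    Ac u v ⊆ Zc u v * Zc (α • u + β • v) v' := by
  rintro _ ⟨a, b, c, rfl⟩
  obtain ⟨d, hd⟩ : ∃ d : F, d = b / β ^ 2 := ⟨_, rfl⟩
  have hd2 : d * β ^ 2 = b := by
    rw [hd, div_mul_cancel₀ _ (pow_ne_zero 2 hβ)]
  refine Set.mem_mul.2 ⟨pr (Y u v (a - d * α ^ 2) 0 (c - d * α * β)), ⟨_, _, rfl⟩,
    pr (Y (α • u + β • v) v' d 0 0), ⟨_, _, rfl⟩, ?_⟩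
  rw [Y_left, ← map_mul, t_comb h, Y_mul h]
  congr 1
  apply Y_ext h
  · ring
  · rw [zero_add, hd2]
  · ring

theorem Zc_subset_Ac {u v : Fin m ⊕ Fin m → F} (h : form m F u v = 0) (α β γ δ : F) :
    Zc (α • u + β • v) (γ • u + δ • v) ⊆ Ac u v := by
  rintro _ ⟨a, c, rfl⟩
  rw [Y_basis h]
  exact ⟨_, _, _, rfl⟩

theorem smul_of_t_eq {u u' : Fin m ⊕ Fin m → F} {a a' : F} (hu : u ≠ 0) (ha : a ≠ 0)
    (h : t u a = t u' a') : ∃ l : F, l ≠ 0 ∧ u = l • u' := by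
  obtain ⟨x, hx⟩ := exists_form_ne hu
  have h2 : ((t u a : Matrix.symplecticGroup (Fin m) F) :
      Matrix (Fin m ⊕ Fin m) (Fin m ⊕ Fin m) F) *ᵥ x =
      ((t u' a' : Matrix.symplecticGroup (Fin m) F) :
      Matrix (Fin m ⊕ Fin m) (Fin m ⊕ Fin m) F) *ᵥ x := by rw [h]
  rw [t_mulVec, t_mulVec] at h2
  have h3 := add_left_cancel h2
  have h4 : a * form m F x u ≠ 0 := mul_ne_zero ha hx
  have h5 : u = ((a * form m F x u)⁻¹ * (a' * form m F x u')) • u' := by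
    rw [mul_smul, ← h3, smul_smul, inv_mul_cancel₀ h4, one_smul]
  refine ⟨(a * form m F x u)⁻¹ * (a' * form m F x u'), ?_, h5⟩
  intro h0
  rw [h0, zero_smul] at h5
  exact hu h5

/-! ### characteristic two -/

theorem Zc_eq_of_two (h2 : (2 : F) = 0) {u v : Fin m ⊕ Fin m → F} (h : form m F u v = 0)
    {α δ : F} (hα : α ≠ 0) (hδ : δ ≠ 0) (γ : F) :
    Zc (α • u) (γ • u + δ • v) = Zc u v := by
  have key : ∀ a c : F, Y (α • u) (γ • u + δ • v) a 0 c = Y u v (a * α ^ 2) 0 (c * (α * δ)) := by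
    intro a c
    have h1 := Y_basis h α 0 γ δ a 0 c
    rw [zero_smul, add_zero] at h1
    rw [h1]
    apply Y_ext h
    · linear_combination (c * α * γ) * h2
    · ring
    · ring
  ext y
  constructor
  · rintro ⟨a, c, rfl⟩
    exact ⟨_, _, by rw [key]⟩
  · rintro ⟨a, c, rfl⟩
    refine ⟨a / α ^ 2, c / (α * δ), ?_⟩
    rw [key]
    congr 1
    apply Y_ext h
    · field_simp
    · rfl
    · field_simp

theorem Zc_eq_of_span (h2 : (2 : F) = 0) {u v x₁ x₂ u' v' x₁' x₂' : Fin m ⊕ Fin m → F}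
    (D : Dual u v x₁ x₂) (D' : Dual u' v' x₁' x₂') {α γ δ : F} (hu' : u' = α • u)
    (hv' : v' = γ • u + δ • v) : Zc u' v' = Zc u v := by
  have hα : α ≠ 0 := by
    rintro rfl
    rw [zero_smul] at hu'
    exact D'.u_ne hu'
  have hδ : δ ≠ 0 := by
    rintro rfl
    rw [zero_smul, add_zero] at hv'
    have h1 := D'.h21
    have h3 := D'.h22
    rw [hu', map_smul, smul_eq_mul] at h1
    rw [hv', map_smul, smul_eq_mul] at h3
    rcases mul_eq_zero.1 h1 with h4 | h4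
    · exact hα h4
    · rw [h4, mul_zero] at h3
      exact zero_ne_one h3
  rw [hu', hv']
  exact Zc_eq_of_two h2 D.uv hα hδ γ

theorem pr_injective_of_two (hm : 1 ≤ m) (h2 : (2 : F) = 0) :
    Function.Injective (pr (F := F) (m := m)) := by
  intro g h H
  obtain ⟨a, ha, h1⟩ := exists_scalar_of_pr_eq hm H
  have ha1 : a = 1 := by
    have h3 : (a - 1) ^ 2 = 0 := by linear_combination ha - a * h2 + h2
    have h4 := pow_eq_zero_iff (n := 2) (by norm_num) |>.1 h3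
    exact sub_eq_zero.1 h4
  apply Subtype.ext
  rw [h1, ha1, one_smul]

/-! ### the centre of the standard Sylow subgroup -/

theorem J_mulVec_inl (v : Fin m ⊕ Fin m → F) (j : Fin m) :
    (J (Fin m) F *ᵥ v) (Sum.inl j) = - v (Sum.inr j) := by
  rw [Matrix.J, Matrix.fromBlocks_mulVec]
  simp [Matrix.neg_mulVec]

theorem t_mem_U [Finite F] (v : Fin m ⊕ Fin m → F) (hv : ∀ i, v (Sum.inr i) = 0) (c : F) :
    t v c ∈ U := by
  rw [mem_U]
  constructor
  · ext i j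
    show Cfsg.sympTransvection m v c (Sum.inr i) (Sum.inl j) = 0
    simp [Cfsg.sympTransvection, Matrix.vecMulVec_apply, hv]
  · have h1 : ((t v c : Matrix.symplecticGroup (Fin m) F) :
        Matrix (Fin m ⊕ Fin m) (Fin m ⊕ Fin m) F).toBlocks₁₁ = 1 := by
      ext i j
      show Cfsg.sympTransvection m v c (Sum.inl i) (Sum.inl j) = _
      simp [Cfsg.sympTransvection, Matrix.vecMulVec_apply, J_mulVec_inl, hv, Matrix.one_apply]
    rw [h1]
    exact isUT_one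

theorem Y_mem_U [Finite F] (i j : Fin m) (a b c : F) : Y (e i) (e j) a b c ∈ U := by
  unfold Y
  refine U.mul_mem (U.mul_mem (t_e_mem_U _ _) (t_e_mem_U _ _)) (t_mem_U _ ?_ _)
  intro k
  rw [Pi.add_apply, e_apply_inr, e_apply_inr, add_zero]

theorem mulVec_e1 [Finite F] (hm : 2 ≤ m) {A : Matrix.symplecticGroup (Fin m) F} (hA : A ∈ U) :
    (A : Matrix (Fin m ⊕ Fin m) (Fin m ⊕ Fin m) F) *ᵥ e ⟨1, hm⟩ =
      e ⟨1, hm⟩ + ((A : Matrix (Fin m ⊕ Fin m) (Fin m ⊕ Fin m) F).toBlocks₁₁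
        ⟨0, by omega⟩ ⟨1, hm⟩) • e ⟨0, by omega⟩ := by
  show (A : Matrix (Fin m ⊕ Fin m) (Fin m ⊕ Fin m) F) *ᵥ Pi.single (Sum.inl ⟨1, hm⟩) 1 = _
  rw [Matrix.mulVec_single_one]
  funext k
  rcases k with i | i
  · show (A : Matrix (Fin m ⊕ Fin m) (Fin m ⊕ Fin m) F).toBlocks₁₁ i ⟨1, hm⟩ = _
    rw [Pi.add_apply, Pi.smul_apply, e_apply_inl, e_apply_inl, smul_eq_mul]
    by_cases h1 : i = ⟨1, hm⟩
    · rw [if_pos h1, if_neg (by rw [h1]; simp [Fin.ext_iff]), mul_zero, add_zero, h1]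
      exact hA.2.2 _
    · rw [if_neg h1, zero_add]
      by_cases h0 : i = ⟨0, by omega⟩
      · rw [if_pos h0, mul_one, h0]
      · rw [if_neg h0, mul_zero]
        apply hA.2.1
        rw [Fin.lt_def]
        have e0 : (i : ℕ) ≠ 0 := fun h => h0 (Fin.ext h)
        have e1 : (i : ℕ) ≠ 1 := fun h => h1 (Fin.ext h)
        show 1 < (i : ℕ)
        omega
  · show (A : Matrix (Fin m ⊕ Fin m) (Fin m ⊕ Fin m) F).toBlocks₂₁ i ⟨1, hm⟩ = _
    rw [hA.1, Pi.add_apply, Pi.smul_apply, e_apply_inr, e_apply_inr, smul_zero, add_zero]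
    rfl

theorem form_e_e (i j : Fin m) : form m F (e i) (e j) = 0 := by
  rw [form_e_right, e_apply_inr]

theorem Y_central [Finite F] (hm : 2 ≤ m) (h2 : (2 : F) = 0) (a c : F)
    {B : Matrix.symplecticGroup (Fin m) F} (hB : B ∈ U) :
    Y (e ⟨0, by omega⟩) (e ⟨1, hm⟩) a 0 c * B = B * Y (e ⟨0, by omega⟩) (e ⟨1, hm⟩) a 0 c := by
  have h1 := conj_Y B (e ⟨0, by omega⟩) (e ⟨1, hm⟩) a 0 c
  rw [mulVec_e0 (by omega) hB, mulVec_e1 hm hB] at h1
  obtain ⟨β, hβ⟩ : ∃ β : F, β = (B : Matrix (Fin m ⊕ Fin m) (Fin m ⊕ Fin m) F).toBlocks₁₁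
      ⟨0, by omega⟩ ⟨1, hm⟩ := ⟨_, rfl⟩
  rw [← hβ] at h1
  have h3 : Y (e ⟨0, by omega⟩) (e ⟨1, hm⟩ + β • e ⟨0, by omega⟩) a 0 c =
      Y (e ⟨0, by omega⟩ : Fin m ⊕ Fin m → F) (e ⟨1, hm⟩) a 0 c := by
    have h4 := Y_basis (form_e_e (F := F) (⟨0, by omega⟩ : Fin m) ⟨1, hm⟩) 1 0 β 1 a 0 c
    rw [one_smul, zero_smul, add_zero, one_smul, add_comm (β • _)] at h4
    rw [h4]
    apply Y_ext (form_e_e _ _)
    · linear_combination (c * β) * h2
    · ring
    · ring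
  rw [h3] at h1
  rw [mul_inv_eq_iff_eq_mul] at h1
  exact h1.symm

/-- the centre of `U` (char-free; in odd characteristic the last parameter vanishes) -/
theorem center_U_gen [Finite F] (hm : 2 ≤ m)
    {A : Matrix.symplecticGroup (Fin m) F} (hA : A ∈ U)
    (hc : ∀ B ∈ (U : Subgroup (Matrix.symplecticGroup (Fin m) F)), A * B = B * A) :
    ∃ a c : F, A = Y (e ⟨0, by omega⟩) (e ⟨1, hm⟩) a 0 c := by
  obtain ⟨i0, hi0⟩ : ∃ i0 : Fin m, i0 = ⟨0, by omega⟩ := ⟨_, rfl⟩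
  obtain ⟨i1, hi1⟩ : ∃ i1 : Fin m, i1 = ⟨1, hm⟩ := ⟨_, rfl⟩
  have h01 : i0 ≠ i1 := by
    rw [hi0, hi1]
    simp [Fin.ext_iff]
  have hlt0 : ∀ j : Fin m, j ≠ i0 → i0 < j := by
    intro j hj
    rw [hi0, Fin.lt_def]
    have : (j : ℕ) ≠ 0 := fun h0 => hj (by rw [hi0]; exact Fin.ext h0)
    show 0 < (j : ℕ)
    omega
  have hlt1 : ∀ j : Fin m, j ≠ i0 → j ≠ i1 → i1 < j := by
    intro j hj hj1
    rw [hi1, Fin.lt_def]
    have e0 : (j : ℕ) ≠ 0 := fun h0 => hj (by rw [hi0]; exact Fin.ext h0)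
    have e1 : (j : ℕ) ≠ 1 := fun h0 => hj1 (by rw [hi1]; exact Fin.ext h0)
    show 1 < (j : ℕ)
    omega
  rw [← hi0, ← hi1]
  obtain ⟨h0, h1, h3⟩ := blocks hA
  obtain ⟨a, ha⟩ : ∃ a, a = (A : Matrix (Fin m ⊕ Fin m) (Fin m ⊕ Fin m) F).toBlocks₁₁ := ⟨_, rfl⟩
  obtain ⟨b, hb⟩ : ∃ b, b = (A : Matrix (Fin m ⊕ Fin m) (Fin m ⊕ Fin m) F).toBlocks₁₂ := ⟨_, rfl⟩
  obtain ⟨d, hd⟩ : ∃ d, d = (A : Matrix (Fin m ⊕ Fin m) (Fin m ⊕ Fin m) F).toBlocks₂₂ := ⟨_, rfl⟩
  have haUT : IsUT a := by rw [ha]; exact hA.2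
  rw [← ha, ← hb, ← hd] at h0
  rw [← ha, ← hd] at h1
  rw [← hb, ← hd] at h3
  -- step 1: `a = 1`
  have s1 : ∀ S : Matrix (Fin m) (Fin m) F, S.IsSymm → a * S = S * d := by
    intro S hS
    have e1 := congrArg (fun z : Matrix.symplecticGroup (Fin m) F =>
      (z : Matrix (Fin m ⊕ Fin m) (Fin m ⊕ Fin m) F)) (hc _ (mk_mem 1 S isUT_one hS))
    simp only [Submonoid.coe_mul] at e1
    rw [mk_one_coe, h0, fromBlocks_multiply, fromBlocks_multiply] at e1
    have e2 := (fromBlocks_inj.1 e1).2.1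
    simp only [mul_one, one_mul] at e2
    have e3 : a * S + b = S * d + b := by rw [e2]; abel
    exact add_right_cancel e3
  have ha1 : a = 1 := by
    ext k i
    by_cases hki : k = i
    · rw [hki, Matrix.one_apply_eq]
      exact haUT.2 i
    · rw [Matrix.one_apply_ne hki]
      have e1 := congrFun (congrFun (s1 (Matrix.single i i 1) (by
        rw [Matrix.IsSymm, Matrix.transpose_single])) k) i
      rw [Matrix.mul_single_apply_same, Matrix.single_mul_apply_of_ne (h := hki), mul_one] at e1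
      exact e1
  have hd1 : d = 1 := by
    rw [ha1, Matrix.transpose_one, one_mul] at h1
    exact h1
  rw [ha1, hd1] at h0
  rw [hd1, mul_one, Matrix.transpose_one, one_mul] at h3
  have hsymm : ∀ j l : Fin m, b j l = b l j := by
    intro j l
    have e1 := congrFun (congrFun h3 l) j
    rw [Matrix.transpose_apply] at e1
    exact e1
  -- step 2: the symmetric block
  have s2 : ∀ i j : Fin m, i < j →
      Matrix.single i j (1 : F) * b + b * Matrix.single j i (1 : F) +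
        Matrix.single i j (1 : F) * b * Matrix.single j i (1 : F) = 0 := by
    intro i j hij
    have hu := isUT_one_add_single (F := F) hij
    have hdet : IsUnit ((1 + Matrix.single i j (1 : F))ᵀ).det := by
      rw [Matrix.det_transpose, hu.det]
      exact isUnit_one
    have e1 := congrArg (fun z : Matrix.symplecticGroup (Fin m) F =>
      (z : Matrix (Fin m ⊕ Fin m) (Fin m ⊕ Fin m) F)) (hc _ (mk_mem _ 0 hu Matrix.isSymm_zero))
    simp only [Submonoid.coe_mul] at e1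
    rw [mk_zero_coe, h0, fromBlocks_multiply, fromBlocks_multiply] at e1
    have e2 := (fromBlocks_inj.1 e1).2.1
    simp only [mul_zero, zero_mul, zero_add, add_zero] at e2
    have e3 : b = (1 + Matrix.single i j (1 : F)) * b * (1 + Matrix.single i j (1 : F))ᵀ := by
      rw [← e2, Matrix.nonsing_inv_mul_cancel_right _ _ hdet]
    rw [Matrix.transpose_add, Matrix.transpose_one, Matrix.transpose_single] at e3
    have e4 : (1 + Matrix.single i j (1 : F)) * b * (1 + Matrix.single j i (1 : F)) =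
        b + (Matrix.single i j (1 : F) * b + b * Matrix.single j i (1 : F) +
        Matrix.single i j (1 : F) * b * Matrix.single j i (1 : F)) := by
      simp only [Matrix.add_mul, Matrix.mul_add, Matrix.one_mul, Matrix.mul_one]
      abel
    rw [e4] at e3
    exact (left_eq_add.1 e3)
  have z1 : ∀ j l : Fin m, j ≠ i0 → l ≠ i0 → b j l = 0 := by
    intro j l hj hl
    have e1 := congrFun (congrFun (s2 i0 j (hlt0 j hj)) i0) l
    rw [Matrix.add_apply, Matrix.add_apply, Matrix.single_mul_apply_same,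
      Matrix.mul_single_apply_of_ne (hbj := hl), Matrix.mul_single_apply_of_ne (hbj := hl),
      Matrix.zero_apply, one_mul, add_zero, add_zero] at e1
    exact e1
  have z4 : ∀ j : Fin m, j ≠ i0 → j ≠ i1 → b j i0 = 0 := by
    intro j hj hj1
    have e1 := congrFun (congrFun (s2 i1 j (hlt1 j hj hj1)) i1) i0
    rw [Matrix.add_apply, Matrix.add_apply, Matrix.single_mul_apply_same,
      Matrix.mul_single_apply_of_ne (hbj := h01), Matrix.mul_single_apply_of_ne (hbj := h01),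
      Matrix.zero_apply, one_mul, add_zero, add_zero] at e1
    exact e1
  refine ⟨b i0 i0, b i0 i1, ?_⟩
  apply sp_ext
  intro x
  rw [h0, Y_mulVec (form_e_e _ _), Matrix.fromBlocks_mulVec]
  funext k
  rcases k with i | i
  · have hsum : (b *ᵥ (x ∘ Sum.inr)) i = b i i0 * x (Sum.inr i0) + b i i1 * x (Sum.inr i1) := by
      rw [Matrix.mulVec, dotProduct, Fintype.sum_eq_add i0 i1 h01]
      · rfl
      · intro l hl
        have hz : b i l = 0 := by
          by_cases hi : i = i0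
          · rw [hi, hsymm]
            exact z4 l hl.1 hl.2
          · exact z1 i l hi hl.1
        rw [hz, zero_mul]
    simp only [Sum.elim_inl, Pi.add_apply, Pi.smul_apply, Matrix.one_mulVec, Function.comp_apply,
      smul_eq_mul, form_e_right, e_apply_inl]
    rw [hsum]
    by_cases hi0' : i = i0
    · rw [hi0', if_pos rfl, if_neg h01]
      ring
    · by_cases hi1' : i = i1
      · rw [hi1', if_neg (Ne.symm h01), if_pos rfl, hsymm i1 i0, z1 i1 i1 (Ne.symm h01)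
          (Ne.symm h01)]
        ring
      · rw [if_neg hi0', if_neg hi1', z4 i hi0' hi1', z1 i i1 hi0' (Ne.symm h01)]
        ring
  · simp only [Sum.elim_inr, Pi.add_apply, Pi.smul_apply, Matrix.zero_mulVec, Matrix.one_mulVec,
      Function.comp_apply, e_apply_inr, smul_eq_mul, mul_zero, add_zero, zero_add]

/-- the centre of the standard Sylow subgroup in characteristic two -/
theorem zc_PU2 [Finite F] (hm : 2 ≤ m) (h2 : (2 : F) = 0) :
    zc (PU : Subgroup (Cfsg.PSp m F)) = Zc (e ⟨0, by omega⟩) (e ⟨1, hm⟩) := by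
  ext y
  constructor
  · rintro ⟨⟨A, hA, rfl⟩, hc⟩
    have h1 : ∀ B ∈ (U : Subgroup (Matrix.symplecticGroup (Fin m) F)), A * B = B * A := by
      intro B hB
      apply pr_injOn_U (by omega) (U.mul_mem hA hB) (U.mul_mem hB hA)
      rw [map_mul, map_mul]
      exact hc _ (Subgroup.mem_map_of_mem _ hB)
    obtain ⟨a, c, rfl⟩ := center_U_gen hm hA h1
    exact ⟨a, c, rfl⟩
  · rintro ⟨a, c, rfl⟩
    refine ⟨Subgroup.mem_map_of_mem _ (Y_mem_U _ _ a 0 c), ?_⟩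
    rintro _ ⟨B, hB, rfl⟩
    show pr (Y (e ⟨0, by omega⟩) (e ⟨1, hm⟩) a 0 c) * pr B =
      pr B * pr (Y (e ⟨0, by omega⟩) (e ⟨1, hm⟩) a 0 c)
    rw [← map_mul, ← map_mul, Y_central hm h2 a c hB]

end Cfsg.Agent.Lib.Helper43.SpZ
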