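import Mathlib
import Cfsg.Agent.Lib.Helper43.SpZ

set_option autoImplicit false

namespace Cfsg.Agent.Lib.Helper43.SpRootEven

open Matrix Cfsg.Agent.Lib.Helper13.SympMat Cfsg.Agent.Lib.Helper43.SpBasic
  Cfsg.Agent.Lib.Helper43.SpPair Cfsg.Agent.Lib.Helper43.SpSylow
  Cfsg.Agent.Lib.Helper43.SpCore1 Cfsg.Agent.Lib.Helper43.SpCore4
  Cfsg.Agent.Lib.Helper43.SpFrame Cfsg.Agent.Lib.Helper43.SpZ

open Cfsg.Agent.Lib.Helper43.PSLnRoot (zc zc_smul)

open scoped Pointwise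

variable {F : Type*} [Field F] {m : ℕ}

variable [Fintype F] {p r : ℕ} [Fact p.Prime]

/-- the centre of a conjugate of the standard Sylow subgroup -/
theorem zc_conj (hf : 1 ≤ r) (hF : Fintype.card F = p ^ r) (hm : 2 ≤ m) (h2 : (2 : F) = 0)
    (g : Matrix.symplecticGroup (Fin m) F) :
    zc ((((pr g) • P0 hf hF (by omega) : Sylow p (Cfsg.PSp m F))) : Subgroup (Cfsg.PSp m F)) =
      Zc ((g : Matrix (Fin m ⊕ Fin m) (Fin m ⊕ Fin m) F) *ᵥ e ⟨0, by omega⟩)
        ((g : Matrix (Fin m ⊕ Fin m) (Fin m ⊕ Fin m) F) *ᵥ e ⟨1, hm⟩) := by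
  rw [Sylow.coe_subgroup_smul, zc_smul, P0_coe, zc_PU2 hm h2, conj_Zc]

/-- every Sylow centre is of the form `Zc u v` -/
theorem exists_Zc (hf : 1 ≤ r) (hF : Fintype.card F = p ^ r) (hm : 2 ≤ m) (h2 : (2 : F) = 0)
    (P : Sylow p (Cfsg.PSp m F)) :
    ∃ u v x₁ x₂ : Fin m ⊕ Fin m → F, Dual u v x₁ x₂ ∧
      zc (P : Subgroup (Cfsg.PSp m F)) = Zc u v := by
  classical
  obtain ⟨y, hy⟩ := MulAction.exists_smul_eq (Cfsg.PSp m F) (P0 hf hF (by omega)) P
  obtain ⟨g, rfl⟩ := pr_surjective y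
  have h01 : (⟨0, by omega⟩ : Fin m) ≠ ⟨1, hm⟩ := by simp [Fin.ext_iff]
  refine ⟨_, _, _, _, dual_map (dual_e h01) g, ?_⟩
  rw [← hy, zc_conj hf hF hm h2]

/-- long root sets, characterised through centres of Sylow subgroups -/
def IsLong (p : ℕ) [Fact p.Prime] (A : Set (Cfsg.PSp m F)) : Prop :=
  ∃ P₁ P₂ P₃ : Sylow p (Cfsg.PSp m F),
    zc (P₁ : Subgroup (Cfsg.PSp m F)) ≠ zc (P₂ : Subgroup (Cfsg.PSp m F)) ∧
    A = zc (P₁ : Subgroup (Cfsg.PSp m F)) ∩ zc (P₂ : Subgroup (Cfsg.PSp m F)) ∧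
    ∃ y ∈ A, y ≠ 1 ∧ y ∈ zc (P₃ : Subgroup (Cfsg.PSp m F)) ∧
      ¬ (zc (P₃ : Subgroup (Cfsg.PSp m F)) ⊆
        zc (P₁ : Subgroup (Cfsg.PSp m F)) * zc (P₂ : Subgroup (Cfsg.PSp m F)))

theorem IsLong.image {A : Set (Cfsg.PSp m F)} (h : IsLong p A) (α : MulAut (Cfsg.PSp m F)) :
    IsLong p (α '' A) := by
  obtain ⟨P₁, P₂, P₃, h1, rfl, y, hy, hy1, hy3, h3⟩ := h
  refine ⟨α • P₁, α • P₂, α • P₃, ?_, ?_, α y, Set.mem_image_of_mem _ hy, ?_, ?_, ?_⟩
  · rw [Sylow.pointwise_smul_def, Sylow.pointwise_smul_def, zc_smul, zc_smul]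
    exact fun h => h1 (Set.image_injective.2 α.injective h)
  · rw [Sylow.pointwise_smul_def, Sylow.pointwise_smul_def, zc_smul, zc_smul,
      Set.image_inter α.injective]
  · intro h
    apply hy1
    apply α.injective
    rw [h, map_one]
  · rw [Sylow.pointwise_smul_def, zc_smul]
    exact Set.mem_image_of_mem _ hy3
  · rw [Sylow.pointwise_smul_def, Sylow.pointwise_smul_def, Sylow.pointwise_smul_def, zc_smul,
      zc_smul, zc_smul, ← Set.image_mul]
    intro h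
    apply h3
    exact (Set.image_subset_image_iff α.injective).1 h

/-- the standard long root set is long -/
theorem isLong_e0 (hf : 1 ≤ r) (hF : Fintype.card F = p ^ r) [CharP F p] (hm : 3 ≤ m)
    (h2 : (2 : F) = 0) : IsLong p (R (e ⟨0, by omega⟩ : Fin m ⊕ Fin m → F)) := by
  classical
  obtain ⟨i0, hi0⟩ : ∃ i0 : Fin m, i0 = ⟨0, by omega⟩ := ⟨_, rfl⟩
  obtain ⟨i1, hi1⟩ : ∃ i1 : Fin m, i1 = ⟨1, by omega⟩ := ⟨_, rfl⟩
  obtain ⟨i2, hi2⟩ : ∃ i2 : Fin m, i2 = ⟨2, by omega⟩ := ⟨_, rfl⟩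
  have h01 : i0 ≠ i1 := by rw [hi0, hi1]; simp [Fin.ext_iff]
  have h02 : i0 ≠ i2 := by rw [hi0, hi2]; simp [Fin.ext_iff]
  have h12 : i1 ≠ i2 := by rw [hi1, hi2]; simp [Fin.ext_iff]
  have hm1 : 1 ≤ m := by omega
  have hm2 : 2 ≤ m := by omega
  have hinj := pr_injective_of_two (F := F) hm1 h2
  -- the second Sylow subgroup
  obtain ⟨g₂, hg2e, -⟩ := exists_sp_of_basis (F := F) (m := m)
    (fun i => e (Equiv.swap i1 i2 i)) (fun i => f (Equiv.swap i1 i2 i))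
    (fun i j => by rw [form_e_right, e_apply_inr])
    (fun i j => by rw [form_f_right, f_apply_inl, neg_zero])
    (fun i j => by
      rw [form_e_right, f_apply_inr]
      by_cases hij : i = j
      · rw [hij, if_pos rfl, if_pos rfl]
      · rw [if_neg hij, if_neg (fun h => hij ((Equiv.swap i1 i2).injective h).symm)])
  -- the third Sylow subgroup
  obtain ⟨g₃, hg3e, -⟩ := exists_sp_of_basis (F := F) (m := m)
    (fun i => if i = i1 then f i1 else e i) (fun i => if i = i1 then -e i1 else f i)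
    (fun i j => by
      by_cases hi : i = i1
      · by_cases hj : j = i1
        · rw [if_pos hi, if_pos hj, form_self]
        · rw [if_pos hi, if_neg hj, form_e_right, f_apply_inr, if_neg hj]
      · by_cases hj : j = i1
        · rw [if_neg hi, if_pos hj, form_f_right, e_apply_inl, if_neg (Ne.symm hi), neg_zero]
        · rw [if_neg hi, if_neg hj, form_e_right, e_apply_inr])
    (fun i j => by
      by_cases hi : i = i1
      · by_cases hj : j = i1
        · rw [if_pos hi, if_pos hj, form_self]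
        · rw [if_pos hi, if_neg hj, form_f_right, Pi.neg_apply, e_apply_inl, if_neg hj, neg_zero,
            neg_zero]
      · by_cases hj : j = i1
        · rw [if_neg hi, if_pos hj, map_neg, form_e_right, f_apply_inr, if_neg (Ne.symm hi),
            neg_zero]
        · rw [if_neg hi, if_neg hj, form_f_right, f_apply_inl, neg_zero])
    (fun i j => by
      by_cases hi : i = i1
      · by_cases hj : j = i1
        · rw [if_pos hi, if_pos hj, hi, hj, if_pos rfl, form_f_right, Pi.neg_apply, e_apply_inl,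
            if_pos rfl, neg_neg]
        · rw [if_pos hi, if_neg hj, form_e_right, Pi.neg_apply, e_apply_inr, neg_zero,
            if_neg (by rw [hi]; exact Ne.symm hj)]
      · by_cases hj : j = i1
        · rw [if_neg hi, if_pos hj, form_f_right, f_apply_inl, neg_zero,
            if_neg (by rw [hj]; exact hi)]
        · rw [if_neg hi, if_neg hj, form_e_right, f_apply_inr]
          by_cases hij : i = j
          · rw [if_pos hij, if_pos hij.symm]
          · rw [if_neg hij, if_neg (Ne.symm hij)])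
  have hz1 : zc ((P0 hf hF hm1 : Sylow p (Cfsg.PSp m F)) : Subgroup (Cfsg.PSp m F)) =
      Zc (e i0) (e i1) := by
    rw [P0_coe, zc_PU2 hm2 h2, hi0, hi1]
  have hz2 : zc ((((pr g₂) • P0 hf hF hm1 : Sylow p (Cfsg.PSp m F))) :
      Subgroup (Cfsg.PSp m F)) = Zc (e i0) (e i2) := by
    rw [zc_conj hf hF hm2 h2, ← hi0, ← hi1, hg2e, hg2e, Equiv.swap_apply_of_ne_of_ne h01 h02,
      Equiv.swap_apply_left]
  have hz3 : zc ((((pr g₃) • P0 hf hF hm1 : Sylow p (Cfsg.PSp m F))) :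
      Subgroup (Cfsg.PSp m F)) = Zc (e i0) (f i1) := by
    rw [zc_conj hf hF hm2 h2, ← hi0, ← hi1, hg3e, hg3e, if_neg h01, if_pos rfl]
  rw [← hi0]
  refine ⟨P0 hf hF hm1, (pr g₂) • P0 hf hF hm1, (pr g₃) • P0 hf hF hm1, ?_, ?_,
    pr (t (e i0) 1), pr_t_mem_R _ _, ?_, ?_, ?_⟩
  · rw [hz1, hz2]
    intro h
    have h3 : pr (Y (e i0) (e i1) (0 : F) 0 1) ∈ Zc (e i0 : Fin m ⊕ Fin m → F) (e i2) := by
      rw [← h]
      exact ⟨0, 1, rfl⟩
    obtain ⟨a, c, hy⟩ := h3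
    have hY := hinj hy
    have e1 := congrArg (fun z : Matrix.symplecticGroup (Fin m) F =>
      ((z : Matrix (Fin m ⊕ Fin m) (Fin m ⊕ Fin m) F) *ᵥ f i0) (Sum.inl i1)) hY
    simp only [(dual_e h01).Y_x₁, (dual_e h02).Y_x₁, Pi.add_apply, Pi.smul_apply, f_apply_inl,
      e_apply_inl, smul_eq_mul, if_neg (Ne.symm h01), if_pos, if_neg h12] at e1
    simp at e1
  · rw [hz1, hz2]
    apply Set.Subset.antisymm
    · exact Set.subset_inter (R_subset_Zc _ _) (R_subset_Zc _ _)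
    · rintro y ⟨⟨a, c, rfl⟩, ⟨a', c', hy⟩⟩
      have hY := hinj hy
      have e1 := congrArg (fun z : Matrix.symplecticGroup (Fin m) F =>
        ((z : Matrix (Fin m ⊕ Fin m) (Fin m ⊕ Fin m) F) *ᵥ f i0) (Sum.inl i1)) hY
      simp only [(dual_e h01).Y_x₁, (dual_e h02).Y_x₁, Pi.add_apply, Pi.smul_apply, f_apply_inl,
        e_apply_inl, smul_eq_mul, if_neg (Ne.symm h01), if_pos, if_neg h12] at e1
      have hc : c = 0 := by simpa using e1
      rw [hc, Y_left]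
      exact pr_t_mem_R _ _
  · intro h
    have h3 : pr (t (e i0 : Fin m ⊕ Fin m → F) 1) = pr (t (e i0) 0) := by
      rw [h, t_zero, map_one]
    exact one_ne_zero (pr_t_injective hm1 p (e_ne_zero i0) h3)
  · rw [hz3]
    exact R_subset_Zc _ _ (pr_t_mem_R _ _)
  · rw [hz1, hz2, hz3]
    intro h
    have h3 : pr (Y (e i0) (f i1) (0 : F) 0 1) ∈
        Zc (e i0 : Fin m ⊕ Fin m → F) (e i1) * Zc (e i0) (e i2) := h ⟨0, 1, rfl⟩
    obtain ⟨_, ⟨a, c, rfl⟩, _, ⟨a', c', rfl⟩, hy⟩ := Set.mem_mul.1 h3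
    rw [← map_mul] at hy
    have hY := hinj hy
    have hef : form m F (e i0) (f i1) = 0 := by
      rw [form_f_right, e_apply_inl, if_neg (Ne.symm h01), neg_zero]
    have e1 := congrArg (fun z : Matrix.symplecticGroup (Fin m) F =>
      ((z : Matrix (Fin m ⊕ Fin m) (Fin m ⊕ Fin m) F) *ᵥ f i0) (Sum.inr i1)) hY
    simp only [mul_mulVec, (dual_e h02).Y_x₁, Y_mulVec (form_e_e i0 i1), Y_mulVec hef,
      Pi.add_apply, Pi.smul_apply, f_apply_inr, e_apply_inr, smul_eq_mul, form_e_right,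
      form_f_right, f_apply_inl, if_neg (Ne.symm h01), if_pos] at e1
    simp at e1

/-- all transvection sets are long -/
theorem isLong_R (hf : 1 ≤ r) (hF : Fintype.card F = p ^ r) [CharP F p] (hm : 3 ≤ m)
    (h2 : (2 : F) = 0) {v : Fin m ⊕ Fin m → F} (hv : v ≠ 0) : IsLong p (R v) := by
  obtain ⟨g, hg⟩ := exists_sp_map (e_ne_zero (⟨0, by omega⟩ : Fin m)) hv
  rw [← hg, ← conj_R]
  exact (isLong_e0 hf hF hm h2).image _

/-- long sets are transvection sets -/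
theorem IsLong.exists_R (hf : 1 ≤ r) (hF : Fintype.card F = p ^ r) [CharP F p] (hm : 2 ≤ m)
    (h2 : (2 : F) = 0) {A : Set (Cfsg.PSp m F)} (h : IsLong p A) :
    ∃ v : Fin m ⊕ Fin m → F, v ≠ 0 ∧ A = R v := by
  have hm1 : 1 ≤ m := by omega
  have hinj := pr_injective_of_two (F := F) hm1 h2
  obtain ⟨P₁, P₂, P₃, hne, rfl, y, hy, hy1, hy3, h3⟩ := h
  obtain ⟨u₁, v₁, x₁, x₁', D₁, hz1⟩ := exists_Zc hf hF hm h2 P₁
  obtain ⟨u₂, v₂, x₂, x₂', D₂, hz2⟩ := exists_Zc hf hF hm h2 P₂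
  obtain ⟨u₃, v₃, x₃, x₃', D₃, hz3⟩ := exists_Zc hf hF hm h2 P₃
  rw [hz1, hz2] at hne hy h3 ⊢
  rw [hz3] at hy3 h3
  obtain ⟨⟨a, c, rfl⟩, ⟨a', c', hy2⟩⟩ := hy
  have hY := hinj hy2
  by_cases hc : c = 0
  · -- the element is a transvection
    rw [hc] at hY hy1
    have hc' : c' = 0 := by
      by_contra hc'
      exact (span_of_eq D₂ D₁ hc' hY.symm).1 rfl
    rw [hc', Y_left, Y_left] at hY
    have ha : a ≠ 0 := by
      rintro rfl
      apply hy1
      rw [Y_zero, map_one]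
    obtain ⟨l, hl, hu⟩ := smul_of_t_eq D₁.u_ne ha hY
    refine ⟨u₁, D₁.u_ne, ?_⟩
    apply Set.Subset.antisymm
    · rintro z ⟨⟨b, d, rfl⟩, ⟨b', d', hz⟩⟩
      have hZ := hinj hz
      by_cases hd : d = 0
      · rw [hd, Y_left]
        exact pr_t_mem_R _ _
      · exfalso
        obtain ⟨-, α, β, γ, δ, hu2, hv2⟩ := span_of_eq D₁ D₂ hd hZ
        have hu2' : u₂ = l⁻¹ • u₁ := by
          rw [hu, smul_smul, inv_mul_cancel₀ hl, one_smul]
        apply hne
        exact (Zc_eq_of_span h2 D₁ D₂ hu2' hv2).symm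
    · apply Set.subset_inter (R_subset_Zc _ _)
      rw [hu, R_smul hl]
      exact R_subset_Zc _ _
  · exfalso
    obtain ⟨-, α, β, γ, δ, hu2, hv2⟩ := span_of_eq D₁ D₂ hc hY
    obtain ⟨a₃, c₃, hy3'⟩ := hy3
    obtain ⟨-, α₃, β₃, γ₃, δ₃, hu3, hv3⟩ := span_of_eq D₁ D₃ hc (hinj hy3')
    by_cases hβ : β = 0
    · rw [hβ, zero_smul, add_zero] at hu2
      exact hne (Zc_eq_of_span h2 D₁ D₂ hu2 hv2).symm
    · apply h3
      rw [hu3, hv3, hu2]
      exact (Zc_subset_Ac D₁.uv _ _ _ _).trans (Ac_subset_mul D₁.uv α hβ v₂)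

/-- in characteristic two and rank at least three, every automorphism permutes the
transvection sets -/
theorem perm_even (hf : 1 ≤ r) (hF : Fintype.card F = p ^ r) [CharP F p] (hm : 3 ≤ m)
    (h2 : (2 : F) = 0) : Perm m F := by
  intro α v hv
  exact ((isLong_R hf hF hm h2 hv).image α).exists_R hf hF (by omega) h2

end Cfsg.Agent.Lib.Helper43.SpRootEven
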