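import Mathlib
import Cfsg.Agent.Lib.Helper43.SpRootEven
import Cfsg.Agent.Lib.Helper43.SpRel

set_option autoImplicit false

namespace Cfsg.Agent.Lib.Helper43.Sp4Root

open Matrix Cfsg.Agent.Lib.Helper13.SympMat Cfsg.Agent.Lib.Helper43.SpBasic
  Cfsg.Agent.Lib.Helper43.SpPair Cfsg.Agent.Lib.Helper43.SpSylow
  Cfsg.Agent.Lib.Helper43.SpCore1 Cfsg.Agent.Lib.Helper43.SpCore4
  Cfsg.Agent.Lib.Helper43.SpFrame Cfsg.Agent.Lib.Helper43.SpZ
  Cfsg.Agent.Lib.Helper43.SpRootEven Cfsg.Agent.Lib.Helper43.SpRel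

open Cfsg.Agent.Lib.Helper43.PSLnRoot (zc zc_smul)

open scoped Pointwise

variable {F : Type*} [Field F]

/-! ### short root sets -/

/-- the short root set of an orthogonal pair -/
def Sh {m : ℕ} (u v : Fin m ⊕ Fin m → F) : Set (Cfsg.PSp m F) :=
  {y | ∃ c : F, y = pr (Y u v 0 0 c)}

theorem conj_Sh {m : ℕ} (g : Matrix.symplecticGroup (Fin m) F) (u v : Fin m ⊕ Fin m → F) :
    (MulAut.conj (pr g)) '' Sh u v =
      Sh ((g : Matrix (Fin m ⊕ Fin m) (Fin m ⊕ Fin m) F) *ᵥ u)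
        ((g : Matrix (Fin m ⊕ Fin m) (Fin m ⊕ Fin m) F) *ᵥ v) := by
  ext y
  constructor
  · rintro ⟨_, ⟨c, rfl⟩, rfl⟩
    refine ⟨c, ?_⟩
    rw [MulAut.conj_apply, ← map_mul, ← map_inv, ← map_mul, conj_Y]
  · rintro ⟨c, rfl⟩
    refine ⟨pr (Y u v 0 0 c), ⟨c, rfl⟩, ?_⟩
    rw [MulAut.conj_apply, ← map_mul, ← map_inv, ← map_mul, conj_Y]

theorem R_ne_Sh {m : ℕ} (hm : 1 ≤ m) (h2 : (2 : F) = 0) {u v x₁ x₂ : Fin m ⊕ Fin m → F}
    (D : Dual u v x₁ x₂) (w : Fin m ⊕ Fin m → F) : R w ≠ Sh u v := by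
  intro h
  have h1 : pr (Y u v (0 : F) 0 1) ∈ R w := by
    rw [h]
    exact ⟨1, rfl⟩
  obtain ⟨d, hd⟩ := h1
  have hd' : pr (t w d) = pr (Y u v (0 : F) 0 1) := hd
  have h3 := pr_injective_of_two hm h2 hd'
  exact D.not_t one_ne_zero w d h3.symm

theorem Y_basis_two {m : ℕ} (h2 : (2 : F) = 0) {u v : Fin m ⊕ Fin m → F}
    (h : form m F u v = 0) (α β γ δ a c : F) :
    Y (α • u + β • v) (γ • u + δ • v) a 0 c =
      Y u v (a * α ^ 2) (a * β ^ 2) (a * α * β + c * (α * δ + β * γ)) := by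
  rw [Y_basis h]
  apply Y_ext h
  · linear_combination (c * α * γ) * h2
  · linear_combination (c * β * δ) * h2
  · ring

/-! ### root sets as intersections of Sylow centres -/

/-- root sets (long or short): nontrivial intersections of two distinct Sylow centres -/
def IsRt {m : ℕ} (A : Set (Cfsg.PSp m F)) : Prop :=
  ∃ P₁ P₂ : Sylow 2 (Cfsg.PSp m F),
    zc (P₁ : Subgroup (Cfsg.PSp m F)) ≠ zc (P₂ : Subgroup (Cfsg.PSp m F)) ∧
    A = zc (P₁ : Subgroup (Cfsg.PSp m F)) ∩ zc (P₂ : Subgroup (Cfsg.PSp m F)) ∧ A ≠ {1}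

theorem IsRt.image {m : ℕ} {A : Set (Cfsg.PSp m F)} (h : IsRt A) (α : MulAut (Cfsg.PSp m F)) :
    IsRt (α '' A) := by
  obtain ⟨P₁, P₂, h1, rfl, h3⟩ := h
  refine ⟨α • P₁, α • P₂, ?_, ?_, ?_⟩
  · rw [Sylow.pointwise_smul_def, Sylow.pointwise_smul_def, zc_smul, zc_smul]
    exact fun h => h1 (Set.image_injective.2 α.injective h)
  · rw [Sylow.pointwise_smul_def, Sylow.pointwise_smul_def, zc_smul, zc_smul,
      Set.image_inter α.injective]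
  · intro h
    apply h3
    apply Set.image_injective.2 α.injective
    rw [h, Set.image_singleton, map_one]

theorem IsRt.cases [Fintype F] {m r : ℕ} (hf : 1 ≤ r) (hF : Fintype.card F = 2 ^ r)
    (hm : 2 ≤ m) (h2 : (2 : F) = 0) {A : Set (Cfsg.PSp m F)} (h : IsRt A) :
    (∃ v : Fin m ⊕ Fin m → F, v ≠ 0 ∧ A = R v) ∨
      (∃ u v x₁ x₂ : Fin m ⊕ Fin m → F, Dual u v x₁ x₂ ∧ A = Sh u v) := by
  have hm1 : 1 ≤ m := by omega
  have hinj := pr_injective_of_two (F := F) hm1 h2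
  obtain ⟨P₁, P₂, hne, rfl, hA1⟩ := h
  obtain ⟨u₁, v₁, x₁, x₁', D₁, hz1⟩ := exists_Zc hf hF hm h2 P₁
  obtain ⟨u₂, v₂, x₂, x₂', D₂, hz2⟩ := exists_Zc hf hF hm h2 P₂
  rw [hz1, hz2] at hne hA1 ⊢
  have hex : ∃ y ∈ Zc u₁ v₁ ∩ Zc u₂ v₂, y ≠ 1 := by
    by_contra hcon
    push Not at hcon
    apply hA1
    ext y
    constructor
    · intro hy
      exact hcon y hy
    · intro hy
      rw [Set.mem_singleton_iff] at hy
      rw [hy]
      exact ⟨⟨0, 0, by rw [Y_zero, map_one]⟩, ⟨0, 0, by rw [Y_zero, map_one]⟩⟩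
  obtain ⟨y, ⟨⟨a, c, rfl⟩, ⟨a', c', hy2⟩⟩, hy1⟩ := hex
  have hY := hinj hy2
  by_cases hc : c = 0
  · left
    rw [hc] at hY hy1
    have hc' : c' = 0 := by
      by_contra hc'
      exact (span_of_eq D₂ D₁ hc' hY.symm).1 rfl
    rw [hc', Y_left, Y_left] at hY
    have ha : a ≠ 0 := by
      rintro rfl
      apply hy1
      rw [Y_zero, map_one]
    obtain ⟨l, hl, hu⟩ := smul_of_t_eq D₁.u_ne ha hY
    refine ⟨u₁, D₁.u_ne, ?_⟩
    apply Set.Subset.antisymm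
    · rintro z ⟨⟨b, d, rfl⟩, ⟨b', d', hz⟩⟩
      have hZ := hinj hz
      by_cases hd : d = 0
      · rw [hd, Y_left]
        exact pr_t_mem_R _ _
      · exfalso
        obtain ⟨-, α, β, γ, δ, hu2, hv2⟩ := span_of_eq D₁ D₂ hd hZ
        have hu2' : u₂ = l⁻¹ • u₁ := by
          rw [hu, smul_smul, inv_mul_cancel₀ hl, one_smul]
        apply hne
        exact (Zc_eq_of_span h2 D₁ D₂ hu2' hv2).symm
    · apply Set.subset_inter (R_subset_Zc _ _)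
      rw [hu, R_smul hl]
      exact R_subset_Zc _ _
  · right
    obtain ⟨hc', α, β, γ, δ, hu2, hv2⟩ := span_of_eq D₁ D₂ hc hY
    have hβ : β ≠ 0 := by
      rintro rfl
      rw [zero_smul, add_zero] at hu2
      exact hne (Zc_eq_of_span h2 D₁ D₂ hu2 hv2).symm
    have hdet : α * δ + β * γ ≠ 0 := by
      intro h0
      have h3 : δ • u₂ - β • v₂ = (α * δ + β * γ - 2 * (β * γ)) • u₁ := by
        rw [hu2, hv2]
        module
      rw [h0, h2, zero_mul, sub_zero, zero_smul] at h3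
      have h4 := congrArg (form m F x₂') h3
      rw [map_sub, map_smul, map_smul, D₂.h21, D₂.h22, map_zero, smul_eq_mul, smul_eq_mul,
        mul_zero, mul_one, zero_sub, neg_eq_zero] at h4
      exact hβ h4
    refine ⟨u₁, v₁, x₁, x₁', D₁, ?_⟩
    apply Set.Subset.antisymm
    · rintro z ⟨⟨b, d, rfl⟩, ⟨b', d', hz⟩⟩
      have hZ := hinj hz
      rw [hu2, hv2, Y_basis_two h2 D₁.uv] at hZ
      obtain ⟨e1, e2, -⟩ := D₁.Y_inj hZ
      have hb' : b' = 0 := by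
        rcases mul_eq_zero.1 e2.symm with h | h
        · exact h
        · exact absurd ((pow_eq_zero_iff (n := 2) (by norm_num)).1 h) hβ
      rw [hb', zero_mul] at e1
      exact ⟨d, by rw [e1]⟩
    · rintro z ⟨d, rfl⟩
      refine ⟨⟨0, d, rfl⟩, ⟨0, d / (α * δ + β * γ), ?_⟩⟩
      rw [hu2, hv2, Y_basis_two h2 D₁.uv]
      congr 1
      apply Y_ext D₁.uv
      · rw [zero_mul]
      · rw [zero_mul]
      · rw [zero_mul, zero_mul, zero_add, div_mul_cancel₀ _ hdet]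

/-! ### intersections -/

theorem Zc_inter_long {m : ℕ} (hm : 1 ≤ m) (h2 : (2 : F) = 0)
    {u v x₁ x₂ v' x₁' x₂' : Fin m ⊕ Fin m → F} (D : Dual u v x₁ x₂) (D' : Dual u v' x₁' x₂')
    (hv' : ∀ a b : F, v' ≠ a • u + b • v) : Zc u v ∩ Zc u v' = R u := by
  have hinj := pr_injective_of_two (F := F) hm h2
  apply Set.Subset.antisymm
  · rintro z ⟨⟨b, d, rfl⟩, ⟨b', d', hz⟩⟩
    have hZ := hinj hz
    by_cases hd : d = 0
    · rw [hd, Y_left]
      exact pr_t_mem_R _ _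
    · exfalso
      obtain ⟨-, α, β, γ, δ, -, hv2⟩ := span_of_eq D D' hd hZ
      exact hv' γ δ hv2
  · exact Set.subset_inter (R_subset_Zc _ _) (R_subset_Zc _ _)

theorem Zc_inter_short {m : ℕ} (hm : 1 ≤ m) (h2 : (2 : F) = 0)
    {u v x₁ x₂ : Fin m ⊕ Fin m → F} (D : Dual u v x₁ x₂) : Zc u v ∩ Zc v u = Sh u v := by
  have hinj := pr_injective_of_two (F := F) hm h2
  apply Set.Subset.antisymm
  · rintro z ⟨⟨b, d, rfl⟩, ⟨b', d', hz⟩⟩
    have hZ := hinj hz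
    rw [Y_swap D.uv] at hZ
    obtain ⟨e1, -, -⟩ := D.Y_inj hZ
    exact ⟨d, by rw [e1]⟩
  · rintro z ⟨d, rfl⟩
    refine ⟨⟨0, d, rfl⟩, ⟨0, d, ?_⟩⟩
    rw [Y_swap D.uv]

/-! ### rank two: transitivity on orthogonal pairs -/

theorem exists_sp_dual {u v x₁ x₂ : Fin 2 ⊕ Fin 2 → F} (D : Dual u v x₁ x₂) :
    ∃ g : Matrix.symplecticGroup (Fin 2) F,
      (g : Matrix (Fin 2 ⊕ Fin 2) (Fin 2 ⊕ Fin 2) F) *ᵥ e 0 = u ∧
      (g : Matrix (Fin 2 ⊕ Fin 2) (Fin 2 ⊕ Fin 2) F) *ᵥ e 1 = v := by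
  obtain ⟨c, hc⟩ : ∃ c : F, c = - form 2 F x₁ x₂ := ⟨_, rfl⟩
  have hvu : form 2 F v u = 0 := by rw [form_skew, D.uv, neg_zero]
  have h01 : form 2 F x₁ (x₂ + c • u) = 0 := by
    rw [map_add, map_smul, D.h11, hc, smul_eq_mul, mul_one, add_neg_cancel]
  have h10 : form 2 F (x₂ + c • u) x₁ = 0 := by rw [form_skew, h01, neg_zero]
  have h20 : form 2 F (x₂ + c • u) u = 0 := by
    rw [map_add, map_smul, LinearMap.add_apply, LinearMap.smul_apply, D.h21, form_self,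
      smul_zero, add_zero]
  have h21 : form 2 F (x₂ + c • u) v = 1 := by
    rw [map_add, map_smul, LinearMap.add_apply, LinearMap.smul_apply, D.h22, D.uv,
      smul_zero, add_zero]
  obtain ⟨g, hg1, -⟩ := exists_sp_of_basis (F := F) (m := 2) ![u, v] ![x₁, x₂ + c • u]
    (by
      intro i j
      fin_cases i <;> fin_cases j
      · exact form_self _
      · exact D.uv
      · exact hvu
      · exact form_self _)
    (by
      intro i j
      fin_cases i <;> fin_cases j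
      · exact form_self _
      · exact h01
      · exact h10
      · exact form_self _)
    (by
      intro i j
      fin_cases i <;> fin_cases j
      · exact D.h11
      · exact D.h12
      · exact h20
      · exact h21)
  exact ⟨g, hg1 0, hg1 1⟩

theorem exists_sylow_Zc [Fintype F] {r : ℕ} (hf : 1 ≤ r) (hF : Fintype.card F = 2 ^ r)
    (h2 : (2 : F) = 0) {u v x₁ x₂ : Fin 2 ⊕ Fin 2 → F} (D : Dual u v x₁ x₂) :
    ∃ P : Sylow 2 (Cfsg.PSp 2 F), zc (P : Subgroup (Cfsg.PSp 2 F)) = Zc u v := by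
  obtain ⟨g, hg0, hg1⟩ := exists_sp_dual D
  refine ⟨(pr g) • P0 hf hF (by omega), ?_⟩
  rw [zc_conj hf hF (le_refl 2) h2]
  show Zc ((g : Matrix (Fin 2 ⊕ Fin 2) (Fin 2 ⊕ Fin 2) F) *ᵥ e 0)
    ((g : Matrix (Fin 2 ⊕ Fin 2) (Fin 2 ⊕ Fin 2) F) *ᵥ e 1) = Zc u v
  rw [hg0, hg1]

theorem isRt_Sh [Fintype F] {r : ℕ} (hf : 1 ≤ r) (hF : Fintype.card F = 2 ^ r)
    (h2 : (2 : F) = 0) {u v x₁ x₂ : Fin 2 ⊕ Fin 2 → F} (D : Dual u v x₁ x₂) :
    IsRt (Sh u v) := by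
  have hinj := pr_injective_of_two (F := F) (m := 2) (by omega) h2
  obtain ⟨P₁, h1⟩ := exists_sylow_Zc hf hF h2 D
  obtain ⟨P₂, h2'⟩ := exists_sylow_Zc hf hF h2 D.symm
  have hinter := Zc_inter_short (by omega) h2 D
  refine ⟨P₁, P₂, ?_, ?_, ?_⟩
  · rw [h1, h2']
    intro h
    have h3 : pr (Y u v (1 : F) 0 0) ∈ Sh u v := by
      rw [← hinter, ← h, Set.inter_self]
      exact ⟨1, 0, rfl⟩
    obtain ⟨c, hc⟩ := h3
    have h4 := D.Y_inj (hinj hc)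
    exact one_ne_zero h4.1
  · rw [h1, h2', hinter]
  · intro h
    have h3 : pr (Y u v (0 : F) 0 1) ∈ ({1} : Set (Cfsg.PSp 2 F)) := by
      rw [← h]
      exact ⟨1, rfl⟩
    rw [Set.mem_singleton_iff] at h3
    have h4 : pr (Y u v (0 : F) 0 1) = pr (Y u v (0 : F) 0 0) := by
      rw [h3, Y_zero, map_one]
    have h5 := D.Y_inj (hinj h4)
    exact one_ne_zero h5.2.2

theorem isRt_R [Fintype F] {r : ℕ} (hf : 1 ≤ r) (hF : Fintype.card F = 2 ^ r)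
    (h2 : (2 : F) = 0) {v : Fin 2 ⊕ Fin 2 → F} (hv : v ≠ 0) : IsRt (R v) := by
  have hinj := pr_injective_of_two (F := F) (m := 2) (by omega) h2
  have h01 : (0 : Fin 2) ≠ 1 := by decide
  have D : Dual (e 0 : Fin 2 ⊕ Fin 2 → F) (e 1) (f 0) (f 1) := dual_e h01
  have D' : Dual (e 0 : Fin 2 ⊕ Fin 2 → F) (f 1) (f 0) (- e 1) :=
    { uv := by rw [form_f_right, e_apply_inl, if_neg (Ne.symm h01), neg_zero]
      h11 := by rw [form_e_right, f_apply_inr, if_pos rfl]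
      h12 := by rw [form_f_right, f_apply_inl, neg_zero]
      h21 := by rw [form_e_right, Pi.neg_apply, e_apply_inr, neg_zero]
      h22 := by rw [form_f_right, Pi.neg_apply, e_apply_inl, if_pos rfl, neg_neg] }
  have hv' : ∀ a b : F, (f 1 : Fin 2 ⊕ Fin 2 → F) ≠ a • e 0 + b • e 1 := by
    intro a b h
    have h3 := congrFun h (Sum.inr 1)
    rw [f_apply_inr, if_pos rfl, Pi.add_apply, Pi.smul_apply, Pi.smul_apply, e_apply_inr,
      e_apply_inr, smul_zero, smul_zero, add_zero] at h3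
    exact one_ne_zero h3
  have hinter := Zc_inter_long (by omega) h2 D D' hv'
  have he0 : IsRt (R (e 0 : Fin 2 ⊕ Fin 2 → F)) := by
    obtain ⟨P₁, h1⟩ := exists_sylow_Zc hf hF h2 D
    obtain ⟨P₂, h2'⟩ := exists_sylow_Zc hf hF h2 D'
    refine ⟨P₁, P₂, ?_, ?_, ?_⟩
    · rw [h1, h2']
      intro h
      have h3 : pr (Y (e 0 : Fin 2 ⊕ Fin 2 → F) (e 1) (0 : F) 0 1) ∈
          R (e 0 : Fin 2 ⊕ Fin 2 → F) := by
        rw [← hinter, ← h, Set.inter_self]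
        exact ⟨0, 1, rfl⟩
      obtain ⟨d, hd⟩ := h3
      have hd' : pr (t (e 0 : Fin 2 ⊕ Fin 2 → F) d) = pr (Y (e 0) (e 1) (0 : F) 0 1) := hd
      exact D.not_t one_ne_zero _ d (hinj hd').symm
    · rw [h1, h2', hinter]
    · intro h
      have h3 : pr (t (e 0 : Fin 2 ⊕ Fin 2 → F) 1) ∈ ({1} : Set (Cfsg.PSp 2 F)) := by
        rw [← h]
        exact pr_t_mem_R _ _
      rw [Set.mem_singleton_iff] at h3
      have h4 : pr (t (e 0 : Fin 2 ⊕ Fin 2 → F) 1) = pr (t (e 0) 0) := by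
        rw [h3, t_zero, map_one]
      have h5 := hinj h4
      have h6 := congrArg (fun z : Matrix.symplecticGroup (Fin 2) F =>
        (z : Matrix (Fin 2 ⊕ Fin 2) (Fin 2 ⊕ Fin 2) F) *ᵥ f 0) h5
      simp only [t_mulVec, form_e_right, f_apply_inr, if_pos, mul_one, zero_mul, zero_smul,
        add_zero, one_smul] at h6
      have h7 := congrFun h6 (Sum.inl 0)
      rw [Pi.add_apply, f_apply_inl, e_apply_inl, if_pos rfl, zero_add] at h7
      exact one_ne_zero h7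
  obtain ⟨g, hg⟩ := exists_sp_map (e_ne_zero (0 : Fin 2)) hv
  rw [← hg, ← conj_R]
  exact he0.image _

/-! ### the dichotomy -/

theorem long_cases [Fintype F] {r : ℕ} (hf : 1 ≤ r) (hF : Fintype.card F = 2 ^ r)
    (h2 : (2 : F) = 0) (α : MulAut (Cfsg.PSp 2 F)) :
    (∀ v : Fin 2 ⊕ Fin 2 → F, v ≠ 0 → ∃ v' : Fin 2 ⊕ Fin 2 → F, v' ≠ 0 ∧ α '' R v = R v') ∨
    (∀ v : Fin 2 ⊕ Fin 2 → F, v ≠ 0 → ∃ u' v' x₁ x₂ : Fin 2 ⊕ Fin 2 → F,
      Dual u' v' x₁ x₂ ∧ α '' R v = Sh u' v') := by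
  rcases ((isRt_R hf hF h2 (e_ne_zero (0 : Fin 2))).image α).cases hf hF (le_refl 2) h2 with
    ⟨w, hw, h⟩ | ⟨u, v, x₁, x₂, D, h⟩
  · left
    intro v hv
    obtain ⟨g, hg⟩ := exists_sp_map (e_ne_zero (0 : Fin 2)) hv
    obtain ⟨g', hg'⟩ := pr_surjective (α (pr g))
    refine ⟨_, mulVec_ne_zero g' hw, ?_⟩
    rw [← hg, ← conj_R, image_conj, h, ← hg', conj_R]
  · right
    intro v' hv'
    obtain ⟨g, hg⟩ := exists_sp_map (e_ne_zero (0 : Fin 2)) hv'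
    obtain ⟨g', hg'⟩ := pr_surjective (α (pr g))
    refine ⟨_, _, _, _, dual_map D g', ?_⟩
    rw [← hg, ← conj_R, image_conj, h, ← hg', conj_Sh]

theorem short_cases [Fintype F] {r : ℕ} (hf : 1 ≤ r) (hF : Fintype.card F = 2 ^ r)
    (h2 : (2 : F) = 0) (α : MulAut (Cfsg.PSp 2 F)) :
    (∀ u v x₁ x₂ : Fin 2 ⊕ Fin 2 → F, Dual u v x₁ x₂ →
      ∃ v' : Fin 2 ⊕ Fin 2 → F, v' ≠ 0 ∧ α '' Sh u v = R v') ∨
    (∀ u v x₁ x₂ : Fin 2 ⊕ Fin 2 → F, Dual u v x₁ x₂ →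
      ∃ u' v' x₁' x₂' : Fin 2 ⊕ Fin 2 → F, Dual u' v' x₁' x₂' ∧ α '' Sh u v = Sh u' v') := by
  have h01 : (0 : Fin 2) ≠ 1 := by decide
  have D₀ : Dual (e 0 : Fin 2 ⊕ Fin 2 → F) (e 1) (f 0) (f 1) := dual_e h01
  rcases ((isRt_Sh hf hF h2 D₀).image α).cases hf hF (le_refl 2) h2 with
    ⟨w, hw, h⟩ | ⟨u, v, x₁, x₂, D, h⟩
  · left
    intro u' v' x₁' x₂' D'
    obtain ⟨g, hg0, hg1⟩ := exists_sp_dual D'
    obtain ⟨g', hg'⟩ := pr_surjective (α (pr g))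
    refine ⟨_, mulVec_ne_zero g' hw, ?_⟩
    rw [← hg0, ← hg1, ← conj_Sh, image_conj, h, ← hg', conj_R]
  · right
    intro u' v' x₁' x₂' D'
    obtain ⟨g, hg0, hg1⟩ := exists_sp_dual D'
    obtain ⟨g', hg'⟩ := pr_surjective (α (pr g))
    refine ⟨_, _, _, _, dual_map D g', ?_⟩
    rw [← hg0, ← hg1, ← conj_Sh, image_conj, h, ← hg', conj_Sh]

/-- `α` maps long root sets to long root sets -/
def Lg (α : MulAut (Cfsg.PSp 2 F)) : Prop :=
  ∀ v : Fin 2 ⊕ Fin 2 → F, v ≠ 0 → ∃ v' : Fin 2 ⊕ Fin 2 → F, v' ≠ 0 ∧ α '' R v = R v'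

theorem lg_inv [Fintype F] {r : ℕ} (hf : 1 ≤ r) (hF : Fintype.card F = 2 ^ r)
    (h2 : (2 : F) = 0) {α : MulAut (Cfsg.PSp 2 F)} (h : Lg α) : Lg α⁻¹ := by
  rcases long_cases hf hF h2 α⁻¹ with h1 | h1
  · exact h1
  · exfalso
    obtain ⟨w, hw, hw'⟩ := h (e 0) (e_ne_zero 0)
    obtain ⟨u', v', x₁, x₂, D, h3⟩ := h1 w hw
    rw [← hw', inv_image_image] at h3
    exact R_ne_Sh (by omega) h2 D _ h3

theorem permA_of_lg [Fintype F] {r : ℕ} (hf : 1 ≤ r) (hF : Fintype.card F = 2 ^ r)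
    (h2 : (2 : F) = 0) {α : MulAut (Cfsg.PSp 2 F)} (h : Lg α) : PermA α :=
  ⟨h, lg_inv hf hF h2 h⟩

/-- two automorphisms not permuting the long root sets differ by one that does -/
theorem permA_inv_mul [Fintype F] {r : ℕ} (hf : 1 ≤ r) (hF : Fintype.card F = 2 ^ r)
    (h2 : (2 : F) = 0) {α β : MulAut (Cfsg.PSp 2 F)} (hα : ¬ PermA α) (hβ : ¬ PermA β) :
    PermA (α⁻¹ * β) := by
  apply permA_of_lg hf hF h2
  have hα1 : ∀ v : Fin 2 ⊕ Fin 2 → F, v ≠ 0 → ∃ u' v' x₁ x₂ : Fin 2 ⊕ Fin 2 → F,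
      Dual u' v' x₁ x₂ ∧ α '' R v = Sh u' v' := by
    rcases long_cases hf hF h2 α with h | h
    · exact absurd (permA_of_lg hf hF h2 h) hα
    · exact h
  have hβ1 : ∀ v : Fin 2 ⊕ Fin 2 → F, v ≠ 0 → ∃ u' v' x₁ x₂ : Fin 2 ⊕ Fin 2 → F,
      Dual u' v' x₁ x₂ ∧ β '' R v = Sh u' v' := by
    rcases long_cases hf hF h2 β with h | h
    · exact absurd (permA_of_lg hf hF h2 h) hβ
    · exact h
  have hα2 : ∀ u v x₁ x₂ : Fin 2 ⊕ Fin 2 → F, Dual u v x₁ x₂ →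
      ∃ v' : Fin 2 ⊕ Fin 2 → F, v' ≠ 0 ∧ (α⁻¹ : MulAut (Cfsg.PSp 2 F)) '' Sh u v = R v' := by
    rcases short_cases hf hF h2 α⁻¹ with h | h
    · exact h
    · exfalso
      obtain ⟨u', v', x₁, x₂, D, h3⟩ := hα1 (e 0) (e_ne_zero 0)
      obtain ⟨u'', v'', x₁', x₂', D', h4⟩ := h u' v' x₁ x₂ D
      rw [← h3, inv_image_image] at h4
      exact R_ne_Sh (by omega) h2 D' _ h4
  intro v hv
  obtain ⟨u', v', x₁, x₂, D, h3⟩ := hβ1 v hv
  obtain ⟨w, hw, h4⟩ := hα2 u' v' x₁ x₂ D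
  exact ⟨w, hw, by rw [image_mul, h3, h4]⟩

theorem permA_one {m : ℕ} : PermA (1 : MulAut (Cfsg.PSp m F)) := by
  constructor
  · intro v hv
    exact ⟨v, hv, by rw [MulAut.coe_one, Set.image_id]⟩
  · intro v hv
    exact ⟨v, hv, by rw [inv_one, MulAut.coe_one, Set.image_id]⟩

theorem permA_pow {m : ℕ} {α : MulAut (Cfsg.PSp m F)} (h : PermA α) (k : ℕ) : PermA (α ^ k) := by
  induction k with
  | zero => rw [pow_zero]; exact permA_one
  | succ k ih => rw [pow_succ]; exact ih.mul h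

/-- automorphisms of odd order permute the long root sets -/
theorem permA_of_odd [Fintype F] {r : ℕ} (hf : 1 ≤ r) (hF : Fintype.card F = 2 ^ r)
    (h2 : (2 : F) = 0) {α : MulAut (Cfsg.PSp 2 F)} {k : ℕ} (hk : α ^ (2 * k + 1) = 1) :
    PermA α := by
  by_contra hα
  have hα' : ¬ PermA α⁻¹ := by
    intro h
    apply hα
    have := h.inv
    rwa [inv_inv] at this
  have h1 := permA_inv_mul hf hF h2 hα' hα
  rw [inv_inv] at h1
  have h3 := (permA_pow h1 k).inv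
  apply hα
  have h4 : (α * α) ^ k * α = 1 := by
    rw [← pow_two, ← pow_mul, ← pow_succ]
    exact hk
  have h5 : ((α * α) ^ k)⁻¹ = α := by
    rw [inv_eq_iff_eq_inv]
    exact eq_inv_of_mul_eq_one_left h4
  rw [h5] at h3
  exact h3

end Cfsg.Agent.Lib.Helper43.Sp4Root
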