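import Mathlib
import Cfsg.Agent.Lib.Helper43.Sp4Root

set_option autoImplicit false

namespace Cfsg.Agent.Lib.Helper43.Sp4Graph

open Matrix Cfsg.Agent.Lib.Helper13.SympMat Cfsg.Agent.Lib.Helper43.SpBasic
  Cfsg.Agent.Lib.Helper43.SpPair Cfsg.Agent.Lib.Helper43.SpZ
  Cfsg.Agent.Lib.Helper43.SpRel Cfsg.Agent.Lib.Helper43.Sp4Root

variable {F : Type*} [Field F]

/-! ### minors -/

/-- signed `2 × 2` minors -/
def mn (g : Matrix (Fin 2 ⊕ Fin 2) (Fin 2 ⊕ Fin 2) F) (k l i j : Fin 2 ⊕ Fin 2) : F :=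
  g k i * g l j - g k j * g l i

/-- the four pairs of indices giving a basis of the four-dimensional subquotient -/
def bp (x : Fin 2 ⊕ Fin 2) : (Fin 2 ⊕ Fin 2) × (Fin 2 ⊕ Fin 2) :=
  match x with
  | Sum.inl i => (Sum.inl 0, if i = 0 then Sum.inl 1 else Sum.inr 1)
  | Sum.inr i => (Sum.inr 0, if i = 0 then Sum.inr 1 else Sum.inl 1)

/-- the matrix of minors -/
def τm (g : Matrix (Fin 2 ⊕ Fin 2) (Fin 2 ⊕ Fin 2) F) :
    Matrix (Fin 2 ⊕ Fin 2) (Fin 2 ⊕ Fin 2) F :=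
  Matrix.of fun x y => mn g (bp x).1 (bp x).2 (bp y).1 (bp y).2

theorem τm_apply (g : Matrix (Fin 2 ⊕ Fin 2) (Fin 2 ⊕ Fin 2) F) (x y : Fin 2 ⊕ Fin 2) :
    τm g x y = mn g (bp x).1 (bp x).2 (bp y).1 (bp y).2 := rfl

theorem sum_I (φ : Fin 2 ⊕ Fin 2 → F) :
    ∑ z, φ z = φ (Sum.inl 0) + φ (Sum.inl 1) + φ (Sum.inr 0) + φ (Sum.inr 1) := by
  rw [Fintype.sum_sum_type, Fin.sum_univ_two, Fin.sum_univ_two]
  ring

/-- the Cauchy–Binet formula for `2 × 2` minors -/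
theorem mn_mul (g h : Matrix (Fin 2 ⊕ Fin 2) (Fin 2 ⊕ Fin 2) F) (k l i j : Fin 2 ⊕ Fin 2) :
    mn (g * h) k l i j =
      mn g k l (Sum.inl 0) (Sum.inl 1) * mn h (Sum.inl 0) (Sum.inl 1) i j +
      mn g k l (Sum.inl 0) (Sum.inr 1) * mn h (Sum.inl 0) (Sum.inr 1) i j +
      mn g k l (Sum.inr 0) (Sum.inr 1) * mn h (Sum.inr 0) (Sum.inr 1) i j +
      mn g k l (Sum.inr 0) (Sum.inl 1) * mn h (Sum.inr 0) (Sum.inl 1) i j +
      mn g k l (Sum.inl 0) (Sum.inr 0) * mn h (Sum.inl 0) (Sum.inr 0) i j +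
      mn g k l (Sum.inl 1) (Sum.inr 1) * mn h (Sum.inl 1) (Sum.inr 1) i j := by
  unfold mn
  rw [Matrix.mul_apply, Matrix.mul_apply, Matrix.mul_apply, Matrix.mul_apply]
  simp only [sum_I]
  ring

theorem J_inl_inl (i j : Fin 2) : J (Fin 2) F (Sum.inl i) (Sum.inl j) = 0 := rfl

theorem J_inr_inr (i j : Fin 2) : J (Fin 2) F (Sum.inr i) (Sum.inr j) = 0 := rfl

theorem J_inl_inr (i j : Fin 2) :
    J (Fin 2) F (Sum.inl i) (Sum.inr j) = if i = j then -1 else 0 := by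
  show (-1 : Matrix (Fin 2) (Fin 2) F) i j = _
  rw [Matrix.neg_apply, Matrix.one_apply]
  split_ifs <;> simp

theorem J_inr_inl (i j : Fin 2) :
    J (Fin 2) F (Sum.inr i) (Sum.inl j) = if i = j then 1 else 0 := by
  show (1 : Matrix (Fin 2) (Fin 2) F) i j = _
  rw [Matrix.one_apply]

theorem mul_J_transpose (g : Matrix (Fin 2 ⊕ Fin 2) (Fin 2 ⊕ Fin 2) F)
    (k l : Fin 2 ⊕ Fin 2) :
    (g * J (Fin 2) F * gᵀ) k l =
      -(mn g k l (Sum.inl 0) (Sum.inr 0) + mn g k l (Sum.inl 1) (Sum.inr 1)) := by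
  unfold mn
  rw [Matrix.mul_apply]
  simp only [Matrix.mul_apply, Matrix.transpose_apply, sum_I, J_inl_inl, J_inr_inr, J_inl_inr,
    J_inr_inl]
  simp
  ring

theorem transpose_J_mul (g : Matrix (Fin 2 ⊕ Fin 2) (Fin 2 ⊕ Fin 2) F)
    (k l : Fin 2 ⊕ Fin 2) :
    (gᵀ * J (Fin 2) F * g) k l =
      -(mn g (Sum.inl 0) (Sum.inr 0) k l + mn g (Sum.inl 1) (Sum.inr 1) k l) := by
  unfold mn
  rw [Matrix.mul_apply]
  simp only [Matrix.mul_apply, Matrix.transpose_apply, sum_I, J_inl_inl, J_inr_inr, J_inl_inr,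
    J_inr_inl]
  simp
  ring

theorem J_bp (x : Fin 2 ⊕ Fin 2) : J (Fin 2) F (bp x).1 (bp x).2 = 0 := by
  rcases x with i | i <;> fin_cases i <;> simp [bp, J_inl_inl, J_inr_inr, J_inl_inr, J_inr_inl]

theorem bp_inl0 : bp (Sum.inl 0) = (Sum.inl 0, Sum.inl 1) := rfl

theorem bp_inl1 : bp (Sum.inl 1) = (Sum.inl 0, Sum.inr 1) := rfl

theorem bp_inr0 : bp (Sum.inr 0) = (Sum.inr 0, Sum.inr 1) := rfl

theorem bp_inr1 : bp (Sum.inr 1) = (Sum.inr 0, Sum.inl 1) := rfl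

/-! ### multiplicativity -/

theorem τm_one : τm (1 : Matrix (Fin 2 ⊕ Fin 2) (Fin 2 ⊕ Fin 2) F) = 1 := by
  ext x y
  rw [τm_apply]
  unfold mn
  rcases x with i | i <;> rcases y with j | j <;> fin_cases i <;> fin_cases j <;>
    simp [bp, Matrix.one_apply]

theorem τm_mul (h2 : (2 : F) = 0) {g h : Matrix (Fin 2 ⊕ Fin 2) (Fin 2 ⊕ Fin 2) F}
    (hg : g * J (Fin 2) F * gᵀ = J (Fin 2) F) (hh : hᵀ * J (Fin 2) F * h = J (Fin 2) F) :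
    τm (g * h) = τm g * τm h := by
  ext x y
  rw [τm_apply, mn_mul, Matrix.mul_apply, sum_I]
  have e1 := mul_J_transpose g (bp x).1 (bp x).2
  rw [hg, J_bp] at e1
  have e2 := transpose_J_mul h (bp y).1 (bp y).2
  rw [hh, J_bp] at e2
  simp only [τm_apply, bp_inl0, bp_inl1, bp_inr0, bp_inr1]
  linear_combination (mn h (Sum.inl 1) (Sum.inr 1) (bp y).1 (bp y).2) * e1 +
    (mn g (bp x).1 (bp x).2 (Sum.inl 0) (Sum.inr 0)) * e2 -
    (mn g (bp x).1 (bp x).2 (Sum.inl 0) (Sum.inr 0)) *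
      (mn h (Sum.inl 1) (Sum.inr 1) (bp y).1 (bp y).2) * h2

/-! ### the symplectic adjoint -/

/-- the symplectic adjoint in characteristic two -/
def tw (g : Matrix (Fin 2 ⊕ Fin 2) (Fin 2 ⊕ Fin 2) F) :
    Matrix (Fin 2 ⊕ Fin 2) (Fin 2 ⊕ Fin 2) F :=
  Matrix.of fun k l => g (Sum.swap l) (Sum.swap k)

theorem tw_apply (g : Matrix (Fin 2 ⊕ Fin 2) (Fin 2 ⊕ Fin 2) F) (k l : Fin 2 ⊕ Fin 2) :
    tw g k l = g (Sum.swap l) (Sum.swap k) := rfl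

theorem bp_swap (x : Fin 2 ⊕ Fin 2) :
    bp (Sum.swap x) = (Sum.swap (bp x).1, Sum.swap (bp x).2) := by
  rcases x with i | i <;> fin_cases i <;> rfl

theorem τm_tw (g : Matrix (Fin 2 ⊕ Fin 2) (Fin 2 ⊕ Fin 2) F) : τm (tw g) = tw (τm g) := by
  ext x y
  rw [τm_apply, tw_apply, τm_apply, bp_swap, bp_swap]
  unfold mn
  simp only [tw_apply]
  ring

theorem mul_tw_apply (g : Matrix (Fin 2 ⊕ Fin 2) (Fin 2 ⊕ Fin 2) F) (k l : Fin 2 ⊕ Fin 2) :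
    (g * tw g) k l = (g * J (Fin 2) F * gᵀ) k (Sum.swap l) +
      2 * (g k (Sum.inl 0) * g (Sum.swap l) (Sum.inr 0) +
        g k (Sum.inl 1) * g (Sum.swap l) (Sum.inr 1)) := by
  rw [mul_J_transpose]
  unfold mn
  rw [Matrix.mul_apply, sum_I]
  simp only [tw_apply, Sum.swap_inl, Sum.swap_inr]
  ring

theorem J_swap (h2 : (2 : F) = 0) (k l : Fin 2 ⊕ Fin 2) :
    J (Fin 2) F k (Sum.swap l) = (1 : Matrix (Fin 2 ⊕ Fin 2) (Fin 2 ⊕ Fin 2) F) k l := by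
  have hneg : (-1 : F) = 1 := by linear_combination -h2
  rcases k with i | i <;> rcases l with j | j
  · rw [Sum.swap_inl, J_inl_inr, Matrix.one_apply]
    by_cases h : i = j
    · rw [if_pos h, if_pos (by rw [h]), hneg]
    · rw [if_neg h, if_neg (fun h' => h (Sum.inl.inj h'))]
  · rw [Sum.swap_inr, J_inl_inl, Matrix.one_apply, if_neg (by simp)]
  · rw [Sum.swap_inl, J_inr_inr, Matrix.one_apply, if_neg (by simp)]
  · rw [Sum.swap_inr, J_inr_inl, Matrix.one_apply]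
    by_cases h : i = j
    · rw [if_pos h, if_pos (by rw [h])]
    · rw [if_neg h, if_neg (fun h' => h (Sum.inr.inj h'))]

theorem mul_tw (h2 : (2 : F) = 0) {g : Matrix (Fin 2 ⊕ Fin 2) (Fin 2 ⊕ Fin 2) F}
    (hg : g * J (Fin 2) F * gᵀ = J (Fin 2) F) : g * tw g = 1 := by
  ext k l
  rw [mul_tw_apply, hg, J_swap h2, h2, zero_mul, add_zero]

theorem symp_of_mul_tw (h2 : (2 : F) = 0) {g : Matrix (Fin 2 ⊕ Fin 2) (Fin 2 ⊕ Fin 2) F}
    (h : g * tw g = 1) : g * J (Fin 2) F * gᵀ = J (Fin 2) F := by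
  ext k l
  have h1 := mul_tw_apply g k (Sum.swap l)
  rw [h, Sum.swap_swap, h2, zero_mul, add_zero] at h1
  rw [← h1, ← J_swap h2 k (Sum.swap l), Sum.swap_swap]

theorem τm_mem (h2 : (2 : F) = 0) {g : Matrix (Fin 2 ⊕ Fin 2) (Fin 2 ⊕ Fin 2) F}
    (hg : g ∈ Matrix.symplecticGroup (Fin 2) F) : τm g ∈ Matrix.symplecticGroup (Fin 2) F := by
  have hg1 := SymplecticGroup.mem_iff.1 hg
  rw [SymplecticGroup.mem_iff]
  apply symp_of_mul_tw h2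
  have h3 := mul_tw h2 hg1
  obtain ⟨G, hG⟩ : ∃ G : Matrix.symplecticGroup (Fin 2) F,
      (G : Matrix (Fin 2 ⊕ Fin 2) (Fin 2 ⊕ Fin 2) F) = g := ⟨⟨g, hg⟩, rfl⟩
  have h4 : ((G⁻¹ : Matrix.symplecticGroup (Fin 2) F) :
      Matrix (Fin 2 ⊕ Fin 2) (Fin 2 ⊕ Fin 2) F) * g = 1 := by
    rw [← hG, ← Submonoid.coe_mul, inv_mul_cancel, Submonoid.coe_one]
  have h5 : tw g = ((G⁻¹ : Matrix.symplecticGroup (Fin 2) F) :
      Matrix (Fin 2 ⊕ Fin 2) (Fin 2 ⊕ Fin 2) F) := by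
    calc tw g = ((G⁻¹ : Matrix.symplecticGroup (Fin 2) F) :
          Matrix (Fin 2 ⊕ Fin 2) (Fin 2 ⊕ Fin 2) F) * g * tw g := by rw [h4, Matrix.one_mul]
      _ = ((G⁻¹ : Matrix.symplecticGroup (Fin 2) F) :
          Matrix (Fin 2 ⊕ Fin 2) (Fin 2 ⊕ Fin 2) F) := by rw [Matrix.mul_assoc, h3, Matrix.mul_one]
  have h6 : (tw g)ᵀ * J (Fin 2) F * tw g = J (Fin 2) F := by
    rw [h5]
    exact SymplecticGroup.mem_iff'.1 (G⁻¹).2
  rw [← τm_tw, ← τm_mul h2 hg1 h6, h3, τm_one]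

/-- the exceptional endomorphism of `Sp₄` in characteristic two -/
noncomputable def τ (h2 : (2 : F) = 0) :
    Matrix.symplecticGroup (Fin 2) F →* Matrix.symplecticGroup (Fin 2) F where
  toFun g := ⟨τm g, τm_mem h2 g.2⟩
  map_one' := Subtype.ext τm_one
  map_mul' g h := Subtype.ext
    (τm_mul h2 (SymplecticGroup.mem_iff.1 g.2) (SymplecticGroup.mem_iff'.1 h.2))

theorem τ_coe (h2 : (2 : F) = 0) (g : Matrix.symplecticGroup (Fin 2) F) :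
    ((τ h2 g : Matrix.symplecticGroup (Fin 2) F) :
      Matrix (Fin 2 ⊕ Fin 2) (Fin 2 ⊕ Fin 2) F) = τm g := rfl

/-! ### injectivity -/

theorem H_of {g : Matrix (Fin 2 ⊕ Fin 2) (Fin 2 ⊕ Fin 2) F} (h : τm g = 1)
    (x y : Fin 2 ⊕ Fin 2) :
    mn g (bp x).1 (bp x).2 (bp y).1 (bp y).2 = if x = y then 1 else 0 := by
  rw [← τm_apply, h, Matrix.one_apply]

theorem mn_swap (g : Matrix (Fin 2 ⊕ Fin 2) (Fin 2 ⊕ Fin 2) F) (k l i j : Fin 2 ⊕ Fin 2) :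
    mn g k l j i = - mn g k l i j := by
  unfold mn
  ring

/-- the Plücker relation forces the two remaining coordinates to vanish -/
theorem pl_zero (g : Matrix (Fin 2 ⊕ Fin 2) (Fin 2 ⊕ Fin 2) F) (k l : Fin 2 ⊕ Fin 2)
    (hJ : mn g k l (Sum.inl 0) (Sum.inr 0) + mn g k l (Sum.inl 1) (Sum.inr 1) = 0)
    (h13 : mn g k l (Sum.inl 0) (Sum.inl 1) * mn g k l (Sum.inr 0) (Sum.inr 1) = 0)
    (h24 : mn g k l (Sum.inl 0) (Sum.inr 1) * mn g k l (Sum.inr 0) (Sum.inl 1) = 0) :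
    mn g k l (Sum.inl 0) (Sum.inr 0) = 0 ∧ mn g k l (Sum.inl 1) (Sum.inr 1) = 0 := by
  have hpl : mn g k l (Sum.inl 0) (Sum.inl 1) * mn g k l (Sum.inr 0) (Sum.inr 1) -
      mn g k l (Sum.inl 0) (Sum.inr 0) * mn g k l (Sum.inl 1) (Sum.inr 1) -
      mn g k l (Sum.inl 0) (Sum.inr 1) * mn g k l (Sum.inr 0) (Sum.inl 1) = 0 := by
    unfold mn
    ring
  have hQ2 : (mn g k l (Sum.inl 0) (Sum.inr 0)) ^ 2 = 0 := by
    linear_combination (mn g k l (Sum.inl 0) (Sum.inr 0)) * hJ - h13 + h24 + hpl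
  have hQ : mn g k l (Sum.inl 0) (Sum.inr 0) = 0 :=
    (pow_eq_zero_iff (n := 2) (by norm_num)).1 hQ2
  refine ⟨hQ, ?_⟩
  rw [hQ, zero_add] at hJ
  exact hJ

/-- rows `k`, `l` with Plücker coordinates those of `e_k ∧ e_l` vanish outside `k`, `l` -/
theorem row_zero (g : Matrix (Fin 2 ⊕ Fin 2) (Fin 2 ⊕ Fin 2) F) (k l c : Fin 2 ⊕ Fin 2)
    (hkl : mn g k l k l = 1) (h1 : mn g k l k c = 0) (h2 : mn g k l l c = 0) :
    g k c = 0 ∧ g l c = 0 := by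
  unfold mn at hkl h1 h2
  constructor
  · linear_combination (-(g k c)) * hkl + (g k l) * h1 - (g k k) * h2
  · linear_combination (-(g l c)) * hkl + (g l l) * h1 - (g l k) * h2

theorem τm_eq_one (h2 : (2 : F) = 0) {g : Matrix (Fin 2 ⊕ Fin 2) (Fin 2 ⊕ Fin 2) F}
    (hg : g * J (Fin 2) F * gᵀ = J (Fin 2) F) (h : τm g = 1) : g = 1 := by
  have Rg : ∀ k l : Fin 2 ⊕ Fin 2,
      mn g k l (Sum.inl 0) (Sum.inr 0) + mn g k l (Sum.inl 1) (Sum.inr 1) =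
        - J (Fin 2) F k l := by
    intro k l
    have e1 := mul_J_transpose g k l
    rw [hg] at e1
    rw [e1, neg_neg]
  -- the sixteen known minors
  have Haa : mn g (Sum.inl 0) (Sum.inl 1) (Sum.inl 0) (Sum.inl 1) = 1 :=
    H_of h (Sum.inl 0) (Sum.inl 0)
  have Hab : mn g (Sum.inl 0) (Sum.inl 1) (Sum.inl 0) (Sum.inr 1) = 0 :=
    H_of h (Sum.inl 0) (Sum.inl 1)
  have Hac : mn g (Sum.inl 0) (Sum.inl 1) (Sum.inr 0) (Sum.inr 1) = 0 :=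
    H_of h (Sum.inl 0) (Sum.inr 0)
  have Had : mn g (Sum.inl 0) (Sum.inl 1) (Sum.inr 0) (Sum.inl 1) = 0 :=
    H_of h (Sum.inl 0) (Sum.inr 1)
  have Hba : mn g (Sum.inl 0) (Sum.inr 1) (Sum.inl 0) (Sum.inl 1) = 0 :=
    H_of h (Sum.inl 1) (Sum.inl 0)
  have Hbb : mn g (Sum.inl 0) (Sum.inr 1) (Sum.inl 0) (Sum.inr 1) = 1 :=
    H_of h (Sum.inl 1) (Sum.inl 1)
  have Hbc : mn g (Sum.inl 0) (Sum.inr 1) (Sum.inr 0) (Sum.inr 1) = 0 :=
    H_of h (Sum.inl 1) (Sum.inr 0)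
  have Hbd : mn g (Sum.inl 0) (Sum.inr 1) (Sum.inr 0) (Sum.inl 1) = 0 :=
    H_of h (Sum.inl 1) (Sum.inr 1)
  have Hca : mn g (Sum.inr 0) (Sum.inr 1) (Sum.inl 0) (Sum.inl 1) = 0 :=
    H_of h (Sum.inr 0) (Sum.inl 0)
  have Hcb : mn g (Sum.inr 0) (Sum.inr 1) (Sum.inl 0) (Sum.inr 1) = 0 :=
    H_of h (Sum.inr 0) (Sum.inl 1)
  have Hcc : mn g (Sum.inr 0) (Sum.inr 1) (Sum.inr 0) (Sum.inr 1) = 1 :=
    H_of h (Sum.inr 0) (Sum.inr 0)
  have Hcd : mn g (Sum.inr 0) (Sum.inr 1) (Sum.inr 0) (Sum.inl 1) = 0 :=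
    H_of h (Sum.inr 0) (Sum.inr 1)
  have Hda : mn g (Sum.inr 0) (Sum.inl 1) (Sum.inl 0) (Sum.inl 1) = 0 :=
    H_of h (Sum.inr 1) (Sum.inl 0)
  have Hdb : mn g (Sum.inr 0) (Sum.inl 1) (Sum.inl 0) (Sum.inr 1) = 0 :=
    H_of h (Sum.inr 1) (Sum.inl 1)
  have Hdc : mn g (Sum.inr 0) (Sum.inl 1) (Sum.inr 0) (Sum.inr 1) = 0 :=
    H_of h (Sum.inr 1) (Sum.inr 0)
  have Hdd : mn g (Sum.inr 0) (Sum.inl 1) (Sum.inr 0) (Sum.inl 1) = 1 :=
    H_of h (Sum.inr 1) (Sum.inr 1)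
  -- the remaining Plücker coordinates
  have Ja : J (Fin 2) F (Sum.inl 0) (Sum.inl 1) = 0 := J_inl_inl 0 1
  have Jb : J (Fin 2) F (Sum.inl 0) (Sum.inr 1) = 0 := by
    rw [J_inl_inr, if_neg (by decide)]
  have Jc : J (Fin 2) F (Sum.inr 0) (Sum.inr 1) = 0 := J_inr_inr 0 1
  have Jd : J (Fin 2) F (Sum.inr 0) (Sum.inl 1) = 0 := by
    rw [J_inr_inl, if_neg (by decide)]
  obtain ⟨Qa, Qa'⟩ := pl_zero g (Sum.inl 0) (Sum.inl 1) (by rw [Rg, Ja, neg_zero])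
    (by rw [Hac, mul_zero]) (by rw [Hab, zero_mul])
  obtain ⟨Qb, Qb'⟩ := pl_zero g (Sum.inl 0) (Sum.inr 1) (by rw [Rg, Jb, neg_zero])
    (by rw [Hba, zero_mul]) (by rw [Hbd, mul_zero])
  obtain ⟨Qc, Qc'⟩ := pl_zero g (Sum.inr 0) (Sum.inr 1) (by rw [Rg, Jc, neg_zero])
    (by rw [Hca, zero_mul]) (by rw [Hcb, zero_mul])
  obtain ⟨Qd, Qd'⟩ := pl_zero g (Sum.inr 0) (Sum.inl 1) (by rw [Rg, Jd, neg_zero])
    (by rw [Hda, zero_mul]) (by rw [Hdb, zero_mul])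
  -- the off-diagonal entries vanish
  obtain ⟨z13, z23⟩ := row_zero g (Sum.inl 0) (Sum.inl 1) (Sum.inr 0) Haa Qa
    (by rw [mn_swap, Had, neg_zero])
  obtain ⟨z14, z24⟩ := row_zero g (Sum.inl 0) (Sum.inl 1) (Sum.inr 1) Haa Hab Qa'
  obtain ⟨z12, z42⟩ := row_zero g (Sum.inl 0) (Sum.inr 1) (Sum.inl 1) Hbb Hba
    (by rw [mn_swap, Qb', neg_zero])
  obtain ⟨-, z43⟩ := row_zero g (Sum.inl 0) (Sum.inr 1) (Sum.inr 0) Hbb Qb
    (by rw [mn_swap, Hbc, neg_zero])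
  obtain ⟨z31, z41⟩ := row_zero g (Sum.inr 0) (Sum.inr 1) (Sum.inl 0) Hcc
    (by rw [mn_swap, Qc, neg_zero]) (by rw [mn_swap, Hcb, neg_zero])
  obtain ⟨z32, -⟩ := row_zero g (Sum.inr 0) (Sum.inr 1) (Sum.inl 1) Hcc Hcd
    (by rw [mn_swap, Qc', neg_zero])
  obtain ⟨-, z21⟩ := row_zero g (Sum.inr 0) (Sum.inl 1) (Sum.inl 0) Hdd
    (by rw [mn_swap, Qd, neg_zero]) (by rw [mn_swap, Hda, neg_zero])
  obtain ⟨z34, -⟩ := row_zero g (Sum.inr 0) (Sum.inl 1) (Sum.inr 1) Hdd Hdc Qd'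
  -- the diagonal entries
  have R13 := Rg (Sum.inl 0) (Sum.inr 0)
  rw [J_inl_inr, if_pos rfl, neg_neg] at R13
  unfold mn at Haa Hbb Hcc Hdd R13
  rw [z12, zero_mul, sub_zero] at Haa
  rw [z14, zero_mul, sub_zero] at Hbb
  rw [z34, zero_mul, sub_zero] at Hcc
  rw [z32, zero_mul, sub_zero] at Hdd
  rw [z13, zero_mul, sub_zero, z12, zero_mul, z14, zero_mul, sub_zero, add_zero] at R13
  have d14 : g (Sum.inl 0) (Sum.inl 0) = g (Sum.inr 1) (Sum.inr 1) := by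
    linear_combination (-(g (Sum.inl 0) (Sum.inl 0))) * Hcc + (g (Sum.inr 1) (Sum.inr 1)) * R13
  have d1 : g (Sum.inl 0) (Sum.inl 0) = 1 := by
    have h3 : (g (Sum.inl 0) (Sum.inl 0) - 1) ^ 2 = 0 := by
      linear_combination Hbb + (g (Sum.inl 0) (Sum.inl 0)) * d14 + (1 -
        g (Sum.inl 0) (Sum.inl 0)) * h2
    exact sub_eq_zero.1 ((pow_eq_zero_iff (n := 2) (by norm_num)).1 h3)
  rw [d1, one_mul] at Haa Hbb R13
  rw [R13, one_mul] at Hcc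
  ext k l
  rcases k with i | i <;> rcases l with j | j <;> fin_cases i <;> fin_cases j <;>
    simp [Matrix.one_apply, d1, Haa, Hbb, R13, z12, z13, z14, z21, z23, z24, z31, z32, z34, z41,
      z42, z43]

/-! ### root elements -/

theorem sp_apply {m : ℕ} (g : Matrix.symplecticGroup (Fin m) F) (k l : Fin m ⊕ Fin m) :
    (g : Matrix (Fin m ⊕ Fin m) (Fin m ⊕ Fin m) F) k l =
      ((g : Matrix (Fin m ⊕ Fin m) (Fin m ⊕ Fin m) F) *ᵥ Pi.single l 1) k := by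
  rw [Matrix.mulVec_single_one]
  rfl

theorem t_e0_apply (a : F) (k l : Fin 2 ⊕ Fin 2) :
    ((t (e 0) a : Matrix.symplecticGroup (Fin 2) F) :
        Matrix (Fin 2 ⊕ Fin 2) (Fin 2 ⊕ Fin 2) F) k l =
      (1 : Matrix (Fin 2 ⊕ Fin 2) (Fin 2 ⊕ Fin 2) F) k l +
        (if k = Sum.inl 0 ∧ l = Sum.inr 0 then a else 0) := by
  rw [sp_apply, t_mulVec, form_e_right, Matrix.one_apply]
  rcases k with i | i <;> rcases l with j | j <;> fin_cases i <;> fin_cases j <;>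
    simp [e, Pi.single_apply]

theorem Y_e_apply (c : F) (k l : Fin 2 ⊕ Fin 2) :
    ((Y (e 0) (e 1) 0 0 c : Matrix.symplecticGroup (Fin 2) F) :
        Matrix (Fin 2 ⊕ Fin 2) (Fin 2 ⊕ Fin 2) F) k l =
      (1 : Matrix (Fin 2 ⊕ Fin 2) (Fin 2 ⊕ Fin 2) F) k l +
        (if (k = Sum.inl 0 ∧ l = Sum.inr 1) ∨ (k = Sum.inl 1 ∧ l = Sum.inr 0) then c else 0) := by
  rw [sp_apply, Y_mulVec (form_e_e 0 1), form_e_right, form_e_right, Matrix.one_apply]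
  rcases k with i | i <;> rcases l with j | j <;> fin_cases i <;> fin_cases j <;>
    simp [e, Pi.single_apply]

theorem τ_t (h2 : (2 : F) = 0) (a : F) :
    τ h2 (t (e 0) a) = Y (e 0) (e 1) 0 0 a := by
  apply Subtype.ext
  rw [τ_coe]
  ext x y
  rw [τm_apply, Y_e_apply]
  unfold mn
  simp only [t_e0_apply]
  rcases x with i | i <;> rcases y with j | j <;> fin_cases i <;> fin_cases j <;>
    simp [bp, Matrix.one_apply]

theorem τ_Y (h2 : (2 : F) = 0) (c : F) :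
    τ h2 (Y (e 0) (e 1) 0 0 c) = t (e 0) (c ^ 2) := by
  have hneg : -(c * c) = c * c := by linear_combination (-(c * c)) * h2
  apply Subtype.ext
  rw [τ_coe]
  ext x y
  rw [τm_apply, t_e0_apply]
  unfold mn
  simp only [Y_e_apply]
  rcases x with i | i <;> rcases y with j | j <;> fin_cases i <;> fin_cases j <;>
    simp [bp, Matrix.one_apply, hneg, sq]


end Cfsg.Agent.Lib.Helper43.Sp4Graph
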