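import Mathlib
import Cfsg.Prelude.Def_LieTypeDatum
import Cfsg.Agent.Lib.Helper43.SpFrame

set_option autoImplicit false

namespace Cfsg.Agent.Lib.Helper43.SpGSp

open Matrix Cfsg.Agent.Lib.Helper13.SympMat Cfsg.Agent.Lib.Helper43.SpBasic
  Cfsg.Agent.Lib.Helper43.SpAuts Cfsg.Agent.Lib.Helper43.SpFrame

variable {F : Type*} [Field F] {m : ℕ}

/-! ### matrix form of the similarity condition -/

theorem form_mulVec_eq (P Q : Matrix (Fin m ⊕ Fin m) (Fin m ⊕ Fin m) F)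
    (u v : Fin m ⊕ Fin m → F) :
    form m F (P *ᵥ u) (Q *ᵥ v) = Matrix.toBilin' (Pᵀ * J (Fin m) F * Q) u v := by
  rw [← Matrix.toBilin'_comp]
  simp [form]

theorem toBilin_smul_J (c : F) (u v : Fin m ⊕ Fin m → F) :
    Matrix.toBilin' (c • J (Fin m) F) u v = c * form m F u v := by
  rw [map_smul]
  rfl

theorem mem_GSp_mat (g : GL (Fin m ⊕ Fin m) F) :
    g ∈ Cfsg.GSp m F ↔ ∃ c : Fˣ,
      (g : Matrix (Fin m ⊕ Fin m) (Fin m ⊕ Fin m) F)ᵀ * J (Fin m) F *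
        (g : Matrix (Fin m ⊕ Fin m) (Fin m ⊕ Fin m) F) = (c : F) • J (Fin m) F := by
  rw [mem_GSp_iff]
  constructor
  · rintro ⟨c, hc⟩
    refine ⟨c, ?_⟩
    apply Matrix.toBilin'.injective
    apply LinearMap.ext₂
    intro u v
    rw [← form_mulVec_eq, toBilin_smul_J]
    exact hc u v
  · rintro ⟨c, hc⟩
    refine ⟨c, fun u v => ?_⟩
    rw [form_mulVec_eq, hc, toBilin_smul_J]

theorem J_map {K K' : Type*} [Field K] [Field K'] (φ : K →+* K') :
    (J (Fin m) K).map φ = J (Fin m) K' := by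
  ext (i | i) (j | j)
  · simp [Matrix.J]
  · simp [Matrix.J, Matrix.one_apply, apply_ite φ]
  · simp [Matrix.J, Matrix.one_apply, apply_ite φ]
  · simp [Matrix.J]

/-- entrywise application of a field homomorphism on `GSp` -/
def mapGSp {K K' : Type*} [Field K] [Field K'] (φ : K →+* K') :
    ↥(Cfsg.GSp m K) →* ↥(Cfsg.GSp m K') where
  toFun g := ⟨Matrix.GeneralLinearGroup.map φ (g : GL (Fin m ⊕ Fin m) K), by
    obtain ⟨c, hc⟩ := (mem_GSp_mat (g : GL (Fin m ⊕ Fin m) K)).1 g.2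
    rw [mem_GSp_mat]
    refine ⟨Units.map φ.toMonoidHom c, ?_⟩
    show (((g : GL (Fin m ⊕ Fin m) K) : Matrix (Fin m ⊕ Fin m) (Fin m ⊕ Fin m) K).map φ)ᵀ *
      J (Fin m) K' * ((g : GL (Fin m ⊕ Fin m) K) : Matrix (Fin m ⊕ Fin m) (Fin m ⊕ Fin m) K).map φ
      = φ (c : K) • J (Fin m) K'
    rw [← J_map φ, ← Matrix.transpose_map, ← Matrix.map_mul, ← Matrix.map_mul, hc]
    ext i j
    simp
    exact congrFun (congrFun (J_map (m := m) φ) i) j⟩
  map_one' := Subtype.ext (map_one _)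
  map_mul' g h := Subtype.ext (map_mul _ _ _)

theorem mapGSp_coe {K K' : Type*} [Field K] [Field K'] (φ : K →+* K') (g : ↥(Cfsg.GSp m K)) :
    (((mapGSp φ g : ↥(Cfsg.GSp m K')) : GL (Fin m ⊕ Fin m) K') :
      Matrix (Fin m ⊕ Fin m) (Fin m ⊕ Fin m) K') =
      ((g : GL (Fin m ⊕ Fin m) K) : Matrix (Fin m ⊕ Fin m) (Fin m ⊕ Fin m) K).map φ := rfl

theorem gsp_ext {g h : ↥(Cfsg.GSp m F)}
    (H : ((g : GL (Fin m ⊕ Fin m) F) : Matrix (Fin m ⊕ Fin m) (Fin m ⊕ Fin m) F) =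
      ((h : GL (Fin m ⊕ Fin m) F) : Matrix (Fin m ⊕ Fin m) (Fin m ⊕ Fin m) F)) : g = h :=
  Subtype.ext (Units.ext H)

theorem mapGSp_injective {K K' : Type*} [Field K] [Field K'] (φ : K →+* K') :
    Function.Injective (mapGSp (m := m) φ) := by
  intro g h H
  apply gsp_ext
  have h1 := congrArg (fun x : ↥(Cfsg.GSp m K') =>
    ((x : GL (Fin m ⊕ Fin m) K') : Matrix (Fin m ⊕ Fin m) (Fin m ⊕ Fin m) K')) H
  simp only [mapGSp_coe] at h1
  ext i j
  have h2 := congrFun (congrFun h1 i) j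
  rw [Matrix.map_apply, Matrix.map_apply] at h2
  exact φ.injective h2

/-! ### the multiplier -/

/-- the multiplier of a similarity -/
noncomputable def multU (g : ↥(Cfsg.GSp m F)) : Fˣ :=
  Classical.choose ((mem_GSp_iff (g : GL (Fin m ⊕ Fin m) F)).1 g.2)

theorem multU_spec (g : ↥(Cfsg.GSp m F)) (u v : Fin m ⊕ Fin m → F) :
    form m F (((g : GL (Fin m ⊕ Fin m) F) : Matrix (Fin m ⊕ Fin m) (Fin m ⊕ Fin m) F) *ᵥ u)
      (((g : GL (Fin m ⊕ Fin m) F) : Matrix (Fin m ⊕ Fin m) (Fin m ⊕ Fin m) F) *ᵥ v) =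
      (multU g : F) * form m F u v :=
  Classical.choose_spec ((mem_GSp_iff (g : GL (Fin m ⊕ Fin m) F)).1 g.2) u v

theorem multU_eq (hm : 1 ≤ m) (g : ↥(Cfsg.GSp m F)) (c : F)
    (hc : ∀ u v, form m F
      (((g : GL (Fin m ⊕ Fin m) F) : Matrix (Fin m ⊕ Fin m) (Fin m ⊕ Fin m) F) *ᵥ u)
      (((g : GL (Fin m ⊕ Fin m) F) : Matrix (Fin m ⊕ Fin m) (Fin m ⊕ Fin m) F) *ᵥ v) =
      c * form m F u v) : (multU g : F) = c := by
  have h1 := multU_spec g (f ⟨0, hm⟩) (e ⟨0, hm⟩)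
  rw [hc, form_e_right, f_apply_inr, if_pos rfl, mul_one, mul_one] at h1
  exact h1.symm

theorem multU_mat (g : ↥(Cfsg.GSp m F)) :
    ((g : GL (Fin m ⊕ Fin m) F) : Matrix (Fin m ⊕ Fin m) (Fin m ⊕ Fin m) F)ᵀ * J (Fin m) F *
      ((g : GL (Fin m ⊕ Fin m) F) : Matrix (Fin m ⊕ Fin m) (Fin m ⊕ Fin m) F) =
      (multU g : F) • J (Fin m) F := by
  apply Matrix.toBilin'.injective
  apply LinearMap.ext₂
  intro u v
  rw [← form_mulVec_eq, toBilin_smul_J]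
  exact multU_spec g u v

/-- the multiplier as a homomorphism -/
noncomputable def mult (hm : 1 ≤ m) : ↥(Cfsg.GSp m F) →* Fˣ where
  toFun := multU
  map_one' := Units.ext (multU_eq hm 1 1 (fun u v => by
    rw [Subgroup.coe_one, Units.val_one, Matrix.one_mulVec, Matrix.one_mulVec, one_mul]))
  map_mul' g h := Units.ext (multU_eq hm (g * h) _ (fun u v => by
    rw [Subgroup.coe_mul, Units.val_mul, ← Matrix.mulVec_mulVec, ← Matrix.mulVec_mulVec,
      multU_spec, multU_spec, Units.val_mul, mul_assoc]))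

theorem mult_apply (hm : 1 ≤ m) (g : ↥(Cfsg.GSp m F)) : mult hm g = multU g := rfl

theorem multU_toGSp (hm : 1 ≤ m) (s : Matrix.symplecticGroup (Fin m) F) :
    multU (toGSp s) = 1 :=
  Units.ext (multU_eq hm _ 1 (fun u v => by
    rw [toGSp_coe, form_mulVec, one_mul]))

theorem multU_dg (hm : 1 ≤ m) (c : Fin m → Fˣ) (l : Fˣ) : multU (dg c l) = l :=
  Units.ext (multU_eq hm _ (l : F) (dg_form c l))

theorem multU_mapGSp (hm : 1 ≤ m) {K K' : Type*} [Field K] [Field K'] (φ : K →+* K')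
    (g : ↥(Cfsg.GSp m K)) : (multU (mapGSp φ g) : K') = φ (multU g : K) := by
  have h1 := multU_mat (mapGSp φ g)
  have h2 := multU_mat g
  rw [mapGSp_coe, ← J_map φ, ← Matrix.transpose_map, ← Matrix.map_mul, ← Matrix.map_mul, h2] at h1
  have h3 := congrFun (congrFun h1 (Sum.inr ⟨0, hm⟩)) (Sum.inl ⟨0, hm⟩)
  simp [Matrix.J] at h3
  exact h3.symm

/-! ### scalars -/

theorem scalar_mulVec (l : Fˣ) (x : Fin m ⊕ Fin m → F) :
    ((Matrix.GeneralLinearGroup.scalar (Fin m ⊕ Fin m) l : GL (Fin m ⊕ Fin m) F) :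
      Matrix (Fin m ⊕ Fin m) (Fin m ⊕ Fin m) F) *ᵥ x = (l : F) • x := by
  rw [Matrix.GeneralLinearGroup.coe_scalar]
  funext k
  simp [Matrix.scalar_apply, Matrix.mulVec_diagonal]

/-- scalar matrices in `GSp` -/
def scalarGSp : Fˣ →* ↥(Cfsg.GSp m F) :=
  (Matrix.GeneralLinearGroup.scalar (Fin m ⊕ Fin m)).codRestrict (Cfsg.GSp m F) (fun l => by
    rw [mem_GSp_iff]
    refine ⟨l * l, fun u v => ?_⟩
    rw [scalar_mulVec, scalar_mulVec, map_smul, map_smul, LinearMap.smul_apply, smul_eq_mul,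
      smul_eq_mul, Units.val_mul]
    ring)

theorem scalarGSp_coe (l : Fˣ) :
    ((scalarGSp l : ↥(Cfsg.GSp m F)) : GL (Fin m ⊕ Fin m) F) =
      Matrix.GeneralLinearGroup.scalar (Fin m ⊕ Fin m) l := rfl

theorem scalarGSp_mulVec (l : Fˣ) (x : Fin m ⊕ Fin m → F) :
    (((scalarGSp l : ↥(Cfsg.GSp m F)) : GL (Fin m ⊕ Fin m) F) :
      Matrix (Fin m ⊕ Fin m) (Fin m ⊕ Fin m) F) *ᵥ x = (l : F) • x :=
  scalar_mulVec l x

theorem scalarGSp_mat (l : Fˣ) :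
    (((scalarGSp l : ↥(Cfsg.GSp m F)) : GL (Fin m ⊕ Fin m) F) :
      Matrix (Fin m ⊕ Fin m) (Fin m ⊕ Fin m) F) = (l : F) • 1 := by
  apply Matrix.toLin'.injective
  apply LinearMap.ext
  intro x
  rw [Matrix.toLin'_apply, scalarGSp_mulVec, Matrix.toLin'_apply, Matrix.smul_mulVec,
    Matrix.one_mulVec]

theorem multU_scalarGSp (hm : 1 ≤ m) (l : Fˣ) : multU (scalarGSp (m := m) l) = l * l :=
  Units.ext (multU_eq hm _ _ (fun u v => by
    rw [scalarGSp_mulVec, scalarGSp_mulVec, map_smul, map_smul, LinearMap.smul_apply, smul_eq_mul,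
      smul_eq_mul, Units.val_mul]
    ring))

theorem cGSp_scalarGSp (l : Fˣ) : cGSp (scalarGSp (m := m) l) = 1 := by
  ext y : 1
  obtain ⟨s, rfl⟩ := pr_surjective y
  rw [cGSp_pr, MulAut.one_apply]
  congr 1
  apply conjGSp_eq_of_mul_eq
  rw [scalarGSp_mat, Matrix.smul_mul, Matrix.mul_smul, Matrix.one_mul, Matrix.mul_one]

theorem mapGSp_scalarGSp {K K' : Type*} [Field K] [Field K'] (φ : K →+* K') (l : Kˣ) :
    mapGSp φ (scalarGSp (m := m) l) = scalarGSp (Units.map φ.toMonoidHom l) := by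
  apply gsp_ext
  rw [mapGSp_coe, scalarGSp_mat, scalarGSp_mat]
  ext i j
  simp [Matrix.one_apply, apply_ite φ]

theorem scalarGSp_injective (hm : 1 ≤ m) : Function.Injective (scalarGSp (F := F) (m := m)) := by
  intro a b h
  have h1 := congrArg (fun x : ↥(Cfsg.GSp m F) =>
    ((x : GL (Fin m ⊕ Fin m) F) : Matrix (Fin m ⊕ Fin m) (Fin m ⊕ Fin m) F)
      (Sum.inl ⟨0, hm⟩) (Sum.inl ⟨0, hm⟩)) h
  simp only [scalarGSp_mat, Matrix.smul_apply, Matrix.one_apply_eq, smul_eq_mul, mul_one] at h1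
  exact Units.ext h1

theorem scalarGSp_comm (l : Fˣ) (g : ↥(Cfsg.GSp m F)) :
    scalarGSp l * g = g * scalarGSp l := by
  apply gsp_ext
  rw [Subgroup.coe_mul, Subgroup.coe_mul, Units.val_mul, Units.val_mul, scalarGSp_mat,
    Matrix.smul_mul, Matrix.mul_smul, Matrix.one_mul, Matrix.mul_one]

/-- an element of `GSp` whose multiplier is a square is a scalar times a symplectic matrix -/
theorem exists_sp_of_mult (g : ↥(Cfsg.GSp m F)) (d : Fˣ) (h : multU g = d * d) :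
    ∃ s : Matrix.symplecticGroup (Fin m) F, g = scalarGSp d * toGSp s := by
  have hs : ((d : F))⁻¹ • ((g : GL (Fin m ⊕ Fin m) F) :
      Matrix (Fin m ⊕ Fin m) (Fin m ⊕ Fin m) F) ∈ Matrix.symplecticGroup (Fin m) F := by
    rw [mem_symp_iff]
    intro u v
    rw [Matrix.smul_mulVec, Matrix.smul_mulVec, map_smul, map_smul, LinearMap.smul_apply,
      smul_eq_mul, smul_eq_mul, multU_spec, h, Units.val_mul]
    have hd : (d : F) ≠ 0 := d.ne_zero
    field_simp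
  refine ⟨⟨_, hs⟩, ?_⟩
  apply gsp_ext
  rw [Subgroup.coe_mul, Units.val_mul, scalarGSp_mat, toGSp_coe, Matrix.smul_mul, Matrix.one_mul,
    smul_smul, mul_inv_cancel₀ d.ne_zero, one_smul]

/-- the kernel of `cGSp` consists of the scalars -/
theorem ker_cGSp (hm : 1 ≤ m) (p : ℕ) [Fact p.Prime] [CharP F p] (g : ↥(Cfsg.GSp m F))
    (h : cGSp g = 1) : ∃ l : Fˣ, g = scalarGSp l := by
  have key : ∀ w : Fin m ⊕ Fin m → F, w ≠ 0 → ∃ c : F,
      ((g : GL (Fin m ⊕ Fin m) F) : Matrix (Fin m ⊕ Fin m) (Fin m ⊕ Fin m) F) *ᵥ w = c • w := by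
    intro w hw
    have e1 := cGSp_R g w
    rw [h] at e1
    have e2 : R w = R (((g : GL (Fin m ⊕ Fin m) F) :
        Matrix (Fin m ⊕ Fin m) (Fin m ⊕ Fin m) F) *ᵥ w) := by
      rw [← e1]
      ext y
      simp
    obtain ⟨c, -, hc⟩ := R_subset hm p hw e2.le
    exact ⟨c, hc⟩
  have hdep : ∀ v : Fin m ⊕ Fin m → F, ¬ LinearIndependent F
      ![v, Matrix.toLin' ((g : GL (Fin m ⊕ Fin m) F) :
        Matrix (Fin m ⊕ Fin m) (Fin m ⊕ Fin m) F) v] := by
    intro v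
    by_cases hv : v = 0
    · simp [hv, linearIndependent_fin2]
    · rw [LinearIndependent.pair_iff' hv]
      push Not
      obtain ⟨c, hc⟩ := key v hv
      exact ⟨c, by rw [Matrix.toLin'_apply, hc]⟩
  obtain ⟨a, ha⟩ := LinearMap.exists_eq_smul_id_of_forall_notLinearIndependent hdep
  have hz : ((g : GL (Fin m ⊕ Fin m) F) : Matrix (Fin m ⊕ Fin m) (Fin m ⊕ Fin m) F) = a • 1 := by
    apply Matrix.toLin'.injective
    rw [ha, map_smul, Matrix.toLin'_one]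
    rfl
  have ha0 : a ≠ 0 := by
    intro h0
    have h1 := inv_mulVec_mulVec_gl (g : GL (Fin m ⊕ Fin m) F) (e ⟨0, hm⟩)
    rw [hz, h0, zero_smul, Matrix.zero_mulVec, Matrix.mulVec_zero] at h1
    exact e_ne_zero _ h1.symm
  refine ⟨Units.mk0 a ha0, ?_⟩
  apply gsp_ext
  rw [hz, scalarGSp_mat]
  rfl

/-! ### field automorphisms and `GSp` -/

theorem cσ_mul_cGSp (σ : RingAut F) (g : ↥(Cfsg.GSp m F)) :
    cσ σ * cGSp g = cGSp (mapGSp (σ : F →+* F) g) * cσ σ := by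
  ext y : 1
  obtain ⟨s, rfl⟩ := pr_surjective y
  rw [MulAut.mul_apply, MulAut.mul_apply, cGSp_pr, cσ_pr, cσ_pr, cGSp_pr]
  congr 1
  symm
  apply conjGSp_eq_of_mul_eq
  rw [spAut_coe, spAut_coe, mapGSp_coe]
  have h1 : ∀ M : Matrix (Fin m ⊕ Fin m) (Fin m ⊕ Fin m) F,
      M.map ((σ : F →+* F) : F → F) = M.map σ := fun M => rfl
  rw [h1, ← Matrix.map_mul, ← Matrix.map_mul, conjGSp_mul]

end Cfsg.Agent.Lib.Helper43.SpGSp
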