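import Mathlib
import Cfsg.Prelude.Def_LieTypeDatum
import Cfsg.Agent.Lib.Helper43.SpGSp
import Cfsg.Agent.Lib.Helper43.SpRootOdd
import Cfsg.Agent.Lib.Helper43.PSLnOut

set_option autoImplicit false

namespace Cfsg.Agent.Lib.Helper43.SpInn

open Matrix Cfsg.Agent.Lib.Helper13.SympMat Cfsg.Agent.Lib.Helper43.SpBasic
  Cfsg.Agent.Lib.Helper43.SpAuts Cfsg.Agent.Lib.Helper43.SpFrame
  Cfsg.Agent.Lib.Helper43.SpGSp Cfsg.Agent.Lib.Helper43.SpCore1

variable {F : Type*} [Field F] {m : ℕ}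

theorem isInduced_iff (g : ↥(Cfsg.GSp m F)) (σ : RingAut F) (β : MulAut (Cfsg.PSp m F)) :
    Cfsg.IsInducedBySemilinearPSp (g : GL (Fin m ⊕ Fin m) F) σ β ↔ β = cGSp g * cσ σ := by
  constructor
  · intro h
    ext y : 1
    obtain ⟨s, rfl⟩ := pr_surjective y
    rw [MulAut.mul_apply, cσ_pr, cGSp_pr]
    exact h s (conjGSp g (spAut σ s)) (by rw [conjGSp_coe, spAut_coe])
  · rintro rfl s s' hs
    show (cGSp g * cσ σ : MulAut (Cfsg.PSp m F)) (pr s) = pr s'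
    rw [MulAut.mul_apply, cσ_pr, cGSp_pr]
    congr 1
    apply Subtype.ext
    rw [conjGSp_coe, spAut_coe, hs]

theorem isStdField_iff (σ : RingAut F) (β : MulAut (Cfsg.PSp m F)) :
    Cfsg.IsStdFieldAutPSp σ β ↔ β = cσ σ := by
  constructor
  · intro h
    ext y : 1
    obtain ⟨s, rfl⟩ := pr_surjective y
    rw [cσ_pr]
    exact h s (spAut σ s) (spAut_coe σ s)
  · rintro rfl s s' hs
    show cσ σ (pr s) = pr s'
    rw [cσ_pr]
    congr 1
    apply Subtype.ext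
    rw [spAut_coe, hs]

theorem isInnerDiag_iff (β : MulAut (Cfsg.PSp m F)) :
    Cfsg.IsInnerDiagonalAutPSp β ↔ ∃ g : ↥(Cfsg.GSp m F), β = cGSp g := by
  constructor
  · rintro ⟨g, hg, h⟩
    refine ⟨⟨g, hg⟩, ?_⟩
    have h1 := (isInduced_iff ⟨g, hg⟩ (1 : RingAut F) β).1 h
    rw [h1, map_one, mul_one]
  · rintro ⟨g, rfl⟩
    refine ⟨g, g.2, ?_⟩
    have h1 := (isInduced_iff g (1 : RingAut F) (cGSp g)).2 (by rw [map_one, mul_one])
    exact h1

theorem inndiag_eq : Cfsg.inndiagPSp m F = (cGSp (F := F) (m := m)).range := by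
  unfold Cfsg.inndiagPSp Cfsg.autSubgroupOf
  have h : {β : MulAut (Cfsg.PSp m F) | Cfsg.IsInnerDiagonalAutPSp β} =
      ((cGSp (F := F) (m := m)).range : Set _) := by
    ext β
    rw [Set.mem_ofPred_eq, isInnerDiag_iff]
    constructor
    · rintro ⟨g, rfl⟩
      exact ⟨g, rfl⟩
    · rintro ⟨g, rfl⟩
      exact ⟨g, rfl⟩
  rw [h, Subgroup.closure_eq]

theorem mem_inndiag_iff (β : MulAut (Cfsg.PSp m F)) :
    β ∈ Cfsg.inndiagPSp m F ↔ ∃ g : ↥(Cfsg.GSp m F), β = cGSp g := by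
  rw [inndiag_eq]
  constructor
  · rintro ⟨g, rfl⟩
    exact ⟨g, rfl⟩
  · rintro ⟨g, rfl⟩
    exact ⟨g, rfl⟩

theorem cGSp_mem_inndiag (g : ↥(Cfsg.GSp m F)) : cGSp g ∈ Cfsg.inndiagPSp m F :=
  (mem_inndiag_iff _).2 ⟨g, rfl⟩

theorem mem_inn_iff (β : MulAut (Cfsg.PSp m F)) :
    β ∈ Cfsg.Inn (Cfsg.PSp m F) ↔
      ∃ s : Matrix.symplecticGroup (Fin m) F, β = cGSp (toGSp s) := by
  constructor
  · rintro ⟨y, rfl⟩
    obtain ⟨s, rfl⟩ := pr_surjective y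
    exact ⟨s, (cGSp_toGSp s).symm⟩
  · rintro ⟨s, rfl⟩
    exact ⟨pr s, (cGSp_toGSp s).symm⟩

theorem inn_le_inndiag : Cfsg.Inn (Cfsg.PSp m F) ≤ Cfsg.inndiagPSp m F := by
  intro β hβ
  obtain ⟨s, rfl⟩ := (mem_inn_iff β).1 hβ
  exact cGSp_mem_inndiag _

theorem inn_normal (G : Type*) [Group G] : (Cfsg.Inn G).Normal := by
  constructor
  rintro _ ⟨y, rfl⟩ α
  refine ⟨α y, ?_⟩
  ext z
  simp

/-- if every element of the field is a square, `Inndiag = Inn` -/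
theorem inndiag_eq_inn (hsq : ∀ a : Fˣ, ∃ d : Fˣ, a = d * d) :
    Cfsg.inndiagPSp m F = Cfsg.Inn (Cfsg.PSp m F) := by
  apply le_antisymm
  · intro β hβ
    obtain ⟨g, rfl⟩ := (mem_inndiag_iff β).1 hβ
    obtain ⟨d, hd⟩ := hsq (multU g)
    obtain ⟨s, rfl⟩ := exists_sp_of_mult g d hd
    rw [map_mul, cGSp_scalarGSp, one_mul]
    exact (mem_inn_iff _).2 ⟨s, rfl⟩
  · exact inn_le_inndiag

/-- if every automorphism permutes the root sets, `Inndiag` is normal -/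
theorem inndiag_normal_of_perm (hm : 2 ≤ m) (p : ℕ) [Fact p.Prime] [CharP F p]
    (H : Perm m F) : (Cfsg.inndiagPSp m F).Normal := by
  constructor
  intro β hβ α
  obtain ⟨g, rfl⟩ := (mem_inndiag_iff β).1 hβ
  obtain ⟨h, ρ, rfl⟩ := Cfsg.Agent.Lib.Helper43.SpCore4.core hm p H α
  have h1 : cGSp h * cσ ρ * cGSp g * (cGSp h * cσ ρ)⁻¹ =
      cGSp (h * mapGSp (ρ : F →+* F) g * h⁻¹) := by
    rw [map_mul, map_mul, map_inv]
    calc cGSp h * cσ ρ * cGSp g * (cGSp h * cσ ρ)⁻¹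
        = cGSp h * (cσ ρ * cGSp g) * (cσ ρ)⁻¹ * (cGSp h)⁻¹ := by group
      _ = cGSp h * cGSp (mapGSp (ρ : F →+* F) g) * (cGSp h)⁻¹ := by
          rw [cσ_mul_cGSp]
          group
  rw [h1]
  exact cGSp_mem_inndiag _

/-- `Inndiag(PSp_{2m}(F))` is normal in the automorphism group, for finite `F` and `m ≥ 2` -/
theorem inndiag_normal [Fintype F] (hm : 2 ≤ m) : (Cfsg.inndiagPSp m F).Normal := by
  by_cases h2 : (2 : F) = 0
  · have hsq : ∀ a : Fˣ, ∃ d : Fˣ, a = d * d := by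
      intro a
      haveI : CharP F 2 := CharTwo.of_one_ne_zero_of_two_eq_zero one_ne_zero h2
      obtain ⟨d, hd⟩ := FiniteField.isSquare_of_char_two (ringChar.eq F 2) (a : F)
      have hd0 : d ≠ 0 := by
        rintro rfl
        rw [mul_zero] at hd
        exact a.ne_zero hd
      exact ⟨Units.mk0 d hd0, Units.ext hd⟩
    rw [inndiag_eq_inn hsq]
    exact inn_normal _
  · obtain ⟨p, hp⟩ := CharP.exists F
    haveI := hp
    haveI : Fact p.Prime := ⟨CharP.char_is_prime F p⟩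
    obtain ⟨n, -, hn⟩ := FiniteField.card F p
    exact inndiag_normal_of_perm hm p
      (Cfsg.Agent.Lib.Helper43.SpRootOdd.perm_odd n.pos hn (by omega) h2)

theorem cσ_injective (hm : 1 ≤ m) (p : ℕ) [Fact p.Prime] [CharP F p] :
    Function.Injective (cσ : RingAut F → MulAut (Cfsg.PSp m F)) := by
  rw [injective_iff_map_eq_one]
  intro σ h
  ext a
  have h1 := cσ_t (m := m) σ (e ⟨0, hm⟩) a
  rw [h, MulAut.one_apply, map_e] at h1
  exact (pr_t_injective hm p (e_ne_zero _) h1).symm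

theorem orderOf_cσ (hm : 1 ≤ m) (p : ℕ) [Fact p.Prime] [CharP F p] (σ : RingAut F) :
    orderOf (cσ σ : MulAut (Cfsg.PSp m F)) = orderOf σ :=
  orderOf_injective cσ (cσ_injective hm p) σ

/-- normal form of a field automorphism -/
theorem field_normal_form (x : MulAut (Cfsg.PSp m F)) (hx : Cfsg.IsFieldAutClassPSp x) :
    ∃ (α : MulAut (Cfsg.PSp m F)) (σ : RingAut F), σ ≠ 1 ∧ x = α * cσ σ * α⁻¹ := by
  obtain ⟨α, σ, hσ, h⟩ := hx
  have h1 : α * x * α⁻¹ = cσ σ := (isStdField_iff σ _).1 h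
  refine ⟨α⁻¹, σ, hσ, ?_⟩
  rw [← h1]
  group

end Cfsg.Agent.Lib.Helper43.SpInn
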