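import Mathlib
import Cfsg.Agent.Lib.Helper43.Sp4Graph
import Cfsg.Agent.Lib.Helper43.SpInn
import Cfsg.Agent.Lib.Helper43.PSLnOut

set_option autoImplicit false

namespace Cfsg.Agent.Lib.Helper43.Sp4Out

open Matrix Cfsg.Agent.Lib.Helper13.SympMat Cfsg.Agent.Lib.Helper43.SpBasic
  Cfsg.Agent.Lib.Helper43.SpPair Cfsg.Agent.Lib.Helper43.SpZ
  Cfsg.Agent.Lib.Helper43.SpRel Cfsg.Agent.Lib.Helper43.Sp4Root
  Cfsg.Agent.Lib.Helper43.Sp4Graph Cfsg.Agent.Lib.Helper43.SpAuts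
  Cfsg.Agent.Lib.Helper43.SpGSp Cfsg.Agent.Lib.Helper43.SpFrame Cfsg.Agent.Lib.Helper43.SpInn
  Cfsg.Agent.Lib.Helper43.SpCore4

variable {F : Type*} [Field F]

/-! ### the exceptional automorphism -/

theorem τ_injective (h2 : (2 : F) = 0) : Function.Injective (τ h2) := by
  rw [injective_iff_map_eq_one]
  intro g hg
  apply Subtype.ext
  have h1 : τm (g : Matrix (Fin 2 ⊕ Fin 2) (Fin 2 ⊕ Fin 2) F) = 1 := by
    have h3 := congrArg Subtype.val hg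
    exact h3
  exact τm_eq_one h2 (SymplecticGroup.mem_iff.1 g.2) h1

/-- `Sp₄(F) ≃ PSp₄(F)` in characteristic two -/
noncomputable def prEquiv (h2 : (2 : F) = 0) :
    Matrix.symplecticGroup (Fin 2) F ≃* Cfsg.PSp 2 F :=
  MulEquiv.ofBijective pr ⟨pr_injective_of_two (by norm_num) h2, pr_surjective⟩

theorem prEquiv_apply (h2 : (2 : F) = 0) (g : Matrix.symplecticGroup (Fin 2) F) :
    prEquiv h2 g = pr g := rfl

/-- the exceptional endomorphism on `PSp₄(F)` -/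
noncomputable def Τhom (h2 : (2 : F) = 0) : Cfsg.PSp 2 F →* Cfsg.PSp 2 F :=
  (pr).comp ((τ h2).comp (prEquiv h2).symm.toMonoidHom)

theorem Τhom_pr (h2 : (2 : F) = 0) (g : Matrix.symplecticGroup (Fin 2) F) :
    Τhom h2 (pr g) = pr (τ h2 g) := by
  show pr (τ h2 ((prEquiv h2).symm (pr g))) = _
  rw [← prEquiv_apply h2 g, MulEquiv.symm_apply_apply]

theorem Τhom_injective (h2 : (2 : F) = 0) : Function.Injective (Τhom h2) := by
  intro x y h
  obtain ⟨g, rfl⟩ := pr_surjective x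
  obtain ⟨g', rfl⟩ := pr_surjective y
  rw [Τhom_pr, Τhom_pr] at h
  rw [τ_injective h2 (pr_injective_of_two (by norm_num) h2 h)]

/-- the exceptional automorphism of `PSp₄(F)`, `F` finite of characteristic two -/
noncomputable def Τ [Fintype F] (h2 : (2 : F) = 0) : MulAut (Cfsg.PSp 2 F) :=
  MulEquiv.ofBijective (Τhom h2)
    ⟨Τhom_injective h2, Finite.surjective_of_injective (Τhom_injective h2)⟩

theorem Τ_pr [Fintype F] (h2 : (2 : F) = 0) (g : Matrix.symplecticGroup (Fin 2) F) :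
    Τ h2 (pr g) = pr (τ h2 g) := Τhom_pr h2 g

theorem Τ_image_R [Fintype F] (h2 : (2 : F) = 0) :
    Τ h2 '' R (e 0) = Sh (e 0) (e 1) := by
  ext y
  constructor
  · rintro ⟨_, ⟨a, rfl⟩, rfl⟩
    refine ⟨a, ?_⟩
    show Τ h2 (pr (t (e 0) a)) = _
    rw [Τ_pr, τ_t]
  · rintro ⟨c, rfl⟩
    exact ⟨pr (t (e 0) c), pr_t_mem_R _ _, by rw [Τ_pr, τ_t]⟩

theorem not_permA_Τ [Fintype F] (h2 : (2 : F) = 0) : ¬ PermA (Τ h2) := by
  intro H
  obtain ⟨v', hv', h1⟩ := H.1 (e 0) (e_ne_zero 0)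
  rw [Τ_image_R] at h1
  exact R_ne_Sh (by norm_num) h2 (dual_e (by decide : (0 : Fin 2) ≠ 1)) v' h1.symm

theorem Τ_sq_t [Fintype F] (h2 : (2 : F) = 0) (a : F) :
    (Τ h2 * Τ h2) (pr (t (e 0) a)) = pr (t (e 0) (a ^ 2)) := by
  rw [MulAut.mul_apply, Τ_pr, τ_t, Τ_pr, τ_Y]

/-! ### comparing `cGSp g * cσ σ` with the value on a root group -/

/-- if `cGSp g * cσ σ` maps `pr (t (e i) a)` to `pr (t (e i) (φ a))` with `φ 1 = 1` then
`σ = φ` -/
theorem σ_eq_of_t {m : ℕ} (hm : 1 ≤ m) (p : ℕ) [Fact p.Prime] [CharP F p]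
    (g : ↥(Cfsg.GSp m F)) (σ : RingAut F) (φ : F → F) (hφ : φ 1 = 1)
    (h : ∀ a : F, (cGSp g * cσ σ : MulAut (Cfsg.PSp m F)) (pr (t (e ⟨0, hm⟩) a)) =
      pr (t (e ⟨0, hm⟩) (φ a))) :
    ∀ a : F, σ a = φ a := by
  have hc0 : (multU g : F) ≠ 0 := (multU g).ne_zero
  have key : ∀ a : F, t (((g : GL (Fin m ⊕ Fin m) F) :
      Matrix (Fin m ⊕ Fin m) (Fin m ⊕ Fin m) F) *ᵥ (e ⟨0, hm⟩)) (σ a / (multU g : F)) =
      t (e ⟨0, hm⟩) (φ a) := by
    intro a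
    have h1 := h a
    rw [MulAut.mul_apply, cσ_t, map_e, cGSp_t g hc0 (multU_spec g)] at h1
    exact pr_inj_of_pow hm p (t_pow_char p _ _) (t_pow_char p _ _) h1
  have hu : ((g : GL (Fin m ⊕ Fin m) F) :
      Matrix (Fin m ⊕ Fin m) (Fin m ⊕ Fin m) F) *ᵥ (e ⟨0, hm⟩ : Fin m ⊕ Fin m → F) ≠ 0 :=
    Cfsg.Agent.Lib.Helper43.SpRel.gl_mulVec_ne_zero _ (e_ne_zero _)
  have h1 := key 1
  rw [map_one] at h1
  obtain ⟨l, hl, hl'⟩ := smul_of_t_eq hu (div_ne_zero one_ne_zero hc0) h1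
  have key2 : ∀ a : F, l * l * (σ a / (multU g : F)) = φ a := by
    intro a
    have h3 := key a
    rw [hl', t_smul] at h3
    have h4 := congrArg pr h3
    exact pr_t_injective hm p (e_ne_zero _) h4
  have h5 := key2 1
  rw [map_one, hφ] at h5
  intro a
  rw [← key2 a]
  field_simp at h5 ⊢
  linear_combination (-(σ a)) * h5

theorem σ_eq_one_of_cGSp {m : ℕ} (hm : 1 ≤ m) (p : ℕ) [Fact p.Prime] [CharP F p]
    (g : ↥(Cfsg.GSp m F)) (σ : RingAut F) (h : cGSp g * cσ σ = 1) : σ = 1 := by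
  ext a
  exact σ_eq_of_t hm p g σ id rfl (fun a => by rw [h, MulAut.one_apply]; rfl) a

/-- `cσ σ` inner-diagonal implies `σ = 1` -/
theorem σ_eq_one_of_mem {m : ℕ} (hm : 1 ≤ m) (p : ℕ) [Fact p.Prime] [CharP F p]
    (σ : RingAut F) (h : (cσ σ : MulAut (Cfsg.PSp m F)) ∈ Cfsg.inndiagPSp m F) : σ = 1 := by
  obtain ⟨g, hg⟩ := (mem_inndiag_iff _).1 h
  apply σ_eq_one_of_cGSp hm p g⁻¹ σ
  rw [map_inv, hg, inv_mul_cancel]

/-! ### the square of the exceptional automorphism -/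

theorem exists_Τ_sq [Fintype F] {r : ℕ} (hf : 1 ≤ r) (hF : Fintype.card F = 2 ^ r)
    (h2 : (2 : F) = 0) :
    ∃ (h : ↥(Cfsg.GSp 2 F)) (σ : RingAut F),
      Τ h2 * Τ h2 = cGSp h * cσ σ ∧ ∀ a : F, σ a = a ^ 2 := by
  haveI : CharP F 2 := CharTwo.of_one_ne_zero_of_two_eq_zero one_ne_zero h2
  haveI : Fact (Nat.Prime 2) := ⟨Nat.prime_two⟩
  have hΤinv : ¬ PermA (Τ h2)⁻¹ := by
    intro H
    apply not_permA_Τ h2
    have h3 := H.inv
    rwa [inv_inv] at h3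
  have H : PermA ((Τ h2)⁻¹⁻¹ * Τ h2) := permA_inv_mul hf hF h2 hΤinv (not_permA_Τ h2)
  rw [inv_inv] at H
  obtain ⟨h, σ, hhσ⟩ := core' (le_refl 2) 2 H
  refine ⟨h, σ, hhσ, ?_⟩
  apply σ_eq_of_t (by norm_num) 2 h σ (fun a => a ^ 2) (one_pow 2)
  intro a
  rw [← hhσ]
  exact Τ_sq_t h2 a

/-! ### the outer automorphism group -/

theorem sq_surj [Fintype F] (h2 : (2 : F) = 0) : ∀ a : Fˣ, ∃ d : Fˣ, a = d * d := by
  intro a
  haveI : CharP F 2 := CharTwo.of_one_ne_zero_of_two_eq_zero one_ne_zero h2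
  obtain ⟨d, hd⟩ := FiniteField.isSquare_of_char_two (ringChar.eq F 2) (a : F)
  have hd0 : d ≠ 0 := by
    rintro rfl
    rw [mul_zero] at hd
    exact a.ne_zero hd
  exact ⟨Units.mk0 d hd0, Units.ext hd⟩

theorem frob_pow {σ : RingAut F} (hσ : ∀ a : F, σ a = a ^ 2) (j : ℕ) (a : F) :
    (σ ^ j) a = a ^ (2 ^ j) := by
  induction j generalizing a with
  | zero => rw [pow_zero, pow_zero, pow_one]; rfl
  | succ j ih =>
    rw [pow_succ, RingAut.mul_apply, ih, hσ, ← pow_mul, pow_succ, mul_comm]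

theorem frob_order [Fintype F] {r : ℕ} (hF : Fintype.card F = 2 ^ r) {σ : RingAut F}
    (hσ : ∀ a : F, σ a = a ^ 2) {j : ℕ} (hj : 0 < j) (h : σ ^ j = 1) : r ≤ j := by
  classical
  obtain ⟨g, hg⟩ := IsCyclic.exists_generator (α := Fˣ)
  have hord : orderOf g = 2 ^ r - 1 := by
    rw [orderOf_eq_card_of_forall_mem_zpowers hg, Nat.card_eq_fintype_card, Fintype.card_units, hF]
  have h1 : (g : F) ^ (2 ^ j) = g := by
    rw [← frob_pow hσ, h]
    rfl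
  have h2 : g ^ (2 ^ j) = g := Units.ext (by rw [Units.val_pow_eq_pow_val, h1])
  have hpos : 1 ≤ 2 ^ j := Nat.one_le_two_pow
  have h3 : g ^ (2 ^ j - 1) = 1 := by
    have h4 : g ^ (2 ^ j - 1) * g = 1 * g := by
      rw [← pow_succ, Nat.sub_add_cancel hpos, h2, one_mul]
    exact mul_right_cancel h4
  have h5 : 2 ^ r - 1 ∣ 2 ^ j - 1 := by
    rw [← hord]
    exact orderOf_dvd_of_pow_eq_one h3
  have h6 : 2 ≤ 2 ^ j := by
    calc 2 = 2 ^ 1 := (pow_one 2).symm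
      _ ≤ 2 ^ j := Nat.pow_le_pow_right (by norm_num) hj
  have h7 : 2 ^ r - 1 ≤ 2 ^ j - 1 := Nat.le_of_dvd (by omega) h5
  have h8 : 2 ^ r ≤ 2 ^ j := by
    have : 1 ≤ 2 ^ r := Nat.one_le_two_pow
    omega
  exact (Nat.pow_le_pow_iff_right (by norm_num)).1 h8

/-- `Out(PSp₄(2^f))` is cyclic of order `2f` -/
theorem out_card_cyclic [Fintype F] {f : ℕ} (hf : 1 ≤ f) (hF : Fintype.card F = 2 ^ f) :
    IsCyclic (Cfsg.Out (Cfsg.PSp 2 F)) ∧ Nat.card (Cfsg.Out (Cfsg.PSp 2 F)) = 2 * f := by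
  haveI : Fact (Nat.Prime 2) := ⟨Nat.prime_two⟩
  haveI : CharP F 2 := Cfsg.Agent.Lib.Helper43.PSLnOut.charP_of_card hf hF
  have h2 : (2 : F) = 0 := by exact_mod_cast CharP.cast_eq_zero F 2
  have hinn : Cfsg.inndiagPSp 2 F = Cfsg.Inn (Cfsg.PSp 2 F) := inndiag_eq_inn (sq_surj h2)
  obtain ⟨κ, hκ⟩ : ∃ κ : RingAut F →* Cfsg.Out (Cfsg.PSp 2 F),
      κ = (QuotientGroup.mk' _).comp cσ := ⟨_, rfl⟩
  have happ : ∀ σ, κ σ = QuotientGroup.mk (cσ σ) := by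
    intro σ
    rw [hκ]
    rfl
  have hinj : Function.Injective κ := by
    rw [injective_iff_map_eq_one]
    intro σ h
    rw [happ] at h
    have h3 := (QuotientGroup.eq_one_iff _).1 h
    rw [← hinn] at h3
    exact σ_eq_one_of_mem (by norm_num) 2 σ h3
  have hquot : ∀ (h : ↥(Cfsg.GSp 2 F)) (σ : RingAut F),
      (QuotientGroup.mk (cGSp h * cσ σ) : Cfsg.Out (Cfsg.PSp 2 F)) = κ σ := by
    intro h σ
    rw [happ, QuotientGroup.mk_mul]
    have h6 : cGSp h ∈ Cfsg.Inn (Cfsg.PSp 2 F) := by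
      rw [← hinn]
      exact cGSp_mem_inndiag h
    rw [(QuotientGroup.eq_one_iff _).2 h6, one_mul]
  have hmem : ∀ β : MulAut (Cfsg.PSp 2 F),
      (QuotientGroup.mk β : Cfsg.Out (Cfsg.PSp 2 F)) ∈ κ.range ↔ PermA β := by
    intro β
    constructor
    · rintro ⟨σ, hσ⟩
      rw [happ] at hσ
      obtain ⟨y, hy⟩ := QuotientGroup.eq.1 hσ
      obtain ⟨s, rfl⟩ := pr_surjective y
      have h4 : β = cσ σ * MulAut.conj (pr s) := by
        rw [hy]
        group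
      rw [h4]
      exact (permA_cσ σ).mul (permA_conj s)
    · intro H
      obtain ⟨h, σ, rfl⟩ := core' (le_refl 2) 2 H
      exact ⟨σ, (hquot h σ).symm⟩
  have hidx : κ.range.index = 2 := by
    rw [Subgroup.index_eq_two_iff]
    refine ⟨QuotientGroup.mk (Τ h2), ?_⟩
    intro b
    obtain ⟨β, rfl⟩ := QuotientGroup.mk_surjective b
    rw [← QuotientGroup.mk_mul, hmem, hmem]
    by_cases hβ : PermA β
    · refine Or.inr ⟨hβ, ?_⟩
      intro H
      apply not_permA_Τ h2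
      have h3 := hβ.inv.mul H
      rwa [inv_mul_cancel_left] at h3
    · refine Or.inl ⟨?_, hβ⟩
      have hβ' : ¬ PermA β⁻¹ := by
        intro H
        apply hβ
        have h3 := H.inv
        rwa [inv_inv] at h3
      have h3 := permA_inv_mul hf hF h2 hβ' (not_permA_Τ h2)
      rwa [inv_inv] at h3
  have hRA := Cfsg.Agent.Lib.Helper43.PSLnOut.ringAut_cyclic_card hf hF
  have hcardrange : Nat.card κ.range = f := by
    rw [← hRA.2]
    exact (Nat.card_congr (MonoidHom.ofInjective hinj).toEquiv).symm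
  have hcard : Nat.card (Cfsg.Out (Cfsg.PSp 2 F)) = 2 * f := by
    rw [← Subgroup.card_mul_index κ.range, hidx, hcardrange, mul_comm]
  obtain ⟨h, σ, hsq, hσ⟩ := exists_Τ_sq hf hF h2
  have hΤ2 : (QuotientGroup.mk (Τ h2) : Cfsg.Out (Cfsg.PSp 2 F)) ^ 2 = κ σ := by
    rw [← hquot h σ, ← hsq, pow_two, QuotientGroup.mk_mul]
  have hfin : Finite (Cfsg.Out (Cfsg.PSp 2 F)) := by
    apply Nat.finite_of_card_ne_zero
    rw [hcard]
    omega
  have hord : orderOf (QuotientGroup.mk (Τ h2) : Cfsg.Out (Cfsg.PSp 2 F)) = 2 * f := by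
    obtain ⟨o, ho⟩ : ∃ o, o = orderOf (QuotientGroup.mk (Τ h2) : Cfsg.Out (Cfsg.PSp 2 F)) :=
      ⟨_, rfl⟩
    rw [← ho]
    have hpos : 0 < o := by
      rw [ho]
      exact orderOf_pos _
    have hdvd : o ∣ 2 * f := by
      rw [ho, ← hcard]
      exact orderOf_dvd_natCard _
    have hpow : (QuotientGroup.mk (Τ h2) : Cfsg.Out (Cfsg.PSp 2 F)) ^ o = 1 := by
      rw [ho]
      exact pow_orderOf_eq_one _
    have hle : o ≤ 2 * f := Nat.le_of_dvd (by omega) hdvd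
    have hge : 2 * f ≤ o := by
      rcases Nat.even_or_odd' o with ⟨j, hj | hj⟩
      · rw [hj, pow_mul, hΤ2, ← map_pow] at hpow
        have h3 : σ ^ j = 1 := hinj (hpow.trans (map_one κ).symm)
        have hj0 : 0 < j := by omega
        have h4 := frob_order hF hσ hj0 h3
        omega
      · exfalso
        rw [hj, pow_succ, pow_mul, hΤ2, ← map_pow] at hpow
        have h3 : (QuotientGroup.mk (Τ h2) : Cfsg.Out (Cfsg.PSp 2 F)) = (κ (σ ^ j))⁻¹ :=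
          (eq_inv_of_mul_eq_one_right hpow)
        have h4 : (QuotientGroup.mk (Τ h2) : Cfsg.Out (Cfsg.PSp 2 F)) ∈ κ.range := by
          rw [h3]
          exact inv_mem ⟨_, rfl⟩
        exact not_permA_Τ h2 ((hmem _).1 h4)
    exact le_antisymm hle hge
  refine ⟨isCyclic_of_orderOf_eq_card _ (hord.trans hcard.symm), hcard⟩


end Cfsg.Agent.Lib.Helper43.Sp4Out
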