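import Mathlib
import Cfsg.Prelude.Def_Solvable

set_option autoImplicit false

namespace Cfsg.Agent.Lib.Helper43.SpBalA

variable {K : Type*} [Group K]

/-- elements of `K` whose inner automorphism lies in `N` -/
def Mof (N : Subgroup (MulAut K)) : Subgroup K := N.comap (MulAut.conj : K →* MulAut K)

theorem mem_Mof (N : Subgroup (MulAut K)) (k : K) : k ∈ Mof N ↔ MulAut.conj k ∈ N := Iff.rfl

theorem conj_apply_eq (x : MulAut K) (k : K) :
    x * MulAut.conj k * x⁻¹ = MulAut.conj (x k) := by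
  ext y
  simp [MulAut.mul_apply, MulAut.conj_apply]

theorem Mof_le_fix (hinj : Function.Injective (MulAut.conj : K →* MulAut K)) (x : MulAut K)
    {N : Subgroup (MulAut K)} (hN : ∀ ν ∈ N, ν * x = x * ν) {k : K} (hk : k ∈ Mof N) :
    x k = k := by
  apply hinj
  rw [← conj_apply_eq, ← hN _ hk, mul_inv_cancel_right]

theorem Mof_conj {D N : Subgroup (MulAut K)} (hnorm : ∀ d ∈ D, ∀ ν ∈ N, d * ν * d⁻¹ ∈ N)
    {c : K} (hc : MulAut.conj c ∈ D) {k : K} (hk : k ∈ Mof N) : c * k * c⁻¹ ∈ Mof N := by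
  rw [mem_Mof, map_mul, map_mul, map_inv]
  exact hnorm _ hc _ hk

theorem card_Mof_dvd (hinj : Function.Injective (MulAut.conj : K →* MulAut K))
    (N : Subgroup (MulAut K)) : Nat.card (Mof N) ∣ Nat.card N := by
  have h1 : Nat.card ((Mof N).map (MulAut.conj : K →* MulAut K)) = Nat.card (Mof N) :=
    Subgroup.card_map_of_injective hinj
  rw [← h1]
  exact Subgroup.card_dvd_of_le (Subgroup.map_comap_le _ _)

theorem fix_of_Mof_bot {D N : Subgroup (MulAut K)}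
    (hnorm : ∀ d ∈ D, ∀ ν ∈ N, d * ν * d⁻¹ ∈ N) (hM : Mof N = ⊥) {ν : MulAut K} (hν : ν ∈ N)
    {c : K} (hc : MulAut.conj c ∈ D) : ν c = c := by
  have h1 : MulAut.conj (ν c * c⁻¹) ∈ N := by
    have h2 : MulAut.conj (ν c * c⁻¹) = ν * (MulAut.conj c * ν⁻¹ * (MulAut.conj c)⁻¹) := by
      rw [map_mul, ← conj_apply_eq, map_inv]
      group
    rw [h2]
    exact N.mul_mem hν (hnorm _ hc _ (N.inv_mem hν))
  have h3 : ν c * c⁻¹ ∈ Mof N := h1
  rw [hM, Subgroup.mem_bot] at h3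
  exact mul_inv_eq_one.1 h3

/-- the `p'`-core of a subgroup `D` in terms of subgroups of the ambient group -/
theorem core_ne_bot_iff {G : Type*} [Group G] (p : ℕ) (D : Subgroup G) :
    Cfsg.pPrimeCore p ↥D ≠ ⊥ ↔ ∃ N : Subgroup G, N ≤ D ∧
      (∀ d ∈ D, ∀ ν ∈ N, d * ν * d⁻¹ ∈ N) ∧ (Nat.card N).Coprime p ∧ N ≠ ⊥ := by
  constructor
  · intro h
    have h1 : ∃ N' ∈ {N : Subgroup ↥D | N.Normal ∧ (Nat.card N).Coprime p}, N' ≠ ⊥ := by
      by_contra hcon
      push_neg at hcon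
      exact h (sSup_eq_bot.2 hcon)
    obtain ⟨N', ⟨hn, hc⟩, hne⟩ := h1
    refine ⟨N'.map D.subtype, ?_, ?_, ?_, ?_⟩
    · rintro _ ⟨ν, -, rfl⟩
      exact ν.2
    · rintro d hd _ ⟨ν, hν, rfl⟩
      exact ⟨⟨d, hd⟩ * ν * ⟨d, hd⟩⁻¹, hn.conj_mem ν hν ⟨d, hd⟩, rfl⟩
    · rw [Subgroup.card_map_of_injective D.subtype_injective]
      exact hc
    · intro h0
      exact hne ((Subgroup.map_eq_bot_iff_of_injective N' D.subtype_injective).1 h0)
  · rintro ⟨N, hND, hnorm, hc, hne⟩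
    intro h
    have h1 : N.subgroupOf D ≤ Cfsg.pPrimeCore p ↥D := by
      apply le_sSup
      refine ⟨⟨?_⟩, ?_⟩
      · intro n hn g
        rw [Subgroup.mem_subgroupOf] at hn ⊢
        exact hnorm _ g.2 _ hn
      · rw [Nat.card_congr (Subgroup.subgroupOfEquivOfLe hND).toEquiv]
        exact hc
    rw [h, le_bot_iff, Subgroup.subgroupOf_eq_bot] at h1
    exact hne (le_bot_iff.1 (h1 (le_refl N) hND))

end Cfsg.Agent.Lib.Helper43.SpBalA
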