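import Mathlib
import Cfsg.Prelude.Def_LieTypeDatum
import Cfsg.Agent.Lib.Helper43.SpInn
import Cfsg.Agent.Lib.Helper43.SplitCountN
import Cfsg.Agent.Lib.Helper43.H90Fin

set_option autoImplicit false

namespace Cfsg.Agent.Lib.Helper43.SpFieldCent

open Matrix Cfsg.Agent.Lib.Helper13.SympMat Cfsg.Agent.Lib.Helper43.SpBasic
  Cfsg.Agent.Lib.Helper43.SpAuts Cfsg.Agent.Lib.Helper43.SpFrame
  Cfsg.Agent.Lib.Helper43.SpGSp Cfsg.Agent.Lib.Helper43.SpInn
  Cfsg.Agent.Lib.Helper43.SplitCount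
  Cfsg.Agent.Lib.Helper43.H90GL Cfsg.Agent.Lib.Helper43.H90Fin

variable {F : Type*} [Field F] {m : ℕ}

theorem map_pow_eq {ι κ : Type*} (σ : RingAut F) (c : Matrix ι κ F) (l : F)
    (h : c.map σ = l • c) (i : ℕ) : c.map (σ ^ i) = nm σ l i • c := by
  induction i with
  | zero =>
    rw [nm_zero, one_smul]
    ext k j
    rfl
  | succ i ih =>
    have h1 : c.map (σ ^ (i + 1)) = (c.map (σ ^ i)).map σ := by
      ext k j
      rw [Matrix.map_apply, Matrix.map_apply, Matrix.map_apply, pow_succ_apply]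
    rw [h1, ih, nm_succ']
    ext k j
    rw [Matrix.map_apply, Matrix.smul_apply, Matrix.smul_apply, smul_eq_mul, smul_eq_mul, map_mul]
    have h2 := congrFun (congrFun h k) j
    rw [Matrix.map_apply, Matrix.smul_apply, smul_eq_mul] at h2
    rw [h2]
    ring

theorem nm_eq_one {ι κ : Type*} (σ : RingAut F) (c : Matrix ι κ F) (hc : c ≠ 0) (l : F)
    (h : c.map σ = l • c) : nm σ l (orderOf σ) = 1 := by
  have h2 := map_pow_eq σ c l h (orderOf σ)
  by_contra hne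
  apply hc
  have h5 : c.map (σ ^ orderOf σ) = c := by
    ext i j
    rw [Matrix.map_apply, pow_orderOf_apply]
  rw [h5] at h2
  have h6 : (1 - nm σ l (orderOf σ)) • c = 0 := by
    rw [sub_smul, one_smul, ← h2, sub_self]
  rcases smul_eq_zero.1 h6 with h7 | h7
  · exact absurd (sub_eq_zero.1 h7).symm hne
  · exact h7

theorem gsp_ne_zero (hm : 1 ≤ m) (g : ↥(Cfsg.GSp m F)) :
    ((g : GL (Fin m ⊕ Fin m) F) : Matrix (Fin m ⊕ Fin m) (Fin m ⊕ Fin m) F) ≠ 0 := by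
  intro h0
  have h1 := inv_mulVec_mulVec_gl (g : GL (Fin m ⊕ Fin m) F) (e ⟨0, hm⟩)
  rw [h0, Matrix.zero_mulVec, Matrix.mulVec_zero] at h1
  exact e_ne_zero _ h1.symm

theorem commute_cσ_iff (hm : 1 ≤ m) (p : ℕ) [Fact p.Prime] [CharP F p] (σ : RingAut F)
    (c : ↥(Cfsg.GSp m F)) :
    Commute (cGSp c) (cσ σ) ↔ ∃ l : Fˣ, mapGSp (σ : F →+* F) c = scalarGSp l * c := by
  constructor
  · intro h
    have h1 : cGSp c * cσ σ = cσ σ * cGSp c := h
    rw [cσ_mul_cGSp] at h1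
    have h2 : cGSp (mapGSp (σ : F →+* F) c * c⁻¹) = 1 := by
      rw [map_mul, map_inv, ← mul_right_cancel h1, mul_inv_cancel]
    obtain ⟨l, hl⟩ := ker_cGSp hm p _ h2
    exact ⟨l, by rw [← hl, inv_mul_cancel_right]⟩
  · rintro ⟨l, hl⟩
    show cGSp c * cσ σ = cσ σ * cGSp c
    rw [cσ_mul_cGSp, hl, map_mul, cGSp_scalarGSp, one_mul]

theorem exists_fixed (hm : 1 ≤ m) (p : ℕ) [Fact p.Prime] [CharP F p] (σ : RingAut F)
    (hpos : 0 < orderOf σ) (c : ↥(Cfsg.GSp m F)) (h : Commute (cGSp c) (cσ σ)) :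
    ∃ (μ : Fˣ) (c₁ : ↥(Cfsg.GSp m F)), mapGSp (σ : F →+* F) c₁ = c₁ ∧
      c = scalarGSp μ * c₁ := by
  obtain ⟨l, hl⟩ := (commute_cσ_iff hm p σ c).1 h
  have h1 : ((c : GL (Fin m ⊕ Fin m) F) : Matrix (Fin m ⊕ Fin m) (Fin m ⊕ Fin m) F).map σ =
      (l : F) • ((c : GL (Fin m ⊕ Fin m) F) : Matrix (Fin m ⊕ Fin m) (Fin m ⊕ Fin m) F) := by
    have h0 := congrArg (fun x : ↥(Cfsg.GSp m F) =>
      ((x : GL (Fin m ⊕ Fin m) F) : Matrix (Fin m ⊕ Fin m) (Fin m ⊕ Fin m) F)) hl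
    simp only [mapGSp_coe, Subgroup.coe_mul, Units.val_mul, scalarGSp_mat, Matrix.smul_mul,
      Matrix.one_mul] at h0
    exact h0
  have h3 := nm_eq_one σ _ (gsp_ne_zero hm c) _ h1
  obtain ⟨μ, hμ, hμ2⟩ := h90 σ hpos _ h3
  refine ⟨(Units.mk0 μ hμ)⁻¹, scalarGSp (Units.mk0 μ hμ) * c, ?_, ?_⟩
  · rw [map_mul, mapGSp_scalarGSp, hl, ← mul_assoc, ← map_mul]
    congr 2
    apply Units.ext
    rw [Units.val_mul]
    show σ μ * (l : F) = μ
    rw [mul_comm]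
    exact hμ2
  · rw [← mul_assoc, ← map_mul, inv_mul_cancel, map_one, one_mul]

theorem commute_of_fixed (σ : RingAut F) (c : ↥(Cfsg.GSp m F))
    (h : mapGSp (σ : F →+* F) c = c) : Commute (cGSp c) (cσ σ) := by
  show cGSp c * cσ σ = cσ σ * cGSp c
  rw [cσ_mul_cGSp, h]

theorem mult_fixed (hm : 1 ≤ m) (σ : RingAut F) (c : ↥(Cfsg.GSp m F))
    (h : mapGSp (σ : F →+* F) c = c) : σ (multU c : F) = multU c := by
  have h1 := multU_mapGSp hm (σ : F →+* F) c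
  rw [h] at h1
  exact h1.symm

/-- the number of `Inn`-classes in the `Inndiag`-class of `x₀`, through multipliers of the
centraliser -/
theorem splitCount_eq (hm : 1 ≤ m) (x₀ : MulAut (Cfsg.PSp m F)) (N : Subgroup Fˣ)
    (h1 : ∀ c : ↥(Cfsg.GSp m F), Commute (cGSp c) x₀ → multU c ∈ N)
    (h2 : ∀ u ∈ N, ∃ c : ↥(Cfsg.GSp m F), Commute (cGSp c) x₀ ∧ multU c = u) :
    Cfsg.splitClassCount (Cfsg.inndiagPSp m F) (Cfsg.Inn (Cfsg.PSp m F)) x₀ = N.index := by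
  have hsurj : Function.Surjective (mult (F := F) hm) :=
    fun l => ⟨dg (fun _ => 1) l, multU_dg hm _ l⟩
  rw [← Subgroup.index_comap_of_surjective N hsurj]
  apply splitClassCount_eq_index _ _ _ (cGSp (F := F) (m := m))
  · intro h
    rw [mem_inndiag_iff]
    constructor
    · rintro ⟨g, rfl⟩
      exact ⟨g, rfl⟩
    · rintro ⟨g, rfl⟩
      exact ⟨g, rfl⟩
  · intro g g'
    rw [Subgroup.mem_comap]
    constructor
    · rintro ⟨k, hk, heq⟩
      obtain ⟨s, rfl⟩ := (mem_inn_iff k).1 hk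
      have hc : Commute (cGSp (g'⁻¹ * toGSp s * g)) x₀ := by
        show _ * _ = _ * _
        rw [map_mul, map_mul, map_inv]
        calc (cGSp g')⁻¹ * cGSp (toGSp s) * cGSp g * x₀
            = (cGSp g')⁻¹ * (cGSp (toGSp s) * (cGSp g * x₀ * (cGSp g)⁻¹)
              * (cGSp (toGSp s))⁻¹) * (cGSp (toGSp s) * cGSp g) := by group
          _ = x₀ * ((cGSp g')⁻¹ * cGSp (toGSp s) * cGSp g) := by
              rw [← heq]; group
      have h3 := N.inv_mem (h1 _ hc)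
      rw [← mult_apply hm, map_mul, map_mul, map_inv, mult_apply hm (toGSp s), multU_toGSp hm,
        mul_one] at h3
      rw [map_mul, map_inv]
      have h4 : ((mult hm g')⁻¹ * mult hm g)⁻¹ = (mult hm g)⁻¹ * mult hm g' := by group
      rw [← h4]
      exact h3
    · intro h
      have h3 := N.inv_mem h
      obtain ⟨c, hc, hdet⟩ := h2 _ h3
      have h4 : multU (g' * c * g⁻¹) = 1 * 1 := by
        rw [← mult_apply hm, map_mul, map_mul, mult_apply hm c, hdet, map_inv, map_mul, map_inv]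
        group
      obtain ⟨s, hs⟩ := exists_sp_of_mult _ 1 h4
      rw [map_one, one_mul] at hs
      refine ⟨cGSp (toGSp s), (mem_inn_iff _).2 ⟨s, rfl⟩, ?_⟩
      rw [← hs, map_mul, map_mul, map_inv]
      have h5 : cGSp c * x₀ = x₀ * cGSp c := hc
      calc cGSp g' * x₀ * (cGSp g')⁻¹ = cGSp g' * (x₀ * cGSp c) * (cGSp c)⁻¹ * (cGSp g')⁻¹ := by
            group
        _ = cGSp g' * cGSp c * (cGSp g)⁻¹ * (cGSp g * x₀ * (cGSp g)⁻¹) *
            (cGSp g' * cGSp c * (cGSp g)⁻¹)⁻¹ := by rw [← h5]; group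

theorem mapGSp_dg (σ : RingAut F) (z : Fˣ) (hz : σ (z : F) = z) :
    mapGSp (σ : F →+* F) (dg (fun _ => 1) z) = dg (m := m) (fun _ => 1) z := by
  apply gsp_ext
  rw [mapGSp_coe]
  show (Matrix.diagonal (fun k => (dgv (fun _ : Fin m => (1 : Fˣ)) z k : F))).map (σ : F →+* F) =
    Matrix.diagonal (fun k => (dgv (fun _ : Fin m => (1 : Fˣ)) z k : F))
  rw [Matrix.diagonal_map (map_zero _)]
  congr 1
  funext k
  rcases k with i | i
  · simp [dgv]
  · simp [dgv, hz]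

theorem splitCount_field (hm : 1 ≤ m) (p : ℕ) [Fact p.Prime] [CharP F p] (σ : RingAut F)
    (hpos : 0 < orderOf σ) :
    Cfsg.splitClassCount (Cfsg.inndiagPSp m F) (Cfsg.Inn (Cfsg.PSp m F)) (cσ σ) =
      ((powMonoidHom 2 : Fˣ →* Fˣ).range ⊔ (thU σ).ker).index := by
  apply splitCount_eq hm
  · intro c hc
    obtain ⟨μ, c₁, h1, rfl⟩ := exists_fixed hm p σ hpos c hc
    rw [← mult_apply hm, map_mul, mult_apply, mult_apply, multU_scalarGSp hm]
    refine Subgroup.mul_mem_sup ⟨μ, by rw [powMonoidHom_apply, pow_two]⟩ ?_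
    rw [mem_ker_thU]
    exact mult_fixed hm σ c₁ h1
  · intro u hu
    obtain ⟨y, ⟨a, rfl⟩, z, hz, rfl⟩ := Subgroup.mem_sup.1 hu
    refine ⟨scalarGSp a * dg (fun _ => 1) z, ?_, ?_⟩
    · rw [map_mul, cGSp_scalarGSp, one_mul]
      apply commute_of_fixed
      exact mapGSp_dg σ z ((mem_ker_thU σ z).1 hz)
    · rw [← mult_apply hm, map_mul, mult_apply, mult_apply, multU_scalarGSp hm, multU_dg hm,
        powMonoidHom_apply, pow_two]

/-! ### the centraliser -/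

variable {K : Type*} [Field K]

theorem map_ι (σ : RingAut F) (φ : K →+* F) (hφ : ∀ b, σ (φ b) = φ b) (h : ↥(Cfsg.GSp m K)) :
    mapGSp (σ : F →+* F) (mapGSp φ h) = mapGSp φ h := by
  apply gsp_ext
  rw [mapGSp_coe, mapGSp_coe]
  ext i j
  exact hφ _

theorem exists_ι (hm : 1 ≤ m) (σ : RingAut F) (φ : K →+* F)
    (hφ : ∀ a, σ a = a → ∃ b, φ b = a)
    (c : ↥(Cfsg.GSp m F)) (hc : mapGSp (σ : F →+* F) c = c) : ∃ h, mapGSp φ h = c := by
  have hmem : ∀ i j, ∃ b, φ b =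
      ((c : GL (Fin m ⊕ Fin m) F) : Matrix (Fin m ⊕ Fin m) (Fin m ⊕ Fin m) F) i j := by
    intro i j
    apply hφ
    have h1 := congrArg (fun g : ↥(Cfsg.GSp m F) =>
      ((g : GL (Fin m ⊕ Fin m) F) : Matrix (Fin m ⊕ Fin m) (Fin m ⊕ Fin m) F) i j) hc
    exact h1
  choose M hM using hmem
  have hmap : (Matrix.of M).map φ =
      ((c : GL (Fin m ⊕ Fin m) F) : Matrix (Fin m ⊕ Fin m) (Fin m ⊕ Fin m) F) := by
    ext i j
    exact hM i j
  have hdet : (Matrix.of M).det ≠ 0 := by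
    intro h0
    have h1 := RingHom.map_det φ (Matrix.of M)
    rw [h0, map_zero] at h1
    have h2 : φ.mapMatrix (Matrix.of M) =
        ((c : GL (Fin m ⊕ Fin m) F) : Matrix (Fin m ⊕ Fin m) (Fin m ⊕ Fin m) F) := hmap
    rw [h2] at h1
    exact (Matrix.GeneralLinearGroup.det_ne_zero (c : GL (Fin m ⊕ Fin m) F)) h1.symm
  obtain ⟨c₀, hc₀⟩ := hφ (multU c) (mult_fixed hm σ c hc)
  have hc₀0 : c₀ ≠ 0 := by
    rintro rfl
    rw [map_zero] at hc₀
    exact (multU c).ne_zero hc₀.symm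
  have hG : Matrix.GeneralLinearGroup.mkOfDetNeZero (Matrix.of M) hdet ∈ Cfsg.GSp m K := by
    rw [mem_GSp_mat]
    refine ⟨Units.mk0 c₀ hc₀0, ?_⟩
    apply Matrix.map_injective φ.injective
    show ((Matrix.of M)ᵀ * J (Fin m) K * Matrix.of M).map φ = (c₀ • J (Fin m) K).map φ
    rw [Matrix.map_mul, Matrix.map_mul, Matrix.transpose_map, hmap, J_map, multU_mat c, ← hc₀]
    ext i j
    rw [Matrix.map_apply, Matrix.smul_apply, Matrix.smul_apply, smul_eq_mul, smul_eq_mul, map_mul,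
      ← J_map (m := m) φ, Matrix.map_apply]
  exact ⟨⟨_, hG⟩, gsp_ext hmap⟩

theorem range_eq (hm : 1 ≤ m) (p : ℕ) [Fact p.Prime] [CharP F p] (σ : RingAut F)
    (hpos : 0 < orderOf σ) (φ : K →+* F) (hφ : ∀ a, σ a = a ↔ ∃ b, φ b = a) :
    (cGSp.comp (mapGSp (m := m) φ)).range =
      Cfsg.inndiagPSp m F ⊓ Subgroup.centralizer {cσ σ} := by
  ext y
  constructor
  · rintro ⟨h, rfl⟩
    refine Subgroup.mem_inf.2 ⟨cGSp_mem_inndiag _, ?_⟩
    rw [Subgroup.mem_centralizer_singleton_iff]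
    exact (commute_of_fixed σ _ (map_ι σ φ (fun b => (hφ _).2 ⟨b, rfl⟩) h)).eq
  · intro hy
    obtain ⟨hy1, hy2⟩ := Subgroup.mem_inf.1 hy
    obtain ⟨c, rfl⟩ := (mem_inndiag_iff y).1 hy1
    rw [Subgroup.mem_centralizer_singleton_iff] at hy2
    obtain ⟨μ, c₁, h1, rfl⟩ := exists_fixed hm p σ hpos c hy2
    obtain ⟨h, rfl⟩ := exists_ι hm σ φ (fun a ha => (hφ a).1 ha) c₁ h1
    exact ⟨h, by rw [MonoidHom.comp_apply, map_mul, cGSp_scalarGSp, one_mul]⟩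

theorem ker_eq (hm : 1 ≤ m) (p : ℕ) [Fact p.Prime] [CharP F p] (φ : K →+* F) :
    (cGSp.comp (mapGSp (m := m) φ)).ker =
      (Cfsg.Geo.scalars (Fin m ⊕ Fin m) K).subgroupOf (Cfsg.GSp m K) := by
  ext h
  rw [MonoidHom.mem_ker, MonoidHom.comp_apply, Subgroup.mem_subgroupOf,
    Cfsg.Geo.mem_scalars_iff]
  constructor
  · intro hk
    obtain ⟨l, hl⟩ := ker_cGSp hm p _ hk
    have h1 : ((h : GL (Fin m ⊕ Fin m) K) : Matrix (Fin m ⊕ Fin m) (Fin m ⊕ Fin m) K).map φ =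
        (l : F) • 1 := by
      rw [← mapGSp_coe, hl, scalarGSp_mat]
    have hoff : ∀ i j, i ≠ j →
        ((h : GL (Fin m ⊕ Fin m) K) : Matrix (Fin m ⊕ Fin m) (Fin m ⊕ Fin m) K) i j = 0 := by
      intro i j hij
      have h2 := congrFun (congrFun h1 i) j
      rw [Matrix.map_apply, Matrix.smul_apply, Matrix.one_apply_ne hij, smul_zero] at h2
      exact (map_eq_zero φ).1 h2
    have hdiag : ∀ i,
        φ (((h : GL (Fin m ⊕ Fin m) K) : Matrix (Fin m ⊕ Fin m) (Fin m ⊕ Fin m) K) i i) = l := by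
      intro i
      have h2 := congrFun (congrFun h1 i) i
      rw [Matrix.map_apply, Matrix.smul_apply, Matrix.one_apply_eq, smul_eq_mul, mul_one] at h2
      exact h2
    have hne : ((h : GL (Fin m ⊕ Fin m) K) : Matrix (Fin m ⊕ Fin m) (Fin m ⊕ Fin m) K)
        (Sum.inl ⟨0, hm⟩) (Sum.inl ⟨0, hm⟩) ≠ 0 := by
      intro h0
      have h2 := hdiag (Sum.inl ⟨0, hm⟩)
      rw [h0, map_zero] at h2
      exact l.ne_zero h2.symm
    refine ⟨Units.mk0 _ hne, ?_⟩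
    ext i j
    by_cases hij : i = j
    · subst hij
      rw [Matrix.smul_apply, Matrix.one_apply_eq, smul_eq_mul, mul_one]
      apply φ.injective
      rw [hdiag, Units.val_mk0, hdiag]
    · rw [hoff i j hij, Matrix.smul_apply, Matrix.one_apply_ne hij, smul_zero]
  · rintro ⟨c, hc⟩
    have h1 : mapGSp φ h = scalarGSp (Units.map φ.toMonoidHom c) := by
      apply gsp_ext
      rw [mapGSp_coe, hc, scalarGSp_mat]
      ext i j
      simp [Matrix.one_apply, apply_ite φ]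
    rw [h1, cGSp_scalarGSp]

/-- the centraliser of a field automorphism in `Inndiag` is `PGSp` over the fixed field -/
theorem centralizer_field (hm : 1 ≤ m) (p : ℕ) [Fact p.Prime] [CharP F p] (σ : RingAut F)
    (hpos : 0 < orderOf σ) (φ : K →+* F) (hφ : ∀ a, σ a = a ↔ ∃ b, φ b = a) :
    Nonempty (↥(Cfsg.inndiagPSp m F ⊓ Subgroup.centralizer {cσ σ}) ≃* Cfsg.PGSp m K) := by
  obtain ⟨e1⟩ : Nonempty (↥(Cfsg.GSp m K) ⧸ (cGSp.comp (mapGSp (m := m) φ)).ker ≃*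
      ↥(cGSp.comp (mapGSp (m := m) φ)).range) :=
    ⟨QuotientGroup.quotientKerEquivRange (cGSp.comp (mapGSp (m := m) φ))⟩
  obtain ⟨e2⟩ : Nonempty (↥(cGSp.comp (mapGSp (m := m) φ)).range ≃*
      ↥(Cfsg.inndiagPSp m F ⊓ Subgroup.centralizer {cσ σ})) :=
    ⟨MulEquiv.subgroupCongr (range_eq hm p σ hpos φ hφ)⟩
  obtain ⟨e3⟩ : Nonempty (↥(Cfsg.GSp m K) ⧸ (cGSp.comp (mapGSp (m := m) φ)).ker ≃*
      Cfsg.PGSp m K) :=
    ⟨QuotientGroup.quotientMulEquivOfEq (ker_eq hm p φ)⟩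
  exact ⟨(e2.symm.trans e1.symm).trans e3⟩

end Cfsg.Agent.Lib.Helper43.SpFieldCent
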