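import Mathlib
import Cfsg.Prelude.Def_LieTypeDatum
import Cfsg.Agent.Lib.Helper43.SpFieldCent
import Cfsg.Agent.Lib.Helper40.SympConj

set_option autoImplicit false

namespace Cfsg.Agent.Lib.Helper43.SpCoset

open Matrix Cfsg.Agent.Lib.Helper13.SympMat Cfsg.Agent.Lib.Helper43.SpBasic
  Cfsg.Agent.Lib.Helper43.SpAuts Cfsg.Agent.Lib.Helper43.SpFrame
  Cfsg.Agent.Lib.Helper43.SpGSp Cfsg.Agent.Lib.Helper43.SpInn
  Cfsg.Agent.Lib.Helper43.H90GL Cfsg.Agent.Lib.Helper43.H90Fin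
  Cfsg.Agent.Lib.Helper43.SpFieldCent

variable {F : Type*} [Field F] {m : ℕ}

/-- twisted powers `g σ(g) ⋯ σ^{k-1}(g)` -/
def tw (σ : RingAut F) (g : ↥(Cfsg.GSp m F)) : ℕ → ↥(Cfsg.GSp m F)
  | 0 => 1
  | k + 1 => tw σ g k * mapGSp ((σ ^ k : RingAut F) : F →+* F) g

theorem tw_zero (σ : RingAut F) (g : ↥(Cfsg.GSp m F)) : tw σ g 0 = 1 := rfl

theorem tw_succ (σ : RingAut F) (g : ↥(Cfsg.GSp m F)) (k : ℕ) :
    tw σ g (k + 1) = tw σ g k * mapGSp ((σ ^ k : RingAut F) : F →+* F) g := rfl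

theorem map_map_pow (σ : RingAut F) (k : ℕ) (g : ↥(Cfsg.GSp m F)) :
    mapGSp (σ : F →+* F) (mapGSp ((σ ^ k : RingAut F) : F →+* F) g) =
      mapGSp ((σ ^ (k + 1) : RingAut F) : F →+* F) g := by
  apply gsp_ext
  ext i j
  show σ ((σ ^ k) (((g : GL (Fin m ⊕ Fin m) F) :
      Matrix (Fin m ⊕ Fin m) (Fin m ⊕ Fin m) F) i j)) =
    (σ ^ (k + 1)) (((g : GL (Fin m ⊕ Fin m) F) : Matrix (Fin m ⊕ Fin m) (Fin m ⊕ Fin m) F) i j)
  rw [pow_succ_apply]

theorem map_pow_zero (σ : RingAut F) (g : ↥(Cfsg.GSp m F)) :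
    mapGSp ((σ ^ 0 : RingAut F) : F →+* F) g = g := by
  apply gsp_ext
  ext i j
  rfl

theorem map_pow_orderOf (σ : RingAut F) (g : ↥(Cfsg.GSp m F)) :
    mapGSp ((σ ^ orderOf σ : RingAut F) : F →+* F) g = g := by
  apply gsp_ext
  ext i j
  show (σ ^ orderOf σ) (((g : GL (Fin m ⊕ Fin m) F) :
      Matrix (Fin m ⊕ Fin m) (Fin m ⊕ Fin m) F) i j) = _
  rw [pow_orderOf_apply]

theorem tw_succ' (σ : RingAut F) (g : ↥(Cfsg.GSp m F)) (k : ℕ) :
    tw σ g (k + 1) = g * mapGSp (σ : F →+* F) (tw σ g k) := by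
  induction k with
  | zero => rw [tw_succ, tw_zero, one_mul, map_pow_zero, map_one, mul_one]
  | succ k ih =>
    have h1 : tw σ g (k + 1 + 1) = tw σ g (k + 1) *
        mapGSp ((σ ^ (k + 1) : RingAut F) : F →+* F) g := rfl
    rw [h1]
    nth_rewrite 1 [ih]
    rw [mul_assoc, ← map_map_pow, ← map_mul]
    rfl

theorem pow_eq (σ : RingAut F) (g : ↥(Cfsg.GSp m F)) (k : ℕ) :
    (cGSp g * cσ σ) ^ k = cGSp (tw σ g k) * cσ (σ ^ k) := by
  induction k with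
  | zero => rw [pow_zero, tw_zero, map_one, pow_zero, map_one, mul_one]
  | succ k ih =>
    rw [pow_succ', ih, tw_succ', map_mul, pow_succ', map_mul]
    calc cGSp g * cσ σ * (cGSp (tw σ g k) * cσ (σ ^ k))
        = cGSp g * (cσ σ * cGSp (tw σ g k)) * cσ (σ ^ k) := by group
      _ = cGSp g * cGSp (mapGSp (σ : F →+* F) (tw σ g k)) *
          (cσ σ * cσ (σ ^ k)) := by rw [cσ_mul_cGSp]; group

theorem tw_scalar (σ : RingAut F) (μ : Fˣ) (g : ↥(Cfsg.GSp m F)) (k : ℕ) :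
    ∃ ν : Fˣ, (ν : F) = nm σ μ k ∧
      tw σ (scalarGSp μ * g) k = scalarGSp ν * tw σ g k := by
  induction k with
  | zero =>
    refine ⟨1, ?_, ?_⟩
    · rw [nm_zero]
      rfl
    · rw [tw_zero, tw_zero, map_one, one_mul]
  | succ k ih =>
    obtain ⟨ν, hν, h⟩ := ih
    obtain ⟨μ', hμ'1, hμ'2⟩ : ∃ μ' : Fˣ, (μ' : F) = (σ ^ k) (μ : F) ∧
        mapGSp ((σ ^ k : RingAut F) : F →+* F) (scalarGSp (m := m) μ) = scalarGSp μ' :=
      ⟨_, rfl, mapGSp_scalarGSp _ _⟩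
    refine ⟨ν * μ', ?_, ?_⟩
    · rw [Units.val_mul, hν, hμ'1, nm_succ]
    · rw [tw_succ, h, map_mul, hμ'2, tw_succ, map_mul]
      have h1 := scalarGSp_comm μ' (tw σ g k)
      calc scalarGSp ν * tw σ g k *
            (scalarGSp μ' * mapGSp ((σ ^ k : RingAut F) : F →+* F) g)
          = scalarGSp ν * (tw σ g k * scalarGSp μ') *
              mapGSp ((σ ^ k : RingAut F) : F →+* F) g := by
            simp only [mul_assoc]
        _ = scalarGSp ν * scalarGSp μ' *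
            (tw σ g k * mapGSp ((σ ^ k : RingAut F) : F →+* F) g) := by
            rw [← h1]
            simp only [mul_assoc]

theorem conj_of_eq (x₀ : MulAut (Cfsg.PSp m F))
    (h h' g : ↥(Cfsg.GSp m F)) (h1 : x₀ * cGSp h = cGSp h' * x₀) (h2 : g * h' = h) :
    cGSp g * x₀ = cGSp h * x₀ * (cGSp h)⁻¹ := by
  have h3 : x₀ * (cGSp h)⁻¹ = (cGSp h')⁻¹ * x₀ := by
    rw [eq_inv_mul_iff_mul_eq, ← mul_assoc, ← h1, mul_assoc, mul_inv_cancel, mul_one]
  rw [mul_assoc, h3, ← mul_assoc, ← h2, map_mul, mul_inv_cancel_right]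

/-! ### descent of alternating forms -/

theorem toBilin_map {K : Type*} [Field K] {ι : Type*} [Fintype ι] [DecidableEq ι]
    (φ : K →+* F) (M : Matrix ι ι K) (u v : ι → K) :
    φ (Matrix.toBilin' M u v) =
      Matrix.toBilin' (M.map φ) (fun i => φ (u i)) (fun i => φ (v i)) := by
  rw [Matrix.toBilin'_apply, Matrix.toBilin'_apply, map_sum]
  apply Finset.sum_congr rfl
  intro i _
  rw [map_sum]
  apply Finset.sum_congr rfl
  intro j _
  rw [map_mul, map_mul, Matrix.map_apply]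

theorem toBilin_mulVec {K : Type*} [Field K] {ι : Type*} [Fintype ι] [DecidableEq ι]
    (M P Q : Matrix ι ι K) (u v : ι → K) :
    Matrix.toBilin' M (P *ᵥ u) (Q *ᵥ v) = Matrix.toBilin' (Pᵀ * M * Q) u v := by
  rw [← Matrix.toBilin'_comp]
  rfl

/-- an alternating nondegenerate matrix fixed by `σ` is congruent to `J` by a matrix fixed by
`σ` -/
theorem alt_descent (σ : RingAut F) (M : Matrix (Fin m ⊕ Fin m) (Fin m ⊕ Fin m) F)
    (hσ : M.map σ = M) (halt : ∀ x, Matrix.toBilin' M x x = 0) (hdet : M.det ≠ 0) :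
    ∃ D : Matrix (Fin m ⊕ Fin m) (Fin m ⊕ Fin m) F, D.map σ = D ∧ Dᵀ * M * D = J (Fin m) F := by
  classical
  obtain ⟨φ, hφ⟩ : ∃ φ : ↥(fixF σ) →+* F, ∀ b, φ b = (b : F) :=
    ⟨(fixF σ).subtype, fun _ => rfl⟩
  have hmem : ∀ i j, M i j ∈ fixF σ := by
    intro i j
    rw [mem_fixF]
    have h1 := congrFun (congrFun hσ i) j
    exact h1
  obtain ⟨M₀, hM₀⟩ : ∃ M₀ : Matrix (Fin m ⊕ Fin m) (Fin m ⊕ Fin m) ↥(fixF σ), M₀.map φ = M :=
    ⟨Matrix.of fun i j => ⟨M i j, hmem i j⟩, by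
      ext i j
      rw [Matrix.map_apply, hφ]
      rfl⟩
  have hdet₀ : M₀.det ≠ 0 := by
    intro h0
    have h1 := RingHom.map_det φ M₀
    rw [h0, map_zero] at h1
    have h2 : φ.mapMatrix M₀ = M := hM₀
    rw [h2] at h1
    exact hdet h1.symm
  have halt₀ : (Matrix.toBilin' M₀).IsAlt := by
    intro x
    apply φ.injective
    rw [toBilin_map, hM₀, halt, map_zero]
  have hn₁ : ∀ u, (∀ v, Matrix.toBilin' M₀ u v = 0) → u = 0 := by
    intro u hu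
    apply Matrix.eq_zero_of_vecMul_eq_zero hdet₀
    funext j
    have h1 := hu (Pi.single j 1)
    rw [Matrix.toBilin'_apply', Matrix.dotProduct_mulVec, dotProduct_single, mul_one] at h1
    exact h1
  have hn₂ : ∀ u, (∀ v, form m ↥(fixF σ) u v = 0) → u = 0 := by
    intro u hu
    apply eq_zero_of_form
    intro x
    rw [form_skew, hu, neg_zero]
  obtain ⟨c, hc⟩ := Cfsg.Agent.Lib.Helper40.SympConj.alt_iso (Matrix.toBilin' M₀)
    (form m ↥(fixF σ)) halt₀ (form_alt m) hn₁ hn₂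
  obtain ⟨D₀, hD₀⟩ : ∃ D₀ : Matrix (Fin m ⊕ Fin m) (Fin m ⊕ Fin m) ↥(fixF σ),
      ∀ u, D₀ *ᵥ u = c u :=
    ⟨LinearMap.toMatrix' (c : (Fin m ⊕ Fin m → ↥(fixF σ)) →ₗ[↥(fixF σ)] _), fun u => by
      rw [← Matrix.toLin'_apply, Matrix.toLin'_toMatrix']
      rfl⟩
  have hJ : D₀ᵀ * M₀ * D₀ = J (Fin m) ↥(fixF σ) := by
    apply Matrix.toBilin'.injective
    apply LinearMap.ext₂
    intro u v
    rw [← toBilin_mulVec, hD₀, hD₀, ← hc]
    rfl
  refine ⟨D₀.map φ, ?_, ?_⟩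
  · ext i j
    rw [Matrix.map_apply, Matrix.map_apply, hφ]
    exact (mem_fixF σ _).1 (D₀ i j).2
  · rw [← hM₀, ← Matrix.transpose_map, ← Matrix.map_mul, ← Matrix.map_mul, hJ, J_map]

/-- from a solution of `g σ(B) = B` in `GL` to a solution in `GSp` -/
theorem descent (hm : 1 ≤ m) (σ : RingAut F) (hpos : 0 < orderOf σ) (g : ↥(Cfsg.GSp m F))
    (B : Matrix (Fin m ⊕ Fin m) (Fin m ⊕ Fin m) F) (hB : IsUnit B)
    (hB2 : ((g : GL (Fin m ⊕ Fin m) F) : Matrix (Fin m ⊕ Fin m) (Fin m ⊕ Fin m) F) * B.map σ = B) :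
    ∃ h : ↥(Cfsg.GSp m F), g * mapGSp (σ : F →+* F) h = h := by
  obtain ⟨J', hJ'⟩ : ∃ J' : Matrix (Fin m ⊕ Fin m) (Fin m ⊕ Fin m) F,
      J' = Bᵀ * J (Fin m) F * B := ⟨_, rfl⟩
  have hdetB : IsUnit B.det := (Matrix.isUnit_iff_isUnit_det B).1 hB
  have hdetJ' : J'.det ≠ 0 := by
    rw [hJ', Matrix.det_mul, Matrix.det_mul, Matrix.det_transpose]
    exact mul_ne_zero (mul_ne_zero hdetB.ne_zero (Matrix.isUnit_det_J (Fin m) F).ne_zero)
      hdetB.ne_zero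
  have hJ'0 : J' ≠ 0 := by
    intro h0
    haveI : Nonempty (Fin m ⊕ Fin m) := ⟨Sum.inl ⟨0, hm⟩⟩
    rw [h0, Matrix.det_zero] at hdetJ'
    exact hdetJ' rfl
  have hc0 : (multU g : F) ≠ 0 := (multU g).ne_zero
  have hJσ : (J (Fin m) F).map σ = J (Fin m) F := J_map (σ : F →+* F)
  have h1 : J'.map σ = ((multU g : F))⁻¹ • J' := by
    have h2 : J' = (multU g : F) • J'.map σ := by
      have h3 : J'.map σ = (B.map σ)ᵀ * J (Fin m) F * B.map σ := by
        rw [hJ', Matrix.map_mul, Matrix.map_mul, hJσ, Matrix.transpose_map]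
      rw [h3, hJ']
      calc Bᵀ * J (Fin m) F * B
          = (((g : GL (Fin m ⊕ Fin m) F) : Matrix (Fin m ⊕ Fin m) (Fin m ⊕ Fin m) F) *
              B.map σ)ᵀ * J (Fin m) F *
            (((g : GL (Fin m ⊕ Fin m) F) : Matrix (Fin m ⊕ Fin m) (Fin m ⊕ Fin m) F) *
              B.map σ) := by rw [hB2]
        _ = (B.map σ)ᵀ *
            (((g : GL (Fin m ⊕ Fin m) F) : Matrix (Fin m ⊕ Fin m) (Fin m ⊕ Fin m) F)ᵀ *
              J (Fin m) F *
              ((g : GL (Fin m ⊕ Fin m) F) : Matrix (Fin m ⊕ Fin m) (Fin m ⊕ Fin m) F)) *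
            B.map σ := by
            rw [Matrix.transpose_mul]
            simp only [Matrix.mul_assoc]
        _ = (multU g : F) • ((B.map σ)ᵀ * J (Fin m) F * B.map σ) := by
            rw [multU_mat, Matrix.mul_smul, Matrix.smul_mul]
    nth_rewrite 2 [h2]
    rw [smul_smul, inv_mul_cancel₀ hc0, one_smul]
  have h3 := nm_eq_one σ J' hJ'0 _ h1
  obtain ⟨ν, hν, hν2⟩ := h90 σ hpos _ h3
  have hM : (ν • J').map σ = ν • J' := by
    ext i j
    rw [Matrix.map_apply, Matrix.smul_apply, smul_eq_mul, map_mul]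
    have h4 := congrFun (congrFun h1 i) j
    rw [Matrix.map_apply, Matrix.smul_apply, smul_eq_mul] at h4
    rw [h4, ← mul_assoc, mul_comm (σ ν), hν2]
  have halt : ∀ x, Matrix.toBilin' (ν • J') x x = 0 := by
    intro x
    rw [map_smul, LinearMap.smul_apply, LinearMap.smul_apply, hJ', ← form_mulVec_eq, form_self,
      smul_zero]
  have hdetM : (ν • J').det ≠ 0 := by
    rw [Matrix.det_smul]
    exact mul_ne_zero (pow_ne_zero _ hν) hdetJ'
  obtain ⟨D, hD1, hD2⟩ := alt_descent σ (ν • J') hM halt hdetM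
  have hDdet : D.det ≠ 0 := by
    intro h0
    have h4 := congrArg Matrix.det hD2
    rw [Matrix.det_mul, Matrix.det_mul, h0, mul_zero] at h4
    exact (Matrix.isUnit_det_J (Fin m) F).ne_zero h4.symm
  have hdet : (B * D).det ≠ 0 := by
    rw [Matrix.det_mul]
    exact mul_ne_zero hdetB.ne_zero hDdet
  have hG : Matrix.GeneralLinearGroup.mkOfDetNeZero (B * D) hdet ∈ Cfsg.GSp m F := by
    rw [mem_GSp_mat]
    refine ⟨(Units.mk0 ν hν)⁻¹, ?_⟩
    show (B * D)ᵀ * J (Fin m) F * (B * D) = (((Units.mk0 ν hν)⁻¹ : Fˣ) : F) • J (Fin m) F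
    have h4 : (B * D)ᵀ * J (Fin m) F * (B * D) = Dᵀ * J' * D := by
      rw [hJ', Matrix.transpose_mul]
      simp only [Matrix.mul_assoc]
    rw [h4, ← hD2, Matrix.mul_smul, Matrix.smul_mul, smul_smul, Units.val_inv_eq_inv_val,
      Units.val_mk0, inv_mul_cancel₀ hν, one_smul]
  refine ⟨⟨_, hG⟩, ?_⟩
  apply gsp_ext
  rw [Subgroup.coe_mul, Units.val_mul, mapGSp_coe]
  show ((g : GL (Fin m ⊕ Fin m) F) : Matrix (Fin m ⊕ Fin m) (Fin m ⊕ Fin m) F) *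
    (B * D).map σ = B * D
  rw [Matrix.map_mul, hD1, ← Matrix.mul_assoc, hB2]

/-- elements of prime order in the coset of a field automorphism are conjugate to it -/
theorem field_conj [Finite F] (hm : 1 ≤ m) (p : ℕ) [Fact p.Prime] [CharP F p] (σ : RingAut F)
    (g : ↥(Cfsg.GSp m F)) (h : (cGSp g * cσ σ) ^ orderOf σ = 1) :
    ∃ h : ↥(Cfsg.GSp m F), cGSp g * cσ σ = cGSp h * cσ σ * (cGSp h)⁻¹ := by
  have hpos := orderOf_pos_ringAut σ
  rw [pow_eq, pow_orderOf_eq_one, map_one, mul_one] at h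
  obtain ⟨t, ht⟩ := ker_cGSp hm p _ h
  have hσt : σ (t : F) = t := by
    have h2 : tw σ g (orderOf σ + 1) = tw σ g (orderOf σ) *
        mapGSp ((σ ^ orderOf σ : RingAut F) : F →+* F) g := rfl
    rw [tw_succ', ht, map_pow_orderOf, mapGSp_scalarGSp, ← scalarGSp_comm] at h2
    have h4 := scalarGSp_injective hm (mul_right_cancel h2)
    exact congrArg (fun u : Fˣ => (u : F)) h4
  obtain ⟨μ, hμ, hμ2⟩ := norm_surj σ ((t : F)⁻¹) (inv_ne_zero t.ne_zero)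
    (by rw [map_inv₀, hσt])
  obtain ⟨ν, hν, hν2⟩ := tw_scalar σ (Units.mk0 μ hμ) g (orderOf σ)
  have h6 : tw σ (scalarGSp (Units.mk0 μ hμ) * g) (orderOf σ) = 1 := by
    rw [hν2, ht, ← map_mul]
    have h7 : ν * t = 1 := by
      apply Units.ext
      rw [Units.val_mul, hν, Units.val_mk0, hμ2, inv_mul_cancel₀ t.ne_zero]
      rfl
    rw [h7, map_one]
  obtain ⟨B, hB, hB2⟩ := h90_matrix σ hpos
    (((scalarGSp (Units.mk0 μ hμ) * g : ↥(Cfsg.GSp m F)) : GL (Fin m ⊕ Fin m) F) :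
      Matrix (Fin m ⊕ Fin m) (Fin m ⊕ Fin m) F)
    (fun k => (((tw σ (scalarGSp (Units.mk0 μ hμ) * g) k : ↥(Cfsg.GSp m F)) :
      GL (Fin m ⊕ Fin m) F) : Matrix (Fin m ⊕ Fin m) (Fin m ⊕ Fin m) F)) rfl
    (fun k => by rw [tw_succ']; rfl) (by rw [h6]; rfl)
  obtain ⟨h, hh⟩ := descent hm σ hpos _ B hB hB2
  refine ⟨h, ?_⟩
  have h8 := conj_of_eq (cσ σ) h _ _ (cσ_mul_cGSp σ h) hh
  rw [map_mul, cGSp_scalarGSp, one_mul] at h8
  exact h8

end Cfsg.Agent.Lib.Helper43.SpCoset
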