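import Mathlib
import Cfsg.Agent.Lib.Helper43.Sp4Out
import Cfsg.Agent.Lib.Helper43.SpRootEven
import Cfsg.Agent.Lib.Helper43.SpRootOdd

set_option autoImplicit false

namespace Cfsg.Agent.Lib.Helper43.SpOut

open Matrix Cfsg.Agent.Lib.Helper13.SympMat Cfsg.Agent.Lib.Helper43.SpBasic
  Cfsg.Agent.Lib.Helper43.SpAuts Cfsg.Agent.Lib.Helper43.SpGSp Cfsg.Agent.Lib.Helper43.SpFrame
  Cfsg.Agent.Lib.Helper43.SpInn Cfsg.Agent.Lib.Helper43.SpCore1 Cfsg.Agent.Lib.Helper43.SpCore4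
  Cfsg.Agent.Lib.Helper43.Sp4Out

variable {F : Type*} [Field F] {m : ℕ}

theorem cGSp_mem_inn_iff (hm : 1 ≤ m) (p : ℕ) [Fact p.Prime] [CharP F p]
    (g : ↥(Cfsg.GSp m F)) :
    cGSp g ∈ Cfsg.Inn (Cfsg.PSp m F) ↔ ∃ d : Fˣ, multU g = d * d := by
  constructor
  · intro h
    obtain ⟨s, hs⟩ := (mem_inn_iff _).1 h
    have h1 : cGSp ((toGSp s)⁻¹ * g) = 1 := by rw [map_mul, map_inv, hs, inv_mul_cancel]
    obtain ⟨l, hl⟩ := ker_cGSp hm p _ h1
    refine ⟨l, ?_⟩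
    have h2 : g = toGSp s * scalarGSp l := by rw [← hl, mul_inv_cancel_left]
    rw [h2, ← mult_apply hm, map_mul, mult_apply, mult_apply, multU_toGSp hm, multU_scalarGSp hm,
      one_mul]
  · rintro ⟨d, hd⟩
    obtain ⟨s, rfl⟩ := exists_sp_of_mult g d hd
    rw [map_mul, cGSp_scalarGSp, one_mul]
    exact (mem_inn_iff _).2 ⟨s, rfl⟩

theorem conj_injective (hm : 1 ≤ m) (p : ℕ) [Fact p.Prime] [CharP F p] :
    Function.Injective (MulAut.conj : Cfsg.PSp m F →* MulAut (Cfsg.PSp m F)) := by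
  rw [injective_iff_map_eq_one]
  intro y hy
  obtain ⟨s, rfl⟩ := pr_surjective y
  rw [← cGSp_toGSp] at hy
  obtain ⟨l, hl⟩ := ker_cGSp hm p _ hy
  have h1 : pr s = pr (1 : Matrix.symplecticGroup (Fin m) F) := by
    apply pr_eq_of_scalar (l : F)
    rw [← toGSp_coe s, hl, scalarGSp_mat]
    rfl
  rw [h1, map_one]

theorem mult_surjective (hm : 1 ≤ m) : Function.Surjective (mult (F := F) hm) := by
  intro l
  exact ⟨dg (fun _ => 1) l, by rw [mult_apply, multU_dg hm]⟩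

theorem card_aut_of_out (hm : 1 ≤ m) (p : ℕ) [Fact p.Prime] [CharP F p] :
    Nat.card (MulAut (Cfsg.PSp m F)) =
      Nat.card (Cfsg.Out (Cfsg.PSp m F)) * Nat.card (Cfsg.PSp m F) := by
  have h3 := Subgroup.card_mul_index (Cfsg.Inn (Cfsg.PSp m F))
  have h4 : Nat.card (Cfsg.Inn (Cfsg.PSp m F)) = Nat.card (Cfsg.PSp m F) :=
    (Nat.card_congr (MonoidHom.ofInjective (conj_injective hm p)).toEquiv).symm
  have h5 : (Cfsg.Inn (Cfsg.PSp m F)).index = Nat.card (Cfsg.Out (Cfsg.PSp m F)) := rfl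
  rw [← h3, h4, h5, mul_comm]

/-- `[Inndiag : Inn] = gcd(2, q - 1)` -/
theorem relIndex_inn [Fintype F] {p f : ℕ} [Fact p.Prime] (hf : 1 ≤ f)
    (hF : Fintype.card F = p ^ f) (hm : 1 ≤ m) :
    (Cfsg.Inn (Cfsg.PSp m F)).relIndex (Cfsg.inndiagPSp m F) = Nat.gcd 2 (p ^ f - 1) := by
  classical
  haveI : CharP F p := Cfsg.Agent.Lib.Helper43.PSLnOut.charP_of_card hf hF
  have h1 : (Cfsg.Inn (Cfsg.PSp m F)).comap (cGSp (F := F) (m := m)) =
      (powMonoidHom 2 : Fˣ →* Fˣ).range.comap (mult hm) := by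
    ext g
    rw [Subgroup.mem_comap, Subgroup.mem_comap, cGSp_mem_inn_iff hm p, mult_apply]
    constructor
    · rintro ⟨d, hd⟩
      exact ⟨d, by rw [hd]; exact pow_two d⟩
    · rintro ⟨d, hd⟩
      exact ⟨d, by rw [← hd]; exact pow_two d⟩
  rw [inndiag_eq, ← Subgroup.index_comap, h1,
    Subgroup.index_comap_of_surjective _ (mult_surjective hm), IsCyclic.index_powMonoidHom_range,
    Nat.card_units, Nat.card_eq_fintype_card, hF, Nat.gcd_comm]

/-- `|Out(PSp_{2m}(q))| = gcd(2, q - 1) f` when every automorphism permutes the root sets -/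
theorem card_out_of_perm [Fintype F] {p f : ℕ} [Fact p.Prime] (hf : 1 ≤ f)
    (hF : Fintype.card F = p ^ f) (hm : 2 ≤ m) (H : Perm m F) :
    Nat.card (Cfsg.Out (Cfsg.PSp m F)) = Nat.gcd 2 (p ^ f - 1) * f := by
  classical
  haveI : CharP F p := Cfsg.Agent.Lib.Helper43.PSLnOut.charP_of_card hf hF
  haveI hnorm : (Cfsg.inndiagPSp m F).Normal := inndiag_normal hm
  obtain ⟨κ, hκ⟩ : ∃ κ : RingAut F →* MulAut (Cfsg.PSp m F) ⧸ Cfsg.inndiagPSp m F,
      κ = (QuotientGroup.mk' _).comp cσ := ⟨_, rfl⟩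
  have happ : ∀ σ, κ σ = QuotientGroup.mk (cσ σ) := by
    intro σ
    rw [hκ]
    rfl
  have hinj : Function.Injective κ := by
    rw [injective_iff_map_eq_one]
    intro σ h
    rw [happ] at h
    exact σ_eq_one_of_mem (by omega) p σ ((QuotientGroup.eq_one_iff _).1 h)
  have hsurj : Function.Surjective κ := by
    intro y
    obtain ⟨α, rfl⟩ := QuotientGroup.mk_surjective y
    obtain ⟨g, σ, h⟩ := core hm p H α
    refine ⟨σ, ?_⟩
    rw [happ, h, QuotientGroup.mk_mul, (QuotientGroup.eq_one_iff _).2 (cGSp_mem_inndiag g),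
      one_mul]
  have hidx : (Cfsg.inndiagPSp m F).index = f := by
    rw [← (Cfsg.Agent.Lib.Helper43.PSLnOut.ringAut_cyclic_card hf hF).2]
    exact (Nat.card_congr (Equiv.ofBijective κ ⟨hinj, hsurj⟩)).symm
  have h5 : Nat.card (Cfsg.Out (Cfsg.PSp m F)) = (Cfsg.Inn (Cfsg.PSp m F)).index := rfl
  rw [h5, ← Subgroup.relIndex_mul_index (inn_le_inndiag (F := F) (m := m)),
    relIndex_inn hf hF (by omega), hidx]

/-- the order of `Aut(PSp_{2m}(q))` -/
theorem card_aut [Fintype F] (p f : ℕ) [Fact p.Prime] (hf : 1 ≤ f)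
    (hF : Fintype.card F = p ^ f) (m : ℕ) (hm : 2 ≤ m) :
    Nat.card (MulAut (Cfsg.PSp m F)) =
      (if m = 2 ∧ p = 2 then 2 else 1) * Nat.gcd 2 (p ^ f - 1) * f * Nat.card (Cfsg.PSp m F) := by
  haveI : CharP F p := Cfsg.Agent.Lib.Helper43.PSLnOut.charP_of_card hf hF
  rw [card_aut_of_out (by omega) p]
  congr 1
  by_cases hex : m = 2 ∧ p = 2
  · obtain ⟨rfl, rfl⟩ := hex
    rw [if_pos ⟨rfl, rfl⟩, (out_card_cyclic hf hF).2]
    have h1 : Nat.gcd 2 (2 ^ f - 1) = 1 := by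
      have h2 : Odd (2 ^ f - 1) :=
        Nat.Even.sub_odd Nat.one_le_two_pow ((Nat.even_pow).2 ⟨even_two, by omega⟩) odd_one
      exact Nat.coprime_two_left.2 h2
    rw [h1, mul_one]
  · rw [if_neg hex, one_mul]
    apply card_out_of_perm hf hF hm
    by_cases h2 : (2 : F) = 0
    · have hp2 : p = 2 := by
        have h3 : p ∣ 2 := (CharP.cast_eq_zero_iff F p 2).1 (by exact_mod_cast h2)
        exact (Nat.prime_dvd_prime_iff_eq Fact.out Nat.prime_two).1 h3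
      have hm3 : 3 ≤ m := by
        by_contra hlt
        exact hex ⟨by omega, hp2⟩
      exact Cfsg.Agent.Lib.Helper43.SpRootEven.perm_even hf hF hm3 h2
    · exact Cfsg.Agent.Lib.Helper43.SpRootOdd.perm_odd hf hF (by omega) h2

end Cfsg.Agent.Lib.Helper43.SpOut
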