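import Mathlib
import Cfsg.Agent.Lib.Helper43.SpOut
import Cfsg.Agent.Lib.Helper43.SpFieldCent
import Cfsg.Agent.Lib.Helper43.SpCoset

set_option autoImplicit false

namespace Cfsg.Agent.Lib.Helper43.SpBalB

open Matrix Cfsg.Agent.Lib.Helper13.SympMat Cfsg.Agent.Lib.Helper43.SpBasic
  Cfsg.Agent.Lib.Helper43.SpAuts Cfsg.Agent.Lib.Helper43.SpGSp Cfsg.Agent.Lib.Helper43.SpFrame
  Cfsg.Agent.Lib.Helper43.SpInn Cfsg.Agent.Lib.Helper43.SpPair Cfsg.Agent.Lib.Helper43.SpZ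
  Cfsg.Agent.Lib.Helper43.SpRel Cfsg.Agent.Lib.Helper43.Sp4Root
  Cfsg.Agent.Lib.Helper43.SpFieldCent Cfsg.Agent.Lib.Helper43.H90GL

variable {F : Type*} [Field F] {K : Type*} [Field K] {m : ℕ}

/-! ### base change of symplectic matrices -/

/-- base change of symplectic matrices along a field embedding -/
def mapSp (φ : K →+* F) :
    Matrix.symplecticGroup (Fin m) K →* Matrix.symplecticGroup (Fin m) F where
  toFun s := ⟨(s : Matrix (Fin m ⊕ Fin m) (Fin m ⊕ Fin m) K).map φ,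
    SymplecticGroup.map_mem s.2 φ⟩
  map_one' := Subtype.ext (by
    show (1 : Matrix (Fin m ⊕ Fin m) (Fin m ⊕ Fin m) K).map φ = 1
    exact Matrix.map_one φ (map_zero φ) (map_one φ))
  map_mul' s t := Subtype.ext (by
    show ((s : Matrix (Fin m ⊕ Fin m) (Fin m ⊕ Fin m) K) *
      (t : Matrix (Fin m ⊕ Fin m) (Fin m ⊕ Fin m) K)).map φ = _
    exact Matrix.map_mul)

theorem mapSp_coe (φ : K →+* F) (s : Matrix.symplecticGroup (Fin m) K) :
    ((mapSp φ s : Matrix.symplecticGroup (Fin m) F) :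
      Matrix (Fin m ⊕ Fin m) (Fin m ⊕ Fin m) F) =
      (s : Matrix (Fin m ⊕ Fin m) (Fin m ⊕ Fin m) K).map φ := rfl

theorem mapSp_injective (φ : K →+* F) : Function.Injective (mapSp (m := m) φ) := by
  intro s t h
  apply Subtype.ext
  have h1 := congrArg Subtype.val h
  exact Matrix.map_injective φ.injective h1

theorem mapSp_t (φ : K →+* F) (v₀ : Fin m ⊕ Fin m → K) (c₀ : K) :
    mapSp φ (t v₀ c₀) = t (fun k => φ (v₀ k)) (φ c₀) := by
  apply Subtype.ext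
  show (Cfsg.sympTransvection m v₀ c₀).map φ =
    Cfsg.sympTransvection m (fun k => φ (v₀ k)) (φ c₀)
  have hJ : ∀ j, (J (Fin m) F *ᵥ fun k => φ (v₀ k)) j = φ ((J (Fin m) K *ᵥ v₀) j) := by
    intro j
    rw [RingHom.map_mulVec, J_map]
    rfl
  unfold Cfsg.sympTransvection
  ext i j
  rw [Matrix.map_apply, Matrix.add_apply, Matrix.add_apply, Matrix.smul_apply, Matrix.smul_apply,
    Matrix.vecMulVec_apply, Matrix.vecMulVec_apply, hJ, map_add, smul_eq_mul, smul_eq_mul, map_mul,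
    map_mul, Matrix.one_apply, Matrix.one_apply]
  by_cases hij : i = j
  · rw [if_pos hij, if_pos hij, map_one]
  · rw [if_neg hij, if_neg hij, map_zero]

theorem pr_mapSp_center (hm : 1 ≤ m) (φ : K →+* F) {z : Matrix.symplecticGroup (Fin m) K}
    (hz : z ∈ Subgroup.center (Matrix.symplecticGroup (Fin m) K)) : pr (mapSp φ z) = 1 := by
  obtain ⟨a, ha, h⟩ := Cfsg.Agent.S0246.center_scalar m hm z hz
  rw [← map_one pr]
  apply pr_eq_of_scalar (φ a)
  rw [mapSp_coe, h]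
  ext i j
  rw [Matrix.map_apply, Matrix.smul_apply, Matrix.smul_apply, smul_eq_mul, smul_eq_mul, map_mul]
  congr 1
  show φ ((1 : Matrix (Fin m ⊕ Fin m) (Fin m ⊕ Fin m) K) i j) =
    (1 : Matrix (Fin m ⊕ Fin m) (Fin m ⊕ Fin m) F) i j
  rw [Matrix.one_apply, Matrix.one_apply]
  by_cases hij : i = j
  · rw [if_pos hij, if_pos hij, map_one]
  · rw [if_neg hij, if_neg hij, map_zero]

theorem exists_mapSp (σ : RingAut F) (φ : K →+* F) (hφ : ∀ a, σ a = a → ∃ b, φ b = a)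
    (s : Matrix.symplecticGroup (Fin m) F)
    (hs : (s : Matrix (Fin m ⊕ Fin m) (Fin m ⊕ Fin m) F).map σ = s) :
    ∃ s₀ : Matrix.symplecticGroup (Fin m) K, mapSp φ s₀ = s := by
  have hmem : ∀ i j, ∃ b, φ b = (s : Matrix (Fin m ⊕ Fin m) (Fin m ⊕ Fin m) F) i j := by
    intro i j
    apply hφ
    exact congrFun (congrFun hs i) j
  choose c hc using hmem
  have hmap : (Matrix.of c).map φ = (s : Matrix (Fin m ⊕ Fin m) (Fin m ⊕ Fin m) F) := by
    ext i j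
    exact hc i j
  have hsymp : Matrix.of c ∈ Matrix.symplecticGroup (Fin m) K := by
    rw [SymplecticGroup.mem_iff]
    apply Matrix.map_injective φ.injective
    show (Matrix.of c * J (Fin m) K * (Matrix.of c)ᵀ).map φ = (J (Fin m) K).map φ
    rw [Matrix.map_mul, Matrix.map_mul, Matrix.transpose_map, hmap, J_map]
    exact SymplecticGroup.mem_iff.1 s.2
  exact ⟨⟨Matrix.of c, hsymp⟩, Subtype.ext hmap⟩

/-! ### fixed points of a field automorphism -/

theorem map_mul_σ (σ : RingAut F) (A B : Matrix (Fin m ⊕ Fin m) (Fin m ⊕ Fin m) F) :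
    (A * B).map σ = A.map σ * B.map σ :=
  Matrix.map_mul (f := (σ : F →+* F))

theorem fix_cases (hm : 1 ≤ m) (σ : RingAut F) {k : Cfsg.PSp m F} (hk : cσ σ k = k) :
    ∃ (s : Matrix.symplecticGroup (Fin m) F) (a : F), k = pr s ∧ a ^ 2 = 1 ∧
      (s : Matrix (Fin m ⊕ Fin m) (Fin m ⊕ Fin m) F).map σ =
        a • (s : Matrix (Fin m ⊕ Fin m) (Fin m ⊕ Fin m) F) := by
  obtain ⟨s, rfl⟩ := pr_surjective k
  rw [cσ_pr] at hk
  obtain ⟨a, ha, h⟩ := exists_scalar_of_pr_eq hm hk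
  exact ⟨s, a, rfl, ha, h⟩

theorem fix_sq (hm : 1 ≤ m) (σ : RingAut F) (φ : K →+* F) (hφ : ∀ a, σ a = a → ∃ b, φ b = a)
    {k : Cfsg.PSp m F} (hk : cσ σ k = k) :
    ∃ s₀ : Matrix.symplecticGroup (Fin m) K, k * k = pr (mapSp φ s₀) := by
  obtain ⟨s, a, rfl, ha, h⟩ := fix_cases hm σ hk
  have h1 : ((s * s : Matrix.symplecticGroup (Fin m) F) :
      Matrix (Fin m ⊕ Fin m) (Fin m ⊕ Fin m) F).map σ =
      ((s * s : Matrix.symplecticGroup (Fin m) F) :
      Matrix (Fin m ⊕ Fin m) (Fin m ⊕ Fin m) F) := by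
    rw [Submonoid.coe_mul, map_mul_σ, h, Matrix.smul_mul, Matrix.mul_smul, smul_smul, ← sq, ha,
      one_smul]
  obtain ⟨s₀, hs₀⟩ := exists_mapSp σ φ hφ (s * s) h1
  exact ⟨s₀, by rw [hs₀, map_mul]⟩

theorem nm_fixed (σ : RingAut F) (a : F) (h : σ a = a) (k : ℕ) : nm σ a k = a ^ k := by
  induction k with
  | zero => rw [nm_zero, pow_zero]
  | succ k ih => rw [nm_succ', ih, map_pow, h, pow_succ']

theorem sp_ne_zero (hm : 1 ≤ m) (s : Matrix.symplecticGroup (Fin m) F) :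
    (s : Matrix (Fin m ⊕ Fin m) (Fin m ⊕ Fin m) F) ≠ 0 := by
  intro h0
  have h1 : (s : Matrix (Fin m ⊕ Fin m) (Fin m ⊕ Fin m) F) *
      ((s⁻¹ : Matrix.symplecticGroup (Fin m) F) :
        Matrix (Fin m ⊕ Fin m) (Fin m ⊕ Fin m) F) = 1 := by
    rw [← Submonoid.coe_mul, mul_inv_cancel, Submonoid.coe_one]
  rw [h0, Matrix.zero_mul] at h1
  have h2 := congrFun (congrFun h1 (Sum.inl ⟨0, hm⟩)) (Sum.inl ⟨0, hm⟩)
  rw [Matrix.zero_apply, Matrix.one_apply, if_pos rfl] at h2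
  exact zero_ne_one h2

theorem fix_odd (hm : 1 ≤ m) (σ : RingAut F) (φ : K →+* F)
    (hφ : ∀ a, σ a = a → ∃ b, φ b = a) {j : ℕ} (hj : orderOf σ = 2 * j + 1)
    {k : Cfsg.PSp m F} (hk : cσ σ k = k) :
    ∃ s₀ : Matrix.symplecticGroup (Fin m) K, k = pr (mapSp φ s₀) := by
  obtain ⟨s, a, rfl, ha, h⟩ := fix_cases hm σ hk
  have hσa : σ a = a := by
    rcases sq_eq_one_iff.1 ha with h1 | h1
    · rw [h1, map_one]
    · rw [h1, map_neg, map_one]
  have h1 := nm_eq_one σ _ (sp_ne_zero hm s) a h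
  rw [nm_fixed σ a hσa, hj, pow_succ, pow_mul, ha, one_pow, one_mul] at h1
  rw [h1, one_smul] at h
  obtain ⟨s₀, hs₀⟩ := exists_mapSp σ φ hφ s h
  exact ⟨s₀, by rw [hs₀]⟩

theorem fix_mapSp (σ : RingAut F) (φ : K →+* F) (hφ' : ∀ b, σ (φ b) = φ b)
    (s₀ : Matrix.symplecticGroup (Fin m) K) :
    cσ σ (pr (mapSp φ s₀)) = pr (mapSp φ s₀) := by
  rw [cσ_pr]
  congr 1
  apply Subtype.ext
  ext i j
  exact hφ' _

/-- an involution over the small field -/
theorem invol (hm : 1 ≤ m) (φ : K →+* F) :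
    ∃ s₀ : Matrix.symplecticGroup (Fin m) K, pr (mapSp φ s₀) ≠ 1 ∧
      pr (mapSp φ s₀) * pr (mapSp φ s₀) = 1 := by
  refine ⟨⟨J (Fin m) K, SymplecticGroup.J_mem (Fin m) K⟩, ?_, ?_⟩
  · intro h
    rw [← map_one pr] at h
    obtain ⟨a, -, h1⟩ := exists_scalar_of_pr_eq hm h
    have h2 := congrFun (congrFun h1 (Sum.inr ⟨0, hm⟩)) (Sum.inl ⟨0, hm⟩)
    rw [mapSp_coe, Submonoid.coe_one, Matrix.smul_apply, Matrix.one_apply,
      if_neg (by simp), smul_zero] at h2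
    have h3 : ((J (Fin m) K).map φ) (Sum.inr ⟨0, hm⟩) (Sum.inl ⟨0, hm⟩) = 1 := by
      rw [J_map]
      show (1 : Matrix (Fin m) (Fin m) F) ⟨0, hm⟩ ⟨0, hm⟩ = 1
      rw [Matrix.one_apply, if_pos rfl]
    rw [h3] at h2
    exact one_ne_zero h2
  · rw [← map_mul, ← map_mul, ← map_one pr]
    apply pr_eq_of_scalar (-1)
    rw [mapSp_coe, Submonoid.coe_one]
    show (J (Fin m) K * J (Fin m) K).map φ = _
    rw [Matrix.J_squared, neg_smul, one_smul]
    ext i j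
    rw [Matrix.map_apply, Matrix.neg_apply, Matrix.neg_apply, map_neg, Matrix.one_apply,
      Matrix.one_apply]
    by_cases hij : i = j
    · rw [if_pos hij, if_pos hij, map_one]
    · rw [if_neg hij, if_neg hij, map_zero]

end Cfsg.Agent.Lib.Helper43.SpBalB
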