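import Mathlib
import Cfsg.Agent.Lib.Helper43.SpBalB

set_option autoImplicit false

namespace Cfsg.Agent.Lib.Helper43.SpBalC

open Matrix Cfsg.Agent.Lib.Helper13.SympMat Cfsg.Agent.Lib.Helper43.SpBasic
  Cfsg.Agent.Lib.Helper43.SpAuts Cfsg.Agent.Lib.Helper43.SpGSp Cfsg.Agent.Lib.Helper43.SpFrame
  Cfsg.Agent.Lib.Helper43.SpInn Cfsg.Agent.Lib.Helper43.SpPair Cfsg.Agent.Lib.Helper43.SpZ
  Cfsg.Agent.Lib.Helper43.SpRel Cfsg.Agent.Lib.Helper43.Sp4Root
  Cfsg.Agent.Lib.Helper43.SpFieldCent Cfsg.Agent.Lib.Helper43.H90GL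
  Cfsg.Agent.Lib.Helper43.SpBalB Cfsg.Agent.Lib.Helper43.SpCore1 Cfsg.Agent.Lib.Helper43.SpCore4

variable {F : Type*} [Field F] {K : Type*} [Field K] {m : ℕ}

/-! ### automorphisms fixing the subfield subgroup pointwise -/

theorem star (hm : 1 ≤ m) (p : ℕ) [Fact p.Prime] [CharP F p] (φ : K →+* F)
    (h : ↥(Cfsg.GSp m F)) (τ : RingAut F)
    (hν : ∀ s₀ : Matrix.symplecticGroup (Fin m) K,
      (cGSp h * cσ τ : MulAut (Cfsg.PSp m F)) (pr (mapSp φ s₀)) = pr (mapSp φ s₀))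
    (v₀ : Fin m ⊕ Fin m → K) (hv₀ : v₀ ≠ 0) :
    ∃ l : F, l ≠ 0 ∧ ((h : GL (Fin m ⊕ Fin m) F) :
      Matrix (Fin m ⊕ Fin m) (Fin m ⊕ Fin m) F) *ᵥ (fun k => τ (φ (v₀ k))) =
        l • (fun k => φ (v₀ k)) := by
  have h1 := hν (t v₀ 1)
  rw [mapSp_t, map_one, MulAut.mul_apply, cσ_t, map_one,
    cGSp_t h (multU h).ne_zero (multU_spec h)] at h1
  have h2 := pr_inj_of_pow hm p (t_pow_char p _ _) (t_pow_char p _ _) h1
  have hu : ((h : GL (Fin m ⊕ Fin m) F) :
      Matrix (Fin m ⊕ Fin m) (Fin m ⊕ Fin m) F) *ᵥ (fun k => τ (φ (v₀ k))) ≠ 0 := by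
    apply gl_mulVec_ne_zero
    intro h0
    apply hv₀
    funext k
    have h3 := congrFun h0 k
    exact (map_eq_zero φ).1 ((map_eq_zero τ).1 h3)
  exact smul_of_t_eq hu (div_ne_zero one_ne_zero (multU h).ne_zero) h2

theorem pointwise (hm : 1 ≤ m) (p : ℕ) [Fact p.Prime] [CharP F p] (φ : K →+* F)
    (h : ↥(Cfsg.GSp m F)) (τ : RingAut F)
    (hν : ∀ s₀ : Matrix.symplecticGroup (Fin m) K,
      (cGSp h * cσ τ : MulAut (Cfsg.PSp m F)) (pr (mapSp φ s₀)) = pr (mapSp φ s₀)) :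
    cGSp h = 1 ∧ ∀ b : K, τ (φ b) = φ b := by
  obtain ⟨H, hH⟩ : ∃ H : Matrix (Fin m ⊕ Fin m) (Fin m ⊕ Fin m) F,
      H = ((h : GL (Fin m ⊕ Fin m) F) : Matrix (Fin m ⊕ Fin m) (Fin m ⊕ Fin m) F) := ⟨_, rfl⟩
  have key : ∀ (j k : Fin m ⊕ Fin m), j ≠ k → ∀ b : K, ∃ l : F, l ≠ 0 ∧
      H *ᵥ (Pi.single j 1 + τ (φ b) • Pi.single k 1) =
        l • (Pi.single j 1 + φ b • Pi.single k 1 : Fin m ⊕ Fin m → F) := by
    intro j k hjk b
    obtain ⟨l, hl, h1⟩ := star hm p φ h τ hν (Pi.single j 1 + b • Pi.single k 1) (by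
      intro h0
      have h3 := congrFun h0 j
      simp [hjk] at h3)
    refine ⟨l, hl, ?_⟩
    have e1 : (fun i => τ (φ ((Pi.single j 1 + b • Pi.single k 1 : Fin m ⊕ Fin m → K) i))) =
        (Pi.single j 1 + τ (φ b) • Pi.single k 1 : Fin m ⊕ Fin m → F) := by
      funext i
      simp only [Pi.add_apply, Pi.smul_apply, Pi.single_apply, smul_eq_mul]
      split_ifs <;> simp
    have e2 : (fun i => φ ((Pi.single j 1 + b • Pi.single k 1 : Fin m ⊕ Fin m → K) i)) =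
        (Pi.single j 1 + φ b • Pi.single k 1 : Fin m ⊕ Fin m → F) := by
      funext i
      simp only [Pi.add_apply, Pi.smul_apply, Pi.single_apply, smul_eq_mul]
      split_ifs <;> simp
    rw [e1, e2, ← hH] at h1
    exact h1
  have hb : ∀ j : Fin m ⊕ Fin m, ∃ l : F, l ≠ 0 ∧
      H *ᵥ (Pi.single j 1) = l • (Pi.single j 1 : Fin m ⊕ Fin m → F) := by
    intro j
    obtain ⟨k, hjk⟩ : ∃ k : Fin m ⊕ Fin m, j ≠ k := ⟨Sum.swap j, by cases j <;> simp⟩
    obtain ⟨l, hl, h1⟩ := key j k hjk 0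
    rw [map_zero, map_zero, zero_smul, add_zero] at h1
    exact ⟨l, hl, h1⟩
  choose L hL0 hL using hb
  have hrel : ∀ j k : Fin m ⊕ Fin m, j ≠ k → ∀ b : K, τ (φ b) * L k = L j * φ b := by
    intro j k hjk b
    obtain ⟨l, hl, h1⟩ := key j k hjk b
    rw [Matrix.mulVec_add, Matrix.mulVec_smul, hL, hL] at h1
    have hj := congrFun h1 j
    have hk := congrFun h1 k
    simp [Pi.single_apply, hjk, Ne.symm hjk] at hj hk
    rw [← hj] at hk
    exact hk
  have hLeq : ∀ j k : Fin m ⊕ Fin m, L j = L k := by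
    intro j k
    by_cases hjk : j = k
    · rw [hjk]
    · have h3 := hrel j k hjk 1
      rw [map_one, map_one, one_mul, mul_one] at h3
      exact h3.symm
  constructor
  · have hscal : h = scalarGSp (Units.mk0 (L (Sum.inl ⟨0, hm⟩)) (hL0 _)) := by
      apply gsp_ext
      rw [scalarGSp_mat, ← hH]
      ext i j
      have h3 := congrFun (hL j) i
      rw [Matrix.mulVec_single_one, hLeq j (Sum.inl ⟨0, hm⟩)] at h3
      rw [Matrix.smul_apply, Matrix.one_apply, Units.val_mk0]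
      rw [Pi.smul_apply, Pi.single_apply] at h3
      exact h3
    rw [hscal, cGSp_scalarGSp]
  · intro b
    have h3 := hrel (Sum.inl ⟨0, hm⟩) (Sum.inr ⟨0, hm⟩) (by simp) b
    rw [hLeq (Sum.inr ⟨0, hm⟩) (Sum.inl ⟨0, hm⟩), mul_comm] at h3
    exact mul_left_cancel₀ (hL0 _) h3

/-! ### Galois theory of a finite field -/

theorem mem_zpowers_of_fix [Fintype F] (r : ℕ) [Fact r.Prime] [CharP F r] (σ τ : RingAut F)
    (h : ∀ a : F, σ a = a → τ a = a) : τ ∈ Subgroup.zpowers σ := by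
  letI : Algebra (ZMod r) F := ZMod.algebra F r
  let e : RingAut F ≃* (F ≃ₐ[ZMod r] F) :=
    { toFun := fun σ => AlgEquiv.ofRingEquiv (f := σ) (fun x =>
        RingHom.congr_fun (Subsingleton.elim ((σ : F →+* F).comp (algebraMap (ZMod r) F))
          (algebraMap (ZMod r) F)) x)
      invFun := fun τ => τ.toRingEquiv
      left_inv := fun σ => by
        ext x
        rfl
      right_inv := fun τ => by
        ext x
        rfl
      map_mul' := fun σ τ => by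
        ext x
        rfl }
  have he : ∀ (ρ : RingAut F) (a : F), e ρ a = ρ a := fun ρ a => rfl
  have h1 : e τ ∈ (IntermediateField.fixedField (Subgroup.zpowers (e σ))).fixingSubgroup := by
    rw [IntermediateField.mem_fixingSubgroup_iff]
    intro a ha
    rw [IntermediateField.mem_fixedField_iff] at ha
    have h3 := ha (e σ) (Subgroup.mem_zpowers _)
    rw [he] at h3 ⊢
    exact h a h3
  rw [IntermediateField.fixingSubgroup_fixedField] at h1
  obtain ⟨j, hj⟩ := Subgroup.mem_zpowers_iff.1 h1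
  refine Subgroup.mem_zpowers_iff.2 ⟨j, e.injective ?_⟩
  rw [map_zpow]
  exact hj

/-! ### automorphisms in `PΓSp` -/

theorem permA_of_fix [Fintype F] {f : ℕ} (hf : 1 ≤ f) (hF : Fintype.card F = 2 ^ f)
    (h2 : (2 : F) = 0) {ν : MulAut (Cfsg.PSp 2 F)}
    (hν : ν (pr (t (e 0) 1)) = pr (t (e 0) 1)) : PermA ν := by
  rcases long_cases hf hF h2 ν with h | h
  · exact permA_of_lg hf hF h2 h
  · exfalso
    obtain ⟨u', v', x₁, x₂, D, h3⟩ := h (e 0) (e_ne_zero 0)
    have h4 : pr (t (e 0) 1) ∈ Sh u' v' := by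
      rw [← h3]
      exact ⟨pr (t (e 0) 1), pr_t_mem_R _ _, hν⟩
    obtain ⟨c, hc⟩ := h4
    have h5 := pr_injective_of_two (by norm_num) h2 hc
    by_cases hc0 : c = 0
    · rw [hc0, Y_zero] at h5
      haveI : CharP F 2 := CharTwo.of_one_ne_zero_of_two_eq_zero one_ne_zero h2
      haveI : Fact (Nat.Prime 2) := ⟨Nat.prime_two⟩
      have h6 : pr (t (e (0 : Fin 2)) (1 : F)) = pr (t (e 0) 0) := by rw [h5, t_zero]
      exact one_ne_zero (pr_t_injective (by norm_num) 2 (e_ne_zero 0) h6)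
    · exact D.not_t hc0 (e 0) 1 h5.symm

/-- every automorphism is in `PΓSp`, except possibly for `PSp₄` in characteristic two where
the automorphisms permuting the long root sets are -/
theorem exists_gamma [Fintype F] {r : ℕ} [Fact r.Prime] [CharP F r] (hm : 2 ≤ m)
    (β : MulAut (Cfsg.PSp m F)) (hβ : m = 2 → r = 2 → PermA β) :
    ∃ (h : ↥(Cfsg.GSp m F)) (σ : RingAut F), β = cGSp h * cσ σ := by
  obtain ⟨n, -, hn⟩ := FiniteField.card F r
  by_cases hex : m = 2 ∧ r = 2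
  · exact core' hm r (hβ hex.1 hex.2)
  · have hperm : Perm m F := by
      by_cases h2 : (2 : F) = 0
      · have hp2 : r = 2 := by
          have h3 : r ∣ 2 := (CharP.cast_eq_zero_iff F r 2).1 (by exact_mod_cast h2)
          exact (Nat.prime_dvd_prime_iff_eq Fact.out Nat.prime_two).1 h3
        have hm3 : 3 ≤ m := by
          by_contra hlt
          exact hex ⟨by omega, hp2⟩
        exact Cfsg.Agent.Lib.Helper43.SpRootEven.perm_even n.pos hn hm3 h2
      · exact Cfsg.Agent.Lib.Helper43.SpRootOdd.perm_odd n.pos hn (by omega) h2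
    exact core hm r hperm β

end Cfsg.Agent.Lib.Helper43.SpBalC
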