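import Mathlib
import Cfsg.Agent.Lib.Helper43.SpBalA
import Cfsg.Agent.Lib.Helper43.SpBalC
import Cfsg.Agent.S0270
import Cfsg.Agent.S0247

set_option autoImplicit false

namespace Cfsg.Agent.Lib.Helper43.SpBalD

open Matrix Cfsg.Agent.Lib.Helper13.SympMat Cfsg.Agent.Lib.Helper43.SpBasic
  Cfsg.Agent.Lib.Helper43.SpAuts Cfsg.Agent.Lib.Helper43.SpGSp Cfsg.Agent.Lib.Helper43.SpFrame
  Cfsg.Agent.Lib.Helper43.SpInn Cfsg.Agent.Lib.Helper43.SpPair Cfsg.Agent.Lib.Helper43.SpZ
  Cfsg.Agent.Lib.Helper43.SpRel Cfsg.Agent.Lib.Helper43.Sp4Root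
  Cfsg.Agent.Lib.Helper43.SpFieldCent Cfsg.Agent.Lib.Helper43.H90GL
  Cfsg.Agent.Lib.Helper43.SpBalA Cfsg.Agent.Lib.Helper43.SpBalB Cfsg.Agent.Lib.Helper43.SpBalC
  Cfsg.Agent.Lib.Helper43.SpOut Cfsg.Agent.Lib.Helper43.Sp4Out Cfsg.Agent.Lib.Helper43.SpCoset

/-! ### normal subgroups meeting the image of a quasisimple group -/

theorem inter_generic {S K : Type*} [Group S] [Group K]
    (hS : IsSimpleGroup (S ⧸ Subgroup.center S))
    (ψ : S →* K) (hψ : ∀ z ∈ Subgroup.center S, ψ z = 1) (M : Subgroup K)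
    (hM : ∀ s : S, ∀ k ∈ M, ψ s * k * (ψ s)⁻¹ ∈ M) :
    M ⊓ ψ.range = ⊥ ∨ ψ.range ≤ M := by
  have hnorm : (M.comap ψ).Normal := ⟨fun n hn g => by
    rw [Subgroup.mem_comap] at hn ⊢
    rw [map_mul, map_mul, map_inv]
    exact hM g _ hn⟩
  have hnorm' : ((M.comap ψ).map (QuotientGroup.mk' (Subgroup.center S))).Normal :=
    hnorm.map _ (QuotientGroup.mk'_surjective _)
  rcases hnorm'.eq_bot_or_eq_top with h | h
  · left
    rw [eq_bot_iff]
    rintro k ⟨hk, s, rfl⟩
    have h1 : QuotientGroup.mk' (Subgroup.center S) s ∈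
        (M.comap ψ).map (QuotientGroup.mk' (Subgroup.center S)) := ⟨s, hk, rfl⟩
    rw [h, Subgroup.mem_bot] at h1
    have h2 : s ∈ Subgroup.center S := (QuotientGroup.eq_one_iff s).1 h1
    rw [Subgroup.mem_bot]
    exact hψ s h2
  · right
    rintro _ ⟨s, rfl⟩
    have h1 : QuotientGroup.mk' (Subgroup.center S) s ∈
        (M.comap ψ).map (QuotientGroup.mk' (Subgroup.center S)) := by
      rw [h]
      trivial
    obtain ⟨n, hn, hns⟩ := h1
    have h2 : n⁻¹ * s ∈ Subgroup.center S := QuotientGroup.eq.1 hns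
    have h3 : ψ s = ψ n := by
      have h4 := hψ _ h2
      rw [map_mul, map_inv, inv_mul_eq_one] at h4
      exact h4.symm
    rw [h3]
    exact hn

theorem inter_S6 {S K : Type*} [Group S] [Group K] (e : S ≃* Equiv.Perm (Fin 6))
    (ψ : S →* K) (hψ : Function.Injective ψ) (M : Subgroup K)
    (hM : ∀ s : S, ∀ k ∈ M, ψ s * k * (ψ s)⁻¹ ∈ M) :
    M ⊓ ψ.range = ⊥ ∨ 360 ∣ Nat.card M := by
  have hnorm : (M.comap ψ).Normal := ⟨fun n hn g => by
    rw [Subgroup.mem_comap] at hn ⊢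
    rw [map_mul, map_mul, map_inv]
    exact hM g _ hn⟩
  have hnorm' : ((M.comap ψ).map e.toMonoidHom).Normal := hnorm.map _ e.surjective
  by_cases hbot : (M.comap ψ).map e.toMonoidHom = ⊥
  · left
    have h1 : M.comap ψ = ⊥ := (Subgroup.map_eq_bot_iff_of_injective _ e.injective).1 hbot
    rw [eq_bot_iff]
    rintro k ⟨hk, s, rfl⟩
    have h2 : s ∈ M.comap ψ := hk
    rw [h1, Subgroup.mem_bot] at h2
    rw [Subgroup.mem_bot, h2, map_one]
  · right
    haveI := hnorm'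
    have hnt : Nontrivial ↥((M.comap ψ).map e.toMonoidHom) :=
      (Subgroup.nontrivial_iff_ne_bot _).2 hbot
    have hA := Equiv.Perm.alternatingGroup_le_of_normal (α := Fin 6) (by simp) hnt
    have h1 : Nat.card (alternatingGroup (Fin 6)) = 360 := by
      rw [nat_card_alternatingGroup]
      simp [Nat.factorial]
    have h2 : 360 ∣ Nat.card ((M.comap ψ).map e.toMonoidHom) := by
      rw [← h1]
      exact Subgroup.card_dvd_of_le hA
    rw [Subgroup.card_map_of_injective e.injective] at h2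
    have h3 : Nat.card ((M.comap ψ).map ψ) = Nat.card (M.comap ψ) :=
      Subgroup.card_map_of_injective hψ
    rw [← h3] at h2
    exact h2.trans (Subgroup.card_dvd_of_le (Subgroup.map_comap_le _ _))

/-! ### the main argument -/

variable {F : Type*} [Field F]

theorem map_e_hom {K : Type*} [Field K] {m : ℕ} (φ : K →+* F) (i : Fin m) :
    (fun k => φ ((e i : Fin m ⊕ Fin m → K) k)) = e i := by
  funext k
  rcases k with j | j
  · rw [e_apply_inl, e_apply_inl]
    by_cases h : j = i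
    · rw [if_pos h, if_pos h, map_one]
    · rw [if_neg h, if_neg h, map_zero]
  · rw [e_apply_inr, e_apply_inr, map_zero]

theorem odd_of_ne_two {p : ℕ} (hp : p.Prime) (hp2 : p ≠ 2) : ∃ j, p = 2 * j + 1 := by
  rcases hp.eq_two_or_odd with h | h
  · exact absurd h hp2
  · exact ⟨p / 2, by omega⟩

theorem two_eq_zero_of_char {r : ℕ} [CharP F r] (hr2 : r = 2) : (2 : F) = 0 := by
  have h1 := CharP.cast_eq_zero F r
  rw [hr2] at h1
  exact_mod_cast h1

/-- a normal `p'`-subgroup of a group of automorphisms centralising a field automorphism of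
order `p` is trivial when `p` divides the order of the group of fixed points -/
theorem core_trivial [Fintype F] {r : ℕ} [Fact r.Prime] [CharP F r] {m : ℕ} (hm : 2 ≤ m)
    {p : ℕ} [Fact p.Prime] (hpr : p ≠ r) (α : MulAut (Cfsg.PSp m F)) (σ : RingAut F)
    (hσ : orderOf σ = p) (D N : Subgroup (MulAut (Cfsg.PSp m F)))
    (hD1 : ∀ d ∈ D, d * (α * cσ σ * α⁻¹) = (α * cσ σ * α⁻¹) * d)
    (hD2 : ∀ k : Cfsg.PSp m F, (α * cσ σ * α⁻¹ : MulAut (Cfsg.PSp m F)) k = k →
      MulAut.conj k ∈ D)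
    (hND : N ≤ D) (hnorm : ∀ d ∈ D, ∀ ν ∈ N, d * ν * d⁻¹ ∈ N)
    (hcop : (Nat.card N).Coprime p)
    (hdvd : p ∣ Nat.card (MonoidHom.eqLocus (α * cσ σ * α⁻¹).toMonoidHom
      (MonoidHom.id (Cfsg.PSp m F)))) : N = ⊥ := by
  classical
  have hp : p.Prime := Fact.out
  have hm1 : 1 ≤ m := by omega
  obtain ⟨x, hx⟩ : ∃ x : MulAut (Cfsg.PSp m F), x = α * cσ σ * α⁻¹ := ⟨_, rfl⟩
  rw [← hx] at hD1 hD2 hdvd
  have hinj := conj_injective (F := F) hm1 r
  -- the fixed field
  obtain ⟨F₀, hF₀⟩ : ∃ F₀ : Subfield F,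
      F₀ = RingHom.eqLocusField (σ : F →+* F) (RingHom.id F) := ⟨_, rfl⟩
  have hφ1 : ∀ b : F₀, σ (F₀.subtype b) = F₀.subtype b := by
    intro b
    have hb : (b : F) ∈ RingHom.eqLocusField (σ : F →+* F) (RingHom.id F) := by
      rw [← hF₀]
      exact b.2
    exact hb
  have hφ2 : ∀ a : F, σ a = a → ∃ b : F₀, F₀.subtype b = a := by
    intro a ha
    exact ⟨⟨a, by rw [hF₀]; exact ha⟩, rfl⟩
  obtain ⟨ψ, hψ⟩ : ∃ ψ : Matrix.symplecticGroup (Fin m) F₀ →* Cfsg.PSp m F,
      ψ = α.toMonoidHom.comp (pr.comp (mapSp F₀.subtype)) := ⟨_, rfl⟩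
  have hψa : ∀ s₀, ψ s₀ = α (pr (mapSp F₀.subtype s₀)) := fun s₀ => by rw [hψ]; rfl
  have hxα : ∀ y, x (α y) = α (cσ σ y) := by
    intro y
    rw [hx, MulAut.mul_apply, MulAut.mul_apply, MulAut.inv_apply_self]
  have hfixψ : ∀ s₀, x (ψ s₀) = ψ s₀ := by
    intro s₀
    rw [hψa, hxα, fix_mapSp σ _ hφ1]
  have hfixα : ∀ k, x k = k → cσ σ (α⁻¹ k) = α⁻¹ k := by
    intro k hk
    have h1 : x (α (α⁻¹ k)) = α (α⁻¹ k) := by
      rw [MulAut.apply_inv_self]
      exact hk
    rw [hxα] at h1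
    exact α.injective h1
  have hsq : ∀ k, x k = k → k * k ∈ ψ.range := by
    intro k hk
    obtain ⟨s₀, hs₀⟩ := fix_sq hm1 σ F₀.subtype hφ2 (hfixα k hk)
    refine ⟨s₀, ?_⟩
    rw [hψa, ← hs₀, map_mul, MulAut.apply_inv_self]
  have hodd : p ≠ 2 → ∀ k, x k = k → k ∈ ψ.range := by
    intro hp2 k hk
    obtain ⟨j, hj⟩ := odd_of_ne_two hp hp2
    obtain ⟨s₀, hs₀⟩ := fix_odd hm1 σ F₀.subtype hφ2 (hσ.trans hj) (hfixα k hk)
    refine ⟨s₀, ?_⟩
    rw [hψa, ← hs₀, MulAut.apply_inv_self]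
  -- the subgroup `M`
  obtain ⟨M, hMdef⟩ : ∃ M : Subgroup (Cfsg.PSp m F), M = Mof N := ⟨_, rfl⟩
  have hMfix : ∀ k ∈ M, x k = k := by
    intro k hk
    rw [hMdef] at hk
    exact Mof_le_fix hinj x (fun ν hν => hD1 ν (hND hν)) hk
  have hMconj : ∀ s₀, ∀ k ∈ M, ψ s₀ * k * (ψ s₀)⁻¹ ∈ M := by
    intro s₀ k hk
    rw [hMdef] at hk ⊢
    exact Mof_conj hnorm (hD2 _ (hfixψ s₀)) hk
  have hMcard : (Nat.card M).Coprime p := by
    rw [hMdef]
    exact Nat.Coprime.coprime_dvd_left (card_Mof_dvd hinj N) hcop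
  have hMnd : ¬ p ∣ Nat.card M := by
    intro h
    have h1 := Nat.dvd_gcd h (dvd_refl p)
    rw [hMcard, Nat.dvd_one] at h1
    exact hp.one_lt.ne' h1
  -- `p` divides the order of the subfield subgroup
  have hL : p ∣ Nat.card ψ.range := by
    by_cases hp2 : p = 2
    · obtain ⟨s₀, hne, hsq1⟩ := invol hm1 F₀.subtype
      have h1 : ψ s₀ ≠ 1 := by
        rw [hψa]
        intro h
        apply hne
        apply α.injective
        rw [h, map_one]
      have h2 : ψ s₀ ^ 2 = 1 := by rw [hψa, pow_two, ← map_mul, hsq1, map_one]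
      have h3 : orderOf (ψ s₀) = 2 := orderOf_eq_prime h2 h1
      have h4 : orderOf (⟨ψ s₀, s₀, rfl⟩ : ψ.range) = 2 := by
        rw [← Subgroup.orderOf_coe]
        exact h3
      rw [hp2, ← h4]
      exact orderOf_dvd_natCard _
    · have h1 : MonoidHom.eqLocus x.toMonoidHom (MonoidHom.id (Cfsg.PSp m F)) = ψ.range := by
        ext k
        constructor
        · intro hk
          exact hodd hp2 k hk
        · rintro ⟨s₀, rfl⟩
          exact hfixψ s₀
      rw [← h1]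
      exact hdvd
  -- `M` meets the subfield subgroup trivially
  have hML : M ⊓ ψ.range = ⊥ := by
    letI : Fintype F₀ := Fintype.ofFinite F₀
    by_cases h22 : m = 2 ∧ Fintype.card F₀ = 2
    · obtain ⟨rfl, hc2⟩ := h22
      obtain ⟨e⟩ := Cfsg.Agent.S0247.result hc2
      have h2F₀ : (2 : F₀) = 0 := by
        have h1 := Nat.cast_card_eq_zero F₀
        rw [hc2] at h1
        exact_mod_cast h1
      have h2F : (2 : F) = 0 := by
        have h1 : (F₀.subtype (2 : F₀) : F) = F₀.subtype 0 := congrArg _ h2F₀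
        rw [map_ofNat, map_zero] at h1
        exact h1
      have hr2 : r = 2 := by
        have h3 : r ∣ 2 := (CharP.cast_eq_zero_iff F r 2).1 (by exact_mod_cast h2F)
        exact (Nat.prime_dvd_prime_iff_eq Fact.out Nat.prime_two).1 h3
      have hψinj : Function.Injective ψ := by
        rw [hψ]
        exact α.injective.comp ((pr_injective_of_two (by norm_num) h2F).comp (mapSp_injective _))
      rcases inter_S6 e ψ hψinj M hMconj with h | h
      · exact h
      · exfalso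
        have hp2 : p ≠ 2 := by
          rw [← hr2]
          exact hpr
        have hcardL : Nat.card ψ.range = 720 := by
          rw [Nat.card_congr (MonoidHom.ofInjective hψinj).toEquiv.symm, Nat.card_congr e.toEquiv,
            Nat.card_eq_fintype_card, Fintype.card_perm, Fintype.card_fin]
          rfl
        rw [hcardL] at hL
        have h360 : p ∣ 360 := by
          have h3 : p ∣ 2 * 360 := hL
          rcases (Nat.Prime.dvd_mul hp).1 h3 with h' | h'
          · exact absurd ((Nat.prime_dvd_prime_iff_eq hp Nat.prime_two).1 h') hp2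
          · exact h'
        exact hMnd (h360.trans h)
    · have hsimple : IsSimpleGroup (Cfsg.PSp m F₀) := by
        apply Cfsg.Agent.S0270.result m hm
        intro hm2
        have h1 : Fintype.card F₀ ≠ 2 := fun h => h22 ⟨hm2, h⟩
        have h2 : 1 < Fintype.card F₀ := Fintype.one_lt_card
        omega
      have hcenter : ∀ z ∈ Subgroup.center (Matrix.symplecticGroup (Fin m) F₀), ψ z = 1 := by
        intro z hz
        rw [hψa, pr_mapSp_center hm1 _ hz, map_one]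
      rcases inter_generic hsimple ψ hcenter M hMconj with h | h
      · exact h
      · exfalso
        exact hMnd (hL.trans (Subgroup.card_dvd_of_le h))
  -- `M` is trivial
  have hMbot : M = ⊥ := by
    rw [eq_bot_iff]
    intro k hk
    rw [Subgroup.mem_bot]
    have hkx := hMfix k hk
    by_cases hp2 : p = 2
    · have h1 : k * k ∈ M ⊓ ψ.range := ⟨M.mul_mem hk hk, hsq k hkx⟩
      rw [hML, Subgroup.mem_bot] at h1
      have h2 : orderOf k ∣ 2 := orderOf_dvd_of_pow_eq_one (by rw [pow_two]; exact h1)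
      have h3 : orderOf k ∣ Nat.card M := by
        have h4 := orderOf_dvd_natCard (⟨k, hk⟩ : M)
        rwa [← Subgroup.orderOf_coe] at h4
      have h4 : orderOf k ∣ Nat.gcd (Nat.card M) 2 := Nat.dvd_gcd h3 h2
      rw [hp2] at hMcard
      rw [hMcard, Nat.dvd_one] at h4
      exact orderOf_eq_one_iff.1 h4
    · have h1 : k ∈ M ⊓ ψ.range := ⟨hk, hodd hp2 k hkx⟩
      rw [hML, Subgroup.mem_bot] at h1
      exact h1
  -- the elements of `N` fix the fixed points of `x`
  have hNfix : ∀ ν ∈ N, ∀ c, x c = c → ν c = c := by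
    intro ν hν c hc
    exact fix_of_Mof_bot hnorm (by rw [← hMdef]; exact hMbot) hν (hD2 c hc)
  rw [eq_bot_iff]
  intro ν hν
  rw [Subgroup.mem_bot]
  obtain ⟨ν', hν'⟩ : ∃ ν' : MulAut (Cfsg.PSp m F), ν' = α⁻¹ * ν * α := ⟨_, rfl⟩
  have hν'fix : ∀ s₀ : Matrix.symplecticGroup (Fin m) F₀,
      ν' (pr (mapSp F₀.subtype s₀)) = pr (mapSp F₀.subtype s₀) := by
    intro s₀
    have h1 := hNfix ν hν (ψ s₀) (hfixψ s₀)
    rw [hψa] at h1
    rw [hν', MulAut.mul_apply, MulAut.mul_apply, h1, MulAut.inv_apply_self]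
  obtain ⟨h, τ, hhτ⟩ := exists_gamma (r := r) hm ν' (by
    intro hm2 hr2
    subst hm2
    have h2F : (2 : F) = 0 := two_eq_zero_of_char hr2
    obtain ⟨n, -, hn⟩ := FiniteField.card F r
    rw [hr2] at hn
    apply permA_of_fix n.pos hn h2F
    have h1 := hν'fix (t (e 0) 1)
    rw [mapSp_t, map_e_hom, map_one] at h1
    exact h1)
  rw [hhτ] at hν'fix
  obtain ⟨hc1, hτfix⟩ := pointwise hm1 r F₀.subtype h τ hν'fix
  have hτmem : τ ∈ Subgroup.zpowers σ := mem_zpowers_of_fix r σ τ (fun a ha => by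
    obtain ⟨b, rfl⟩ := hφ2 a ha
    exact hτfix b)
  obtain ⟨j, hj⟩ := Subgroup.mem_zpowers_iff.1 hτmem
  have hν'p : ν' ^ p = 1 := by
    rw [hhτ, hc1, one_mul, ← hj, map_zpow, ← zpow_natCast, ← _root_.zpow_mul, mul_comm,
      _root_.zpow_mul, zpow_natCast, ← map_pow, ← hσ, pow_orderOf_eq_one, map_one, _root_.one_zpow]
  have hνp : ν ^ p = 1 := by
    have h1 : ν = α * ν' * α⁻¹ := by
      rw [hν']
      group
    rw [h1, conj_pow, hν'p]
    group
  have h1 : orderOf ν ∣ p := orderOf_dvd_of_pow_eq_one hνp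
  have h2 : orderOf ν ∣ Nat.card N := by
    have h3 := orderOf_dvd_natCard (⟨ν, hν⟩ : N)
    rwa [← Subgroup.orderOf_coe] at h3
  have h3 : orderOf ν ∣ Nat.gcd (Nat.card N) p := Nat.dvd_gcd h2 h1
  rw [hcop, Nat.dvd_one] at h3
  exact orderOf_eq_one_iff.1 h3


end Cfsg.Agent.Lib.Helper43.SpBalD
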