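import Mathlib
import Cfsg.Agent.Lib.Helper43.SpBalD

set_option autoImplicit false

namespace Cfsg.Agent.Lib.Helper43.SpBalE

open Matrix Cfsg.Agent.Lib.Helper13.SympMat Cfsg.Agent.Lib.Helper43.SpBasic
  Cfsg.Agent.Lib.Helper43.SpAuts Cfsg.Agent.Lib.Helper43.SpGSp Cfsg.Agent.Lib.Helper43.SpFrame
  Cfsg.Agent.Lib.Helper43.SpInn Cfsg.Agent.Lib.Helper43.SpPair Cfsg.Agent.Lib.Helper43.SpZ
  Cfsg.Agent.Lib.Helper43.SpRel Cfsg.Agent.Lib.Helper43.Sp4Root
  Cfsg.Agent.Lib.Helper43.SpFieldCent Cfsg.Agent.Lib.Helper43.H90GL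
  Cfsg.Agent.Lib.Helper43.SpBalA Cfsg.Agent.Lib.Helper43.SpBalB Cfsg.Agent.Lib.Helper43.SpBalC
  Cfsg.Agent.Lib.Helper43.SpBalD
  Cfsg.Agent.Lib.Helper43.SpOut Cfsg.Agent.Lib.Helper43.Sp4Out Cfsg.Agent.Lib.Helper43.SpCoset

variable {F : Type*} [Field F]

/-- the criterion for the failure of local balance for `PSp_{2m}(q)` -/
theorem main [Fintype F] {r : ℕ} [Fact r.Prime] [CharP F r] {m : ℕ} (hm : 2 ≤ m)
    (A : Subgroup (MulAut (Cfsg.PSp m F))) (hinn : ∀ k : Cfsg.PSp m F, MulAut.conj k ∈ A)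
    {p : ℕ} [Fact p.Prime] (hpr : p ≠ r) (x : MulAut (Cfsg.PSp m F)) (hxA : x ∈ A)
    (hord : orderOf x = p) (hnot : ¬ Cfsg.IsInnerDiagonalAutPSp x) :
    Cfsg.pPrimeCore p ↥(A ⊓ Subgroup.centralizer {x}) ≠ ⊥ ↔
      (Cfsg.IsFieldAutClassPSp x ∧ Nat.Coprime p (Nat.card
        ↥(MonoidHom.eqLocus x.toMonoidHom (MonoidHom.id (Cfsg.PSp m F))))) := by
  have hp : p.Prime := Fact.out
  have hm1 : 1 ≤ m := by omega
  have hinj := conj_injective (F := F) hm1 r
  have hxp : x ^ p = 1 := by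
    rw [← hord]
    exact pow_orderOf_eq_one x
  obtain ⟨g, σ, hgσ⟩ := exists_gamma (r := r) hm x (by
    intro hm2 hr2
    subst hm2
    have hp2 : p ≠ 2 := by
      rw [← hr2]
      exact hpr
    obtain ⟨j, hj⟩ := odd_of_ne_two hp hp2
    have h2F : (2 : F) = 0 := two_eq_zero_of_char hr2
    obtain ⟨n, -, hn⟩ := FiniteField.card F r
    rw [hr2] at hn
    exact permA_of_odd n.pos hn h2F (k := j) (by rw [← hj]; exact hxp))
  have hσ1 : σ ≠ 1 := by
    rintro rfl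
    apply hnot
    rw [isInnerDiag_iff]
    exact ⟨g, by rw [hgσ, map_one, mul_one]⟩
  have hσp : orderOf σ = p := by
    have h1 : (cGSp g * cσ σ) ^ p = 1 := by
      rw [← hgσ]
      exact hxp
    rw [pow_eq] at h1
    have h2 := σ_eq_one_of_cGSp hm1 r _ _ h1
    have h3 : orderOf σ ∣ p := orderOf_dvd_of_pow_eq_one h2
    rcases (Nat.dvd_prime hp).1 h3 with h4 | h4
    · exact absurd (orderOf_eq_one_iff.1 h4) hσ1
    · exact h4
  obtain ⟨h, hh⟩ := field_conj hm1 r σ g (by rw [hσp, ← hgσ]; exact hxp)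
  obtain ⟨α, hα⟩ : ∃ α : MulAut (Cfsg.PSp m F), α = cGSp h := ⟨_, rfl⟩
  have hx : x = α * cσ σ * α⁻¹ := by rw [hgσ, hh, hα]
  have hfield : Cfsg.IsFieldAutClassPSp x := by
    refine ⟨α⁻¹, σ, hσ1, ?_⟩
    rw [isStdField_iff, hx]
    group
  rw [core_ne_bot_iff]
  constructor
  · rintro ⟨N, hND, hnorm, hcop, hne⟩
    refine ⟨hfield, ?_⟩
    by_contra hnc
    have hdvd : p ∣ Nat.card ↥(MonoidHom.eqLocus x.toMonoidHom
        (MonoidHom.id (Cfsg.PSp m F))) := by
      by_contra hnd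
      exact hnc ((Nat.Prime.coprime_iff_not_dvd hp).2 hnd)
    apply hne
    subst hx
    exact core_trivial hm hpr α σ hσp (A ⊓ Subgroup.centralizer {α * cσ σ * α⁻¹}) N
      (fun d hd => (Subgroup.mem_centralizer_iff.1 hd.2 _ (Set.mem_singleton _)).symm)
      (fun k hk => Subgroup.mem_inf.2 ⟨hinn k, by
        rw [Subgroup.mem_centralizer_iff]
        intro y hy
        rw [Set.mem_singleton_iff] at hy
        rw [hy]
        have h1 := conj_apply_eq (α * cσ σ * α⁻¹) k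
        rw [hk] at h1
        have h2 : MulAut.conj k * (α * cσ σ * α⁻¹) = (α * cσ σ * α⁻¹) * MulAut.conj k := by
          conv_lhs => rw [← h1]
          rw [inv_mul_cancel_right]
        exact h2.symm⟩) hND hnorm hcop hdvd
  · rintro ⟨-, hcop⟩
    refine ⟨(MonoidHom.eqLocus x.toMonoidHom (MonoidHom.id (Cfsg.PSp m F))).map MulAut.conj,
      ?_, ?_, ?_, ?_⟩
    · rintro _ ⟨k, hk, rfl⟩
      have hk' : x k = k := hk
      refine Subgroup.mem_inf.2 ⟨hinn k, ?_⟩
      rw [Subgroup.mem_centralizer_iff]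
      intro y hy
      rw [Set.mem_singleton_iff] at hy
      rw [hy]
      have h1 := conj_apply_eq x k
      rw [hk'] at h1
      have h2 : MulAut.conj k * x = x * MulAut.conj k := by
        conv_lhs => rw [← h1]
        rw [inv_mul_cancel_right]
      exact h2.symm
    · rintro d hd _ ⟨k, hk, rfl⟩
      have hk' : x k = k := hk
      refine ⟨d k, ?_, (conj_apply_eq d k).symm⟩
      show x (d k) = d k
      have h1 := Subgroup.mem_centralizer_iff.1 hd.2 x (Set.mem_singleton _)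
      have h2 : (x * d) k = (d * x) k := by rw [h1]
      rw [MulAut.mul_apply, MulAut.mul_apply, hk'] at h2
      exact h2
    · rw [Subgroup.card_map_of_injective hinj]
      exact hcop.symm
    · intro h0
      have hk₀ : x (α (pr (t (e ⟨0, hm1⟩) 1))) = α (pr (t (e ⟨0, hm1⟩) 1)) := by
        rw [hx, MulAut.mul_apply, MulAut.mul_apply, MulAut.inv_apply_self, cσ_t, map_e, map_one]
      have h1 : MulAut.conj (α (pr (t (e ⟨0, hm1⟩) (1 : F)))) ∈
          (MonoidHom.eqLocus x.toMonoidHom (MonoidHom.id (Cfsg.PSp m F))).map MulAut.conj :=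
        ⟨_, hk₀, rfl⟩
      rw [h0, Subgroup.mem_bot] at h1
      have h2 : α (pr (t (e ⟨0, hm1⟩) (1 : F))) = 1 := hinj (h1.trans (map_one _).symm)
      have h3 : pr (t (e ⟨0, hm1⟩) (1 : F)) = pr (t (e ⟨0, hm1⟩) 0) := by
        rw [t_zero, map_one]
        apply α.injective
        rw [h2, map_one]
      exact one_ne_zero (pr_t_injective hm1 r (e_ne_zero _) h3)

end Cfsg.Agent.Lib.Helper43.SpBalE
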